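import Cfsg.Agent.Pu.U1
import Cfsg.Agent.Sz.Hyp

/-! S5175: members and lines. -/

set_option autoImplicit false

namespace Cfsg.Agent.Pu

open Subgroup Cfsg Cfsg.Agent.H1 Cfsg.Agent.L Cfsg.Agent.FT Cfsg.Agent.Sg Cfsg.Agent.St
open scoped Pointwise commutatorElement

variable {G G' : Type*} [Group G] [Group G'] {V A B D E F H L : Subgroup G} {q : ℕ}
  {ℓ : Set (Subgroup G)} {a b c g u v w y : G}

theorem comm_eq_one_iff : ⁅v, a⁆ = 1 ↔ v ∈ 𝐂[a] := by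
  rw [commutatorElement_eq_one_iff_mul_comm, mem_cent1]

theorem comm_mul_cent (v : G) (h : u ∈ 𝐂[a]) : ⁅v * u, a⁆ = ⁅v, a⁆ := by
  rw [commutatorElement_mul_left_eq_conj_mul, comm_eq_one_iff.2 h]; simp

theorem comm_mul_quad (v : G) (h : ⁅v, b⁆ ∈ 𝐂[a]) : ⁅v, a * b⁆ = ⁅v, a⁆ * ⁅v, b⁆ := by
  rw [commutatorElement_mul_right_eq_mul_conj, mul_assoc, mul_assoc, ← mul_assoc a,
    ← mem_cent1.1 h]; simp

theorem conj_eq_of_normal [hV : V.Normal] (g : G) : g ⋆ V = V :=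
  conj_of_mem_norm (by rw [normalizer_eq_top]; trivial)

theorem refl_conj (ha : a * a = 1) (hb : b * b = 1) (n : ℕ) :
    ∃ c ∈ zpowers (a * b), (a * b) ^ n * a = c * a * c⁻¹ ∨ (a * b) ^ n * a = c * b * c⁻¹ := by
  have ia := inv_eq_of_mul_eq_one_right ha
  have ib := inv_eq_of_mul_eq_one_right hb
  induction n using Nat.twoStepInduction with
  | zero => exact ⟨1, one_mem _, Or.inl (by simp)⟩
  | one => exact ⟨a * b, mem_zpowers _, Or.inr (by rw [mul_assoc a b b, hb]; simp [ia, ib, mul_assoc])⟩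
  | more n ih =>
    obtain ⟨c, hc, h⟩ := ih
    have : (a * b) ^ (n + 2) * a = a * b * ((a * b) ^ n * a) * (a * b)⁻¹ := by
      rw [pow_succ', pow_succ, mul_inv_rev, ia, ib]; simp only [mul_assoc]
    exact ⟨_, mul_mem (mem_zpowers _) hc, h.imp (fun e => by rw [this, e]; group)
      fun e => by rw [this, e]; group⟩

theorem exists_fix_mod' [Finite G] {X Y P : Subgroup G} (hX : IsPGroup 2 X) (hP : IsPGroup 2 P)
    (hn : P ≤ 𝐍(X)) (h : ¬ X ≤ Y) : ∃ y ∈ X, y ∉ Y ∧ ∀ p ∈ P, ⁅y, p⁆ ∈ Y := by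
  induction X using WellFoundedLT.induction with | _ X ih
  have h1 := commutator_lt_of_isPGroup hX hP hn fun e => h (e ▸ bot_le)
  by_cases h2 : ⁅X, P⁆ ≤ Y
  · obtain ⟨y, hy, h3⟩ := SetLike.not_le_iff_exists.1 h
    exact ⟨y, hy, h3, fun p hp => h2 (commutator_mem_commutator hy hp)⟩
  · obtain ⟨y, hy, h3⟩ := ih _ h1 (IsPGroup.le' hX h1.le) (right_le_norm_comm _ _) h2
    exact ⟨y, h1.le hy, h3⟩

theorem comm_mem_of_norm (hv : v ∈ A) (hc : c ∈ 𝐍(A)) : ⁅v, c⁆ ∈ A :=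
  comm_le_left (zpowers_le.2 hc) (commutator_mem_commutator hv (mem_zpowers c))

section
variable [hV : V.Normal] (h : V ≤ 𝐂(V))

/-- `v ↦ ⁅v, a⁆` -/
def cmh (a : G) : V →* G := MonoidHom.mk' (fun v => ⁅(v : G), a⁆) fun v w =>
  (comm_mul_ab h v.2 w.2 a).trans (h (comm_mem_nl v.2 a) _ (comm_mem_nl w.2 a))

/-- `[V, a]` -/
def cmr (a : G) : Subgroup G := (cmh h a).range

theorem mem_cmr : w ∈ cmr h a ↔ ∃ v ∈ V, ⁅v, a⁆ = w :=
  ⟨fun ⟨v, e⟩ => ⟨v, v.2, e⟩, fun ⟨v, hv, e⟩ => ⟨⟨v, hv⟩, e⟩⟩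

theorem comm_mem_cmr (hv : v ∈ V) (a : G) : ⁅v, a⁆ ∈ cmr h a := (mem_cmr h).2 ⟨v, hv, rfl⟩

theorem cmr_le (a : G) : cmr h a ≤ V := fun _ hw =>
  have ⟨_, hv, e⟩ := (mem_cmr h).1 hw
  e ▸ comm_mem_nl hv a

theorem cmr_le_comm (ha : a ∈ A) : cmr h a ≤ ⁅V, A⁆ := fun _ hw =>
  have ⟨_, hv, e⟩ := (mem_cmr h).1 hw
  e ▸ commutator_mem_commutator hv ha

theorem card_cmr (a : G) : #|V ⊓ 𝐂[a]| * #|cmr h a| = #|V| := by
  have : (cmh h a).ker = (𝐂[a]).subgroupOf V := by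
    ext v; exact comm_eq_one_iff
  rw [cmr, ← index_ker, ← card_mul_index (cmh h a).ker, this, card_subgroupOf, inf_comm]

include h in
theorem comm_swap' (hv : v ∈ V) (e : a * b = b * a) : ⁅⁅v, a⁆, b⁆ = ⁅⁅v, b⁆, a⁆ :=
  comm_swap h hv (by
    rw [commutatorElement_eq_one_iff_commute.2 (Commute.inv_inv (show Commute b a from e.symm))]
    exact one_mem _)

include h in
theorem comm_mul_ab' (hv : v ∈ V) (hw : w ∈ V) (a : G) : ⁅v * w, a⁆ = ⁅v, a⁆ * ⁅w, a⁆ :=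
  (cmh h a).map_mul ⟨v, hv⟩ ⟨w, hw⟩

omit hV in
include h in
theorem card_sup_V (h1 : A ≤ V) (h2 : B ≤ V) : #|A ⊔ B| * #|A ⊓ B| = #|A| * #|B| :=
  card_sup_mul_card_inf (le_norm_of_le_cent (h1.trans (h.trans (cent_anti h2))))

omit hV in
include h in
theorem mem_sup_V (h1 : A ≤ V) (h2 : B ≤ V) : v ∈ A ⊔ B ↔ ∃ a ∈ A, ∃ b ∈ B, a * b = v :=
  (NormalIn.of_le_cent h1 (h1.trans h)).mem_sup h2

end

namespace Mem

theorem map (h : Mem V q A) {f : G →* G'} (hf : Function.Injective f) :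
    Mem (V.map f) q (A.map f) where
  sq := by
    rintro _ ⟨a, ha, rfl⟩
    rw [← map_mul, h.sq a ha, map_one]
  quad := map_commutator V A f ▸ map_le_cent f h.quad
  card := (card_map_inj hf A).trans h.card
  one_lt := h.one_lt
  idx := by rw [← map_inf_cent_inj hf, card_map_inj hf, card_map_inj hf, h.idx]
  cent := by
    rintro _ ⟨a, ha, rfl⟩ h1 _ ⟨⟨v, hv, rfl⟩, h2⟩
    exact (mem_cent_map hf).2 (h.cent a ha (fun e => h1 (e ▸ map_one f))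
      ⟨hv, mem_cent1.2 (hf (by simpa using mem_cent1.1 h2))⟩)

theorem conj [V.Normal] (h : Mem V q A) (g : G) : Mem V q (g ⋆ A) :=
  conj_eq_of_normal (V := V) g ▸ h.map (conj_inj g)

theorem cent_eq (h : Mem V q A) (ha : a ∈ A) (h1 : a ≠ 1) : V ⊓ 𝐂[a] = V ⊓ 𝐂(A) :=
  le_antisymm (le_inf inf_le_left (h.cent a ha h1)) (inf_le_inf_left _ (cent_le_cent1 ha))

theorem ne_bot (h : Mem V q A) : A ≠ ⊥ := fun e => by
  have := h.card; rw [e, card_bot] at this; exact h.one_lt.ne this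

theorem comm_mem [V.Normal] (h : Mem V q A) (hv : v ∈ V) (ha : a ∈ A) : ⁅v, a⁆ ∈ V ⊓ 𝐂(A) :=
  ⟨comm_mem_nl hv a, h.quad (commutator_mem_commutator hv ha)⟩

theorem comm_mul (h : Mem V q A) (hv : v ∈ V) (ha : a ∈ A) (hb : b ∈ A) :
    ⁅v, a * b⁆ = ⁅v, a⁆ * ⁅v, b⁆ :=
  comm_mul_quad v (cent_le_cent1 ha (h.quad (commutator_mem_commutator hv hb)))

variable [Finite G]

theorem not_le (h : Mem V q A) : ¬ V ≤ 𝐂(A) := fun e => by
  have := h.idx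
  rw [inf_eq_left.2 e] at this
  nlinarith [h.one_lt, Nat.card_pos (α := V)]

theorem not_cent (h : Mem V q A) (ha : a ∈ A) (h1 : a ≠ 1) : a ∉ 𝐂(V) := fun e =>
  h.not_le ((le_inf le_rfl (le_cent1_iff.2 e)).trans (h.cent a ha h1))

theorem card_cmr [V.Normal] (h : Mem V q A) (hc : V ≤ 𝐂(V)) (ha : a ∈ A) (h1 : a ≠ 1) :
    #|cmr hc a| = q := by
  have := Pu.card_cmr hc a
  rw [h.cent_eq ha h1, h.idx, mul_comm] at this
  exact Nat.eq_of_mul_eq_mul_right Nat.card_pos this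

end Mem

/-- two quadratic subgroups with `[V, A, B] = [V, B, A] = 1` commute in a faithful group -/
theorem Md.cent_of (h : Md V H) (hA : A ≤ H) (hB : B ≤ H) (h1 : ⁅V, A⁆ ≤ 𝐂(B))
    (h2 : ⁅V, B⁆ ≤ 𝐂(A)) : A ≤ 𝐂(B) :=
  comm_eq_bot_iff.1 (eq_bot_iff.2 ((le_inf (comm_le_of_le hA hB)
    (three_cent (commutator_comm V A ▸ h1) h2)).trans h.faith.le))

theorem Md.cent_of_mem (h : Md V H) {q' : ℕ} (hA : Mem V q A) (hB : Mem V q' B) (h1 : A ≤ H)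
    (h2 : B ≤ H) (ha : a ∈ A) (hb : a ∈ B) (h3 : a ≠ 1) : A ≤ 𝐂(B) :=
  have := h.nrm
  have e := (hA.cent_eq ha h3).symm.trans (hB.cent_eq hb h3)
  h.cent_of h1 h2 ((le_inf (commutator_le_left _ _) hA.quad).trans (e.le.trans inf_le_right))
    ((le_inf (commutator_le_left _ _) hB.quad).trans (e.ge.trans inf_le_right))

namespace Line

variable (h : Line V q ℓ L)
include h

theorem finite : ℓ.Finite := Set.finite_of_ncard_ne_zero (by rw [h.card]; omega)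

theorem nonempty : ℓ.Nonempty := Set.nonempty_of_ncard_ne_zero (by rw [h.card]; omega)

theorem one_lt : 1 < q := have ⟨D, hD⟩ := h.nonempty; (h.mem D hD).one_lt

theorem exists_third (D E : Subgroup G) : ∃ F ∈ ℓ, F ≠ D ∧ F ≠ E := by
  by_contra! e
  have := Set.ncard_le_ncard (show ℓ ⊆ {D, E} from fun F hF => by
    by_cases h1 : F = D
    exacts [Or.inl h1, Or.inr (e F hF h1)])
  have := Set.ncard_insert_le D {E}
  rw [Set.ncard_singleton] at this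
  have := h.card
  have := h.one_lt
  omega

theorem exists_ne (D : Subgroup G) : ∃ F ∈ ℓ, F ≠ D :=
  have ⟨F, h1, h2, _⟩ := h.exists_third D D; ⟨F, h1, h2⟩

theorem le (hD : D ∈ ℓ) : D ≤ L :=
  have ⟨F, h1, h2⟩ := h.exists_ne D; le_sup_right.trans (h.gen F h1 D hD h2).le

theorem cent_eq (hD : D ∈ ℓ) (hE : E ∈ ℓ) (ne : D ≠ E) : 𝐂(L) = 𝐂(D) ⊓ 𝐂(E) := by
  rw [← h.gen D hD E hE ne, cent_sup]

theorem inf_eq (hD : D ∈ ℓ) (hE : E ∈ ℓ) (ne : D ≠ E) :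
    (V ⊓ 𝐂(D)) ⊓ (V ⊓ 𝐂(E)) = V ⊓ 𝐂(L) := by
  rw [h.cent_eq hD hE ne, ← inf_inf_distrib_left]

theorem sup_eq (hD : D ∈ ℓ) (hE : E ∈ ℓ) (ne : D ≠ E) : V ⊓ 𝐂(D) ⊔ V ⊓ 𝐂(E) = V :=
  le_antisymm (sup_le inf_le_left inf_le_left) (h.span D hD E hE ne)

theorem cent_le (hD : D ∈ ℓ) : 𝐂(L) ≤ 𝐂(D) := cent_anti (h.le hD)

theorem map {f : G →* G'} (hf : Function.Injective f) :
    Line (V.map f) q (Subgroup.map f '' ℓ) (L.map f) where
  card := by rw [Set.ncard_image_of_injective _ (map_injective hf), h.card]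
  mem := by rintro _ ⟨D, hD, rfl⟩; exact (h.mem D hD).map hf
  gen := by
    rintro _ ⟨D, hD, rfl⟩ _ ⟨E, hE, rfl⟩ ne
    rw [← Subgroup.map_sup, h.gen D hD E hE fun e => ne (e ▸ rfl)]
  span := by
    rintro _ ⟨D, hD, rfl⟩ _ ⟨E, hE, rfl⟩ ne
    rw [← map_inf_cent_inj hf, ← map_inf_cent_inj hf, ← Subgroup.map_sup]
    exact map_mono (h.span D hD E hE fun e => ne (e ▸ rfl))
  inv := by
    rintro _ ⟨g, hg, rfl⟩ _ ⟨D, hD, rfl⟩
    refine ⟨_, h.inv g hg D hD, ?_⟩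
    rw [conj_eq_map, conj_eq_map, map_map, map_map]
    congr 1; ext x; simp
  pure := by
    rintro _ ⟨D, hD, rfl⟩ _ ⟨a, ha, rfl⟩ h1 _ ⟨v, hv, rfl⟩ h2
    rw [← map_commutatorElement, mem_cent_map hf] at h2
    exact (mem_cent_map hf).2 (h.pure D hD a ha (fun e => h1 (e ▸ map_one f)) v hv h2)
  faith := by
    rintro _ ⟨g, hg, rfl⟩ h1
    rw [h.faith g hg fun v hv => (mem_cent_map hf).1 (by
      rw [map_commutatorElement]; exact h1 _ ⟨v, hv, rfl⟩), map_one]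

theorem conj [V.Normal] (g : G) : Line V q ((g ⋆ ·) '' ℓ) (g ⋆ L) :=
  conj_eq_of_normal (V := V) g ▸ h.map (conj_inj g)

variable [Finite G]

theorem mem_norm (hc : ∀ D ∈ ℓ, c ⋆ D ∈ ℓ) : c ∈ 𝐍(L) := by
  obtain ⟨D, hD⟩ := h.nonempty
  obtain ⟨E, hE, ne⟩ := h.exists_ne D
  refine mem_norm_of_conj_le ?_
  conv_lhs => rw [← h.gen E hE D hD ne, conj_sup]
  exact sup_le (h.le (hc E hE)) (h.le (hc D hD))

variable [V.Normal]

theorem conj_ne (hD : D ∈ ℓ) (hE : E ∈ ℓ) (ne : D ≠ E) (ha : a ∈ D) (h1 : a ≠ 1) : a ⋆ E ≠ E :=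
  fun e => (h.mem D hD).not_le ((h.span D hD E hE ne).trans (sup_le inf_le_right fun v hv =>
    h.pure D hD a ha h1 v hv.1 (by
      rw [h.cent_eq hD hE ne]
      refine ⟨((h.mem D hD).comm_mem hv.1 ha).2, ?_⟩
      rw [commutatorElement_def, mul_assoc, mul_assoc, ← mul_assoc a]
      refine mul_mem hv.2 ?_
      rw [← e, ← conj_cent]
      exact conj_mem_conj a (inv_mem hv.2))))

theorem eq_of_norm (hD : D ∈ ℓ) (hE : E ∈ ℓ) (ha : a ∈ D) (h1 : a ≠ 1) (hn : a ∈ 𝐍(E)) : D = E := by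
  by_contra ne
  exact h.conj_ne hD hE ne ha h1 (conj_of_mem_norm hn)

theorem ti (hD : D ∈ ℓ) (hE : E ∈ ℓ) (ne : D ≠ E) : D ⊓ E = ⊥ :=
  eq_bot_iff.2 fun a ha => by
    by_contra h1
    exact ne (h.eq_of_norm hD hE ha.1 h1 (le_normalizer ha.2))

/-- `D` is regular on the other points -/
theorem regular (hD : D ∈ ℓ) (hE : E ∈ ℓ) (hF : F ∈ ℓ) (h1 : D ≠ E) (h2 : D ≠ F) :
    ∃ a ∈ D, a ⋆ E = F := by
  let f : D → (ℓ \ {D} : Set _) := fun a => ⟨(a : G) ⋆ E, h.inv _ (h.le hD a.2) E hE, fun e =>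
    h1 ((conj_of_mem (D.inv_mem a.2)).symm.trans (conj_eq_iff.1 e).symm)⟩
  have hf : Function.Injective f := fun a b e => by
    by_contra ne
    exact h1 (h.eq_of_norm hD hE (D.mul_mem (D.inv_mem b.2) a.2)
      (fun e => ne (Subtype.ext (inv_mul_eq_one.1 e)).symm)
      (R1.conj_eq_conj_iff_norm.1 (congrArg Subtype.val e)))
  have : Finite (ℓ \ {D} : Set _) := h.finite.sdiff
  obtain ⟨a, e⟩ := (hf.bijective_of_nat_card_le (by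
    rw [Nat.card_coe_set_eq, Set.ncard_sdiff_singleton_of_mem hD, h.card, (h.mem D hD).card]
    rfl)).2 ⟨F, hF, Ne.symm h2⟩
  exact ⟨a, a.2, congrArg Subtype.val e⟩

theorem trans (hD : D ∈ ℓ) (hE : E ∈ ℓ) : ∃ g ∈ L, g ⋆ D = E :=
  have ⟨_, hF, h1, h2⟩ := h.exists_third D E
  have ⟨a, ha, e⟩ := h.regular hF hD hE h1 h2
  ⟨a, h.le hF ha, e⟩

theorem mem_norm_of_comm (hD : D ∈ ℓ) (ha : a ∈ D) (h1 : a ≠ 1) (hc : c ⋆ D ∈ ℓ)
    (e : c * a = a * c) : c ∈ 𝐍(D) :=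
  conj_eq_self_iff.1 (h.eq_of_norm hD hc ha h1 (le_normalizer (mem_conj.2 (by
    rwa [mul_assoc, ← e, inv_mul_cancel_left])))).symm

theorem conj_elt (hD : D ∈ ℓ) (hE : E ∈ ℓ) (ne : D ≠ E) (ha : a ∈ D) (h1 : a ≠ 1) (hb : b ∈ E)
    (h2 : b ≠ 1) : ∃ g ∈ L, g * a * g⁻¹ = b := by
  have s1 := (h.mem D hD).sq a ha
  have s2 := (h.mem E hE).sq b hb
  have hz := zpowers_le.2 (L.mul_mem (h.le hD ha) (h.le hE hb))
  rcases Sz.dihedral s1 s2 with ⟨c, hc, e⟩ | ⟨w, w1, -, hw, wa, wb⟩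
  · exact ⟨c, hz hc, e⟩
  have n1 := h.mem_norm_of_comm hD ha h1 (h.inv w (hz hw) D hD) wa
  have n2 := h.mem_norm_of_comm hE hb h2 (h.inv w (hz hw) E hE) wb
  obtain ⟨n, rfl⟩ := (mem_powers_iff_mem_zpowers.2 hw :)
  obtain ⟨c, hc, e⟩ := refl_conj s1 s2 n
  have key : ∀ F ∈ ℓ, ∀ x ∈ F, x ≠ 1 → (a * b) ^ n * a ≠ c * x * c⁻¹ := fun F hF x hx x1 e => by
    have h3 := conj_mem_conj c hx
    rw [h.eq_of_norm (h.inv c (hz hc) F hF) hD h3 (by simpa using x1)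
      (e ▸ mul_mem n1 (le_normalizer ha)), ← e] at h3
    exact ne (h.eq_of_norm hD hE ((D.mul_mem_cancel_right ha).1 h3) w1 n2)
  exact (e.elim (key D hD a ha h1) (key E hE b hb h2)).elim

/-- the involutions of the points form one class -/
theorem conj_elt' (hD : D ∈ ℓ) (hE : E ∈ ℓ) (ha : a ∈ D) (h1 : a ≠ 1) (hb : b ∈ E)
    (h2 : b ≠ 1) : ∃ g ∈ L, g * a * g⁻¹ = b := by
  obtain ⟨F, hF, n1, n2⟩ := h.exists_third D E
  obtain ⟨c, hc, h3⟩ := exists_mem_ne_one (h.mem F hF).ne_bot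
  obtain ⟨g, hg, rfl⟩ := h.conj_elt hF hD n1 hc h3 ha h1
  obtain ⟨g', hg', rfl⟩ := h.conj_elt hF hE n2 hc h3 hb h2
  exact ⟨g' * g⁻¹, L.mul_mem hg' (L.inv_mem hg), by group⟩

variable (hc : V ≤ 𝐂(V))
include hc

theorem card_C (hD : D ∈ ℓ) : #|V ⊓ 𝐂(D)| = q * #|V ⊓ 𝐂(L)| := by
  obtain ⟨E, hE, ne⟩ := h.exists_ne D
  have := card_sup_V hc (inf_le_left (b := 𝐂(E))) (inf_le_left (b := 𝐂(D)))
  rw [h.sup_eq hE hD ne, h.inf_eq hE hD ne, (h.mem E hE).idx] at this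
  exact Nat.eq_of_mul_eq_mul_left (Nat.card_pos (α := (V ⊓ 𝐂(E) : Subgroup G))) (by linarith)

theorem card_V : #|V| = q * q * #|V ⊓ 𝐂(L)| := by
  obtain ⟨D, hD⟩ := h.nonempty
  rw [(h.mem D hD).idx, h.card_C hc hD, mul_assoc]

/-- the fixed spaces of the points cover `V` -/
theorem spread (hv : v ∈ V) : ∃ D ∈ ℓ, v ∈ 𝐂(D) := by
  classical
  by_contra! hn
  have := Fintype.ofFinite G
  let f : Subgroup G → Finset G := fun K => (K : Set G).toFinset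
  have hf : ∀ K, (f K).card = #|K| := fun K => by
    rw [← Set.ncard_eq_toFinset_card', ← Nat.card_coe_set_eq]; rfl
  have mf : ∀ K x, x ∈ f K ↔ x ∈ K := fun K x => Set.mem_toFinset
  have h1 : h.finite.toFinset.biUnion (fun D => f (V ⊓ 𝐂(D)) \ f (V ⊓ 𝐂(L))) ⊆
      (f V \ f (V ⊓ 𝐂(L))).erase v := fun x hx => by
    simp only [Finset.mem_biUnion, Finset.mem_sdiff, mf, Set.Finite.mem_toFinset,
      Finset.mem_erase] at hx ⊢
    obtain ⟨D, hD, h1, h2⟩ := hx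
    exact ⟨fun e => hn D hD (e ▸ h1.2), h1.1, h2⟩
  have h2 := Finset.card_le_card h1
  obtain ⟨D, hD⟩ := h.nonempty
  have sub : ∀ {K K'}, K ≤ K' → (f K' \ f K).card = #|K'| - #|K| := fun e => by
    rw [Finset.card_sdiff_of_subset fun x => by simpa only [mf] using @e x, hf, hf]
  rw [Finset.card_biUnion fun D hD E hE ne => Finset.disjoint_left.2 fun x h1 h2 => by
      simp only [Finset.mem_sdiff, mf] at h1 h2
      exact h1.2 (h.inf_eq (by simpa using hD) (by simpa using hE) ne ▸ ⟨h1.1, h2.1⟩),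
    Finset.sum_const_nat (m := q * #|V ⊓ 𝐂(L)| - #|V ⊓ 𝐂(L)|) fun D hD => by
      rw [sub (inf_le_inf_left _ (h.cent_le (by simpa using hD))), h.card_C hc (by simpa using hD)],
    Finset.card_erase_of_mem (by
      simp only [Finset.mem_sdiff, mf]; exact ⟨hv, fun e => hn D hD (h.cent_le hD e.2)⟩),
    sub inf_le_left, ← Set.ncard_eq_toFinset_card, h.card, h.card_V hc] at h2
  obtain ⟨r, rfl⟩ := Nat.exists_eq_add_of_lt h.one_lt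
  obtain ⟨m, e⟩ := Nat.exists_eq_add_of_lt (Nat.card_pos (α := (V ⊓ 𝐂(L) : Subgroup G)))
  rw [e, show (1 + r + 1) * (0 + m + 1) - (0 + m + 1) = (r + 1) * (m + 1) by
    rw [Nat.sub_eq_iff_eq_add (by nlinarith)]; ring] at h2
  have : (1 + r + 1) * (1 + r + 1) * (0 + m + 1) = (1 + r + 1 + 1) * ((r + 1) * (m + 1)) + (0 + m + 1) := by
    ring
  have : 0 < (1 + r + 1 + 1) * ((r + 1) * (m + 1)) := by positivity
  omega

omit [Finite G] in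
theorem cmr_inf (hD : D ∈ ℓ) (ha : a ∈ D) (h1 : a ≠ 1) : cmr hc a ⊓ 𝐂(L) = ⊥ :=
  eq_bot_iff.2 fun _ ⟨hw, h2⟩ => by
    obtain ⟨v, hv, rfl⟩ := (mem_cmr hc).1 hw
    exact comm_eq_one_iff.2 (cent_le_cent1 ha (h.pure D hD a ha h1 v hv h2))

theorem cmr_sup (hD : D ∈ ℓ) (ha : a ∈ D) (h1 : a ≠ 1) : cmr hc a ⊔ V ⊓ 𝐂(L) = V ⊓ 𝐂(D) := by
  refine eq_of_le_of_card_le (sup_le (le_inf (cmr_le hc a) ((cmr_le_comm hc ha).trans
    (h.mem D hD).quad)) (inf_le_inf_left _ (h.cent_le hD))) ?_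
  have := card_sup_V hc (cmr_le hc a) (inf_le_left (b := 𝐂(L)))
  rw [← inf_assoc, inf_eq_left.2 (cmr_le hc a), h.cmr_inf hc hD ha h1, card_bot,
    (h.mem D hD).card_cmr hc ha h1, ← h.card_C hc hD] at this
  omega

theorem exists_comm (hD : D ∈ ℓ) (ha : a ∈ D) (h1 : a ≠ 1) (hv : v ∈ V ⊓ 𝐂(D)) :
    ∃ w ∈ V, ∃ u ∈ V ⊓ 𝐂(L), v = ⁅w, a⁆ * u := by
  rw [← h.cmr_sup hc hD ha h1, mem_sup_V hc (cmr_le hc a) inf_le_left] at hv
  obtain ⟨_, hw, u, hu, rfl⟩ := hv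
  obtain ⟨w, hw', rfl⟩ := (mem_cmr hc).1 hw
  exact ⟨w, hw', u, hu, rfl⟩

theorem le_comm_sup : V ≤ ⁅V, L⁆ ⊔ V ⊓ 𝐂(L) := by
  obtain ⟨D, hD⟩ := h.nonempty
  obtain ⟨E, hE, ne⟩ := h.exists_ne D
  have : ∀ D ∈ ℓ, V ⊓ 𝐂(D) ≤ ⁅V, L⁆ ⊔ V ⊓ 𝐂(L) := fun D hD => by
    obtain ⟨a, ha, h1⟩ := exists_mem_ne_one (h.mem D hD).ne_bot
    rw [← h.cmr_sup hc hD ha h1]
    exact sup_le_sup_right (cmr_le_comm hc (h.le hD ha)) _
  exact (h.span E hE D hD ne).trans (sup_le (this E hE) (this D hD))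

omit hc in
theorem exists_comm' (hc : V ≤ 𝐂(V)) (hD : D ∈ ℓ) (hy : y ∈ V) (h1 : y ∉ 𝐂(D))
    (hv : v ∈ V ⊓ 𝐂(D)) : ∃ a ∈ D, v⁻¹ * ⁅y, a⁆ ∈ V ⊓ 𝐂(L) := by
  have m := h.mem D hD
  refine surj_of_inj (fun a => ⁅y, a⁆) (X₁ := ⊥) (fun a ha => m.comm_mem hy ha)
    (fun a ha b hb e => ?_) ?_ v hv
  · by_contra ne
    have h2 := D.mul_mem (D.inv_mem ha) hb
    refine h1 (h.pure D hD _ h2 ne y hy ?_)
    have : ⁅y, b⁆ = ⁅y, a⁆ * ⁅y, a⁻¹ * b⁆ := by rw [← m.comm_mul hy ha h2, mul_inv_cancel_left]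
    rw [this, inv_mul_cancel_left] at e
    exact e.2
  · rw [relIndex_bot_left, m.card]
    have := card_mul_relIndex_of_le (inf_le_inf_left V (h.cent_le hD))
    rw [h.card_C hc hD, mul_comm] at this
    exact (Nat.eq_of_mul_eq_mul_right Nat.card_pos this).le

omit hc in
theorem cen' (hV : Sq V) (hA : A ∈ ℓ) (hB : B ∈ ℓ) (ne : A ≠ B) (h2 : IsPGroup 2 (zpowers c))
    (cA : c ∈ 𝐂(A)) (cB : c ∈ 𝐍(B)) :
    c ∈ 𝐂(L) ∧ (∀ v ∈ V, ⁅v, c⁆ ∈ 𝐂(L)) ∧ c ∈ 𝐂(⁅V, L⁆) := by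
  have hc := hV.cent
  have cV : ∀ g, g ∈ 𝐍(V) := fun g => by rw [normalizer_eq_top]; trivial
  have cL : c ∈ 𝐍(L) := conj_eq_self_iff.1 (by
    rw [← h.gen A hA B hB ne, conj_sup, conj_of_mem_norm cB, conj_of_mem_norm (cent_le_norm A cA)])
  have e := h.cent_eq hA hB ne
  obtain ⟨y, hy, h3, h4⟩ := exists_fix_mod' (X := V ⊓ 𝐂(B)) (Y := 𝐂(L)) (hV.of_le inf_le_left).two
    h2 (le_norm_subcent (fun g _ => cV g) (zpowers_le.2 cB)) fun e =>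
      (h.mem A hA).not_le ((h.span A hA B hB ne).trans
        (sup_le inf_le_right (e.trans (h.cent_le hA))))
  replace h4 := h4 c (mem_zpowers c)
  have s2 : ∀ w ∈ V ⊓ 𝐂(A), ⁅w, c⁆ ∈ 𝐂(L) := fun w hw => by
    obtain ⟨a, ha, h5⟩ := h.exists_comm' hc hA hy.1 (fun h5 => h3 (e ▸ ⟨h5, hy.2⟩)) hw
    rw [show w = ⁅y, a⁆ * (w⁻¹ * ⁅y, a⁆)⁻¹ by group,
      comm_mul_ab' hc (comm_mem_nl hy.1 a) (inv_mem h5.1), comm_swap' hc hy.1 (cA a ha),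
      comm_eq_one_iff.2 (cent_le_cent1 (h.le hA ha) h4), one_mul]
    exact comm_mem_of_norm (inv_mem h5.2) (norm_le_norm_cent L cL)
  obtain ⟨a, ha, h1⟩ := exists_mem_ne_one (h.mem A hA).ne_bot
  have s4 : ∀ v ∈ V, ⁅v, c⁆ ∈ 𝐂(L) := fun v hv => by
    obtain ⟨v₁, h5, v₂, h6, rfl⟩ := (mem_sup_V hc inf_le_left inf_le_left).1 (h.span A hA B hB ne hv)
    rw [comm_mul_ab' hc h5.1 h6.1]
    refine mul_mem (s2 _ h5) (e ▸ ⟨h.pure A hA a ha h1 _ (comm_mem_nl h6.1 c) ?_,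
      comm_mem_of_norm h6.2 (norm_le_norm_cent B cB)⟩)
    rw [← comm_swap' hc h6.1 (cA a ha)]
    exact s2 _ ((h.mem A hA).comm_mem h6.1 ha)
  have s5 : c ∈ 𝐂(L) := fun g hg => by
    have h5 : c ∈ centMod V 𝐂(L) := mem_centMod.2 ⟨⟨cV c, norm_le_norm_cent L cL⟩, s4⟩
    refine commutatorElement_eq_one_iff_mul_comm.1 (h.faith _ (comm_mem_of_norm hg cL)
      (mem_centMod (U := V).1 ?_).2)
    rw [← commutatorElement_inv]
    exact inv_mem (comm_mem_of_norm h5 (le_norm_centMod (fun g _ => cV g)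
      (le_norm_cent le_normalizer) hg))
  refine ⟨s5, s4, le_cent1_iff.1 (commutator_le.2 fun v hv g hg => comm_eq_one_iff.1 ?_)⟩
  rw [comm_swap' hc hv (s5 g hg)]
  exact comm_eq_one_iff.2 (cent_le_cent1 hg (s4 v hv))

omit hc in
/-- (CEN) a `2`-element permuting the line and centralising a point -/
theorem cen (hV : Sq V) (hA : A ∈ ℓ) (h2 : IsPGroup 2 (zpowers c)) (cA : c ∈ 𝐂(A))
    (cl : ∀ D ∈ ℓ, c ⋆ D ∈ ℓ) :
    ∃ a ∈ A, a * c ∈ 𝐂(L) ∧ (∀ v ∈ V, ⁅v, a * c⁆ ∈ 𝐂(L)) ∧ a * c ∈ 𝐂(⁅V, L⁆) := by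
  obtain ⟨B, hB, ne⟩ := h.exists_ne A
  obtain ⟨a, ha, e⟩ := h.regular hA (cl B hB) hB (fun e => ne (conj_eq_conj_iff.1
    (e.symm.trans (conj_of_mem_norm (cent_le_norm A cA)).symm))) ne.symm
  have m := (h.mem A hA).sq
  exact ⟨a, ha, h.cen' hV hA hB ne.symm (IsPGroup.le' (R1.two_sup_zpowers (R1.two_zpowers (m a ha))
    h2 (cA a ha)) (zpowers_le.2 (mul_mem (mem_sup_left (mem_zpowers a))
      (mem_sup_right (mem_zpowers c))))) (mul_mem (m.cent ha) cA)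
    (conj_eq_self_iff.1 ((mul_conj _ _ _).trans e))⟩

end Line

end Cfsg.Agent.Pu
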