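import Cfsg.Agent.Pu.T1

/-! S5175: basic consequences of `Dat2`. -/

set_option autoImplicit false

universe u

namespace Cfsg.Agent.Pu

open Subgroup Cfsg Cfsg.Fus Cfsg.FusionSystem Cfsg.Agent.H1 Cfsg.Agent.L Cfsg.Agent.FT
  Cfsg.Agent.Sg Cfsg.Agent.St Equiv SemidirectProduct
open scoped Pointwise commutatorElement

variable {Ω : Type u} [Group Ω] {S : Subgroup Ω} {F : FusionSystem S} {T V V₁ V₂ E : Subgroup Ω}
  {t g : Ω} {q : ℕ} {ℓ : Set (Subgroup (Hol V₁))} {L : Subgroup (Hol V₁)} {σ : Perm Ω}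

theorem act_norm (S V : Subgroup Ω) : act V (S ⊓ 𝐍(V)) = inA V (autInducedBy S V) := by
  ext x
  refine ⟨fun hx => ?_, ?_⟩
  · obtain ⟨k, a, b, rfl⟩ := mem_act.1 hx
    exact inr_mem_inA.2 (mem_autInducedBy.2 ⟨k, b.1, fun _ => rfl⟩)
  · rintro ⟨α, a, rfl⟩
    obtain ⟨g, b, c⟩ := mem_autInducedBy.1 a
    have n : g ∈ 𝐍(V) := mem_normalizer_iff.2 fun x => ⟨fun h => c ⟨x, h⟩ ▸ (α ⟨x, h⟩).2, fun h => by
      have := c (α.symm ⟨_, h⟩)
      rw [MulEquiv.apply_symm_apply] at this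
      have e : x = α.symm ⟨_, h⟩ := by simpa using this
      exact e ▸ (α.symm ⟨_, h⟩).2⟩
    exact mem_act.2 ⟨g, n, ⟨b, n⟩, congrArg _ (MulEquiv.ext fun v => Subtype.ext (c v).symm)⟩

/-- an element of `Aut_F(V)` inside the holomorph is represented by a permutation -/
theorem exists_iso_of_mem (hV : V ≤ S) {x : Hol V} (h : x ∈ inA V (F.autGroup V)) :
    ∃ σ, F.Iso V V σ ∧ ∀ (v : Ω) (hv : v ∈ V), ∃ hw : σ v ∈ V,
      x * inl ⟨v, hv⟩ * x⁻¹ = inl ⟨σ v, hw⟩ := by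
  obtain ⟨α, a, rfl⟩ := h
  have i := (mem_autGroup_iff hV).1 a
  exact ⟨_, i, fun v hv => ⟨i.mem hv, (inr_conj_inl _ _).trans
    (congrArg _ (Subtype.ext (extAut_coe α ⟨v, hv⟩).symm))⟩⟩

theorem exists_mem_of_iso (h : F.Iso V V σ) : ∃ x ∈ inA V (F.autGroup V),
    ∀ (v : Ω) (hv : v ∈ V), x * inl ⟨v, hv⟩ * x⁻¹ = inl ⟨σ v, h.mem hv⟩ := by
  obtain ⟨α, a, b⟩ := h.exists_aut
  exact ⟨_, inr_mem_inA.2 a, fun v hv => (inr_conj_inl _ _).trans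
    (congrArg _ (Subtype.ext (b ⟨v, hv⟩)))⟩

variable [Finite Ω]

namespace Dat

variable (d : Dat F T V₁ V₂ t q ℓ L)
include d

theorem syl : IsSylowIn 2 (act V₁ T) (inA V₁ (F.autGroup V₁)) := by
  haveI : Fact (Nat.Prime 2) := ⟨Nat.prime_two⟩
  have h := d.fn.isFullyAutomized d.sat d.two
  rw [← d.nV, act_norm]
  exact ((isSylowIn_iff (F.autInducedBy_le_autGroup h.le)).2 h.2).map _

theorem centric : F.IsCentric V₁ := by
  haveI : Fact (Nat.Prime 2) := ⟨Nat.prime_two⟩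
  exact (d.fn.isFullyCentralized d.sat d.two).isCentric d.sat d.two d.cen

/-- automorphisms of `V₁` normalising `Aut_T(V₁)` extend to `T` -/
theorem ext (h : F.Iso V₁ V₁ σ)
    (hn : ∀ g ∈ T, ∃ k ∈ T, ∀ v ∈ V₁, σ (g * v * g⁻¹) = k * σ v * k⁻¹) :
    ∃ τ, F.Iso T T τ ∧ ∀ v ∈ V₁, τ v = σ v := by
  haveI : Fact (Nat.Prime 2) := ⟨Nat.prime_two⟩
  obtain ⟨τ, a, b⟩ := (d.fn.isReceptive d.sat d.two).exists_ext_of_le h (T := T) d.nV.ge
    fun g hg => by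
      obtain ⟨k, c, e⟩ := hn g hg
      exact mem_innS.2 ⟨k, d.TS c, d.n₁ c, fun x hx => by
        rw [Perm.mul_apply, Perm.mul_apply, cj_apply, e _ (h.inv_mem hx), perm_apply_inv_self]⟩
  rw [sup_eq_right.2 d.le₁] at a
  refine ⟨τ, a.iso_self fun x hx => d.nV.le ?_, b⟩
  have := a.mem_normalizerIn d.le₁ hx (d.n₁ hx)
  rwa [(h.congr b).img_eq] at this

end Dat

namespace Dat2

variable (d : Dat2 F T V₁ V₂ t q ℓ L)
include d

omit [Finite Ω] in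
theorem nT : S ≤ 𝐍(T) := by rw [d.eS]; exact sup_le le_normalizer (zpowers_le.2 d.tT)

omit [Finite Ω] in
theorem mem_S (hg : g ∈ S) : g ∈ T ∨ g * t ∈ T := d.toDat.mem_or hg (d.nT hg)

omit [Finite Ω] in
theorem Z_cent : V₁ ⊓ V₂ ≤ 𝐂(T) := d.eT ▸ d.toDat.Z_cent

omit [Finite Ω] in
theorem cenT : S ⊓ 𝐂(T) ≤ V₁ ⊓ V₂ := le_inf
  ((inf_le_inf_left _ (cent_anti d.toDat.le₁)).trans d.cen)
  ((inf_le_inf_left _ (cent_anti d.toDat.le₂)).trans d.toDat.cen₂)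

omit [Finite Ω] in
theorem mem_T {x : Ω} : x ∈ T ↔ ∃ a ∈ V₁, ∃ b ∈ V₂, a * b = x := d.eT ▸ d.toDat.mem_sup

omit [Finite Ω] in
/-- all elements of `S ∖ T` act on `Z` as `t` does -/
theorem conj_Z (hg : g ∈ S) (h : g ∉ T) {z : Ω} (hz : z ∈ V₁ ⊓ V₂) : g * z * g⁻¹ = t * z * t⁻¹ := by
  have a := d.Z_cent hz _ ((d.mem_S (inv_mem hg)).resolve_left fun e => h (inv_mem_iff.1 e))
  calc _ = g * (z * (g⁻¹ * t)) * t⁻¹ := by group
    _ = _ := by rw [← a]; group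

omit [Finite Ω] in
theorem conj_fix (hg : g ∈ S) (h : g ∉ T) : g ⋆ fixV V₁ L = t ⋆ fixV V₁ L := by
  ext x
  simp only [mem_conj']
  exact exists_congr fun y => and_congr_right fun hy => by rw [d.conj_Z hg h (d.toDat.fix_le hy)]

omit [Finite Ω] in
theorem chg (hg : g ∈ S) (h : g ∉ T) (h2 : g * g ∈ V₁ ⊓ V₂) : Dat2 F T V₁ V₂ g q ℓ L :=
  ⟨d.toDat.chg hg (d.nT hg) h, d.eT, le_antisymm (fun x hx =>
    ((d.toDat.chg hg (d.nT hg) h).mem_or hx (d.nT hx)).elim mem_sup_left fun e => by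
      simpa using mul_mem (mem_sup_left e : _ ∈ T ⊔ zpowers g)
        (mem_sup_right (inv_mem (mem_zpowers g))))
    (sup_le d.toDat.TS (zpowers_le.2 hg)), h2, by rw [d.conj_fix hg h, d.dd], d.dq⟩

theorem swap : Dat2 F T V₂ V₁ t q (Subgroup.map (holE (cjE d.sw)).toMonoidHom '' ℓ)
    (L.map (holE (cjE d.sw)).toMonoidHom) := by
  refine ⟨d.toDat.swap, d.eT.trans (sup_comm _ _), d.eS, inf_comm V₁ V₂ ▸ d.tt, ?_, ?_⟩
  · rw [fixV_map, ← mul_conj, conj_of_mem_norm (cent_le_norm _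
      (cent_anti (fixV_le _ _) (d.toDat.sq₁.cent d.tt.1))), inf_comm, d.dd]
  · rw [fixV_map, conj_eq_bot_iff, card_conj]; exact d.dq

theorem fnT : F.IsFullyNormalized T := ⟨d.toDat.TS, fun R _ => by
  rw [show normalizerIn S T = S from inf_eq_left.2 d.nT]; exact card_le_of_le inf_le_left⟩

theorem centricT : F.IsCentric T := by
  haveI : Fact (Nat.Prime 2) := ⟨Nat.prime_two⟩
  exact (d.fnT.isFullyCentralized d.sat d.two).isCentric d.sat d.two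
    (d.cenT.trans (inf_le_left.trans d.toDat.le₁))

omit [Finite Ω] in
theorem act_T : act V₁ T = act V₁ V₂ := by
  refine le_antisymm (fun x hx => ?_) (map_mono (map_mono (comap_mono d.toDat.le₂)))
  obtain ⟨k, a, b, rfl⟩ := mem_act.1 hx
  obtain ⟨u, c, v, e, rfl⟩ := d.mem_T.1 b
  refine mem_act.2 ⟨v, d.toDat.n₁ (d.toDat.le₂ e), e, congrArg _ (MulEquiv.ext fun w =>
    Subtype.ext ?_)⟩
  have := d.toDat.sq₁.cent c _ ((mem_normalizer_iff.1 (d.toDat.n₁ (d.toDat.le₂ e)) w).1 w.2)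
  show v * w * v⁻¹ = u * v * w * (u * v)⁻¹
  calc _ = v * w * v⁻¹ * u * u⁻¹ := by group
    _ = _ := by rw [this]; group

theorem syl : IsSylowIn 2 (act V₁ V₂) (inA V₁ (F.autGroup V₁)) := d.act_T ▸ d.toDat.syl

/-- `Aut_F(V₁)` permutes the points of the line -/
theorem perm [LN.{u}] {x : Hol V₁} (hx : x ∈ inA V₁ (F.autGroup V₁)) {D : Subgroup (Hol V₁)}
    (hD : D ∈ ℓ) : x ⋆ D ∈ ℓ := by
  have h := (LN.rg (md_inA d.toDat.sq₁ _) d.syl ⟨1, fun i => if i = 0 then ⊥ else act V₁ V₂,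
    by simp, by simp, fun i => by dsimp only; split_ifs <;> simp, fun i => by
      simp [comm_eq_bot_iff.2 d.toDat.mA.sq.cent], fun i x a g _ b => by
      dsimp only at a ⊢
      split_ifs at a ⊢
      · rw [mem_bot.1 a]; simp
      · exact b⟩ d.line d.mem d.LF le_rfl le_normalizer inf_le_left).2
  obtain ⟨g, a, rfl⟩ := d.line.trans d.mem hD
  rw [← mul_conj]; exact h _ (mul_mem hx (d.LF a))

theorem norm_L [LN.{u}] : inA V₁ (F.autGroup V₁) ≤ 𝐍(L) :=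
  fun _ hx => d.line.mem_norm fun _ hD => d.perm hx hD

theorem fix_inv [LN.{u}] (h : F.Iso V₁ V₁ σ) {x : Ω} (hx : x ∈ fixV V₁ L) : σ x ∈ fixV V₁ L := by
  obtain ⟨y, a, b⟩ := exists_mem_of_iso h
  obtain ⟨c, e⟩ := mem_fixV.1 hx
  exact mem_fixV.2 ⟨h.mem c, b x c ▸ (mem_normalizer_iff.1 (norm_le_norm_cent _ (d.norm_L a)) _).1 e⟩

/-- large elementary abelian subgroups of `S` -/
theorem ea_big (h4 : 4 ≤ q) (hE : E ≤ S) (h : Sq E) (hc : #|V₁| ≤ #|E|) : E = V₁ ∨ E = V₂ := by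
  by_cases hT : E ≤ T
  · rcases d.toDat.ea_le (d.eT ▸ hT) h with a | a
    exacts [Or.inl (eq_of_le_of_card_le a hc), Or.inr (eq_of_le_of_card_le a (d.toDat.card_eq ▸ hc))]
  obtain ⟨s, a, b⟩ := SetLike.not_le_iff_exists.1 hT
  have sw := d.toDat.swap_of (hE a) (d.nT (hE a)) b
  have k : s ⋆ (E ⊓ T) = E ⊓ T := conj_of_mem_norm (cent_le_norm _ (cent_anti inf_le_left (h.cent a)))
  have hZ : E ⊓ T ≤ V₁ ⊓ V₂ := by
    rcases d.toDat.ea_le (d.eT ▸ inf_le_right : E ⊓ T ≤ _) (h.of_le inf_le_left) with c | c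
    exacts [le_inf c (k ▸ sw.1 ▸ conj_mono s c), le_inf (k ▸ sw.2 ▸ conj_mono s c) c]
  have h2 : E ≤ E ⊓ T ⊔ zpowers s := fun x hx =>
    ((d.toDat.chg (hE a) (d.nT (hE a)) b).mem_or (hE hx) (d.nT (hE hx))).elim
      (fun e => mem_sup_left ⟨hx, e⟩) fun e => by
        simpa using mul_mem (mem_sup_left ⟨mul_mem hx a, e⟩ : _ ∈ E ⊓ T ⊔ zpowers s)
          (mem_sup_right (inv_mem (mem_zpowers s)))
  have h3 := card_sup_V h.cent (inf_le_left : E ⊓ T ≤ E) (zpowers_le.2 a)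
  have h5 := card_le_of_le' h2
  have h6 := card_le_of_le' hZ
  have h7 := card_zpowers_le_two (h s a)
  have h8 : 0 < #|((E ⊓ T) ⊓ zpowers s : Subgroup Ω)| := Nat.card_pos
  have h9 : 0 < #|(V₁ ⊓ V₂ : Subgroup Ω)| := Nat.card_pos
  rw [d.toDat.card_Z] at hc
  nlinarith

/-- `T` is invariant under `Aut_F(S)` -/
theorem isoT (h4 : 4 ≤ q) (h : F.Iso S S σ) : F.Iso T T σ := by
  have k : ∀ A ≤ S, Sq A → #|V₁| ≤ #|A| → img σ A ≤ T := fun A a b c => by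
    have m := h.isMap.mono a
    rcases d.ea_big h4 m.img_le (fun x hx => by
      obtain ⟨y, hy, rfl⟩ := m.mem_img.1 hx
      rw [← m.homOn.map_mul hy hy, b y hy, m.homOn.map_one]) (m.card_img ▸ c) with e | e
    exacts [e ▸ d.toDat.le₁, e ▸ d.toDat.le₂]
  refine (h.isMap.mono d.toDat.TS).iso_self fun x hx => ?_
  obtain ⟨a, ha, b, hb, rfl⟩ := d.mem_T.1 hx
  have s1 := d.toDat.le₁.trans d.toDat.TS
  have s2 := d.toDat.le₂.trans d.toDat.TS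
  rw [h.homOn.map_mul (s1 ha) (s2 hb)]
  exact mul_mem (k _ s1 d.toDat.sq₁ le_rfl (mem_img_of_mem _ ha))
    (k _ s2 d.toDat.sq₂ d.toDat.card_eq.ge (mem_img_of_mem _ hb))

end Dat2

end Cfsg.Agent.Pu
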