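import Cfsg.Agent.Pu.B1

/-! S5175, slice CO: a frame of the natural module. -/

set_option autoImplicit false

universe u

namespace Cfsg.Agent.Pu

open Subgroup Cfsg Cfsg.Agent.H1 Cfsg.Agent.L Cfsg.Agent.FT Cfsg.Agent.Sg Cfsg.Agent.St
open scoped Pointwise commutatorElement

variable {G : Type u} [Group G] {V A B L H : Subgroup G} {K : Type} [Field K] {q : ℕ}
  {ℓ : Set (Subgroup G)}

/-- coordinates on a torus invariant complement of `C_V(L)` -/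
structure Frm (V A B L : Subgroup G) (K : Type) [Field K] where
  E : K → K → G
  a : K → G
  h : Kˣ → G
  w : G
  E_mem : ∀ x y, E x y ∈ V
  E_add : ∀ x y x' y', E (x + x') (y + y') = E x y * E x' y'
  dec : ∀ v ∈ V, ∃ x y, ∃ d ∈ V ⊓ 𝐂(L), v = E x y * d
  inj : ∀ x y, E x y ∈ 𝐂(L) → x = 0 ∧ y = 0
  mem_A : ∀ g, g ∈ A ↔ ∃ u, a u = g
  aE : ∀ u y, ∃ d ∈ V ⊓ 𝐂(L), ⁅E 0 y, a u⁆ = E (y * u) 0 * d
  X_cent : ∀ x, E x 0 ∈ 𝐂(A)
  w_mem : w ∈ L
  wE : ∀ x y, w * E x y * w⁻¹ = E y x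
  h_mem : ∀ c, h c ∈ L ⊓ 𝐍(A) ⊓ 𝐍(B)
  hE : ∀ c x y, h c * E x y * (h c)⁻¹ = E (c * x) (c⁻¹ * y)
  nE : ∀ g ∈ 𝐍(L) ⊓ 𝐍(A) ⊓ 𝐍(B), (∀ y, ∃ y', g * E 0 y * g⁻¹ = E 0 y') ∧
    ∀ x, ∃ x', g * E x 0 * g⁻¹ = E x' 0

/-- rescaling -/
def Frm.scale (f : Frm V A B L K) (e : Kˣ) : Frm V A B L K where
  E x y := f.E (e * x) y
  a u := f.a (e * u)
  h := f.h
  w := f.h e * f.w
  E_mem _ _ := f.E_mem _ _
  E_add _ _ _ _ := by rw [mul_add, f.E_add]
  dec v hv := by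
    obtain ⟨x, y, d, a, b⟩ := f.dec v hv
    exact ⟨e⁻¹ * x, y, d, a, by simpa using b⟩
  inj x y h := by simpa using f.inj _ _ h
  mem_A g := (f.mem_A g).trans ⟨fun ⟨u, h⟩ => ⟨e⁻¹ * u, by simpa using h⟩, fun ⟨_, h⟩ => ⟨_, h⟩⟩
  aE u y := by simpa [mul_left_comm] using f.aE (e * u) y
  X_cent _ := f.X_cent _
  w_mem := mul_mem (f.h_mem e).1.1 f.w_mem
  wE x y := by
    rw [show f.h e * f.w * f.E (e * x) y * (f.h e * f.w)⁻¹ =
      f.h e * (f.w * f.E (e * x) y * f.w⁻¹) * (f.h e)⁻¹ by group, f.wE, f.hE]; simp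
  h_mem := f.h_mem
  hE c x y := by rw [f.hE, mul_left_comm]
  nE g hg := ⟨by simpa using (f.nE g hg).1, fun x => by
    obtain ⟨x', h⟩ := (f.nE g hg).2 (e * x)
    exact ⟨e⁻¹ * x', by simpa using h⟩⟩

/-- `g` acts by a matrix -/
def Ac (V : Subgroup G) (p r : G → K) (g : G) (m n k l : K) : Prop :=
  ∀ v ∈ V, p (g * v * g⁻¹) = m * p v + n * r v ∧ r (g * v * g⁻¹) = k * p v + l * r v

theorem Ac.mul [hV : V.Normal] {p r : G → K} {g g' : G} {m n k l m' n' k' l' a b c d : K}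
    (h : Ac V p r g m n k l) (h' : Ac V p r g' m' n' k' l') (e1 : a = m * m' + n * k')
    (e2 : b = m * n' + n * l') (e3 : c = k * m' + l * k') (e4 : d = k * n' + l * l') :
    Ac V p r (g * g') a b c d := fun v hv => by
  rw [show g * g' * v * (g * g')⁻¹ = g * (g' * v * g'⁻¹) * g⁻¹ by group,
    (h _ (hV.conj_mem v hv g')).1, (h _ (hV.conj_mem v hv g')).2, (h' v hv).1, (h' v hv).2, e1, e2,
    e3, e4]
  constructor <;> ring

theorem exists_ne01 [Fintype K] (h : 2 < Fintype.card K) : ∃ c : K, c ≠ 0 ∧ c ≠ 1 := by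
  classical
  obtain ⟨c, -, h⟩ := Finset.exists_mem_notMem_of_card_lt_card
    (s := ({0, 1} : Finset K)) (t := Finset.univ) (Finset.card_le_two.trans_lt h)
  exact ⟨c, by simpa using h⟩

theorem exists_fr [Finite G] [FD.{u}] [hV : V.Normal] (sq : Sq V) (ln : Line V q ℓ L) (hA : A ∈ ℓ)
    (hB : B ∈ ℓ) (ne : A ≠ B) (h4 : 4 ≤ q) (hL : L ≤ H) (syl : IsSylowIn 2 A H) :
    ∃ (K : Type) (_ : Field K) (_ : Fintype K) (_ : CharP K 2), Fintype.card K = q ∧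
      Nonempty (Frm V A B L K) := by
  obtain ⟨K, _, _, _, p, r, a, b, hq, add, sur, ker, -, mA, mB, ac⟩ := FD.main hV sq ln hA hB ne
  refine ⟨K, _, ‹_›, ‹_›, hq, ?_⟩
  have eqC : ∀ v ∈ V, ∀ w ∈ V, p v = p w → r v = r w → v * w ∈ 𝐂(L) := fun v hv w hw e e' =>
    (ker _ (mul_mem hv hw)).1 (by
      rw [(add v hv w hw).1, (add v hv w hw).2, e, e']; exact ⟨CharTwo.add_self_eq_zero _,
        CharTwo.add_self_eq_zero _⟩)
  have fa : ∀ g ∈ L, ∀ g' ∈ L, ∀ m n k l, Ac V p r g m n k l → Ac V p r g' m n k l → g = g' :=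
    fun g hg g' hg' m n k l h h' => (inv_mul_eq_one.1 (ln.faith _ (mul_mem (inv_mem hg') hg)
      fun v hv => by
        have := (mem_normalizer_iff.1 (norm_le_norm_cent _ (le_normalizer (inv_mem hg'))) _).1
          (eqC _ (hV.conj_mem v hv g') _ (hV.conj_mem _ (inv_mem hv) g)
            (by rw [sq.inv hv, (h v hv).1, (h' v hv).1]) (by rw [sq.inv hv, (h v hv).2, (h' v hv).2]))
        convert this using 1
        rw [commutatorElement_def]; group)).symm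
  have aA : ∀ x, a x ∈ A := fun x => (mA _).2 ⟨x, rfl⟩
  have bB : ∀ x, b x ∈ B := fun x => (mB _).2 ⟨x, rfl⟩
  have aL := fun x => ln.le hA (aA x)
  have bL := fun x => ln.le hB (bB x)
  have Aa : ∀ x, Ac V p r (a x) 1 x 0 1 := fun x v hv => by simp [ac x v hv]
  have Ab : ∀ x, Ac V p r (b x) 1 0 x 1 := fun x v hv => by simp [ac x v hv, add_comm]
  let w : Kˣ → G := fun c => a c * b (c⁻¹ : Kˣ) * a c
  have wL : ∀ c, w c ∈ L := fun c => mul_mem (mul_mem (aL _) (bL _)) (aL _)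
  have Aw : ∀ c : Kˣ, Ac V p r (w c) 0 c (c⁻¹ : Kˣ) 0 := fun c =>
    ((Aa c).mul (Ab (c⁻¹ : Kˣ)) (a := 0) (b := (c : K)) (c := ((c⁻¹ : Kˣ) : K)) (d := 1)
      (by simp [CharTwo.add_self_eq_zero]) (by simp) (by simp) (by simp)).mul (Aa c) (by simp)
      (by simp) (by simp) (by simp [CharTwo.add_self_eq_zero])
  have Ah : ∀ c : Kˣ, Ac V p r (w c * w 1) c 0 0 (c⁻¹ : Kˣ) := fun c =>
    (Aw c).mul (Aw 1) (by simp) (by simp) (by simp) (by simp)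
  have cj : ∀ {X Y : Subgroup G} {f f' : K → G} {g : G}, (∀ x, x ∈ X ↔ ∃ u, f u = x) →
      (∀ u, f' u ∈ Y) → #|X| = #|Y| → (∀ u, ∃ u', g * f u = f' u' * g) → g ⋆ X = Y :=
    fun h1 h2 h3 h4 => eq_of_le_of_card_le (fun x hx => by
      obtain ⟨y, hy, rfl⟩ := mem_conj'.1 hx
      obtain ⟨u, rfl⟩ := (h1 y).1 hy
      obtain ⟨u', e⟩ := h4 u
      rw [e, mul_inv_cancel_right]; exact h2 _) (by rw [card_conj, h3])
  have cAB : #|A| = #|B| := (ln.mem _ hA).card.trans (ln.mem _ hB).card.symm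
  have hK : ∀ c, w c * w 1 ∈ L ⊓ 𝐍(A) ⊓ 𝐍(B) := fun c => by
    have m := mul_mem (wL c) (wL 1)
    exact ⟨⟨m, conj_eq_self_iff.1 (cj mA aA rfl fun u => ⟨c * c * u, fa _ (mul_mem m (aL _)) _
      (mul_mem (aL _) m) c (c * u) 0 (c⁻¹ : Kˣ) ((Ah c).mul (Aa u) (by simp) (by simp) (by simp)
      (by simp)) ((Aa _).mul (Ah c) (by simp) (by simp [mul_right_comm]) (by simp) (by simp))⟩)⟩,
      conj_eq_self_iff.1 (cj mB bB rfl fun u => ⟨(c⁻¹ : Kˣ) * (c⁻¹ : Kˣ) * u, fa _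
      (mul_mem m (bL _)) _ (mul_mem (bL _) m) c 0 ((c⁻¹ : Kˣ) * u) (c⁻¹ : Kˣ) ((Ah c).mul (Ab u)
      (by simp) (by simp) (by simp) (by simp)) ((Ab _).mul (Ah c) (by simp) (by simp)
      (by simp [mul_right_comm]) (by simp))⟩)⟩
  have w1 : w 1 ⋆ A = B := cj mA bB cAB fun u => ⟨u, fa _ (mul_mem (wL _) (aL _)) _
    (mul_mem (bL _) (wL _)) 0 1 1 u ((Aw 1).mul (Aa u) (by simp) (by simp) (by simp) (by simp))
    ((Ab u).mul (Aw 1) (by simp) (by simp) (by simp) (by simp))⟩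
  have w2 : w 1 ⋆ B = A := cj mB aA cAB.symm fun u => ⟨u, fa _ (mul_mem (wL _) (bL _)) _
    (mul_mem (aL _) (wL _)) u 1 1 0 ((Aw 1).mul (Ab u) (by simp) (by simp) (by simp) (by simp))
    ((Aa u).mul (Aw 1) (by simp) (by simp) (by simp) (by simp))⟩
  set K₁ := L ⊓ 𝐍(A) ⊓ 𝐍(B) with hK₁
  have odd : Odd #|K₁| := Nat.not_even_iff_odd.1 fun he => by
    obtain ⟨g, hg, o⟩ := exists_mem_orderOf_eq Nat.prime_two he.two_dvd
    have g2 : g * g = 1 := by rw [← pow_two, ← o, pow_orderOf_eq_one]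
    have := syl.maximal _ (pgroup_sup syl.isPGroup (R1.two_zpowers g2)
      (Or.inr (zpowers_le.2 hg.1.2))) le_sup_left (sup_le syl.le (zpowers_le.2 (hL hg.1.1)))
    exact ne (ln.eq_of_norm hA hB (this ▸ mem_sup_right (mem_zpowers g))
      (by rintro rfl; simp at o) hg.2)
  have nV : K₁ ≤ 𝐍(V) := le_normalizer_of_normal
  haveI := sq.comm
  have c1 := commutator_sup_centralizer nV (sq.cop odd).symm (Or.inr (sol_of_comm sq.comm))
  have c2 := inf_centralizer_inf_commutator_eq_bot nV (sq.cop odd).symm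
  have sV : ⁅V, K₁⁆ ≤ V := comm_le_left nV
  obtain ⟨c₀, c3, c4⟩ := exists_ne01 (K := K) (by omega)
  have cK : V ⊓ 𝐂(K₁) ≤ 𝐂(L) := fun v hv => (ker v hv.1).1 (by
    have h := Ah (Units.mk0 c₀ c3) v hv.1
    rw [hv.2 _ (hK _), mul_inv_cancel_right] at h
    simp only [Units.val_mk0, zero_mul, add_zero, zero_add, Units.val_inv_eq_inv_val] at h
    exact ⟨by_contra fun e => c4 (mul_right_cancel₀ e (h.1.symm.trans (one_mul _).symm)),
      by_contra fun e => c4 (inv_eq_one.1 (mul_right_cancel₀ e (h.2.symm.trans (one_mul _).symm)))⟩)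
  have uq : ∀ v ∈ ⁅V, K₁⁆, ∀ w ∈ ⁅V, K₁⁆, p v = p w → r v = r w → v = w := fun v hv w hw e e' => by
    have : v * w ∈ (⊥ : Subgroup G) := c2 ▸ ⟨⟨mul_mem (sV hv) (sV hw),
      cent_anti (inf_le_left.trans inf_le_left) (eqC v (sV hv) w (sV hw) e e')⟩, mul_mem hv hw⟩
    rw [eq_inv_of_mul_eq_one_left (mem_bot.1 this), sq.inv (sV hw)]
  have ex : ∀ x y, ∃ v ∈ ⁅V, K₁⁆, p v = x ∧ r v = y := fun x y => by
    obtain ⟨v, hv, rfl, rfl⟩ := sur x y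
    obtain ⟨s, hs, d, hd, rfl⟩ := (mem_sup_V sq.cent sV inf_le_left).1 (c1.ge hv)
    have := (ker d hd.1).2 (cK hd)
    exact ⟨s, hs, by simp [add s (sV hs) d hd.1, this]⟩
  choose E E1 E2 E3 using ex
  have nE : ∀ g ∈ 𝐍(K₁), ∀ x y, g * E x y * g⁻¹ ∈ ⁅V, K₁⁆ := fun g hg x y => by
    have := conj_mem_conj g (E1 x y)
    rwa [conj_comm, conj_eq_of_normal, conj_of_mem_norm hg] at this
  have cE : ∀ g ∈ 𝐍(K₁), ∀ m n k l, Ac V p r g m n k l → ∀ x y,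
      g * E x y * g⁻¹ = E (m * x + n * y) (k * x + l * y) := fun g hg m n k l h x y =>
    uq _ (nE g hg x y) _ (E1 _ _) (by rw [(h _ (sV (E1 x y))).1, E2, E2, E3])
      (by rw [(h _ (sV (E1 x y))).2, E2, E3, E3])
  have dec : ∀ v ∈ V, ∃ d ∈ V ⊓ 𝐂(L), v = E (p v) (r v) * d := fun v hv =>
    ⟨_, ⟨mul_mem (sV (E1 _ _)) hv, eqC _ (sV (E1 (p v) (r v))) v hv (E2 _ _) (E3 _ _)⟩,
      by rw [← mul_assoc, sq _ (sV (E1 _ _)), one_mul]⟩
  have cm : ∀ v ∈ V, ∀ g m n k l, Ac V p r g m n k l → p ⁅v, g⁆ = (1 + m) * p v + n * r v ∧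
      r ⁅v, g⁆ = k * p v + (1 + l) * r v := fun v hv g m n k l h => by
    rw [show ⁅v, g⁆ = v * (g * v * g⁻¹) by rw [commutatorElement_def, sq.inv hv]; group,
      (add _ hv _ (hV.conj_mem v hv g)).1, (add _ hv _ (hV.conj_mem v hv g)).2, (h v hv).1, (h v hv).2]
    constructor <;> ring
  have o2 : (1 + 1 : K) = 0 := CharTwo.add_self_eq_zero _
  have cA : ∀ v ∈ V, v ∈ 𝐂(A) ↔ r v = 0 := fun v hv => by
    have h := cm v hv _ _ _ _ _ (Aa 1)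
    simp only [o2, zero_mul, one_mul, zero_add] at h
    refine ⟨fun e => ?_, fun e => ln.pure _ hA _ (aA 1) (fun e => ?_) v hv
      ((ker _ (comm_mem_of_norm hv (le_normalizer_of_normal (mem_top _)))).1 ⟨h.1.trans e, h.2⟩)⟩
    · rw [← h.1, comm_eq_one_iff.2 (cent_le_cent1 (aA 1) e)]
      exact ((ker 1 (one_mem _)).2 (one_mem _)).1
    · simpa [e, E2, E3] using (Aa 1 _ (sV (E1 0 1))).1
  have cB : ∀ v ∈ V, v ∈ 𝐂(B) ↔ p v = 0 := fun v hv => by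
    rw [← w1, ← conj_cent, mem_conj, cA _ (by simpa using hV.conj_mem v hv (w 1)⁻¹)]
    have := (Aw 1 _ (hV.conj_mem v hv (w 1)⁻¹)).1
    simp only [inv_inv, mul_assoc, mul_inv_cancel_left, mul_inv_cancel, mul_one, zero_mul,
      zero_add, Units.val_one, one_mul] at this
    rw [this, mul_assoc]
  refine ⟨⟨E, a, fun c => w c * w 1, w 1, fun x y => sV (E1 x y), fun x y x' y' => uq _ (E1 _ _) _
    (mul_mem (E1 _ _) (E1 _ _)) (by rw [(add _ (sV (E1 _ _)) _ (sV (E1 _ _))).1, E2, E2, E2])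
    (by rw [(add _ (sV (E1 _ _)) _ (sV (E1 _ _))).2, E3, E3, E3]), fun v hv => ⟨_, _, dec v hv⟩,
    fun x y h => by simpa [E2, E3] using (ker _ (sV (E1 x y))).2 h, mA, fun u y => ?_,
    fun x => (cA _ (sV (E1 _ _))).2 (E3 _ _), wL 1,
    fun x y => ?_, hK, fun c x y => ?_, fun g hg => ⟨fun y => ?_, fun x => ?_⟩⟩⟩
  · have h := cm _ (sV (E1 0 y)) _ _ _ _ _ (Aa u)
    simp only [o2, zero_mul, zero_add, E3] at h
    simpa [h, mul_comm] using dec _ (comm_mem_of_norm (sV (E1 0 y))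
      (le_normalizer_of_normal (mem_top (a u))))
  · simpa using cE _ (conj_eq_self_iff.1 (by
      rw [conj_inf, conj_inf, conj_norm, conj_norm, w1, w2, conj_of_mem (wL 1), inf_right_comm]))
      _ _ _ _ (Aw 1) x y
  · simpa using cE _ (le_normalizer (hK c)) _ _ _ _ (Ah c) x y
  all_goals have n : g ∈ 𝐍(K₁) := conj_eq_self_iff.1 (by
    rw [conj_inf, conj_inf, conj_norm, conj_norm, conj_of_mem_norm hg.1.1,
      conj_of_mem_norm hg.1.2, conj_of_mem_norm hg.2])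
  · exact ⟨_, uq _ (nE g n _ _) _ (E1 _ _) (by
      rw [E2, ← cB _ (sV (nE g n _ _)), ← mem_normalizer_iff.1 (norm_le_norm_cent _ hg.2),
        cB _ (sV (E1 _ _)), E2]) (E3 _ _).symm⟩
  · exact ⟨_, uq _ (nE g n _ _) _ (E1 _ _) (E2 _ _).symm (by
      rw [E3, ← cA _ (sV (nE g n _ _)), ← mem_normalizer_iff.1 (norm_le_norm_cent _ hg.1.2),
        cA _ (sV (E1 _ _)), E3])⟩

end Cfsg.Agent.Pu
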