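import Cfsg.Agent.Pu.G1

/-! Slice GT of S5175, part 2: an interface for the holomorph (`inV`, `act`). -/

set_option autoImplicit false

universe u

namespace Cfsg.Agent.Pu.Gt

open Subgroup Cfsg Cfsg.Agent.H1 Cfsg.Agent.L Cfsg.Agent.FT Cfsg.Agent.Sg Cfsg.Agent.St
  Cfsg.Agent.R1
open scoped Pointwise commutatorElement

variable {G : Type*} [Group G] {V K U T P : Subgroup G} {L : Subgroup (Hol V)} {g h v w : G}
  {x : Hol V}

instance finHol [Finite G] (V : Subgroup G) : Finite (Hol V) :=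
  Finite.of_equiv _ SemidirectProduct.equivProd.symm

variable (V) in
/-- the action of `N(V)` on `V` -/
def be : 𝐍(V) →* Hol V := (SemidirectProduct.inr : MulAut V →* Hol V).comp V.normalizerMonoidHom

variable (V) in
open Classical in
/-- the automorphism of `V` induced by `g` -/
noncomputable def br (g : G) : Hol V := if h : g ∈ 𝐍(V) then be V ⟨g, h⟩ else 1

variable (V) in
open Classical in
/-- `v ∈ V` as an element of the holomorph -/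
noncomputable def io (v : G) : Hol V := if h : v ∈ V then SemidirectProduct.inl ⟨v, h⟩ else 1

variable (V) in
/-- the preimage in `N(V)` -/
def pre (L : Subgroup (Hol V)) : Subgroup G := (L.comap (be V)).map 𝐍(V).subtype

theorem br_of (hg : g ∈ 𝐍(V)) : br V g = be V ⟨g, hg⟩ := dif_pos hg

theorem io_of (hv : v ∈ V) : io V v = SemidirectProduct.inl ⟨v, hv⟩ := dif_pos hv

theorem br_mul (hg : g ∈ 𝐍(V)) (hh : h ∈ 𝐍(V)) : br V (g * h) = br V g * br V h := by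
  rw [br_of hg, br_of hh, br_of (mul_mem hg hh), ← map_mul]; rfl

theorem br_inv (hg : g ∈ 𝐍(V)) : br V g⁻¹ = (br V g)⁻¹ := by
  rw [br_of hg, br_of (inv_mem hg), ← map_inv]; rfl

theorem br_one : br V 1 = 1 := by rw [br_of (one_mem _)]; exact map_one (be V)

theorem br_conj (hg : g ∈ 𝐍(V)) (hh : h ∈ 𝐍(V)) :
    br V (g * h * g⁻¹) = br V g * br V h * (br V g)⁻¹ := by
  rw [br_mul (mul_mem hg hh) (inv_mem hg), br_mul hg hh, br_inv hg]

theorem br_comm (hg : g ∈ 𝐍(V)) (hh : h ∈ 𝐍(V)) : br V ⁅g, h⁆ = ⁅br V g, br V h⁆ := by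
  rw [commutatorElement_def, commutatorElement_def,
    br_mul (mul_mem (mul_mem hg hh) (inv_mem hg)) (inv_mem hh), br_conj hg hh, br_inv hh]

theorem io_mul (hv : v ∈ V) (hw : w ∈ V) : io V (v * w) = io V v * io V w := by
  rw [io_of hv, io_of hw, io_of (mul_mem hv hw), ← map_mul]; rfl

theorem io_inv (hv : v ∈ V) : io V v⁻¹ = (io V v)⁻¹ := by
  rw [io_of hv, io_of (inv_mem hv), ← map_inv]; rfl

theorem io_inj (hv : v ∈ V) (hw : w ∈ V) : io V v = io V w ↔ v = w := by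
  rw [io_of hv, io_of hw, SemidirectProduct.inl_inj, Subtype.mk.injEq]

theorem io_mem (hv : v ∈ V) : io V v ∈ inV V := ⟨_, (io_of hv).symm⟩

theorem mem_inV : x ∈ inV V ↔ ∃ v ∈ V, io V v = x :=
  ⟨fun ⟨v, e⟩ => ⟨v, v.2, (io_of v.2).trans e⟩, fun ⟨_, hv, e⟩ => e ▸ io_mem hv⟩

theorem conj_mem_of_norm (hg : g ∈ 𝐍(V)) (hv : v ∈ V) : g * v * g⁻¹ ∈ V :=
  (mem_normalizer_iff.1 hg v).1 hv

theorem comm_mem_of_norm (hg : g ∈ 𝐍(V)) (hv : v ∈ V) : ⁅v, g⁆ ∈ V := by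
  have := mul_mem hv (conj_mem_of_norm hg (inv_mem hv))
  rwa [← mul_assoc, ← mul_assoc] at this

theorem br_io (hg : g ∈ 𝐍(V)) (hv : v ∈ V) :
    br V g * io V v * (br V g)⁻¹ = io V (g * v * g⁻¹) := by
  rw [br_of hg, io_of hv, io_of (conj_mem_of_norm hg hv)]
  have := SemidirectProduct.inl_aut (φ := MonoidHom.id (MulAut V))
    (V.normalizerMonoidHom ⟨g, hg⟩) ⟨v, hv⟩
  rw [map_inv] at this
  exact this.symm

theorem io_comm (hg : g ∈ 𝐍(V)) (hv : v ∈ V) : ⁅io V v, br V g⁆ = io V ⁅v, g⁆ := by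
  rw [commutatorElement_def, commutatorElement_def, mul_assoc v, mul_assoc v,
    io_mul hv (conj_mem_of_norm hg (inv_mem hv)), ← br_io hg (inv_mem hv), io_inv hv]
  group

theorem io_cent1 (hg : g ∈ 𝐍(V)) (hv : v ∈ V) : io V v ∈ 𝐂[br V g] ↔ v ∈ 𝐂[g] := by
  rw [mem_cent1, mem_cent1, eq_comm, ← mul_inv_eq_iff_eq_mul, br_io hg hv,
    io_inj (conj_mem_of_norm hg hv) hv, mul_inv_eq_iff_eq_mul, eq_comm]

theorem act_eq (V K : Subgroup G) : act V K = (K.subgroupOf 𝐍(V)).map (be V) := map_map _ _ _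

theorem mem_act : x ∈ act V K ↔ ∃ g ∈ K, g ∈ 𝐍(V) ∧ br V g = x := by
  rw [act_eq]
  exact ⟨fun ⟨g, hg, e⟩ => ⟨g, hg, g.2, (br_of g.2).trans e⟩,
    fun ⟨g, hg, hn, e⟩ => ⟨⟨g, hn⟩, hg, (br_of hn).symm.trans e⟩⟩

theorem br_mem_act (hn : g ∈ 𝐍(V)) (hg : g ∈ K) : br V g ∈ act V K := mem_act.2 ⟨g, hg, hn, rfl⟩

theorem mem_pre : g ∈ pre V L ↔ g ∈ 𝐍(V) ∧ br V g ∈ L :=
  ⟨fun ⟨a, ha, e⟩ => e ▸ ⟨a.2, (br_of a.2).symm ▸ ha⟩,
    fun ⟨hn, e⟩ => ⟨⟨g, hn⟩, (br_of hn ▸ e :), rfl⟩⟩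

theorem pre_le : pre V L ≤ 𝐍(V) := fun _ h => (mem_pre.1 h).1

theorem ker_be : (be V).ker = (𝐂(V)).subgroupOf 𝐍(V) := by
  rw [← normalizerMonoidHom_ker]
  ext a
  exact map_eq_one_iff _ SemidirectProduct.inr_injective

theorem br_eq_one (hg : g ∈ 𝐍(V)) : br V g = 1 ↔ g ∈ 𝐂(V) := by
  rw [br_of hg, ← MonoidHom.mem_ker, ker_be, mem_subgroupOf]

theorem br_eq_iff (hg : g ∈ 𝐍(V)) (hh : h ∈ 𝐍(V)) : br V g = br V h ↔ g⁻¹ * h ∈ 𝐂(V) := by
  rw [← br_eq_one (mul_mem (inv_mem hg) hh), br_mul (inv_mem hg) hh, br_inv hg, inv_mul_eq_one]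

theorem cent_le_pre : 𝐂(V) ≤ pre V L := fun _ h =>
  mem_pre.2 ⟨cent_le_norm V h, (br_eq_one (cent_le_norm V h)).2 h ▸ L.one_mem⟩

theorem pre_bot : pre V ⊥ = 𝐂(V) :=
  le_antisymm (fun _ h => (br_eq_one (pre_le h)).1 (mem_pre.1 h).2) cent_le_pre

theorem pre_mono {L' : Subgroup (Hol V)} (h : L ≤ L') : pre V L ≤ pre V L' :=
  map_mono (comap_mono h)

theorem act_mono (h : K ≤ U) : act V K ≤ act V U := by
  rw [act_eq, act_eq]; exact map_mono (comap_mono h)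

theorem act_sup (hK : K ≤ 𝐍(V)) (hU : U ≤ 𝐍(V)) : act V (K ⊔ U) = act V K ⊔ act V U := by
  rw [act_eq, act_eq, act_eq, ← Subgroup.map_sup, subgroupOf_sup hK hU]

theorem act_le_iff (hK : K ≤ 𝐍(V)) : act V K ≤ L ↔ K ≤ pre V L :=
  ⟨fun h _ hg => mem_pre.2 ⟨hK hg, h (br_mem_act (hK hg) hg)⟩, fun h _ hx => by
    obtain ⟨g, hg, -, rfl⟩ := mem_act.1 hx
    exact (mem_pre.1 (h hg)).2⟩

theorem act_inf_pre (h : L ≤ act V K) : act V (K ⊓ pre V L) = L :=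
  le_antisymm ((act_le_iff (inf_le_right.trans pre_le)).2 inf_le_right) fun x hx => by
    obtain ⟨g, hg, hn, rfl⟩ := mem_act.1 (h hx)
    exact br_mem_act hn ⟨hg, mem_pre.2 ⟨hn, hx⟩⟩

theorem act_eq_bot (hK : K ≤ 𝐍(V)) : act V K = ⊥ ↔ K ≤ 𝐂(V) := by
  rw [← le_bot_iff, act_le_iff hK, pre_bot]

theorem act_conj (hg : g ∈ 𝐍(V)) (K : Subgroup G) : act V (g ⋆ K) = br V g ⋆ act V K := by
  ext x
  rw [mem_conj', mem_act]
  constructor
  · rintro ⟨a, ha, hn, rfl⟩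
    obtain ⟨b, hb, rfl⟩ := mem_conj'.1 ha
    have : b ∈ 𝐍(V) := by simpa [mul_assoc] using mul_mem (mul_mem (inv_mem hg) hn) hg
    exact ⟨_, br_mem_act this hb, br_conj hg this⟩
  · rintro ⟨_, hy, rfl⟩
    obtain ⟨b, hb, hn, rfl⟩ := mem_act.1 hy
    exact ⟨_, conj_mem_conj g hb, mul_mem (mul_mem hg hn) (inv_mem hg), br_conj hg hn⟩

theorem act_le_norm (h : K ≤ 𝐍(U)) : act V K ≤ 𝐍(act V U) := fun x hx => by
  obtain ⟨g, hg, hn, rfl⟩ := mem_act.1 hx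
  rw [← conj_eq_self_iff, ← act_conj hn, conj_of_mem_norm (h hg)]

theorem le_norm_pre (hK : K ≤ 𝐍(V)) (h : act V K ≤ 𝐍(L)) : K ≤ 𝐍(pre V L) :=
  le_norm_iff.2 fun a ha y hy => by
    obtain ⟨hn, e⟩ := mem_pre.1 hy
    refine mem_pre.2 ⟨mul_mem (mul_mem (hK ha) hn) (inv_mem (hK ha)), ?_⟩
    rw [br_conj (hK ha) hn]
    exact (mem_normalizer_iff.1 (h (br_mem_act (hK ha) ha)) _).1 e

theorem act_le_cent (hK : K ≤ 𝐍(V)) (hU : U ≤ 𝐍(V)) :
    act V K ≤ 𝐂(act V U) ↔ ⁅K, U⁆ ≤ 𝐂(V) := by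
  rw [commutator_le]
  constructor
  · intro h a ha b hb
    rw [← br_eq_one (comm_le_of_le hK hU (commutator_mem_commutator ha hb)),
      br_comm (hK ha) (hU hb), commutatorElement_eq_one_iff_mul_comm]
    exact (mem_cent.1 (h (br_mem_act (hK ha) ha)) _ (br_mem_act (hU hb) hb)).symm
  · intro h x hx
    obtain ⟨a, ha, -, rfl⟩ := mem_act.1 hx
    refine mem_cent.2 fun y hy => ?_
    obtain ⟨b, hb, -, rfl⟩ := mem_act.1 hy
    rw [eq_comm, ← commutatorElement_eq_one_iff_mul_comm, ← br_comm (hK ha) (hU hb),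
      br_eq_one (comm_le_of_le hK hU (commutator_mem_commutator ha hb))]
    exact h a ha b hb

theorem sq_act (h : Sq K) : Sq (act V K) := fun x hx => by
  obtain ⟨a, ha, hn, rfl⟩ := mem_act.1 hx
  rw [← br_mul hn hn, h a ha, br_one]

theorem card_act (hK : K ≤ 𝐍(V)) : #|act V K| * #|K ⊓ 𝐂(V)| = #|K| := by
  rw [act_eq, ← H1.card_subgroupOf_of_le hK, ← card_map_mul_card_inf_ker (be V), ker_be,
    ← H1.card_subgroupOf_of_le (inf_le_left.trans hK : K ⊓ 𝐂(V) ≤ _), inf_comm]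
  rfl

theorem io_cent (hK : K ≤ 𝐍(V)) (hv : v ∈ V) : io V v ∈ 𝐂(act V K) ↔ v ∈ 𝐂(K) := by
  rw [mem_cent, mem_cent]
  constructor
  · intro h a ha
    exact (mem_cent1.1 ((io_cent1 (hK ha) hv).1
      (mem_cent1.2 (h _ (br_mem_act (hK ha) ha)).symm))).symm
  · intro h x hx
    obtain ⟨a, ha, hn, rfl⟩ := mem_act.1 hx
    exact (mem_cent1.1 ((io_cent1 hn hv).2 (mem_cent1.2 (h a ha).symm))).symm

theorem fix_eq (hK : K ≤ 𝐍(V)) : inV V ⊓ 𝐂(act V K) =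
    ((V ⊓ 𝐂(K)).subgroupOf V).map (SemidirectProduct.inl : V →* Hol V) := by
  ext x
  constructor
  · rintro ⟨h1, h2⟩
    obtain ⟨v, hv, rfl⟩ := mem_inV.1 h1
    exact ⟨⟨v, hv⟩, ⟨hv, (io_cent hK hv).1 h2⟩, (io_of hv).symm⟩
  · rintro ⟨v, hv, rfl⟩
    rw [← io_of v.2]
    exact ⟨io_mem v.2, (io_cent hK v.2).2 hv.2⟩

theorem card_fix (hK : K ≤ 𝐍(V)) : #|inV V ⊓ 𝐂(act V K)| = #|V ⊓ 𝐂(K)| := by
  rw [fix_eq hK, card_map_inj SemidirectProduct.inl_injective, H1.card_subgroupOf_of_le inf_le_left]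

theorem card_inV (V : Subgroup G) : #|inV V| = #|V| := by
  rw [inV, MonoidHom.range_eq_map, card_map_inj SemidirectProduct.inl_injective, card_top]

theorem le_cent_fix (hK : K ≤ 𝐍(V)) (hU : U ≤ 𝐍(V)) :
    act V U ≤ 𝐂(inV V ⊓ 𝐂(act V K)) ↔ U ≤ 𝐂(V ⊓ 𝐂(K)) := by
  rw [le_cent_comm, le_cent_comm (A := U)]
  constructor
  · intro h v hv
    exact (io_cent hU hv.1).1 (h ⟨io_mem hv.1, (io_cent hK hv.1).2 hv.2⟩)
  · rintro h x ⟨h1, h2⟩
    obtain ⟨v, hv, rfl⟩ := mem_inV.1 h1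
    exact (io_cent hU hv).2 (h ⟨hv, (io_cent hK hv).1 h2⟩)

theorem comm_le_cent (hK : K ≤ 𝐍(V)) (hU : U ≤ 𝐍(V)) :
    ⁅inV V, act V K⁆ ≤ 𝐂(act V U) ↔ ⁅V, K⁆ ≤ 𝐂(U) := by
  rw [commutator_le, commutator_le]
  constructor
  · intro h v hv a ha
    rw [← io_cent hU (comm_mem_of_norm (hK ha) hv), ← io_comm (hK ha) hv]
    exact h _ (io_mem hv) _ (br_mem_act (hK ha) ha)
  · intro h x hx y hy
    obtain ⟨v, hv, rfl⟩ := mem_inV.1 hx
    obtain ⟨a, ha, hn, rfl⟩ := mem_act.1 hy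
    rw [io_comm hn hv, io_cent hU (comm_mem_of_norm hn hv)]
    exact h v hv a ha

theorem md_act (h : Sq V) (K : Subgroup G) : Md (inV V) (act V K) where
  nrm := by rw [inV, SemidirectProduct.range_inl_eq_ker_rightHom]; infer_instance
  sq x hx := by
    obtain ⟨v, hv, rfl⟩ := mem_inV.1 hx
    rw [← io_mul hv hv, h v hv, io_of V.one_mem]
    exact map_one (SemidirectProduct.inl : V →* Hol V)
  faith := eq_bot_iff.2 fun x ⟨h1, h2⟩ => by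
    obtain ⟨a, -, hn, rfl⟩ := mem_act.1 h1
    exact (br_eq_one hn).2 (mem_cent.2 fun v hv =>
      mem_cent1.1 ((io_cent1 hn hv).1 (mem_cent1.2 (mem_cent.1 h2 _ (io_mem hv)))))

variable [Finite G]

theorem syl_act (h : IsSylowIn 2 T P) (hP : P ≤ 𝐍(V)) : IsSylowIn 2 (act V T) (act V P) := by
  rw [act_eq, act_eq]
  exact (h.comap_of_injective _ (𝐍(V)).subtype_injective
    (by rw [range_subtype]; exact h.le.trans hP)).map _

theorem syl_pre (h : IsSylowIn 2 T P) (hP : P ≤ 𝐍(V)) (hL : L ≤ act V T) :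
    IsSylowIn 2 (T ⊓ pre V L) (P ⊓ pre V L) := by
  have h1 := card_act (inf_le_right.trans pre_le : T ⊓ pre V L ≤ _)
  have h2 := card_act (inf_le_right.trans pre_le : P ⊓ pre V L ≤ _)
  rw [act_inf_pre hL, inf_assoc, inf_eq_right.2 cent_le_pre] at h1
  rw [act_inf_pre (hL.trans (act_mono h.le)), inf_assoc, inf_eq_right.2 cent_le_pre] at h2
  have h3 := h.inf_of_normalized (le_norm_cent hP)
  have h4 := card_mul_relIndex_of_le h3.le
  have h5 := card_mul_relIndex_of_le (inf_le_inf_right (pre V L) h.le)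
  refine isSylowIn_of_not_dvd_relIndex (inf_le_inf_right _ h.le)
    (IsPGroup.le' h.isPGroup inf_le_left) ?_
  rw [← h1, ← h2, ← h4, mul_assoc] at h5
  rw [Nat.eq_of_mul_eq_mul_left Nat.card_pos (Nat.eq_of_mul_eq_mul_left Nat.card_pos h5)]
  exact h3.not_dvd_relIndex

/-- a strongly closed abelian subgroup of a Sylow subgroup -/
theorem sci_of_closed {H Z : Subgroup G} (h : IsSylowIn 2 T H) (h1 : Z ≤ T) (h2 : Z ≤ 𝐂(Z))
    (h3 : ∀ e ∈ Z, ∀ g ∈ H, g * e * g⁻¹ ∈ T → g * e * g⁻¹ ∈ Z) : SCI H Z where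
  le := h1.trans h.le
  two := IsPGroup.le' h.isPGroup h1
  comm := h2
  mem e he g hg hn := by
    have n1 : T ≤ 𝐍(Z) := le_norm_iff.2 fun a ha x hx =>
      h3 x hx a (h.le ha) (mul_mem (mul_mem ha (h1 hx)) (inv_mem ha))
    have p1 : IsPGroup 2 (zpowers (g * e * g⁻¹)) := by
      rw [← conj_zpowers]
      exact pgroup_conj (zpowers_two_of_mem h.isPGroup (h1 he)) g
    obtain ⟨k, hk, e1⟩ := (h.of_le (le_inf h.le n1) inf_le_left).exists_conj_mem p1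
      (zpowers_le.2 ⟨H.mul_mem (H.mul_mem hg (h.le (h1 he))) (H.inv_mem hg), hn⟩)
    refine (mem_normalizer_iff.1 hk.2 _).2 ?_
    have := h3 e he (k * g) (mul_mem hk.1 hg)
    rw [show k * g * e * (k * g)⁻¹ = k * (g * e * g⁻¹) * k⁻¹ by group] at this
    exact this (e1 _ (mem_zpowers _))

/-- strong closure passes to the image -/
theorem closed_act {C : Subgroup G} (h : IsSylowIn 2 T P) (hP : P ≤ 𝐍(V)) (h1 : C ≤ T)
    (h3 : ∀ e ∈ C, ∀ g ∈ P, g * e * g⁻¹ ∈ T → g * e * g⁻¹ ∈ C) :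
    ∀ e ∈ act V C, ∀ g ∈ act V P, g * e * g⁻¹ ∈ act V T → g * e * g⁻¹ ∈ act V C := by
  intro e he g hg ht
  obtain ⟨c, hc, cn, rfl⟩ := mem_act.1 he
  obtain ⟨p, hp, pn, rfl⟩ := mem_act.1 hg
  rw [← br_conj pn cn] at ht ⊢
  have yP : p * c * p⁻¹ ∈ P := mul_mem (mul_mem hp (h.le (h1 hc))) (inv_mem hp)
  have p1 : IsPGroup 2 (zpowers (p * c * p⁻¹)) := by
    rw [← conj_zpowers]
    exact pgroup_conj (zpowers_two_of_mem h.isPGroup (h1 hc)) p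
  obtain ⟨k, hk, e1⟩ := (syl_pre h hP (zpowers_le.2 ht)).exists_conj_mem p1
    (zpowers_le.2 ⟨yP, mem_pre.2 ⟨hP yP, mem_zpowers _⟩⟩)
  have := h3 c hc (k * p) (mul_mem hk.1 hp)
  rw [show k * p * c * (k * p)⁻¹ = k * (p * c * p⁻¹) * k⁻¹ by group] at this
  have e2 := br_mem_act (mul_mem (mul_mem (hP hk.1) (hP yP)) (inv_mem (hP hk.1)))
    (this (e1 _ (mem_zpowers _)).1)
  rwa [br_conj (hP hk.1) (hP yP), mem_cent1.1 (zpowers_le_cent1 _ (mem_pre.1 hk.2).2),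
    mul_inv_cancel_right] at e2

theorem ser_act (h : IsSylowIn 2 T P) (hP : P ≤ 𝐍(V)) (hs : Ser T P) :
    Ser (act V T) (act V P) := by
  obtain ⟨n, C, h0, hn, h1, h2, h3⟩ := hs
  refine ⟨n, fun i => act V (C i), ?_, congrArg _ hn, fun i => act_mono (h1 i), fun i => ?_,
    fun i => closed_act h hP (h1 i) (h3 i)⟩
  · exact (congrArg _ h0).trans ((act_eq_bot bot_le).2 bot_le)
  · refine commutator_le.2 fun x hx y hy => ?_
    obtain ⟨a, ha, an, rfl⟩ := mem_act.1 hx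
    obtain ⟨b, hb, bn, rfl⟩ := mem_act.1 hy
    rw [← br_comm an bn]
    exact br_mem_act (comm_le_of_le le_rfl le_rfl (commutator_mem_commutator an bn))
      (h2 i (commutator_mem_commutator ha hb))

theorem ser_sci {H : Subgroup G} (h : IsSylowIn 2 T H) (hs : Ser T H) (h1 : T ≠ ⊥) :
    ∃ Z, Z ≠ ⊥ ∧ Z ≤ T ∧ SCI H Z := by
  classical
  obtain ⟨n, C, h0, hn, h1', h2, h3⟩ := hs
  have ex : ∃ i, C i ≠ ⊥ := ⟨n, hn ▸ h1⟩
  obtain ⟨i, hi⟩ := Nat.exists_eq_succ_of_ne_zero (n := Nat.find ex) fun e =>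
    (e ▸ Nat.find_spec ex :) h0
  have hz : C i = ⊥ := not_not.1 (Nat.find_min ex (by omega))
  refine ⟨C (i + 1), (hi ▸ Nat.find_spec ex :), h1' _, sci_of_closed h (h1' _) ?_ (h3 _)⟩
  exact comm_eq_bot_iff.1 (le_bot_iff.1 (hz ▸ h2 i))

end Cfsg.Agent.Pu.Gt
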