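import Cfsg.Agent.Pu.S4
import Cfsg.Agent.Pu.B1

/-! S5175: assembly of the slices. -/

set_option autoImplicit false

universe u

namespace Cfsg.Agent.Pu

open Subgroup Cfsg Cfsg.Fus Cfsg.FusionSystem Cfsg.Agent.H1 Cfsg.Agent.L Cfsg.Agent.FT Equiv
  Cfsg.Agent.St
open scoped Pointwise commutatorElement

variable {Ω : Type u} [Group Ω] {S : Subgroup Ω} {F N : FusionSystem S} {T V₁ V₂ : Subgroup Ω}
  {K : Type} [Field K] [CharP K 2]

theorem add_one' {f : K → Ω} (h : ∀ a b, f (a + b) = f a * f b) : f 0 = 1 := by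
  simpa using h 0 0

theorem add_sq' {f : K → Ω} (h : ∀ a b, f (a + b) = f a * f b) (a : K) : f a * f a = 1 := by
  rw [← h, CharTwo.add_self_eq_zero, add_one' h]

theorem Crd.XW_comm (c : Crd F T V₁ V₂ K) (x z : K) : c.W z * c.X x = c.X x * c.W z :=
  c.X_cent x _ ((c.mem_T _).2 ⟨0, 0, 0, z, by
    rw [add_one' c.Y_add, add_one' c.U_add, add_one' c.X_add]; simp⟩)

theorem Crd.XW_eq (c : Crd F T V₁ V₂ K) {x z x' z' : K} (h : c.X x * c.W z = c.X x' * c.W z') :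
    c.X (x + x') * c.W (z + z') = 1 := by
  rw [c.X_add, add_comm z, c.W_add, mul_assoc, ← mul_assoc (c.X x'), ← h, mul_assoc,
    add_sq' c.W_add, mul_one, add_sq' c.X_add]

theorem Crd.X_inj (c : Crd F T V₁ V₂ K) {x z x' z' : K} (h : c.X x * c.W z = c.X x' * c.W z') :
    x = x' := by
  have := (c.inj 0 0 _ _ (by
    rw [add_one' c.Y_add, add_one' c.U_add, one_mul, one_mul]; exact c.XW_eq h)).2.2
  rwa [CharTwo.add_eq_zero] at this

theorem Crd.mem_Z (c : Crd F T V₁ V₂ K) {g : Ω} : g ∈ V₁ ⊓ V₂ ↔ ∃ x z, g = c.X x * c.W z := by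
  refine ⟨fun ⟨a, b⟩ => ?_, ?_⟩
  · obtain ⟨y, x, z, e⟩ := (c.mem_V₁ g).1 a
    obtain ⟨u, x', z', e'⟩ := (c.mem_V₂ g).1 b
    have h0 : c.U u ∈ T := (c.mem_T _).2 ⟨0, u, 0, 0, by
      rw [add_one' c.Y_add, add_one' c.W_add, add_one' c.X_add]; simp⟩
    have h1 : c.Y y * c.U u * c.X (x + x') * c.W (z + z') = 1 := by
      have h2 : c.U u * (c.X x * c.W z) = c.X x * c.W z * c.U u :=
        mul_mem (c.X_cent x) (c.W_cent z) _ h0
      have h3 : g * g = 1 := by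
        rw [e', mul_assoc (c.U u), mul_assoc, ← mul_assoc (c.X x' * c.W z'),
          ← mul_mem (c.X_cent x') (c.W_cent z') _ h0, mul_assoc, ← mul_assoc, add_sq' c.U_add,
          one_mul, mul_assoc, ← mul_assoc (c.W z'), c.XW_comm, mul_assoc, add_sq' c.W_add, mul_one,
          add_sq' c.X_add]
      rw [c.X_add, c.W_add, ← h3]
      nth_rw 1 [e]
      rw [e']
      calc _ = c.Y y * (c.U u * (c.X x * (c.X x' * c.W z) * c.W z')) := by group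
        _ = c.Y y * (c.U u * (c.X x * c.W z)) * c.X x' * c.W z' := by rw [← c.XW_comm]; group
        _ = _ := by rw [h2]; group
    exact ⟨x, z, by rw [e, (c.inj _ _ _ _ h1).1, add_one' c.Y_add, one_mul]⟩
  · rintro ⟨x, z, rfl⟩
    exact ⟨(c.mem_V₁ _).2 ⟨0, x, z, by rw [add_one' c.Y_add, one_mul]⟩,
      (c.mem_V₂ _).2 ⟨0, x, z, by rw [add_one' c.U_add, one_mul]⟩⟩

theorem Crd.comm_t (c : Crd F T V₁ V₂ K) (x : K) : ⁅c.X x, c.t⁆ = c.X x * (c.t * c.X x * c.t) := by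
  rw [commutatorElement_def, inv_eq_of_mul_eq_one_right c.tt,
    inv_eq_of_mul_eq_one_right (add_sq' c.X_add x)]; group

theorem Crd.fr (c : Crd F T V₁ V₂ K) (h : c.L3 ∨ c.S4) : c.t ∈ 𝐂((V₁ ⊓ V₂ : Subgroup Ω)) ∨
    ∀ z ∈ V₁ ⊓ V₂, c.t * z = z * c.t → ∃ y ∈ V₁ ⊓ V₂, z = ⁅y, c.t⁆ := by
  have w0 := add_one' c.W_add
  have k : ∀ z, c.t * z = z * c.t ↔ c.t * z * c.t = z := fun z => by
    rw [← mul_left_inj c.t, mul_assoc z, c.tt, mul_one]
  have hX : ∀ x, c.X x ∈ V₁ ⊓ V₂ := fun x => c.mem_Z.2 ⟨x, 0, by rw [w0, mul_one]⟩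
  rcases h with h | h
  · by_cases h1 : ∀ a, c.φ a = a
    · refine Or.inl fun z hz => ?_
      obtain ⟨x, w, rfl⟩ := c.mem_Z.1 hz
      rw [h.W, mul_one, eq_comm, k, h.tX, h1]
    refine Or.inr fun z hz e => ?_
    obtain ⟨x, w, rfl⟩ := c.mem_Z.1 hz
    rw [h.W, mul_one] at e ⊢
    rw [k, h.tX] at e
    have e' : c.φ x = x := c.X_inj (z := 0) (z' := 0) (by rw [e])
    obtain ⟨a, ha⟩ := not_forall.1 h1
    have h2 : a + c.φ a ≠ 0 := fun e => ha (CharTwo.add_eq_zero.1 e).symm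
    refine ⟨_, hX (a / (a + c.φ a) * x), ?_⟩
    rw [c.comm_t, h.tX, ← c.X_add, map_mul, map_div₀, map_add, h.φφ, e', add_comm (c.φ a),
      ← add_mul, ← add_div, div_self h2, one_mul]
  · refine Or.inr fun z hz e => ?_
    obtain ⟨x, w, rfl⟩ := c.mem_Z.1 hz
    obtain ⟨w, rfl⟩ := c.φ.surjective w
    have h1 : c.t * c.W (c.φ w) * c.t = c.X w := by
      rw [← h.tX, ← mul_assoc, ← mul_assoc, c.tt, one_mul, mul_assoc, c.tt, mul_one]
    have h2 : c.X w * c.W (c.φ x) = c.X x * c.W (c.φ w) := by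
      rw [← (k _).1 e, ← c.XW_comm, ← h1, ← h.tX]
      calc _ = c.t * c.X x * (c.t * c.t) * c.W (c.φ w) * c.t := by group
        _ = _ := by rw [c.tt]; group
    exact ⟨_, hX x, by rw [c.comm_t, h.tX, c.X_inj h2]⟩

theorem Crd.card_Z [Fintype K] (c : Crd F T V₁ V₂ K) (h : c.L3 ∨ c.S4) (h4 : 4 ≤ Fintype.card K)
    (hZ : #|(V₁ ⊓ V₂ : Subgroup Ω)| = 4) : c.L3 ∧ Fintype.card K = 4 := by
  haveI : Finite (V₁ ⊓ V₂ : Subgroup Ω) := Nat.finite_of_card_ne_zero (by omega)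
  have h1 := Nat.card_le_card_of_injective (fun x : K => (⟨c.X x * c.W 0,
    c.mem_Z.2 ⟨_, _, rfl⟩⟩ : (V₁ ⊓ V₂ : Subgroup Ω))) fun a b e => c.X_inj (Subtype.ext_iff.1 e)
  rw [Nat.card_eq_fintype_card] at h1
  refine ⟨h.resolve_right fun h => ?_, by omega⟩
  have h2 := Nat.card_le_card_of_injective (fun x : K × K => (⟨c.X x.1 * c.W x.2,
    c.mem_Z.2 ⟨_, _, rfl⟩⟩ : (V₁ ⊓ V₂ : Subgroup Ω))) fun a b e => Prod.ext
      (c.X_inj (Subtype.ext_iff.1 e))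
      (CharTwo.add_eq_zero.1 (h.W _ _ (c.XW_eq (Subtype.ext_iff.1 e))))
  rw [Nat.card_prod, Nat.card_eq_fintype_card] at h2
  nlinarith

theorem Mem.two_or {G : Type*} [Group G] {V A : Subgroup G} {q : ℕ} (h : Mem V q A) :
    q = 2 ∨ 4 ≤ q := by
  haveI : Fact (Nat.Prime 2) := ⟨Nat.prime_two⟩
  have := h.one_lt
  haveI : Finite A := Nat.finite_of_card_ne_zero (by rw [h.card]; omega)
  obtain ⟨n, hn⟩ := h.sq.two.exists_card_eq
  rw [h.card] at hn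
  rcases n with _ | _ | n
  · omega
  · exact Or.inl hn
  · right; rw [hn, pow_succ, pow_succ]; have := Nat.one_le_two_pow (n := n); omega

theorem Dat.concl [Finite Ω] [TB.{u}] [CM.{u}] [ES.{u}] [G1.{u}] [G2.{u}] [G3.{u}] [G4.{u}] [G5.{u}]
    (h : H0 F N) (m : AllMod F) {t : Ω} {q : ℕ} {ℓ : Set (Subgroup (Hol V₁))} {L : Subgroup (Hol V₁)}
    (d : Dat F T V₁ V₂ t q ℓ L) : Concl F := by
  rcases TB.main d fun U a b => serN h.sat h.two h.min a b with ⟨a, b, c⟩ | ⟨t', d2⟩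
  · exact G1.main h.two h.sat h.core h.min d.fn.1 a d.cen b c
  rcases (d.line.mem _ d.mem).two_or with rfl | h4
  · exact G2.main d2
  obtain ⟨G, m⟩ := m T (fun e => d.ne ((eq_bot_iff.2 (d.le₁.trans e.le)).trans
    (eq_bot_iff.2 (d.le₂.trans e.le)).symm)) d2.fnT
  obtain ⟨K, _, _, _, c, rfl, d3, k⟩ := CM.main d2 h4 m
  by_cases hE : ∃ E, F.IsEssential 2 E ∧ Exc F T (V₁ ⊓ V₂) c.t E
  · obtain ⟨E, a, b⟩ := hE
    obtain ⟨l, e⟩ := c.card_Z k h4 b.1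
    exact G3.main c e (e ▸ d3) l a b
  have ne : NE F T V₁ V₂ := fun E a => by
    rcases ES.main d3 (c.fr k) E a with b | b | b | b
    exacts [Or.inl b, Or.inr (Or.inl b), Or.inr (Or.inr b), absurd ⟨E, a, b⟩ hE]
  exact k.elim (fun l => G4.main c h4 rfl d3 l ne) fun l => G5.main c h4 rfl d3 l ne

theorem main [Finite S] [GT.{u}] [TB.{u}] [CM.{u}] [ES.{u}] [G1.{u}] [G2.{u}] [G3.{u}] [G4.{u}]
    [G5.{u}] (hS : IsPGroup 2 S) (hF : F.IsSaturated 2) (hO : F.core = ⊥) (hmin : HMin F)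
    (hNsat : N.IsSaturated 2) (hNle : N ≤ F) (hNne : N ≠ F)
    (hpar : ∀ R : Subgroup Ω, R ≠ ⊥ → R ≤ S → S ≤ Subgroup.normalizer (R : Set Ω) →
      (∀ P : Subgroup Ω, F.normalizerHom S P ⊆ F.normalizerHom R P) →
      ∀ P : Subgroup Ω, F.normalizerHom R P ⊆ N.Hom P) : Concl F := by
  have h : H0 F N := ⟨hS, hF, hO, hmin, hNsat, hNle, fun R a b c P f hf => by
    have hn : S ≤ 𝐍(R) := le_norm_of_conj fun s hs y hy => by
      obtain ⟨x, hx, rfl⟩ := mem_conj'.1 hy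
      exact c _ (F.iso_cj le_rfl hs (le_normalizer hs)) x hx
    refine (mem_hom_iff_of_rep (φ := hf.isMap.homOn.toHom) fun _ => rfl).1 (hpar R b a hn
      (fun P φ hφ => ?_) P ((mem_normalizerHom_iff_nMap fun _ => rfl).2 hf))
    rw [mem_normalizerHom_iff_nMap fun x => (extFun_coe φ x).symm] at hφ ⊢
    obtain ⟨h1, σ, h2, h3, h4⟩ := nMap_iff_perm.1 hφ
    have h5 := h2.mono le_sup_right
    exact ⟨le_inf (h1.trans inf_le_left) (h1.trans (inf_le_left.trans hn)), σ,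
      h5.mono (sup_le (h1.trans inf_le_left) a), h3,
      (h5.mono a).img_eq_self (c σ (h5.iso_self fun x hx => h5.mem hx))⟩⟩
  obtain ⟨Ω', _, _, S', F', N', θ, θ', a, b, m, T, V₁, V₂, t, q, ℓ, L, d⟩ := h.dat hNne
  exact (d.concl b m).of_transp a

end Cfsg.Agent.Pu
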