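import Cfsg.Agent.Pu.C1
import Cfsg.Agent.Pu.S5
import Cfsg.Agent.Pu.G2

/-! S5175, slice CO: the complement `Λ` and the frame inside the ambient group. -/

set_option autoImplicit false

universe u

namespace Cfsg.Agent.Pu

open Subgroup Cfsg Cfsg.Fus Cfsg.FusionSystem Cfsg.Agent.H1 Cfsg.Agent.L Cfsg.Agent.FT
  Cfsg.Agent.Sg Cfsg.Agent.St Equiv
open scoped Pointwise commutatorElement

variable {Ω : Type u} [Group Ω] [Finite Ω] {S : Subgroup Ω} {F : FusionSystem S}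
  {T V₁ V₂ G Λ : Subgroup Ω} {t t₀ g : Ω} {q : ℕ} {ℓ : Set (Subgroup (Hol V₁))}
  {L : Subgroup (Hol V₁)}

/-- `Λ` is a complement to `T` in `N_G(V₁)` normalised by `t` -/
structure Cpl (S T V₁ G Λ : Subgroup Ω) (t : Ω) : Prop where
  le : Λ ≤ G ⊓ 𝐍(V₁)
  odd : Odd #|Λ|
  tS : t ∈ S
  tT : t ∉ T
  tn : t ∈ 𝐍(Λ)
  dec0 : ∀ g ∈ G ⊓ 𝐍(V₁), ∃ s ∈ T, ∃ l ∈ Λ, s * l = g
  dec : ∀ g ∈ G, ∃ s ∈ S, ∃ l ∈ Λ, s * l = g
  cen : Λ ⊓ 𝐂(T) ≤ ⊥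

omit [Finite Ω] in
theorem Dat2.nIn (d : Dat2 F T V₁ V₂ t₀ q ℓ L) : normalizerIn S T = S := inf_eq_left.2 d.nT

theorem Dat2.exists_cpl (d : Dat2 F T V₁ V₂ t₀ q ℓ L) (m : Mod F T G) :
    ∃ Λ t, Cpl S T V₁ G Λ t := by
  haveI : Fact (Nat.Prime 2) := ⟨Nat.prime_two⟩
  have syl := m.syl
  rw [d.nIn] at syl
  have e : G ⊓ 𝐍(V₂) = G ⊓ 𝐍(V₁) := by
    ext g
    refine and_congr_right fun hg => ?_
    have n := d.ne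
    rcases d.toDat.conj_or (m.nrm hg) with a | a <;>
      simp [← conj_eq_self_iff, a, n, n.symm]
  have n0 : G ≤ 𝐍((G ⊓ 𝐍(V₁) : Subgroup Ω)) := fun g hg => conj_eq_self_iff.1 (by
    rw [conj_inf, conj_of_mem hg, conj_norm]
    rcases d.toDat.conj_or (m.nrm hg) with a | a <;> rw [a.1]
    exact e)
  have s0 := syl.inf_of_normalized n0
  rw [← inf_assoc, inf_eq_left.2 syl.le, d.nV, ← inf_assoc, inf_idem] at s0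
  have o : Odd (T.relIndex (G ⊓ 𝐍(V₁))) :=
    Nat.not_even_iff_odd.1 fun h => s0.not_dvd_relIndex h.two_dvd
  obtain ⟨n, hn⟩ := pgroup_card Nat.prime_two s0.isPGroup
  have nT := inf_le_left.trans m.nrm (a := G ⊓ 𝐍(V₁))
  obtain ⟨Λ, a, b, -, c⟩ := exists_complement_rel s0.le nT
    (by rw [hn]; exact (Nat.coprime_two_left.2 o).pow_left n)
  rw [← c] at o
  obtain ⟨k, hk, h⟩ := exists_conj_le_of_le_sup (K := t₀ ⋆ Λ) (a.trans nT)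
    (b ▸ conj_le_of_mem_norm (n0 (syl.le d.tS)) a) (cop_two s0.isPGroup o).symm
    (by rw [card_conj]; exact (cop_two s0.isPGroup o).symm)
    (Or.inl (sol_of_pgroup Nat.prime_two s0.isPGroup))
  have d0 : ∀ g ∈ G ⊓ 𝐍(V₁), ∃ s ∈ T, ∃ l ∈ Λ, s * l = g := fun g hg =>
    ((NormalIn.mk s0.le nT).mem_sup a).1 (by rwa [sup_comm, b])
  refine ⟨Λ, k * t₀, a, o, mul_mem (d.toDat.TS hk) d.tS, fun h => d.toDat.t_not
    ((mul_mem_cancel_left hk).1 h), mem_norm_of_conj_le (by rwa [mul_conj]), d0, fun g hg => ?_, ?_⟩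
  · rcases d.toDat.conj_or (m.nrm hg) with h | h
    · obtain ⟨s, x, y⟩ := d0 g ⟨hg, conj_eq_self_iff.1 h.1⟩
      exact ⟨s, d.toDat.TS x, y⟩
    · obtain ⟨s, x, l, y, z⟩ := d0 (t₀ * g) ⟨mul_mem (syl.le d.tS) hg,
        conj_eq_self_iff.1 (by rw [mul_conj, h.1, d.toDat.sw'])⟩
      exact ⟨t₀⁻¹ * s, mul_mem (inv_mem d.tS) (d.toDat.TS x), l, y, by rw [mul_assoc, z]; group⟩
  · have hG : Λ ⊓ 𝐂(T) ≤ G := inf_le_left.trans (a.trans inf_le_left)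
    have o' := odd_of_le o (inf_le_left : Λ ⊓ 𝐂(T) ≤ Λ)
    have p2 := core_pgroup Nat.prime_two G
    have nO := hG.trans (core_normal {2} G).norm
    rw [← inf_eq_bot_of_two p2 o']
    refine le_inf le_rfl ((le_inf hG (le_centralizer_of_commutator_commutator nO
      (cop_two p2 o').symm (Or.inr (sol_of_pgroup Nat.prime_two p2)) ?_)).trans m.ch)
    exact (le_inf ((comm_le_left nO).trans (sylow_core_le Nat.prime_two syl))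
      ((commutator_mono le_rfl inf_le_right).trans (comm_le_right ((FT.core_le _ _).trans
        (m.nrm.trans (norm_le_norm_cent _)))))).trans (d.cenT.trans (inf_le_left.trans
        (d.toDat.le₁.trans (le_cent_symm inf_le_right))))

theorem Dat2.isoG (d : Dat2 F T V₁ V₂ t₀ q ℓ L) (m : Mod F T G) (hg : g ∈ G) : F.Iso T T (cj g) :=
  (m.nMap (d.nIn.symm ▸ d.toDat.TS) hg (by
    rw [conj_of_mem_norm (m.nrm hg), d.nIn]; exact d.toDat.TS)).isMap.iso_of_img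
    (img_cj_eq_iff.2 (m.nrm hg))

theorem Dat2.isoG₁ (d : Dat2 F T V₁ V₂ t₀ q ℓ L) (m : Mod F T G) (hg : g ∈ G ⊓ 𝐍(V₁)) :
    F.Iso V₁ V₁ (cj g) := ((d.isoG m hg.1).isMap.mono d.toDat.le₁).iso_of_img (img_cj_eq_iff.2 hg.2)

theorem Dat2.exists_G (d : Dat2 F T V₁ V₂ t₀ q ℓ L) (m : Mod F T G) {P : Subgroup Ω} {σ : Perm Ω}
    (h : F.IsMap P σ) (hP : T ≤ P) (hT : F.Iso T T σ) : ∃ g ∈ G, ∀ x ∈ P, σ x = g * x * g⁻¹ :=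
  ((m.map P σ).1 ⟨d.nIn.symm ▸ h.le, σ, by rwa [sup_eq_left.2 hP], fun _ _ => rfl, hT.img_eq⟩).2.2

/-- the frame in the ambient group -/
structure Fo (F : FusionSystem S) (T V₁ V₂ D Λ : Subgroup Ω) (t : Ω) (K : Type) [Field K] where
  Y : K → Ω
  X : K → Ω
  k : Kˣ → Ω
  w : Perm Ω
  Y_mem : ∀ y, Y y ∈ V₁
  X_mem : ∀ x, X x ∈ V₁ ⊓ V₂
  Y_add : ∀ a b, Y (a + b) = Y a * Y b
  X_add : ∀ a b, X (a + b) = X a * X b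
  dec : ∀ v ∈ V₁, ∃ y x, ∃ d ∈ D, v = Y y * X x * d
  inj : ∀ y x, Y y * X x ∈ D → y = 0 ∧ x = 0
  cm : ∀ g ∈ T, ∃ u, ∀ y, ∃ d ∈ D, ⁅Y y, g⁆ = X (y * u) * d
  cm0 : ∀ g ∈ T, ⁅Y 1, g⁆ ∈ D → g ∈ V₁
  Y0 : ∀ y, Y y ∈ V₂ → y = 0
  one : ∃ d ∈ D, ⁅Y 1, t * Y 1 * t⁻¹⁆ = X 1 * d
  k_mem : ∀ c, k c ∈ Λ ⊓ 𝐂(D)
  kY : ∀ c y, k c * Y y * (k c)⁻¹ = Y (c⁻¹ * y)
  kX : ∀ c x, k c * X x * (k c)⁻¹ = X (c * x)
  nY : ∀ l ∈ Λ, ∀ y, ∃ y', l * Y y * l⁻¹ = Y y'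
  nX : ∀ l ∈ Λ, ∀ y, ∃ y', l * X y * l⁻¹ = X y'
  wF : F.Iso V₁ V₁ w
  wY : ∀ a, w (Y a) = X a ∧ w (X a) = Y a
  wD : ∀ d ∈ D, w d = d

open Gt in
theorem Dat2.exists_fo [FD.{u}] [LN.{u}] (d : Dat2 F T V₁ V₂ t₀ q ℓ L) (m : Mod F T G) (h4 : 4 ≤ q)
    (c : Cpl S T V₁ G Λ t) :
    ∃ (K : Type) (_ : Field K) (_ : Fintype K) (_ : CharP K 2), Fintype.card K = q ∧
      Nonempty (Fo F T V₁ V₂ (fixV V₁ L) Λ t K) := by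
  have n1 := d.toDat.n₁
  have nΛ := c.le.trans inf_le_right
  have brH : ∀ g ∈ G ⊓ 𝐍(V₁), br V₁ g ∈ inA V₁ (F.autGroup V₁) := fun g hg => by
    rw [br_of hg.2]
    exact inr_mem_inA.2 (mem_autGroup_of_rep (d.isoG₁ m hg).isMap fun _ => rfl)
  have nA : act V₁ Λ ≤ 𝐍(act V₁ V₂) := d.act_T ▸ act_le_norm (c.le.trans (inf_le_left.trans m.nrm))
  have brA : ∀ g ∈ T, br V₁ g ∈ act V₁ V₂ := fun g hg => d.act_T ▸ br_mem_act (n1 hg) hg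
  obtain ⟨B₀, b1, b2⟩ := d.line.exists_ne (act V₁ V₂)
  obtain ⟨a, ha, nB⟩ := exists_invariant_conj nA (d.toDat.mA.sq.cop (c.odd.of_dvd_nat
    (Dvd.intro _ (card_act nΛ)))).symm (Or.inr (sol_of_comm d.toDat.mA.sq.comm)) (P := B₀)
    fun x hx => by
      obtain ⟨g, g1, g2, rfl⟩ := Gt.mem_act.1 hx
      obtain ⟨k, k1, k2⟩ := d.line.regular d.mem b1 (d.perm (brH g (c.le g1)) b1) b2.symm fun e =>
        b2 (conj_eq_conj_iff.1 (e.symm.trans (conj_of_mem_norm (nA hx)).symm))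
      exact ⟨k, k1, k2.symm⟩
  have hB := d.line.inv a (d.line.le d.mem ha) _ b1
  have ne : act V₁ V₂ ≠ a ⋆ B₀ := fun e =>
    b2 (conj_eq_conj_iff.1 (e.symm.trans (conj_of_mem ha).symm))
  generalize a ⋆ B₀ = B at nB hB ne
  obtain ⟨K, _, _, _, hq, ⟨f₀⟩⟩ := exists_fr (sq_inV d.toDat.sq₁) d.line d.mem hB ne h4 d.LF d.syl
  refine ⟨K, _, ‹_›, ‹_›, hq, ?_⟩
  have lf : ∀ x ∈ inV V₁, io V₁ (x.left : Ω) = x := by
    rintro _ ⟨v, rfl⟩; exact io_of v.2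
  have mD : ∀ {x}, x ∈ fixV V₁ L ↔ x ∈ V₁ ∧ io V₁ x ∈ 𝐂(L) := mem_fixV.trans
    ⟨fun ⟨a, b⟩ => ⟨a, io_of a ▸ b⟩, fun ⟨a, b⟩ => ⟨a, io_of a ▸ b⟩⟩
  have y0 : ∀ (f : Frm (inV V₁) (act V₁ V₂) B L K) y, f.E 0 y ∈ 𝐂(act V₁ V₂) → y = 0 :=
    fun f y h => by
      obtain ⟨e, e1, e2⟩ := f.aE 1 y
      rw [comm_eq_one_iff.2 (cent_le_cent1 ((f.mem_A _).2 ⟨1, rfl⟩) h), mul_one] at e2
      exact (f.inj _ _ (eq_inv_of_mul_eq_one_left e2.symm ▸ (𝐂(L)).inv_mem e1.2)).1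
  have sw := d.toDat.swap_of c.tS (d.nT c.tS) c.tT
  have tY : ∀ v ∈ V₁, t * v * t⁻¹ ∈ V₂ := fun v hv => sw.1 ▸ conj_mem_conj t hv
  have cA : ∀ v ∈ V₁, io V₁ v ∈ 𝐂(act V₁ V₂) ↔ v ∈ V₂ := fun v hv => io_of hv ▸ d.toDat.inl_cent
  have a0 : ∀ (f : Frm (inV V₁) (act V₁ V₂) B L K), ∀ g ∈ T, ⁅f.E 0 1, br V₁ g⁆ ∈ 𝐂(L) → g ∈ V₁ :=
    fun f g hg h => by_contra fun hn => one_ne_zero (y0 f 1 (d.line.pure _ d.mem _ (brA g hg)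
      (fun e => hn (d.cen ⟨d.toDat.TS hg, (br_eq_one (n1 hg)).1 e⟩)) _ (f.E_mem _ _) h))
  obtain ⟨f, hf⟩ : ∃ f : Frm (inV V₁) (act V₁ V₂) B L K,
      f.a 1 = br V₁ (t * (f.E 0 1).left * t⁻¹) := by
    have h1 := tY _ (f₀.E 0 1).left.2
    obtain ⟨e, he⟩ := (f₀.mem_A _).1 (brA _ (d.toDat.le₂ h1))
    have h0 : e ≠ 0 := by
      rintro rfl
      obtain ⟨x, x1, x2⟩ := f₀.aE 0 1
      have h2 := a0 f₀ _ (d.toDat.le₂ h1) (by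
        rw [← he, x2, mul_zero]
        rw [show f₀.E 0 0 = 1 by simpa using f₀.E_add 0 0 0 0, one_mul]; exact x1.2)
      have h3 := (cA _ (f₀.E 0 1).left.2).2 (conj_mem_conj_iff.1 (sw.2.ge h2))
      exact one_ne_zero (y0 f₀ 1 (lf _ (f₀.E_mem _ _) ▸ h3))
    exact ⟨f₀.scale (Units.mk0 e h0), by simpa [Frm.scale] using he⟩
  let E : K → K → Ω := fun x y => (f.E x y).left
  have Em : ∀ x y, E x y ∈ V₁ := fun x y => (f.E x y).left.2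
  have Ei : ∀ x y, io V₁ (E x y) = f.E x y := fun x y => lf _ (f.E_mem x y)
  have Ea : ∀ x y x' y', E (x + x') (y + y') = E x y * E x' y' := fun x y x' y' =>
    (io_inj (Em _ _) (mul_mem (Em _ _) (Em _ _))).1 (by rw [io_mul (Em _ _) (Em _ _), Ei, Ei, Ei, f.E_add])
  have Ec : ∀ g ∈ 𝐍(V₁), ∀ x y x' y', br V₁ g * f.E x y * (br V₁ g)⁻¹ = f.E x' y' →
      g * E x y * g⁻¹ = E x' y' := fun g hg x y x' y' h =>
    (io_inj (conj_mem_of_norm hg (Em _ _)) (Em _ _)).1 (by rw [← br_io hg (Em _ _), Ei, Ei, h])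
  have cm : ∀ g ∈ T, ∀ u, f.a u = br V₁ g → ∀ y, ∃ e ∈ fixV V₁ L, ⁅E 0 y, g⁆ = E (y * u) 0 * e :=
    fun g hg u h y => by
      obtain ⟨e, e1, e2⟩ := f.aE u y
      obtain ⟨v, hv, rfl⟩ := Gt.mem_inV.1 e1.1
      exact ⟨v, mD.2 ⟨hv, e1.2⟩, (io_inj (Gt.comm_mem_of_norm (n1 hg) (Em _ _))
        (mul_mem (Em _ _) hv)).1 (by rw [← io_comm (n1 hg) (Em _ _), io_mul (Em _ _) hv, Ei, Ei, ← h, e2])⟩
  have hk : ∀ c' : Kˣ, ∃ l ∈ Λ, br V₁ l = f.h c' := fun c' => by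
    have hh := f.h_mem c'
    obtain ⟨σ, s1, s2⟩ := exists_iso_of_mem d.fn.1 (d.LF hh.1.1)
    have s3 : ∀ v ∈ V₁, f.h c' * io V₁ v * (f.h c')⁻¹ = io V₁ (σ v) := fun v hv => by
      rw [io_of hv, io_of (s1.mem hv)]; exact (s2 v hv).2
    obtain ⟨τ, t1, t2⟩ := d.toDat.ext s1 fun g hg => by
      obtain ⟨k, k1, k2, k3⟩ := Gt.mem_act.1 ((mem_normalizer_iff.1 hh.1.2 _).1 (brA g hg))
      refine ⟨k, d.toDat.le₂ k1, fun v hv => (io_inj (s1.mem (conj_mem_of_norm (n1 hg) hv))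
        (conj_mem_of_norm k2 (s1.mem hv))).1 ?_⟩
      rw [← s3 _ (conj_mem_of_norm (n1 hg) hv), ← br_io (n1 hg) hv, ← br_io k2 (s1.mem hv), k3,
        ← s3 v hv]; group
    obtain ⟨g, g1, g2⟩ := d.exists_G m t1.isMap le_rfl t1
    have g3 : ∀ v ∈ V₁, σ v = g * v * g⁻¹ := fun v hv => (t2 v hv).symm.trans (g2 v (d.toDat.le₁ hv))
    have g4 : g ∈ 𝐍(V₁) := img_cj_eq_iff.1 (s1.congr fun v hv => (g3 v hv).symm).img_eq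
    have g5 : br V₁ g = f.h c' := inv_mul_eq_one.1 (mem_bot.1 ((md_inA d.toDat.sq₁ _).faith.le
      ⟨(inA _ _).mul_mem ((inA _ _).inv_mem (brH g ⟨g1, g4⟩)) (d.LF hh.1.1), fun x hx => by
        obtain ⟨v, hv, rfl⟩ := Gt.mem_inV.1 hx
        have := (s3 v hv).trans (by rw [g3 v hv, ← br_io g4 hv])
        calc _ = (br V₁ g)⁻¹ * (br V₁ g * io V₁ v * (br V₁ g)⁻¹) * f.h c' := by group
          _ = _ := by rw [← this]; group⟩))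
    obtain ⟨s, s4, l, l1, rfl⟩ := c.dec0 g ⟨g1, g4⟩
    rw [br_mul (n1 s4) (nΛ l1)] at g5
    refine ⟨l, l1, ?_⟩
    by_cases h : br V₁ s = 1
    · rwa [h, one_mul] at g5
    exact absurd (d.line.eq_of_norm d.mem hB (brA s s4) h ((mul_mem_cancel_right
      (nB (br_mem_act (nΛ l1) l1))).1 (g5 ▸ hh.2))) ne
  choose k k1 k2 using hk
  have nE := fun l (hl : l ∈ Λ) => f.nE (br V₁ l)
    ⟨⟨d.norm_L (brH l (c.le hl)), nA (br_mem_act (nΛ hl) hl)⟩, nB (br_mem_act (nΛ hl) hl)⟩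
  obtain ⟨w, w1, w2⟩ := exists_iso_of_mem d.fn.1 (d.LF f.w_mem)
  have w3 : ∀ v ∈ V₁, f.w * io V₁ v * f.w⁻¹ = io V₁ (w v) := fun v hv => by
    rw [io_of hv, io_of (w1.mem hv)]; exact (w2 v hv).2
  have w4 : ∀ x y, w (E x y) = E y x := fun x y =>
    (io_inj (w1.mem (Em _ _)) (Em _ _)).1 (by rw [← w3 _ (Em _ _), Ei, Ei, f.wE])
  refine ⟨⟨fun y => E 0 y, fun x => E x 0, k, w, fun _ => Em _ _, fun x => ⟨Em _ _,
    (cA _ (Em _ _)).1 (Ei _ _ ▸ f.X_cent x)⟩, fun a b => by rw [← Ea, add_zero],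
    fun a b => by rw [← Ea, add_zero], fun v hv => ?_, fun y x h => ?_, fun g hg => ?_,
    fun g hg h => a0 f g hg ?_, fun y h => y0 f y (Ei _ _ ▸ (cA _ (Em _ _)).2 h), ?_,
    fun c' => ⟨k1 c', fun x hx => ?_⟩,
    fun c' y => Ec _ (nΛ (k1 c')) _ _ _ _ (by rw [k2, f.hE]; simp),
    fun c' y => Ec _ (nΛ (k1 c')) _ _ _ _ (by rw [k2, f.hE]; simp),
    fun l hl y => ((nE l hl).1 y).imp fun _ h => Ec _ (nΛ hl) _ _ _ _ h,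
    fun l hl y => ((nE l hl).2 y).imp fun _ h => Ec _ (nΛ hl) _ _ _ _ h, w1,
    fun a => ⟨w4 _ _, w4 _ _⟩, fun x hx => ?_⟩⟩
  · obtain ⟨x, y, e, e1, e2⟩ := f.dec _ (io_mem hv)
    obtain ⟨z, hz, rfl⟩ := Gt.mem_inV.1 e1.1
    refine ⟨y, x, z, mD.2 ⟨hz, e1.2⟩, ?_⟩
    rw [← Ea, add_zero, zero_add]
    exact (io_inj hv (mul_mem (Em _ _) hz)).1 (by rw [io_mul (Em _ _) hz, Ei, e2])
  · rw [← Ea, add_zero, zero_add] at h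
    exact (f.inj _ _ (Ei _ _ ▸ (mD.1 h).2)).symm
  · obtain ⟨u, hu⟩ := (f.mem_A _).1 (brA g hg)
    exact ⟨u, cm g hg u hu⟩
  · rw [← Ei, io_comm (n1 hg) (Em _ _)]; exact (mD.1 h).2
  · simpa using cm _ (d.toDat.le₂ (tY _ (Em 0 1))) 1 hf 1
  · obtain ⟨x1, x2⟩ := mD.1 hx
    exact mem_cent1.1 ((io_cent1 (nΛ (k1 c')) x1).1 (k2 c' ▸ cent_le_cent1 (f.h_mem c').1.1 x2))
  · obtain ⟨x1, x2⟩ := mD.1 hx
    exact (io_inj (w1.mem x1) x1).1 (by rw [← w3 x x1, x2 _ f.w_mem, mul_inv_cancel_right])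

end Cfsg.Agent.Pu
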