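import Cfsg.Agent.Pu.E1

/-! S5175, slice ES: the case analysis. -/

set_option autoImplicit false
set_option linter.unusedSectionVars false

universe u

namespace Cfsg.Agent.Pu.Bs

open Subgroup Cfsg.Fus Cfsg.Agent.FT Cfsg.Agent.Sg Equiv
open Cfsg.FusionSystem hiding inv_mem
open scoped commutatorElement

variable {Ω : Type u} [Group Ω] [Finite Ω] {S T V₁ V₂ E : Subgroup Ω} {F : FusionSystem S}
  {a b c g s t v w x y z : Ω} (h : Bs S T V₁ V₂) (hE : F.IsEssential 2 E)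
include h hE

theorem eqV (hv : v ∈ V₁) (hv' : v ∉ V₂) {B : Subgroup Ω} (hB : B ≤ T) (e : ∀ x ∈ B, x * v = v * x)
    (hc : ∀ g ∈ T, (∀ x ∈ B, x * g = g * x) → g ∈ B) : B = V₁ :=
  have k : B ≤ V₁ := fun x hx => h.cent hv hv' (hB hx) (e x hx)
  le_antisymm k fun g hg => hc g (h.l1 hg) fun _ hx => sq_cm h.s1 (k hx) hg

/-- either `Z` is invariant or `B` is one of the `V i` -/
theorem iv_or {B : Subgroup Ω} (hB : B ≤ T) (hBE : B ≤ E) (iB : Iv F E B)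
    (hc : ∀ g ∈ T, (∀ x ∈ B, x * g = g * x) → g ∈ B) : Iv F E (V₁ ⊓ V₂) ∨ B = V₁ ∨ B = V₂ := by
  by_cases k : Iv F E (V₁ ⊓ V₂)
  · exact .inl k
  simp only [Iv, not_forall] at k
  obtain ⟨σ, hσ, z, hz, k⟩ := k
  have zB := hc z (h.zT hz) fun x hx => (h.zc hz (hB hx)).symm
  have e : ∀ x ∈ B, x * σ z = σ z * x := fun x hx => by
    have := iB _ hσ.symm x hx
    rw [← perm_apply_inv_self σ x, ← hσ.homOn.map_mul (hBE this) (hBE zB),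
      ← hσ.homOn.map_mul (hBE zB) (hBE this), h.zc hz (hB this)]
  rcases h.inv (hB (iB σ hσ z zB)) (by rw [← hσ.homOn.map_mul (hBE zB) (hBE zB), h.zsq hz,
    hσ.homOn.map_one]) with k1 | k1
  · exact .inr (.inl (h.eqV hE k1 (fun k2 => k ⟨k1, k2⟩) hB e hc))
  · exact .inr (.inr (h.symm.eqV hE k1 (fun k2 => k ⟨k2, k1⟩) hB e hc))

theorem caseA (hT : E ≤ T) : E = V₁ ∨ E = V₂ ∨ E = T := by
  have hc := fun g (hg : g ∈ T) => ess_cent hE (h.TS hg)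
  rcases h.iv_or hE hT le_rfl (fun _ hτ _ => hτ.mem) hc with k | k | k
  · exact .inr (.inr (le_antisymm hT fun g hg => ess_r2 h.two hE
      (fun z hz => hc z (h.zT hz) fun x hx => (h.zc hz (hT hx)).symm) k (h.TS hg)
      (fun z hz => h.zc hz hg) fun x hx => h.cT (hT hx) hg))
  exacts [.inl k, .inr (.inl k)]

omit hE in
theorem not_T (hlt : ¬ S ≤ E) (hs : s ∈ E) (sS : s ∈ S) (hs' : s ∉ T) : ¬ T ≤ E := fun k => hlt fun g hg => by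
  by_cases e : g ∈ T
  · exact k e
  · simpa using mul_mem hs (k (h.divT sS hg hs' e).1)

theorem nE (hx : x ∈ E) : ∀ y ∈ T, x * y * x⁻¹ ∈ T := h.nT (hE.le hx)

theorem not_iv (hlt : ¬ S ≤ E) (hs : s ∈ E) (hs' : s ∉ T) : ¬ Iv F E (E ⊓ T) := fun iB => by
  haveI : Fact (Nat.Prime 2) := ⟨Nat.prime_two⟩
  have nB : ∀ x ∈ E, ∀ y ∈ E ⊓ T, x * y * x⁻¹ ∈ E ⊓ T := fun x hx y hy =>
    ⟨E.mul_mem (mul_mem hx hy.1) (inv_mem hx), h.nE hE hx y hy.2⟩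
  have cB : ∀ g ∈ T, g ∈ 𝐍(E) → ∀ x ∈ E, ⁅x, g⁆ ∈ E ⊓ T := fun g hg hn x hx =>
    ⟨cm_symm (mul_mem (conj_mem_of_mem_normalizer hn hx) (inv_mem hx)), h.cST (hE.le hx) hg⟩
  have hc : ∀ g ∈ T, (∀ x ∈ E ⊓ T, x * g = g * x) → g ∈ E ⊓ T := fun g hg e => ⟨by
    by_contra k
    obtain ⟨g', g1, g2, g3⟩ := exists_mem_normalizer_of_not_le h.two hE.le (Q := T ⊓ 𝐂((E ⊓ T : Subgroup Ω)))
      (inf_le_left.trans h.TS) (fun x hx => mem_normalizer_of_finite fun y hy => ⟨h.nE hE hx y hy.1,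
        fun z hz => by
          have := hy.2 _ (nB _ (inv_mem hx) z hz)
          calc _ = x * (x⁻¹ * z * x⁻¹⁻¹ * y) * x⁻¹ := by group
            _ = _ := by rw [this]; group⟩) fun k' => k (k' ⟨hg, e⟩)
    exact g3 (ess_r2 h.two hE inf_le_left iB (h.TS g1.1) g1.2 (cB g' g1.1 g2)), hg⟩
  have key : ∀ {V₁ V₂}, Bs S T V₁ V₂ → E ⊓ T ≠ V₁ := fun k e =>
    k.ne.1 fun v hv => k.back (hE.le hs) hs' (e.le (nB s hs v (e.ge hv)))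
  rcases h.iv_or hE inf_le_right inf_le_left iB hc with k | k | k
  · obtain ⟨g, g1, g2, g3⟩ := exists_mem_normalizer_of_not_le h.two hE.le h.TS
      (fun x hx => mem_normalizer_of_finite (h.nE hE hx)) (h.not_T hlt hs (hE.le hs) hs')
    exact g3 (ess_r3 h.two hE (fun z hz => (hc z (h.zT hz) fun x hx => (h.zc hz hx.2).symm).1) inf_le_left k iB
      (h.TS g1) (fun z hz => h.zc hz g1) (fun x hx => h.cT hx.2 g1) (cB g g1 g2))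
  exacts [key h k, key h.symm k]

omit hE in
theorem cz_fix (hs : s ∈ S) (hs' : s ∉ T) (hz : z ∈ V₁ ⊓ V₂) : ⁅z, s⁆ * s = s * ⁅z, s⁆ := by
  have h1 := h.zc hz (h.idx s hs s hs hs' hs')
  have h2 := h.zc hz (h.zT (h.nZ hs z hz))
  rw [commutatorElement_def, h.s1.inv hz.1]
  calc _ = s * (s⁻¹ * z * s * z) := by group
    _ = s * (s⁻¹ * s⁻¹ * (s * z * s⁻¹) * (s * s * z)) := by group
    _ = s * (s⁻¹ * s⁻¹ * (s * z * s⁻¹ * z) * (s * s)) := by rw [← h1]; group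
    _ = s * (s⁻¹ * s⁻¹ * (z * (s * z * s⁻¹)) * (s * s)) := by rw [h2]
    _ = _ := by
      have h3 := h.zc (mul_mem hz (h.nZ hs z hz)) (h.idx s hs s hs hs' hs')
      rw [mul_assoc (s⁻¹ * s⁻¹), h3]; group

omit hE in
theorem cen (hs : s ∈ S) (hs' : s ∉ T) (hz : z ∈ V₁ ⊓ V₂) (e : z * s = s * z) (hx : x ∈ S) :
    z * x = x * z := by
  by_cases k : x ∈ T
  · exact h.zc hz k
  · exact (mul_inv_eq_iff_eq_mul.1 ((h.act hx hs k hs' hz).trans (by rw [← e, mul_inv_cancel_right]))).symm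

omit hE in
/-- `Z` is a four-group -/
theorem four (hs : s ∈ S) (hs' : s ∉ T) (hz : z ∈ V₁ ⊓ V₂) (hz' : z * s ≠ s * z)
    (fr : ∀ z ∈ V₁ ⊓ V₂, s * z = z * s → ∃ y ∈ V₁ ⊓ V₂, z = ⁅y, s⁆)
    (ix : ∀ a ∈ V₁ ⊓ V₂, ∀ b ∈ V₁ ⊓ V₂, a * s ≠ s * a → b * s ≠ s * b → a * b * s = s * (a * b)) :
    (∀ y ∈ V₁ ⊓ V₂, y * s = s * y → y = 1 ∨ y = ⁅z, s⁆) ∧ #|(V₁ ⊓ V₂ : Subgroup Ω)| = 4 := by
  have cZ := cm_symm (h.cSZ hs hz)
  have c1 : ⁅z, s⁆ ≠ 1 := fun e => hz' (commutatorElement_eq_one_iff_mul_comm.1 e)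
  have k : ∀ y ∈ V₁ ⊓ V₂, y * s = s * y → y = 1 ∨ y = ⁅z, s⁆ := fun y hy e => by
    obtain ⟨a, ha, rfl⟩ := fr y hy e.symm
    by_cases e' : a * s = s * a
    · exact .inl (commutatorElement_eq_one_iff_mul_comm.2 e')
    · refine .inr ?_
      have h1 := ix a ha z hz e' hz'
      calc _ = a * (s * a * s⁻¹)⁻¹ := by rw [commutatorElement_def]; group
        _ = a * (s * (a * z) * s⁻¹) * (s * z⁻¹ * s⁻¹) := by rw [h.s1.inv (h.nZ hs a ha).1]; group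
        _ = a * a * ⁅z, s⁆ := by rw [← h1, commutatorElement_def]; group
        _ = _ := by rw [h.zsq ha, one_mul]
  refine ⟨k, ?_⟩
  have e : ((V₁ ⊓ V₂ : Subgroup Ω) : Set Ω) = {1, ⁅z, s⁆, z, z * ⁅z, s⁆} := by
    refine Set.Subset.antisymm (fun y hy => ?_) ?_
    · by_cases e : y * s = s * y
      · rcases k y hy e with rfl | e <;> simp [e]
      · rcases k _ (mul_mem hz hy) (ix z hz y hy hz' e) with e | e
        · simp [← h.s1.inv hz.1 ▸ (inv_eq_of_mul_eq_one_right e).symm]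
        · simp [← e, ← mul_assoc, h.zsq hz]
    · rintro _ (rfl | rfl | rfl | rfl)
      exacts [one_mem _, cZ, hz, mul_mem hz cZ]
  have f := h.cz_fix hs hs' hz
  refine (Nat.card_coe_set_eq _).trans (e ▸ Set.ncard_eq_four.2 ⟨_, _, _, _, c1.symm, ?_, ?_, ?_, ?_, ?_, rfl⟩)
  · rintro rfl; simp at hz'
  · intro e; rw [eq_comm, mul_eq_one_iff_inv_eq, h.s1.inv hz.1] at e; exact hz' (by rwa [← e] at f)
  · intro e; exact hz' (by rwa [e] at f)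
  · intro e; rw [eq_comm, mul_eq_right] at e; simp [e] at hz'
  · simpa using c1

omit hE in
theorem sqT (hx : x ∈ T) : x * x ∈ V₁ ⊓ V₂ := by
  obtain ⟨v, hv, w, hw, rfl⟩ := h.eT x hx
  have := h.cm v hv w hw
  rwa [commutatorElement_def, h.s1.inv hv, h.s2.inv hw, mul_assoc] at this

omit hE in
theorem out (hs : s ∈ S) (hs' : s ∉ T) (s2 : s * s ∈ V₁ ⊓ V₂) (hx : x ∈ S) (hx' : x ∉ T) :
    ⁅x, s⁆ ∈ V₁ ⊓ V₂ ↔ x * x ∈ V₁ ⊓ V₂ := by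
  rw [← mul_mem_cancel_right (mul_mem (h.nZ hs _ (h.sqT (h.divT hx hs hx' hs').2)) s2), commutatorElement_def]
  congr! 1
  group

omit h hE in
/-- `Ω₁ Z(E)` -/
def zE (E : Subgroup Ω) : Subgroup Ω where
  carrier := {x | x ∈ E ∧ x * x = 1 ∧ ∀ y ∈ E, y * x = x * y}
  one_mem' := ⟨one_mem _, by simp, by simp⟩
  mul_mem' := fun {a b} ha hb => ⟨mul_mem ha.1 hb.1, by
    rw [mul_assoc, ← mul_assoc b, ha.2.2 b hb.1, mul_assoc, hb.2.1, mul_one, ha.2.1], fun y hy => by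
      rw [← mul_assoc, ha.2.2 y hy, mul_assoc, hb.2.2 y hy, mul_assoc]⟩
  inv_mem' := fun {a} ha => by rwa [inv_eq_of_mul_eq_one_right ha.2.1]

omit h hE in
theorem zE_le : zE E ≤ E := fun _ e => e.1

omit h hE in
theorem iv_zE : Iv F E (zE E) := fun τ hτ x hx => ⟨hτ.mem hx.1, by
  rw [← hτ.homOn.map_mul hx.1 hx.1, hx.2.1, hτ.homOn.map_one], fun y hy => by
    obtain ⟨y, hy', rfl⟩ := hτ.exists_eq hy
    rw [← hτ.homOn.map_mul hy' hx.1, ← hτ.homOn.map_mul hx.1 hy', hx.2.2 y hy']⟩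

omit h hE in
theorem iv_zp (hc : c ∈ E) (k : ∀ τ, F.Iso E E τ → τ c ∈ zpowers c) : Iv F E (zpowers c) := by
  rintro τ hτ _ ⟨n, rfl⟩
  rw [hτ.homOn.map_zpow hc]
  exact zpow_mem (k τ hτ) n

theorem mem_zE (hs : s ∈ S) (hs' : s ∉ T) (hz : z ∈ V₁ ⊓ V₂) (e : z * s = s * z) : z ∈ zE E :=
  have k := fun x (hx : x ∈ E) => (h.cen hs hs' hz e (hE.le hx)).symm
  ⟨ess_cent hE (h.zS hz) k, h.zsq hz, k⟩

omit hE in
theorem cm_or (hs : s ∈ S) (hs' : s ∉ T) (hz : z ∈ V₁ ⊓ V₂) (hx : x ∈ S) : ⁅x, z⁆ * s = s * ⁅x, z⁆ := by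
  by_cases k : x ∈ T
  · simp [commutatorElement_eq_one_iff_mul_comm.2 (h.zc hz k).symm]
  · have := h.cen hx k (cm_symm (h.cSZ hx hz)) (h.cz_fix hx k hz) hs
    rwa [← commutatorElement_inv, h.s1.inv (h.cSZ hx hz).1] at this

theorem caseB1a (hs : s ∈ E) (hs' : s ∉ T)
    (fr : ∀ s ∈ S, s ∉ T → ∀ z ∈ V₁ ⊓ V₂, s * z = z * s → ∃ y ∈ V₁ ⊓ V₂, z = ⁅y, s⁆) : V₁ ⊓ V₂ ≤ E := by
  intro z hz
  by_contra zE'
  have cz : ∀ z ∈ V₁ ⊓ V₂, ∀ e ∈ E, ⁅e, z⁆ ∈ zE E := fun z hz e he =>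
    h.mem_zE hE (hE.le hs) hs' (h.cSZ (hE.le he) hz) (h.cm_or (hE.le hs) hs' hz (hE.le he))
  obtain ⟨s, s1, s2⟩ : ∃ s ∈ zE E, s ∉ T := by
    by_contra k
    push Not at k
    exact zE' (ess_r2 h.two hE zE_le iv_zE (h.zS hz) (fun x hx => (h.zc hz (k x hx)).symm) (cz z hz))
  have sS := hE.le s1.1
  have z1 : z * s ≠ s * z := fun e => zE' (h.mem_zE hE sS s2 hz e).1
  obtain ⟨k, -⟩ := h.four sS s2 hz z1 (fr s sS s2) fun a ha b hb a1 b1 => s1.2.2 _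
    (((ess_tv h.two hE zE_le iv_zE (H := zE E ⊓ T) inf_le_left (fun a ha b hb a1 b1 =>
      ⟨mul_mem ha hb, h.idx a (hE.le ha.1) b (hE.le hb.1) (fun e => a1 ⟨ha, e⟩) fun e => b1 ⟨hb, e⟩⟩)
      (h.zS ha) (h.zS hb) (cz a ha) (cz b hb) (fun e he => (h.zc ha he.2).symm)
      fun e he => (h.zc hb he.2).symm).resolve_left fun e => a1 (s1.2.2 _ e)).resolve_left
        fun e => b1 (s1.2.2 _ e))
  set c := ⁅z, s⁆ with hc
  have cZ : c ∈ V₁ ⊓ V₂ := cm_symm (h.cSZ sS hz)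
  have k' : ∀ y ∈ V₁ ⊓ V₂, y * s = s * y → y ∈ zpowers c := fun y hy e => by
    rcases k y hy e with rfl | rfl
    exacts [one_mem _, mem_zpowers _]
  have sq : ∀ e ∈ E, e * e ∈ V₁ ⊓ V₂ := fun e he => by
    by_cases e1 : e ∈ T
    · exact h.sqT e1
    · exact (h.out sS s2 (s1.2.1 ▸ one_mem _) (hE.le he) e1).1
        (commutatorElement_eq_one_iff_mul_comm.2 (s1.2.2 e he) ▸ one_mem _)
  obtain ⟨e, e1, e2⟩ : ∃ e ∈ E, e * e = c := by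
    by_contra n
    push Not at n
    have EZ : ∀ e ∈ E, e ∈ T → e ∈ V₁ ⊓ V₂ := fun e he e1 => h.inv_fix e1
      ((k _ (sq e he) (s1.2.2 _ (mul_mem he he))).resolve_right (n e he)) sS s2
        (by rw [← s1.2.2 e he, mul_inv_cancel_right])
    obtain ⟨v, hv, v1⟩ := SetLike.not_le_iff_exists.1 h.ne.1
    have v' := (h.sw s sS s2).1 v hv
    have sv : s * (s * v * s⁻¹) * s⁻¹ = v := by
      calc _ = s * s * v * (s * s)⁻¹ := by group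
        _ = _ := by simp [s1.2.1]
    have rZ := cm_symm (h.cm v hv _ v')
    have r : ⁅s * v * s⁻¹, v⁆ = c := (k _ rZ (mul_inv_eq_iff_eq_mul.1 (by
      rw [conjugate_commutatorElement, sv, ← commutatorElement_inv, h.s1.inv rZ.1])).symm).resolve_left
        fun e => (h.nc v hv _ v' (commutatorElement_eq_one_iff_mul_comm.1 e).symm).elim v1
          fun e => v1 (h.back sS s2 e)
    have yT := mul_mem (mul_mem (h.l1 hv) (h.l2 v')) (h.zT hz)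
    have ys : v * (s * v * s⁻¹) * z * s = s * (v * (s * v * s⁻¹) * z) := by
      rw [eq_comm, ← mul_inv_eq_iff_eq_mul]
      calc _ = s * v * s⁻¹ * (s * (s * v * s⁻¹) * s⁻¹) * (s * z * s⁻¹) := by group
        _ = ⁅s * v * s⁻¹, v⁆ * (v * (s * v * s⁻¹) * z⁻¹) * ⁅z, s⁆ := by
          rw [sv, commutatorElement_def, commutatorElement_def z, h.s1.inv hz.1]
          calc _ = s * v * s⁻¹ * v * (z * z) * (s * z * s⁻¹) := by rw [h.zsq hz, mul_one]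
            _ = _ := by group
        _ = _ := by rw [r, h.s1.inv hz.1, h.zc cZ yT, mul_assoc, h.zsq cZ, mul_one]
    have yE := ess_cent hE (h.TS yT) fun x hx => by
      by_cases x1 : x ∈ T
      · exact h.zc (EZ x hx x1) yT
      · have := h.zc (EZ _ (mul_mem hx s1.1) (h.idx x (hE.le hx) s sS x1 s2)) yT
        rw [mul_assoc x, ← ys, ← mul_assoc x, ← mul_assoc _ x, mul_left_inj] at this
        exact this
    exact v1 ((V₂.mul_mem_cancel_right v').1 ((V₂.mul_mem_cancel_right hz.2).1 (EZ _ yE yT).2))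
  refine zE' (ess_r2 h.two hE (zpowers_le.2 (e2 ▸ mul_mem e1 e1)) (iv_zp (e2 ▸ mul_mem e1 e1) fun τ hτ => ?_)
    (h.zS hz) (fun x hx => (h.zc hz (h.zT (zpowers_le.2 cZ hx))).symm) fun x hx =>
      k' _ (h.cSZ (hE.le hx) hz) (h.cm_or sS s2 hz (hE.le hx)))
  have := hτ.mem e1
  rw [← e2, hτ.homOn.map_mul e1 e1, e2]
  exact k' _ (sq _ this) (s1.2.2 _ (mul_mem this this))

theorem caseB1b (hlt : ¬ S ≤ E) (hs : s ∈ E) (hs' : s ∉ T) (hZ : V₁ ⊓ V₂ ≤ E)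
    (fr : ∀ s ∈ S, s ∉ T → ∀ z ∈ V₁ ⊓ V₂, s * z = z * s → ∃ y ∈ V₁ ⊓ V₂, z = ⁅y, s⁆)
    (ht : t ∈ S) (ht' : t ∉ T) (t2 : t * t ∈ V₁ ⊓ V₂) (hz : z ∈ V₁ ⊓ V₂) (zt : z * t ≠ t * z) :
    #|(V₁ ⊓ V₂ : Subgroup Ω)| = 4 ∧ ∀ x, x ∈ E ↔ x ∈ S ∧ ⁅x, t⁆ ∈ V₁ ⊓ V₂ := by
  have zx : ∀ x ∈ S, x ∉ T → z * x ≠ x * z := fun x hx x1 e => zt (h.cen hx x1 hz e ht)
  have cmm : ∀ τ, F.Iso E E τ → ∀ a ∈ E, ∀ b ∈ E, a * b = b * a → τ a * τ b = τ b * τ a :=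
    fun τ hτ a ha b hb e => by rw [← hτ.homOn.map_mul ha hb, ← hτ.homOn.map_mul hb ha, e]
  have sqq : ∀ τ, F.Iso E E τ → ∀ a ∈ V₁ ⊓ V₂, τ a * τ a = 1 := fun τ hτ a ha => by
    rw [← hτ.homOn.map_mul (hZ ha) (hZ ha), h.zsq ha, hτ.homOn.map_one]
  obtain ⟨α, hα, y, hy, s2⟩ : ∃ α, F.Iso E E α ∧ ∃ y ∈ V₁ ⊓ V₂, α y ∉ T := by
    by_contra n
    push Not at n
    have iZ : Iv F E (V₁ ⊓ V₂) := fun τ hτ y hy => h.inv_fix (n τ hτ y hy) (sqq τ hτ y hy) (hE.le hs) hs' (by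
      obtain ⟨s, s1, rfl⟩ := hτ.exists_eq hs
      have := h.nZ (hE.le s1) y hy
      rw [← hτ.homOn.map_conj s1 (hZ hy)]
      exact cmm τ hτ _ (hZ hy) _ (hZ this) (h.zc hy (h.zT this)))
    refine h.not_iv hE hlt hs hs' fun τ hτ x hx => ⟨hτ.mem hx.1, by_contra fun k => ?_⟩
    have z' := iZ _ hτ.symm z hz
    have := cmm τ hτ _ (hZ z') _ hx.1 (h.zc z' hx.2)
    rw [perm_apply_inv_self] at this
    exact zx _ (hE.le (hτ.mem hx.1)) k this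
  have sE := hα.mem (hZ hy)
  have ss := sqq α hα y hy
  have ES : ∀ e ∈ E, ⁅e, α y⁆ ∈ V₁ ⊓ V₂ := fun e he => by
    obtain ⟨e, e1, rfl⟩ := hα.exists_eq he
    have k := h.cSZ (hE.le e1) hy
    have k1 := cmm α hα _ (hZ k) _ (hZ hy) (h.zc k (h.zT hy))
    have k2 := sqq α hα _ k
    rw [hom_cm hα.homOn e1 (hZ hy)] at k1 k2
    exact h.inv_fix (h.cS (hE.le he) (hE.le sE)) k2 (hE.le sE) s2 (by rw [← k1, mul_inv_cancel_right])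
  have ix : ∀ a ∈ V₁ ⊓ V₂, ∀ b ∈ V₁ ⊓ V₂, a * α y ≠ α y * a → b * α y ≠ α y * b →
      a * b * α y = α y * (a * b) := fun a ha b hb a1 b1 => by
    have k : ∀ a ∈ V₁ ⊓ V₂, α⁻¹ a ∈ T → a * α y = α y * a := fun a ha e => by
      simpa using cmm α hα _ (hα.inv_mem (hZ ha)) _ (hZ hy) (h.zc hy e).symm
    refine k _ (mul_mem ha hb) ?_
    rw [hα.symm.homOn.map_mul (hZ ha) (hZ hb)]
    exact h.idx _ (hE.le (hα.inv_mem (hZ ha))) _ (hE.le (hα.inv_mem (hZ hb))) (fun e => a1 (k a ha e))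
      fun e => b1 (k b hb e)
  generalize α y = s at s2 sE ss ES ix
  have sS := hE.le sE
  obtain ⟨k, k4⟩ := h.four sS s2 hz (zx s sS s2) (fr s sS s2) ix
  set c := ⁅z, s⁆ with hc
  have cZ : c ∈ V₁ ⊓ V₂ := cm_symm (h.cSZ sS hz)
  have cc : ∀ d ∈ zpowers c, ∀ x ∈ S, d * x = x * d := by
    rintro _ ⟨n, rfl⟩ x hx
    exact (Commute.zpow_left (h.cen sS s2 cZ (h.cz_fix sS s2 hz) hx) n).eq
  have k' : ∀ y ∈ V₁ ⊓ V₂, y * s = s * y → y ∈ zpowers c := fun y hy e => by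
    rcases k y hy e with rfl | rfl
    exacts [one_mem _, mem_zpowers _]
  have si := inv_eq_of_mul_eq_one_right ss
  have c1 : ∀ x, ⁅x, s⁆ ∈ V₁ ⊓ V₂ → ⁅x, s⁆ ∈ zpowers c := fun x e => k' _ e (by
    nth_rw 2 [← h.s1.inv e.1]
    rw [commutatorElement_inv, commutatorElement_def, commutatorElement_def, si, mul_assoc _ s, ss,
      ← mul_assoc, ← mul_assoc, ← mul_assoc, ss, mul_one, one_mul])
  have c2 : ∀ x ∈ T, ∀ y ∈ T, ⁅x, s⁆ ∈ V₁ ⊓ V₂ → ⁅y, s⁆ ∈ V₁ ⊓ V₂ → ⁅x, y⁆ ∈ zpowers c :=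
    fun x hx y hy x1 y1 => k' _ (h.cT hx hy) (mul_inv_eq_iff_eq_mul.1 (by
      have e1 := h.zc (cm_symm x1) (h.nT (h.TS hx) _ (h.nT sS y hy))
      have e2 := h.zc (cm_symm y1) hx
      have e3 := h.zc (cm_symm y1) (h.cST (h.TS hx) hy)
      calc _ = ⁅s, x⁆ * (x * (s * y * s⁻¹) * x⁻¹) * ⁅s, x⁆⁻¹ * (s * y * s⁻¹)⁻¹ := by
            simp only [commutatorElement_def]; group
        _ = x * ⁅s, y⁆ * x⁻¹ * ⁅x, y⁆ * ⁅s, y⁆⁻¹ := by rw [e1]; simp only [commutatorElement_def]; group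
        _ = _ := by rw [← e2, mul_inv_cancel_right, e3, mul_inv_cancel_right])).symm
  have nC : ∀ a ∈ S, ∀ d ∈ zpowers c, a * d * a⁻¹ ∈ zpowers c := fun a ha d hd => by
    rwa [← cc d hd a ha, mul_inv_cancel_right]
  have dec : ∀ a ∈ S, a ∉ T → ⁅a, s⁆ ∈ V₁ ⊓ V₂ → ∃ u ∈ T, ⁅u, s⁆ ∈ V₁ ⊓ V₂ ∧ a = u * s := fun a ha a1 a2 =>
    ⟨a * s, h.idx a ha s sS a1 s2, cm_mul (h.nZ ha) a2 (by simp), by rw [mul_assoc, ss, mul_one]⟩
  have c3 : ∀ x ∈ T, ∀ y ∈ S, ⁅x, s⁆ ∈ V₁ ⊓ V₂ → ⁅y, s⁆ ∈ V₁ ⊓ V₂ → ⁅y, x⁆ ∈ zpowers c :=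
    fun x hx y hy x1 y1 => by
      by_cases e : y ∈ T
      · exact c2 y e x hx y1 x1
      · obtain ⟨u, u1, u2, rfl⟩ := dec y hy e y1
        exact cm_mul (nC u (h.TS u1)) (c2 u u1 x hx u2 x1) (cm_symm (c1 x x1))
  have c4 : ∀ x ∈ S, ∀ y ∈ S, ⁅x, s⁆ ∈ V₁ ⊓ V₂ → ⁅y, s⁆ ∈ V₁ ⊓ V₂ → ⁅x, y⁆ ∈ zpowers c :=
    fun x hx y hy x1 y1 => by
      by_cases e : x ∈ T
      · exact cm_symm (c3 x e y hy x1 y1)
      · obtain ⟨u, u1, u2, rfl⟩ := dec x hx e x1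
        exact cm_mul (nC u (h.TS u1)) (cm_symm (c3 u u1 y hy u2 y1)) (cm_symm (c1 y y1))
  have ts : ∀ x ∈ S, ⁅x, t⁆ ∈ V₁ ⊓ V₂ ↔ ⁅x, s⁆ ∈ V₁ ⊓ V₂ := fun x hx => by
    by_cases e : x ∈ T
    · exact ⟨h.actT ht sS ht' s2 e, h.actT sS ht s2 ht' e⟩
    · rw [h.out ht ht' t2 hx e, h.out sS s2 (ss ▸ one_mem _) hx e]
  refine ⟨k4, fun x => ⟨fun hx => ⟨hE.le hx, (ts x (hE.le hx)).2 (ES x hx)⟩, fun ⟨hx, x1⟩ =>
    ess_r2 h.two hE (zpowers_le.2 (hZ cZ)) (iv_zp (hZ cZ) fun τ hτ => ?_) hx (fun d hd => cc d hd x hx)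
      fun e he => c4 e (hE.le he) x hx (ES e he) ((ts x hx).1 x1)⟩⟩
  have a1 := hτ.mem (hZ hz)
  have a2 := hτ.mem sE
  rw [hc, hom_cm hτ.homOn (hZ hz) sE]
  exact c4 _ (hE.le a1) _ (hE.le a2) (ES _ a1) (ES _ a2)

end Cfsg.Agent.Pu.Bs
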