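import Cfsg.Agent.Pu.E2
import Cfsg.Agent.Pu.B1

/-! S5175, slice ES: the case `t ∈ C(Z)` and the instance. -/

set_option autoImplicit false
set_option linter.unusedSectionVars false

universe u

namespace Cfsg.Agent.Pu

open Subgroup Cfsg.Fus Cfsg.Agent.FT Cfsg.Agent.Sg Equiv
open Cfsg.FusionSystem hiding inv_mem
open scoped commutatorElement

variable {Ω : Type u} [Group Ω] [Finite Ω] {S T V₁ V₂ E : Subgroup Ω} {F : FusionSystem S}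
  {a b c g s t v w x y z : Ω}

namespace Bs

variable (h : Bs S T V₁ V₂)
include h

/-- the preimage of `Z(S/Z) ∩ T/Z` -/
def dl : Subgroup Ω where
  carrier := {x | x ∈ T ∧ ∀ e ∈ S, ⁅x, e⁆ ∈ V₁ ⊓ V₂}
  one_mem' := ⟨one_mem _, by simp⟩
  mul_mem' := fun ha hb => ⟨mul_mem ha.1 hb.1, fun e he => cm_mul (h.nZ (h.TS ha.1)) (ha.2 e he) (hb.2 e he)⟩
  inv_mem' := fun {a} ha => ⟨inv_mem ha.1, fun e he => by
    simpa [commutatorElement_def, mul_assoc] using h.nZ (inv_mem (h.TS ha.1)) _ (cm_symm (ha.2 e he))⟩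

theorem mem_dl (hs : s ∈ S) (hs' : s ∉ T) (hx : x ∈ T) (e : ⁅x, s⁆ ∈ V₁ ⊓ V₂) : x ∈ h.dl :=
  ⟨hx, fun g hg => by
    by_cases k : g ∈ T
    exacts [h.cT hx k, h.actT hs hg hs' k hx e]⟩

theorem cm_dl (hx : x ∈ S) (hg : g ∈ T) : ⁅x, g⁆ ∈ h.dl := by
  by_cases k : x ∈ T
  · exact ⟨h.cST hx hg, fun e he => cm_symm (h.cSZ he (h.cT k hg))⟩
  refine h.mem_dl hx k (h.cST hx hg) (cm_symm ?_)
  convert mul_mem (h.cT (h.idx x hx x hx k k) hg) (h.sqT (inv_mem (h.cST hx hg))) using 1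
  simp only [commutatorElement_def]; group

theorem sq_conj (s2 : s * s ∈ V₁ ⊓ V₂) (hv : v ∈ T) : s * (s * v * s⁻¹) * s⁻¹ = v := by
  calc _ = s * s * v * (s * s)⁻¹ := by group
    _ = _ := by rw [h.zc s2 hv, mul_inv_cancel_right]

variable (hc : ∀ z ∈ V₁ ⊓ V₂, ∀ x ∈ S, z * x = x * z)
include hc

theorem ct (hs : s ∈ S) (hs' : s ∉ T) (s2 : s * s ∈ V₁ ⊓ V₂) (hx : x ∈ T) (e : x * s = s * x) :
    x ∈ V₁ ⊓ V₂ := by
  obtain ⟨v, hv, z, hz, rfl⟩ := h.del hs hs' hx (commutatorElement_eq_one_iff_mul_comm.2 e ▸ one_mem _)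
  have v' := (h.sw s hs hs').1 v hv
  have : v * (s * v * s⁻¹) = s * v * s⁻¹ * v := mul_right_cancel (b := z) (by
    calc _ = s * (v * (s * v * s⁻¹) * z) * s⁻¹ := by rw [← e, mul_inv_cancel_right]
      _ = s * v * s⁻¹ * (s * (s * v * s⁻¹) * s⁻¹) * (s * z * s⁻¹) := by group
      _ = _ := by rw [h.sq_conj s2 (h.l1 hv), ← hc z hz s hs, mul_inv_cancel_right])
  have k : v ∈ V₁ ⊓ V₂ := ⟨hv, (h.nc v hv _ v' this).elim id (h.back hs hs')⟩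
  exact mul_mem (mul_mem k (h.nZ hs v k)) hz

theorem dl_comm (ht : t ∈ S) (ht' : t ∉ T) (t2 : t * t ∈ V₁ ⊓ V₂) (hx : x ∈ h.dl) (hy : y ∈ h.dl) :
    x * y = y * x := by
  obtain ⟨v, hv, z, hz, rfl⟩ := h.del ht ht' hx.1 (hx.2 t ht)
  obtain ⟨w, hw, z', hz', rfl⟩ := h.del ht ht' hy.1 (hy.2 t ht)
  have v' := (h.sw t ht ht').1 v hv
  have w' := (h.sw t ht ht').1 w hw
  have aZ := cm_symm (h.cm w hw _ v')
  have bZ := cm_symm (h.cm v hv _ w')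
  have ab : ⁅t * v * t⁻¹, w⁆ = ⁅t * w * t⁻¹, v⁆ := by
    rw [← h.s1.inv bZ.1, commutatorElement_inv, ← h.sq_conj t2 (h.l1 hv), ← conjugate_commutatorElement,
      h.sq_conj t2 (h.l1 hv), ← hc _ aZ t ht, mul_inv_cancel_right]
  have k : Commute (v * (t * v * t⁻¹)) (w * (t * w * t⁻¹)) := by
    generalize t * v * t⁻¹ = v₂ at *
    generalize t * w * t⁻¹ = w₂ at *
    calc v * v₂ * (w * w₂) = v * ⁅v₂, w⁆ * w * (v₂ * w₂) := by rw [commutatorElement_def]; group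
      _ = ⁅w₂, v⁆ * (v * w) * (v₂ * w₂) := by rw [← h.zc aZ (h.l1 hv), ab]; group
      _ = w * ⁅w₂, v⁆ * v * (w₂ * v₂) := by
        rw [← h.zc bZ (h.l1 hw), sq_cm h.s1 hv hw, sq_cm h.s2 v' w']; group
      _ = _ := by rw [commutatorElement_def]; group
  have k1 : Commute z (w * (t * w * t⁻¹) * z') := h.zc hz hy.1
  have k2 : Commute (v * (t * v * t⁻¹)) z' := (h.zc hz' (mul_mem (h.l1 hv) (h.l2 v'))).symm
  exact ((k.mul_right k2).mul_left k1).eq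

theorem caseB2 (hE : F.IsEssential 2 E) (hlt : ¬ S ≤ E) (hs : s ∈ E) (hs' : s ∉ T) (ht : t ∈ S) (ht' : t ∉ T)
    (t2 : t * t ∈ V₁ ⊓ V₂) (hv : v ∈ V₁) (hw : w ∈ V₁) (v1 : v ∉ V₂) (w1 : w ∉ V₂) (vw : v * w ∉ V₂) :
    False := by
  obtain ⟨x, hx, y, hy, x1, y1, xy⟩ : ∃ x ∈ h.dl, ∃ y ∈ h.dl, x ∉ V₂ ∧ y ∉ V₂ ∧ x * y ∉ V₂ := by
    have k : ∀ v ∈ V₁, v * (t * v * t⁻¹) ∈ h.dl := fun v hv => h.mem_dl ht ht'
      (mul_mem (h.l1 hv) (h.nT ht v (h.l1 hv))) (by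
        convert h.cm v hv _ ((h.sw t ht ht').1 v hv) using 1
        conv_rhs => rw [commutatorElement_def, ← h.sq_conj t2 (inv_mem (h.l1 hv))]
        rw [commutatorElement_def]; group)
    have v' := (h.sw t ht ht').1 v hv
    have w' := (h.sw t ht ht').1 w hw
    refine ⟨_, k v hv, _, k w hw, by rwa [V₂.mul_mem_cancel_right v'], by rwa [V₂.mul_mem_cancel_right w'],
      fun e => vw ?_⟩
    convert mul_mem (mul_mem (mul_mem e (inv_mem w')) (inv_mem v'))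
      (cm_symm (h.cm _ (inv_mem hw) _ v')).2 using 1
    rw [commutatorElement_def]; group
  have ZE : ∀ z ∈ V₁ ⊓ V₂, z ∈ E := fun z hz => ess_cent hE (h.zS hz) fun x hx => (hc z hz x (hE.le hx)).symm
  by_cases k : zE E ≤ V₁ ⊓ V₂
  swap
  · obtain ⟨r, r1, r2⟩ := SetLike.not_le_iff_exists.1 k
    have r3 : r ∉ T := fun e => r2 (h.inv_fix e r1.2.1 (hE.le hs) hs' (by
      rw [r1.2.2 s hs, mul_inv_cancel_right]))
    have EZ : ∀ e ∈ E, e ∈ T → e ∈ V₁ ⊓ V₂ := fun e he e1 =>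
      h.ct hc (hE.le r1.1) r3 (r1.2.1 ▸ one_mem _) e1 (r1.2.2 e he)
    rcases ess_tv h.two hE le_rfl (fun _ hτ _ => hτ.mem) ZE (fun a ha b hb a1 b1 => EZ _ (mul_mem ha hb)
      (h.idx a (hE.le ha) b (hE.le hb) (fun e => a1 (EZ a ha e)) fun e => b1 (EZ b hb e))) (h.TS hx.1)
      (h.TS hy.1) (fun e he => ZE _ (cm_symm (hx.2 e (hE.le he)))) (fun e he => ZE _ (cm_symm (hy.2 e (hE.le he))))
      (fun e he => h.zc he hx.1) (fun e he => h.zc he hy.1) with e | e | e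
    exacts [x1 (EZ _ e hx.1).2, y1 (EZ _ e hy.1).2, xy (EZ _ e (mul_mem hx hy).1).2]
  have iZ : Iv F E (V₁ ⊓ V₂) := fun τ hτ z hz =>
    k (iv_zE τ hτ z ⟨ZE z hz, h.zsq hz, fun x hx => (hc z hz x (hE.le hx)).symm⟩)
  have DE : h.dl ≤ E := fun d hd => ess_r2 h.two hE ZE iZ (h.TS hd.1) (fun z hz => h.zc hz hd.1)
    fun e he => cm_symm (hd.2 e (hE.le he))
  by_cases k1 : E ⊓ T ≤ h.dl
  · have := h.not_iv hE hlt hs hs'
    simp only [Iv, not_forall] at this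
    obtain ⟨σ, hσ, e, he, e1⟩ := this
    have e2 : σ e ∉ T := fun k => e1 ⟨hσ.mem he.1, k⟩
    have key : ∀ d ∈ h.dl, d ∉ V₂ → σ d ∉ T := fun d hd d1 d2 => d1 (by
      simpa using (iZ _ hσ.symm _ (h.ct hc (hE.le (hσ.mem he.1)) e2
        (hσ.homOn.map_mul he.1 he.1 ▸ iZ σ hσ _ (h.sqT he.2)) d2 (by
          rw [← hσ.homOn.map_mul (DE hd) he.1, ← hσ.homOn.map_mul he.1 (DE hd),
            h.dl_comm hc ht ht' t2 hd (k1 he)]))).2)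
    refine key _ (mul_mem hx hy) xy ?_
    rw [hσ.homOn.map_mul (DE hx) (DE hy)]
    exact h.idx _ (hE.le (hσ.mem (DE hx))) _ (hE.le (hσ.mem (DE hy))) (key x hx x1) (key y hy y1)
  obtain ⟨e, he, e1⟩ := SetLike.not_le_iff_exists.1 k1
  refine h.not_T hlt hs (hE.le hs) hs' fun g hg => ess_r3 h.two hE ZE DE iZ (fun τ hτ d hd => ?_) (h.TS hg)
    (fun z hz => h.zc hz hg) (fun d hd => h.cT hd.1 hg) fun x hx => h.cm_dl (hE.le hx) hg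
  have k2 : ∀ e ∈ E, ⁅τ d, e⁆ ∈ V₁ ⊓ V₂ := fun e he => by
    obtain ⟨e, he', rfl⟩ := hτ.exists_eq he
    exact hom_cm hτ.homOn (DE hd) he' ▸ iZ τ hτ _ (hd.2 e (hE.le he'))
  exact h.mem_dl (hE.le hs) hs' (by_contra fun k3 => e1 (h.mem_dl (hE.le (hτ.mem (DE hd))) k3 he.2
    (cm_symm (k2 e he.1)))) (k2 s hs)

end Bs

variable {q : ℕ} {ℓ : Set (Subgroup (Hol V₁))} {L : Subgroup (Hol V₁)}

theorem Dat2.bs (d : Dat2 F T V₁ V₂ t q ℓ L) : Bs S T V₁ V₂ :=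
  have c := d.toDat.card_eq
  ⟨d.two, d.toDat.TS, d.toDat.le₁, d.toDat.le₂, fun x hx =>
      let ⟨a, ha, b, hb, e⟩ := d.mem_T.1 hx; ⟨a, ha, b, hb, e.symm⟩,
    d.toDat.sq₁, d.toDat.sq₂, fun _ hv _ hw => d.toDat.comm_mem hv hw, fun _ hv _ hw => d.toDat.m1 hv hw,
    ⟨fun e => d.ne (eq_of_le_of_card_ge e c.le), fun e => d.ne (eq_of_le_of_card_ge e c.ge).symm⟩,
    fun a ha b hb a1 b1 => by
      simpa using mul_mem ((d.mem_S ha).resolve_left a1)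
        (inv_mem ((d.mem_S (inv_mem hb)).resolve_left (by rwa [inv_mem_iff]))),
    fun s hs s1 => have k := d.toDat.swap_of hs (d.nT hs) s1
      ⟨fun _ hv => k.1 ▸ conj_mem_conj s hv, fun _ hv => k.2 ▸ conj_mem_conj s hv⟩⟩

theorem Dat2.exists_three (d : Dat2 F T V₁ V₂ t q ℓ L) (h4 : 4 ≤ q) :
    ∃ v ∈ V₁, ∃ w ∈ V₁, v ∉ V₂ ∧ w ∉ V₂ ∧ v * w ∉ V₂ := by
  obtain ⟨w, hw, w1⟩ := SetLike.not_le_iff_exists.1 d.bs.ne.1
  by_contra k
  push Not at k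
  have h1 : (V₁ ⊓ V₂).relIndex V₁ ∣ 2 := relIndex_dvd_two_iff.2 ⟨w, hw, fun b hb => by
    by_cases e : b ∈ V₂
    exacts [.inr ⟨hb, e⟩, .inl ⟨mul_mem hb hw, k b hb w hw e w1⟩]⟩
  have h2 := H1.card_mul_relIndex_of_le (inf_le_left : V₁ ⊓ V₂ ≤ V₁)
  rw [d.toDat.card_Z, mul_comm, mul_left_inj' Nat.card_pos.ne'] at h2
  have := Nat.le_of_dvd two_pos (h2 ▸ h1)
  omega

instance instES : ES.{u} := ⟨fun {Ω _ _ S F T V₁ V₂ t q ℓ L} d hf E hE => by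
  haveI : Fact (Nat.Prime 2) := ⟨Nat.prime_two⟩
  have h := d.bs
  have t1 := d.toDat.t_not
  by_cases hT : E ≤ T
  · exact (h.caseA hE hT).imp_right (.imp_right .inl)
  obtain ⟨s, hs, hs'⟩ := SetLike.not_le_iff_exists.1 hT
  have hlt := (hE.lt d.sat d.two).not_ge
  by_cases hc : t ∈ 𝐂((V₁ ⊓ V₂ : Subgroup Ω))
  · have c : ∀ z ∈ V₁ ⊓ V₂, ∀ x ∈ S, z * x = x * z := fun z hz x => h.cen d.tS t1 hz (hc z hz)
    have e : fixV V₁ L = ⊥ := le_bot_iff.1 (d.dd ▸ le_inf le_rfl fun x hx => by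
      have := conj_mem_conj t hx
      rwa [← hc x (d.toDat.fix_le hx), mul_inv_cancel_right] at this)
    obtain ⟨v, hv, w, hw, v1, w1, vw⟩ := d.exists_three (d.dq.elim And.right fun k => by
      have := d.toDat.one_lt
      rw [e, card_bot] at k
      omega)
    exact (h.caseB2 c hE hlt hs hs' d.tS t1 d.tt hv hw v1 w1 vw).elim
  have fr : ∀ s ∈ S, s ∉ T → ∀ z ∈ V₁ ⊓ V₂, s * z = z * s → ∃ y ∈ V₁ ⊓ V₂, z = ⁅y, s⁆ :=
    fun s hs s1 z hz e => by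
      obtain ⟨y, hy, e⟩ := hf.resolve_left hc z hz (h.cen hs s1 hz e.symm d.tS).symm
      refine ⟨y, hy, e.trans ?_⟩
      rw [commutatorElement_def, commutatorElement_def, mul_assoc, mul_assoc, ← mul_assoc t,
        h.act d.tS hs t1 s1 (inv_mem hy)]
      group
  obtain ⟨z, hz, zt⟩ : ∃ z ∈ V₁ ⊓ V₂, z * t ≠ t * z := by
    by_contra k
    push Not at k
    exact hc k
  obtain ⟨k1, k2⟩ := h.caseB1b hE hlt hs hs' (h.caseB1a hE hs hs' fr) fr d.tS t1 d.tt hz zt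
  have := h.not_iv hE hlt hs hs'
  simp only [Iv, not_forall] at this
  obtain ⟨σ, hσ, x, hx, e⟩ := this
  exact .inr (.inr (.inr ⟨k1, hc, k2, σ, hσ, x, hx, fun k => e ⟨hσ.mem hx.1, k⟩⟩))⟩

end Cfsg.Agent.Pu
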