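import Cfsg.Agent.H6.ZS
import Cfsg.Agent.Sz.Co
import Cfsg.Agent.FT.Main

/-! Slice FD of S5175: an additive group of units closed under inverses is a field. -/

set_option autoImplicit false

namespace Cfsg.Agent.Pu

open Subgroup Cfsg

theorem odd_of_invol {D : Type*} [Group D] [Finite D] (τ : MulAut D) (hτ : τ * τ = 1)
    (h : ∀ d, τ (d * (τ d)⁻¹) = d * (τ d)⁻¹ → τ d = d) :
    ∃ N : Subgroup D, Odd (Nat.card N) ∧ ∀ d, τ d * d⁻¹ ∈ N := by
  by_cases h1 : τ = 1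
  · exact ⟨⊥, by simp, by simp [h1]⟩
  haveI : Finite (D ⋊[(zpowers τ).subtype] zpowers τ) := Finite.of_equiv _ SemidirectProduct.equivProd.symm
  obtain ⟨z, hz⟩ : ∃ z : D ⋊[(zpowers τ).subtype] zpowers τ, z = SemidirectProduct.inr ⟨τ, mem_zpowers τ⟩ :=
    ⟨_, rfl⟩
  have e1 : ∀ d, z * SemidirectProduct.inl d * z⁻¹ = SemidirectProduct.inl (τ d) := fun d => by
    rw [hz, ← map_inv, ← SemidirectProduct.inl_aut]; rfl
  have iso : IsIsolatedInvolution z := by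
    refine ⟨orderOf_eq_prime ?_ fun e => h1 ?_, fun g hg => ?_⟩
    · rw [hz, ← map_pow, ← map_one SemidirectProduct.inr]
      exact congrArg _ (Subtype.ext ((pow_two τ).trans hτ))
    · exact congrArg Subtype.val (SemidirectProduct.inr_injective (hz.symm.trans (e.trans (map_one _).symm)))
    · have e2 : g * z * g⁻¹ = SemidirectProduct.inl (g.left * (τ g.left)⁻¹) * z := by
        have c : SemidirectProduct.inr g.right * z = z * SemidirectProduct.inr g.right := by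
          rw [hz, ← map_mul, ← map_mul, mul_comm' g.right]
        conv_lhs => rw [← g.inl_left_mul_inr_right]
        rw [map_mul, map_inv, ← e1, mul_assoc _ _ z, c]; group
      rw [e2] at hg ⊢
      have := e1 (g.left * (τ g.left)⁻¹)
      rw [mul_right_cancel ((mul_assoc _ _ _).trans hg.eq), mul_inv_cancel_right] at this
      rw [h _ (SemidirectProduct.inl_injective this).symm, mul_inv_cancel, map_one, one_mul]
  refine ⟨(oddCore (D ⋊[(zpowers τ).subtype] zpowers τ)).comap SemidirectProduct.inl, (H6.odd_card_oddCore).of_dvd_nat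
    (card_comap_dvd_of_injective _ _ SemidirectProduct.inl_injective), fun d => ?_⟩
  have := H6.zstar iso (SemidirectProduct.inl d)
  rwa [e1, ← map_inv, ← map_mul] at this

/-- an additive group of units, closed under inverses -/
structure JD {R : Type*} [Ring R] (𝔽 : AddSubgroup R) : Prop where
  two : ∀ x : R, x + x = 0
  one : 1 ∈ 𝔽
  inv : ∀ f ∈ 𝔽, f ≠ 0 → ∃ g ∈ 𝔽, f * g = 1 ∧ g * f = 1

namespace JD
variable {R : Type*} [Ring R] {𝔽 : AddSubgroup R} (h : JD 𝔽) {f g x : R}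
include h

theorem two' : (2 : R) = 0 := one_add_one_eq_two.symm.trans (h.two 1)

theorem cancel (hf : f ∈ 𝔽) (h0 : f ≠ 0) (e : f * x = 0) : x = 0 := by
  obtain ⟨g, -, -, e2⟩ := h.inv f hf h0
  rw [← one_mul x, ← e2, mul_assoc, e, mul_zero]

theorem eq_of_add (e : f + g = 0) : f = g := add_left_cancel ((h.two f).trans e.symm)

theorem hua (hf : f ∈ 𝔽) (hg : g ∈ 𝔽) : f * g * f ∈ 𝔽 := by
  by_cases f0 : f = 0
  · simp [f0]
  by_cases g0 : g = 0
  · simp [g0]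
  obtain ⟨f', hf', -, f2⟩ := h.inv f hf f0
  obtain ⟨g', hg', -, g2⟩ := h.inv g hg g0
  by_cases s0 : g' + f = 0
  · rwa [← h.eq_of_add s0, g2, one_mul, h.eq_of_add s0]
  obtain ⟨s, hs, -, s2⟩ := h.inv _ (add_mem hg' hf) s0
  have e : (f' + s) * (f + f * g * f) = 1 := by
    have e1 : f + f * g * f = (g' + f) * (g * f) := by rw [add_mul, ← mul_assoc, g2, one_mul, mul_assoc]
    rw [add_mul]
    nth_rw 2 [e1]
    rw [← mul_assoc, s2, one_mul, mul_add, mul_assoc f, ← mul_assoc f', f2, one_mul, add_assoc, h.two, add_zero]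
  by_cases t0 : f' + s = 0
  · rw [t0, zero_mul] at e
    exact absurd (by rw [← one_mul f, ← e, zero_mul]) f0
  obtain ⟨t, ht, -, t2⟩ := h.inv _ (add_mem hf' hs) t0
  have : t = f + f * g * f := by rw [← mul_one t, ← e, ← mul_assoc, t2, one_mul]
  exact (𝔽.add_mem_cancel_left hf).1 (this ▸ ht)

theorem pow (hf : f ∈ 𝔽) (n : ℕ) : f ^ n ∈ 𝔽 := by
  induction n using Nat.twoStepInduction with
  | zero => simpa using h.one
  | one => simpa using hf
  | more n h1 _ => rw [pow_succ, pow_succ']; exact h.hua hf h1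

theorem eq_one (hf : f ∈ 𝔽) (e : f * f = 1) : f = 1 := by
  by_contra hn
  exact hn (h.eq_of_add (h.cancel (add_mem hf h.one) (fun e => hn (h.eq_of_add e)) (by
    rw [add_mul, mul_add, e, one_mul, mul_one, add_comm 1 f, h.two])))

theorem inv_mem {u : Rˣ} (hu : (u : R) ∈ 𝔽) : (↑u⁻¹ : R) ∈ 𝔽 := by
  by_cases h0 : (u : R) = 0
  · rw [← mul_one (↑u⁻¹ : R), ← u.mul_inv, h0, zero_mul, mul_zero]; exact zero_mem _
  obtain ⟨g, hg, e, -⟩ := h.inv _ hu h0
  rwa [Units.inv_eq_of_mul_eq_one_right e]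

variable [Finite R]

theorem sqrt {u : Rˣ} (hu : (u : R) ∈ 𝔽) : ∃ k : Rˣ, (k : R) ∈ 𝔽 ∧ k * k = u := by
  obtain ⟨j, hj | hj⟩ := Nat.even_or_odd' (orderOf u)
  · have p := orderOf_pos u
    refine absurd (Units.ext (h.eq_one (h.pow hu j) ?_)) (pow_ne_one_of_lt_orderOf (x := u) (n := j) (by omega) (by omega))
    rw [← pow_add, ← two_mul, ← hj, ← Units.val_pow_eq_pow_val, pow_orderOf_eq_one, Units.val_one]
  · exact ⟨u ^ (j + 1), h.pow hu _, by
      rw [← pow_add, show j + 1 + (j + 1) = 2 * j + 1 + 1 by ring, pow_succ, ← hj, pow_orderOf_eq_one, one_mul]⟩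

theorem unit (hf : f ∈ 𝔽) (h0 : f ≠ 0) : ∃ u : Rˣ, (u : R) = f :=
  have ⟨g, _, e1, e2⟩ := h.inv f hf h0
  ⟨⟨f, g, e1, e2⟩, rfl⟩

theorem hua_comm (hf : f ∈ 𝔽) (hg : g ∈ 𝔽) (hx : x ∈ 𝔽) :
    f * (g * x * g) * f = g * (f * x * f) * g := by
  by_cases f0 : f = 0
  · simp [f0]
  by_cases g0 : g = 0
  · simp [g0]
  obtain ⟨f, rfl⟩ := h.unit hf f0
  obtain ⟨g, rfl⟩ := h.unit hg g0
  obtain ⟨D, hD⟩ : ∃ D : Subgroup (Rˣ × Rˣ), D = Subgroup.closure {p : Rˣ × Rˣ | (p.1 : R) ∈ 𝔽 ∧ p.2 = p.1⁻¹} := ⟨_, rfl⟩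
  have gen : ∀ u : Rˣ, (u : R) ∈ 𝔽 → (u, u⁻¹) ∈ D := fun u hu => hD ▸ Subgroup.subset_closure ⟨hu, rfl⟩
  have inv : ∀ d ∈ D, d.swap ∈ D ∧ ∀ y ∈ 𝔽, (d.1 : R) * y * ↑d.2⁻¹ ∈ 𝔽 := fun d hd => by
    rw [hD] at hd
    induction hd using closure_induction'' with
    | mem p hp =>
      obtain ⟨u, v⟩ := p
      obtain ⟨h1, rfl : v = u⁻¹⟩ := hp
      exact ⟨gen _ (h.inv_mem h1), fun y hy => h.hua h1 hy⟩
    | inv_mem p hp =>
      obtain ⟨u, v⟩ := p
      obtain ⟨h1, rfl : v = u⁻¹⟩ := hp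
      exact ⟨gen _ h1, fun y hy => h.hua (h.inv_mem h1) hy⟩
    | one => exact ⟨D.one_mem, fun y hy => by simpa using hy⟩
    | mul p q _ _ hp hq =>
      refine ⟨D.mul_mem hp.1 hq.1, fun y hy => ?_⟩
      simpa [mul_assoc] using hp.2 _ (hq.2 y hy)
  let τ : MulAut D :=
    { toFun d := ⟨d.1.swap, (inv _ d.2).1⟩, invFun d := ⟨d.1.swap, (inv _ d.2).1⟩
      left_inv _ := rfl, right_inv _ := rfl, map_mul' _ _ := rfl }
  let ρ : D →* AddMonoid.End 𝔽 :=
    { toFun d := AddMonoidHom.mk' (fun y => ⟨_, (inv _ d.2).2 y y.2⟩) fun y z => Subtype.ext (by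
        simp [mul_add, add_mul])
      map_one' := AddMonoidHom.ext fun y => Subtype.ext ((mul_one _).trans (one_mul _))
      map_mul' d e := AddMonoidHom.ext fun y => Subtype.ext (show
        ((d.1.1 * e.1.1 : Rˣ) : R) * y * ↑(d.1.2 * e.1.2)⁻¹ = d.1.1 * (e.1.1 * y * ↑e.1.2⁻¹) * ↑d.1.2⁻¹ by
          simp [mul_assoc]) }
  have hρ : ∀ (d : D) (y : 𝔽), (ρ d y : R) = d.1.1 * y * ↑d.1.2⁻¹ := fun _ _ => rfl
  have fx : ∀ d : D, d.1.1 = d.1.2 → τ d = d := fun d e => Subtype.ext (Prod.ext e.symm e)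
  have sq : ∀ d : D, d.1.1 * d.1.2⁻¹ = d.1.2 * d.1.1⁻¹ → d.1.1 = d.1.2 := fun d e =>
    mul_inv_eq_one.1 (Units.ext (h.eq_one (by simpa using (inv _ d.2).2 1 h.one) (by
      rw [← Units.val_mul]; nth_rw 1 [e]; simp)))
  obtain ⟨N, hN, hN'⟩ := odd_of_invol τ rfl fun d e => fx d (sq d (congrArg (fun z : D => z.1.2) e))
  have top : N = ⊤ := by
    refine eq_top_iff.2 fun d _ => ?_
    have : D ≤ N.map D.subtype := hD.le.trans ((Subgroup.closure_le _).2 fun p hp => by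
      obtain ⟨k, hk, e⟩ := h.sqrt hp.1
      exact ⟨_, hN' ⟨_, gen k hk⟩⁻¹, Prod.ext e (by rw [hp.2, ← e, mul_inv_rev]; rfl)⟩)
    obtain ⟨n, hn, e⟩ := this d.2
    exact Subtype.ext e ▸ hn
  rw [top, card_top] at hN
  haveI := FT.feit_thompson D hN
  have n1 : (1 : R) ≠ 0 := fun e => f0 (by rw [← mul_one (f : R), e, mul_zero])
  have kr : ∀ d ∈ ρ.ker, d.1.1 * d.1.2⁻¹ = 1 := fun d hd => Units.ext (by
    have : (ρ d ⟨1, h.one⟩ : R) = 1 := by rw [hd]; rfl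
    rwa [hρ, mul_one] at this)
  have := Sz.hup' ρ hN (fun e => Subtype.ext (h.two _)) τ.toMonoidHom (fun _ => rfl)
    (fun d hd => fx d (mul_inv_eq_one.1 (kr d hd))) (s := ⟨1, h.one⟩)
    (fun e => n1 (congrArg Subtype.val e)) (fun e he => by
      obtain ⟨u, hu⟩ := h.unit e.2 fun e' => he (Subtype.ext e')
      obtain ⟨k, hk, rfl⟩ := h.sqrt (hu ▸ e.2)
      exact ⟨⟨_, gen k hk⟩, Subtype.ext (by simpa [hρ] using hu)⟩)
    (fun d hd => Subtype.ext (by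
      have e : d.1.2⁻¹ * d.1.1 = d.1.1⁻¹ * d.1.2 := mul_inv_eq_one.1 (kr _ hd)
      rw [hρ, sq d (by rw [← inv_inv d.1.2, mul_inv_eq_iff_eq_mul, inv_inv, mul_assoc, ← e, ← mul_assoc, mul_inv_cancel, one_mul])]
      simp)) (k := ⟨_, gen f hf⟩) (k' := ⟨_, gen g hg⟩) rfl rfl
  simpa [hρ] using congrArg (fun φ : AddMonoid.End 𝔽 => (φ ⟨x, hx⟩ : R)) this

theorem comm (hf : f ∈ 𝔽) (hg : g ∈ 𝔽) : f * g = g * f := by
  have t := h.two'
  have lin : ∀ f ∈ 𝔽, ∀ x ∈ 𝔽, (f * g + g * f) * x * f = f * x * (f * g + g * f) := fun f hf x hx => by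
    have e1 := h.hua_comm hf hg hx
    have e2 := h.hua_comm hf (add_mem hg h.one) hx
    linear_combination (norm := noncomm_ring) e2 - e1 + (g * f * x * f - f * x * g * f) * t
  have hc : f * g + g * f ∈ 𝔽 := by
    have := sub_mem (sub_mem (h.pow (add_mem hf hg) 2) (h.pow hf 2)) (h.pow hg 2)
    convert this using 1; noncomm_ring
  by_contra hn
  have c1 : ∀ x ∈ 𝔽, (f * g + g * f) * x = x * (f * g + g * f) := fun x hx => by
    have e1 := lin f hf x hx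
    have e2 := lin _ (add_mem hf h.one) x hx
    linear_combination (norm := noncomm_ring) e2 - e1 - (g * x * f + g * x - f * x * g - x * g) * t
  refine hn (h.eq_of_add (h.cancel hc (fun e => hn (h.eq_of_add e)) ?_))
  have e1 := lin f hf g hg
  have e2 := c1 f hf
  have e3 := c1 g hg
  rw [mul_add, ← mul_assoc, e2, mul_assoc f, e3, ← mul_assoc f, ← e1, mul_assoc, h.two]

theorem mul_mem (hf : f ∈ 𝔽) (hg : g ∈ 𝔽) : f * g ∈ 𝔽 := by
  by_cases f0 : f = 0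
  · simp [f0]
  obtain ⟨u, rfl⟩ := h.unit hf f0
  obtain ⟨k, hk, rfl⟩ := h.sqrt hf
  rw [Units.val_mul, mul_assoc, h.comm hk hg, ← mul_assoc]
  exact h.hua hk hg

theorem field [Nontrivial R] : ∃ (K : Type) (_ : Field K) (_ : Fintype K) (_ : CharP K 2) (ι : K →+* R),
    ∀ x, x ∈ 𝔽 ↔ ∃ k, ι k = x := by
  let S : Subring R := { 𝔽 with one_mem' := h.one, mul_mem' := h.mul_mem }
  have hS : IsField S := ⟨exists_pair_ne _, fun x y => Subtype.ext (h.comm x.2 y.2), fun {x} hx =>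
    have ⟨g, hg, e, _⟩ := h.inv x x.2 fun e => hx (Subtype.ext e)
    ⟨⟨g, hg⟩, Subtype.ext e⟩⟩
  letI := hS.toField
  haveI : Small.{0} S := Countable.toSmall S
  let ι : Shrink.{0} S →+* R := S.subtype.comp (Shrink.ringEquiv S).toRingHom
  haveI : Finite (Shrink.{0} S) := Finite.of_equiv _ (equivShrink S)
  refine ⟨Shrink.{0} S, inferInstance, Fintype.ofFinite _, CharTwo.of_one_ne_zero_of_two_eq_zero one_ne_zero
    (ι.injective (by rw [map_ofNat, map_zero, h.two'])), ι, fun x => ⟨fun hx => ?_, ?_⟩⟩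
  · exact ⟨(Shrink.ringEquiv S).symm ⟨x, hx⟩, by simp [ι]⟩
  · rintro ⟨k, rfl⟩
    exact (Shrink.ringEquiv S k).2

end JD

end Cfsg.Agent.Pu
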