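import Cfsg.Agent.Pu.A1

/-! Slice QL of S5175, first part. -/

set_option autoImplicit false

namespace Cfsg.Agent.Pu

open Subgroup Cfsg Cfsg.Agent.H1 Cfsg.Agent.L Cfsg.Agent.FT Cfsg.Agent.Sg Cfsg.Agent.R1
  Cfsg.Agent.St
open scoped Pointwise commutatorElement

variable {G : Type*} [Group G] {V L M A B K W X Y : Subgroup G} {x g a v : G} {q : ℕ}

theorem comm_one_of_cent (hv : v ∈ 𝐂(A)) (ha : a ∈ A) : ⁅v, a⁆ = 1 :=
  comm_eq_one_iff.2 (cent_le_cent1 ha hv)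

theorem cent_of_comm_one (h : ∀ a ∈ A, ⁅v, a⁆ = 1) : v ∈ 𝐂(A) :=
  mem_cent.2 fun a ha => (mem_cent1.1 (comm_eq_one_iff.1 (h a ha))).symm

theorem conj_eq_comm (v a : G) : a * v * a⁻¹ = ⁅v, a⁆⁻¹ * v := by
  simp only [commutatorElement_def]; group

theorem norm_of_le_ab (h : V ≤ 𝐂(V)) (h1 : X ≤ V) (h2 : Y ≤ V) : X ≤ 𝐍(Y) :=
  le_norm_of_le_cent ((h1.trans h).trans (cent_anti h2))

theorem norm_of_comm_le (h : ⁅W, A⁆ ≤ W) : A ≤ 𝐍(W) := comm_le_left_iff.1 h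

theorem conj_cmv [V.Normal] (h : V ≤ 𝐂(V)) (hx : x ∈ 𝐍(W)) : x ⋆ cmv h W A ≤ cmv h W (x ⋆ A) :=
  (le_cmv h).2 ⟨conj_le_normal ((le_cmv h).1 le_rfl).1 x,
    conj_comm x _ A ▸ conj_le_of_mem_norm hx ((le_cmv h).1 le_rfl).2⟩

variable [Finite G]

theorem eq_of_idx_le (h1 : A ≤ B) (h2 : A.relIndex K ≤ B.relIndex K) : B ⊓ K ≤ A := by
  by_contra e
  have := two_mul_idx h1 e
  have := relIndex_pos B K
  omega

theorem le_sup_of_idx (h1 : Y ≤ X) (h3 : K.relIndex X ≤ K.relIndex Y) : X ≤ Y ⊔ K ⊓ X :=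
  le_of_idx_le (sup_le h1 inf_le_right) le_sup_right (h3.trans (idx_le_right le_sup_left K))

namespace QH
variable (h : QH V L M A)
include h

omit [Finite G] in
theorem AL : A ≤ L := h.le.trans h.lt.le

omit [Finite G] in
theorem ab : V ≤ 𝐂(V) := h.md.sq.cent

omit [Finite G] in
theorem nY : L ≤ 𝐍((V ⊓ 𝐂(core {2} L) : Subgroup G)) :=
  haveI := h.md.nrm
  le_norm_subcent (le_norm_normal _ _) (core_normal _ _).norm

theorem AO_two : IsPGroup 2 (A ⊔ core {2} L : Subgroup G) :=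
  pgroup_sup h.sq.two (core_pgroup Nat.prime_two L) (Or.inl (h.AL.trans (core_normal _ _).norm))

theorem OM : A ⊔ core {2} L ≤ M :=
  h.uniq _ le_rfl (lt_of_le_of_ne (sup_le h.AL (core_le _ _)) fun e => by
    obtain ⟨g, hg, ho, hn⟩ := h.act
    have : g = 1 := PiElt.eq_one (π := {2}) (((piGrp_iff_isPGroup Nat.prime_two).2 h.AO_two).piElt (e.ge hg))
      (piGrp_zpowers.1 (odd_iff_piGrp.1 (by rwa [Nat.card_zpowers])))
    exact hn (this ▸ one_mem _))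

omit [Finite G] in
theorem le_conj (hx : x ∈ L) (h1 : x ⋆ A ⊔ core {2} L ≤ K) (h2 : K < L) : K ≤ x ⋆ M := by
  refine le_conj_iff.2 (h.uniq _ ?_ ?_)
  · rw [le_conj_iff, inv_inv, conj_sup, (core_normal _ _).conj_eq hx]; exact h1
  · rw [← conj_of_mem (inv_mem hx)]; exact conj_lt_conj_iff.2 h2

theorem mem_of (hx : x ∈ L) (hA : x ⋆ A ≤ M) : x ∈ M := by
  have := h.le_conj hx (sup_le hA (le_sup_right.trans h.OM)) h.lt
  exact M.inv_mem_iff.1 (h.self ⟨L.inv_mem hx, mem_norm_of_conj_le (le_conj_iff.1 this)⟩)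

theorem gen (hx : x ∈ L) (hxM : x ∉ M) : A ⊔ x ⋆ A ⊔ core {2} L = L := by
  by_contra e
  have := h.uniq _ (sup_le_sup_right le_sup_left _) (lt_of_le_of_ne
    (sup_le (sup_le h.AL (conj_le_of_mem hx h.AL)) (core_le _ _)) e)
  exact hxM (h.mem_of hx ((le_sup_right.trans le_sup_left).trans this))

theorem mem_core (ha : a ∈ A) (H : ∀ x ∈ L, x ∉ M → a ∈ x ⋆ M) : a ∈ core {2} L := by
  haveI : Fact (Nat.Prime 2) := ⟨Nat.prime_two⟩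
  have hK : ∀ k, k ∈ (⨅ x : L, (x : G) ⋆ M : Subgroup G) ↔ ∀ x ∈ L, x⁻¹ * k * x ∈ M := fun k => by
    simp only [mem_iInf, mem_conj, Subtype.forall]
  have KM : (⨅ x : L, (x : G) ⋆ M : Subgroup G) ≤ M := fun k hk => by simpa using (hK k).1 hk 1 L.one_mem
  have nK : (⨅ x : L, (x : G) ⋆ M : Subgroup G) ⊴ L :=
    ⟨KM.trans h.lt.le, le_norm_iff.2 fun l hl k hk => (hK _).2 fun x hx => by
      have := (hK k).1 hk (l⁻¹ * x) (mul_mem (inv_mem hl) hx)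
      convert this using 1; group⟩
  have aK : a ∈ (⨅ x : L, (x : G) ⋆ M : Subgroup G) := mem_iInf.2 fun x => by
    by_cases e : x.1 ∈ M
    · rw [conj_of_mem e]; exact h.le ha
    · exact H x x.2 e
  generalize (⨅ x : L, (x : G) ⋆ M : Subgroup G) = K at *
  obtain ⟨R, hR, h1⟩ := exists_isSylowIn_ge h.AO_two (sup_le h.AL (core_le _ _))
  have h2 := sylow_inf_normal' Nat.prime_two hR nK
  have h3 := (sylow_frattini Nat.prime_two h2 nK).sup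
  have h4 : L ≤ L ⊓ 𝐍((R ⊓ K : Subgroup G)) := by
    by_contra e
    have := h.uniq (L ⊓ 𝐍((R ⊓ K : Subgroup G))) (h1.trans (le_inf hR.le
      (le_normalizer_inf le_normalizer (hR.le.trans nK.norm)))) (lt_of_le_not_ge inf_le_left e)
    exact h.lt.not_ge (h3.ge.trans (sup_le KM this))
  exact le_core_of_pgroup Nat.prime_two ⟨inf_le_left.trans hR.le, h4.trans inf_le_right⟩ h2.isPGroup
    ⟨h1 (mem_sup_left ha), aK⟩

/-- a noncentral chief factor inside `C_V(O₂(L))` -/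
theorem chief : ∃ Y₁ Y₂ : Subgroup G, Y₂ ≤ Y₁ ∧ Y₁ ≤ V ⊓ 𝐂(core {2} L) ∧ L ≤ 𝐍(Y₁) ∧ L ≤ 𝐍(Y₂) ∧
    ¬ ⁅Y₁, L⁆ ≤ Y₂ ∧ ∀ W, Y₂ ≤ W → W ≤ Y₁ → L ≤ 𝐍(W) → W ≤ Y₂ ∨ Y₁ ≤ W := by
  obtain ⟨g, hg, ho, hn⟩ := h.act
  obtain ⟨Y₁, ⟨a1, a2, a3⟩, m1⟩ := exists_minimal_of_wellFoundedLT
    (fun W : Subgroup G => W ≤ V ⊓ 𝐂(core {2} L) ∧ L ≤ 𝐍(W) ∧ g ∉ 𝐂(W)) ⟨_, le_rfl, h.nY, hn⟩
  obtain ⟨Y₂, ⟨b1, b2⟩, m2⟩ := exists_maximal_of_wellFoundedGT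
    (fun W : Subgroup G => W < Y₁ ∧ L ≤ 𝐍(W))
    ⟨⊥, bot_lt_iff_ne_bot.2 fun e => a3 (by simp [e]), (NormalIn.bot L).norm⟩
  refine ⟨Y₁, Y₂, b1.le, a1, a2, b2, fun e => a3 ?_, fun W w1 w2 w3 => ?_⟩
  · have c1 : g ∈ 𝐂(Y₂) := by
      by_contra c
      exact b1.not_ge (m1 ⟨b1.le.trans a1, b2, c⟩ b1.le)
    have c2 : g ^ 2 ∈ 𝐂(Y₁) := le_cent_symm (A := Y₁) (B := zpowers (g ^ 2)) (fun y hy => by
      have w := e (commutator_mem_commutator hy hg)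
      rw [cent_zpowers, ← comm_eq_one_iff, pow_two, commutatorElement_mul_right_eq_mul_conj,
        mul_assoc _ g, ← mem_cent.1 c1 _ w, ← mul_assoc, mul_inv_cancel_right]
      exact h.md.sq _ (a1 (b1.le w)).1) (mem_zpowers _)
    exact zpowers_le.2 c2 (mem_zpowers_pow_iff.2 (by rw [Nat.gcd_comm]; exact ho.coprime_two_right))
  · exact (eq_or_lt_of_le w2).symm.imp (fun e => m2 ⟨e, w3⟩ w1) Eq.ge

theorem one' : ∃ q, QC V L A q ∧ ∀ x ∈ L, x ∉ M →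
    V ⊓ 𝐂(core {2} L) ≤ V ⊓ 𝐂(core {2} L) ⊓ 𝐂(A) ⊔ V ⊓ 𝐂(core {2} L) ⊓ 𝐂((x ⋆ A : Subgroup G)) := by
  haveI := h.md.nrm
  have ab := h.ab
  obtain ⟨Y₁, Y₂, a1, a2, a3, a4, a5, a6⟩ := h.chief
  have yV : Y₁ ≤ V := a2.trans inf_le_left
  obtain ⟨F, hF⟩ : ∃ F : Subgroup G → Subgroup G, ∀ S, F S = Y₁ ⊓ cmv ab Y₂ S := ⟨_, fun _ => rfl⟩
  have mF : ∀ {S y}, y ∈ F S ↔ y ∈ Y₁ ∧ ∀ s ∈ S, ⁅y, s⁆ ∈ Y₂ := fun {S y} => by
    rw [hF]; exact ⟨fun e => ⟨e.1, e.2.2⟩, fun e => ⟨e.1, yV e.1, e.2⟩⟩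
  have F1 : ∀ S, F S ≤ Y₁ := fun S y hy => (mF.1 hy).1
  have F2 : ∀ S ≤ L, Y₂ ≤ F S := fun S hS y hy => mF.2 ⟨a1 hy, fun s hs => comm_mem_of_norm hy (a4 (hS hs))⟩
  have Fc : ∀ S, ∀ x ∈ L, x ⋆ F S ≤ F (x ⋆ S) := fun S x hx => by
    rw [hF, hF, conj_inf]
    exact inf_le_inf (conj_of_mem_norm (a3 hx)).le (conj_cmv ab (a4 hx))
  have FC : ∀ S, 𝐂(S) ⊓ Y₁ ≤ F S := fun S y hy =>
    mF.2 ⟨hy.2, fun s hs => by rw [comm_one_of_cent hy.1 hs]; exact one_mem _⟩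
  have FL : F L ≤ Y₂ := (a6 _ (F2 L le_rfl) (F1 L) (le_norm_of_conj fun x hx =>
    (Fc L x hx).trans_eq (by rw [conj_of_mem hx]))).resolve_right fun e =>
      a5 (commutator_le.2 fun y hy => (mF.1 (e hy)).2)
  have O1 : ∀ y ∈ Y₁, core {2} L ≤ stb y Y₂ L a4 := fun y hy o ho =>
    ⟨core_le _ _ ho, by rw [comm_one_of_cent (a2 hy).2 ho]; exact one_mem _⟩
  have S1 : ∀ S ≤ L, ∀ y ∈ F S, S ≤ stb y Y₂ L a4 := fun S hS y hy s hs => ⟨hS hs, (mF.1 hy).2 s hs⟩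
  have S2 : ∀ y ∈ Y₁, L ≤ stb y Y₂ L a4 → y ∈ Y₂ := fun y hy e => FL (mF.2 ⟨hy, fun s hs => (e hs).2⟩)
  have xA : ∀ x ∈ L, x ⋆ A ≤ L := fun x hx => conj_le_of_mem hx h.AL
  have q1 : ∀ x ∈ L, ⁅Y₁, x ⋆ A⁆ ≤ F (x ⋆ A) := fun x hx => by
    refine le_trans (le_inf ((commutator_mono yV le_rfl).trans ?_) (comm_le_left ((xA x hx).trans a3))) (FC _)
    rw [← conj_cent, ← conj_normal x V, ← conj_comm]
    exact conj_mono x h.quad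
  have ia : ∀ x ∈ L, x ∉ M → F A ⊓ F (x ⋆ A) ≤ Y₂ := fun x hx hm y hy => S2 y (F1 _ hy.1)
    ((h.gen hx hm).ge.trans (sup_le (sup_le (S1 A h.AL y hy.1) (S1 _ (xA x hx) y hy.2)) (O1 y (F1 _ hy.1))))
  have ib : ∀ x ∈ L, x ∉ M → Y₁ ≤ F A ⊔ F (x ⋆ A) := fun x hx hm => by
    have w1 : F A ⊔ F (x ⋆ A) ≤ Y₁ := sup_le (F1 _) (F1 _)
    have c1 : ⁅Y₁, A⁆ ≤ F A ⊔ F (x ⋆ A) := le_sup_of_le_left (by simpa using q1 1 L.one_mem)
    have c2 : ⁅Y₁, x ⋆ A⁆ ≤ F A ⊔ F (x ⋆ A) := le_sup_of_le_right (q1 x hx)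
    have c3 : ⁅Y₁, core {2} L⁆ ≤ F A ⊔ F (x ⋆ A) := (comm_eq_bot_iff.2 (a2.trans inf_le_right)).le.trans bot_le
    have n : ∀ S, ⁅Y₁, S⁆ ≤ F A ⊔ F (x ⋆ A) → S ≤ 𝐍((F A ⊔ F (x ⋆ A) : Subgroup G)) := fun S e =>
      norm_of_comm_le ((commutator_mono w1 le_rfl).trans e)
    have n1 := sup_le (n _ c1) (n _ c2)
    have c4 := comm_sup_right_le (comm_sup_right_le c1 c2 (n _ c1) (n _ c2)) c3 n1 (n _ c3)
    rw [h.gen hx hm] at c4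
    exact (a6 _ (le_sup_of_le_left (F2 A h.AL)) w1 (n _ c4)).resolve_left fun e => a5 (c4.trans e)
  have ic : ∀ a ∈ A, a ∉ core {2} L → ∀ y ∈ Y₁, ⁅y, a⁆ ∈ Y₂ → y ∈ F A := fun a ha ho y hy e => by
    by_contra hn
    refine ho (h.mem_core ha fun x hx hm => ?_)
    obtain ⟨u, hu, w, hw, rfl⟩ := (mem_sup_V ab ((F1 _).trans yV) ((F1 _).trans yV)).1 (ib x hx hm hy)
    rw [comm_mul_ab ab (yV (F1 _ hu)) (yV (F1 _ hw)), mul_mem_cancel_right ((mF.1 hu).2 a ha)] at e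
    refine h.le_conj hx (sup_le (S1 _ (xA x hx) w hw) (O1 w (F1 _ hw))) (lt_of_le_not_ge (fun _ e => e.1)
      fun e => hn (mul_mem hu (F2 A h.AL (S2 w (F1 _ hw) e)))) ⟨h.AL ha, e⟩
  have id : ∀ x ∈ L, Y₂.relIndex (F (x ⋆ A)) = Y₂.relIndex (F A) := fun x hx => by
    have : x ⋆ F A = F (x ⋆ A) := le_antisymm (Fc A x hx) (le_conj_iff.2 (by simpa using Fc (x ⋆ A) _ (inv_mem hx)))
    rw [← this, ← relIndex_conj x Y₂ (F A), conj_of_mem_norm (a4 hx)]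
  obtain ⟨x, hx, hm⟩ := SetLike.exists_of_lt h.lt
  have n2 : ¬ F (x ⋆ A) ≤ Y₂ := fun e => by
    have e1 : F A ≤ Y₂ := relIndex_eq_one.1 ((id x hx).symm.trans (relIndex_eq_one.2 e))
    exact a5 ((comm_le_left a3).trans ((ib x hx hm).trans (sup_le e1 e)))
  obtain ⟨y, hy, hy2⟩ := SetLike.not_le_iff_exists.1 n2
  have i1 : (core {2} L).relIndex A ≤ Y₂.relIndex (F A) := relIndex_le_of_inj (fun a => ⁅y, a⁆)
    (fun a ha => by simpa using q1 1 L.one_mem (commutator_mem_commutator (F1 _ hy) (by simpa using ha)))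
    fun a ha b hb e => by
      by_contra ho
      exact hy2 (ia x hx hm ⟨ic _ (mul_mem (inv_mem ha) hb) ho y (F1 _ hy)
        (mem_stb_of_div (h := a4) (h.AL ha) (h.AL hb) e).2, hy⟩)
  have i2 : Y₂.relIndex (F A) ≤ (F A).relIndex Y₁ :=
    (id x hx).ge.trans ((idx_le_left' (ia x hx hm)).trans (idx_le_right (F1 _) _))
  have i3 : (F A).relIndex Y₁ ≤ (𝐂(A)).relIndex Y₁ := idx_le_left' (FC A)
  have YD : V ⊓ 𝐂(core {2} L) ≤ V ⊓ 𝐂((A ⊓ core {2} L : Subgroup G)) :=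
    inf_le_inf_left V (cent_anti inf_le_right)
  have i4 := idx_le_right a2 (𝐂(A))
  have i5 := idx_le_right YD (𝐂(A))
  have e1 := card_inf_mul_relIndex (core {2} L) A
  have e2 := card_inf_mul_relIndex (𝐂(A)) (V ⊓ 𝐂((A ⊓ core {2} L : Subgroup G)))
  rw [inf_comm] at e1
  rw [← inf_assoc, inf_comm _ V, inf_eq_left.2 (inf_le_right.trans (cent_anti inf_le_left))] at e2
  have i6 : (𝐂(A)).relIndex (V ⊓ 𝐂((A ⊓ core {2} L : Subgroup G))) ≤ (core {2} L).relIndex A := by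
    have := h.best _ (inf_le_left (b := core {2} L))
    rw [← e2, ← e1, ← mul_assoc, mul_right_comm _ ((core {2} L).relIndex A)] at this
    exact Nat.le_of_mul_le_mul_left this (Nat.mul_pos Nat.card_pos Nat.card_pos)
  have j1 : F A ≤ 𝐂(A) := fun y hy => (eq_of_idx_le (FC A) (K := Y₁)
    (by rw [inf_relIndex_right]; omega) ⟨hy, F1 _ hy⟩).1
  have j2 := le_sup_of_idx a2 (K := 𝐂(A)) (by omega)
  have j3 : ∀ a ∈ A, a ∉ core {2} L → ∀ v ∈ V ⊓ 𝐂(core {2} L), (⁅v, a⁆ ∈ Y₁ → ⁅v, a⁆ ∈ Y₂) → v ∈ 𝐂(A) :=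
    fun a ha ho v hv e => by
      obtain ⟨u, hu, w, hw, rfl⟩ := (mem_sup_V ab yV (inf_le_right.trans inf_le_left)).1 (j2 hv)
      rw [comm_mul_cent _ (cent_le_cent1 ha hw.1)] at e
      exact mul_mem (j1 (ic a ha ho u hu (e (comm_mem_of_norm hu (a3 (h.AL ha)))))) hw.1
  refine ⟨(core {2} L).relIndex A, ⟨?_, by rw [← e1, mul_comm], ?_, ?_, fun a ha ho v hv => ?_,
    fun a ha ho v hv e => ?_⟩, fun x hx hm => j2.trans (sup_le ((ib x hx hm).trans (sup_le_sup ?_ ?_))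
      (le_sup_of_le_left (inf_comm _ _).le))⟩
  · have := two_le_idx n2
    have := id x hx
    omega
  · rw [← e2, mul_comm]; congr 1; omega
  · exact (le_sup_of_idx YD (K := 𝐂(A)) (by omega)).trans
      (sup_le_sup_left (le_inf (inf_le_right.trans inf_le_left) inf_le_left) _)
  · exact j3 a ha ho v hv.1 fun _ => by rw [comm_eq_one_iff.2 hv.2]; exact one_mem _
  · exact j3 a ha ho v hv fun e' => FL (FC L ⟨e, e'⟩)
  · exact le_inf ((F1 _).trans a2) j1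
  · refine le_inf ((F1 _).trans a2) ?_
    rw [← conj_cent, le_conj_iff]
    exact (Fc _ _ (inv_mem hx)).trans (by rw [inv_conj_conj]; exact j1)

end QH

end Cfsg.Agent.Pu
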