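import Cfsg.Agent.Pu.F1
import Cfsg.Agent.Pu.Q1

/-! Slice FD of S5175: coordinates on a line. -/

set_option autoImplicit false

universe u

namespace Cfsg.Agent.Pu

open Subgroup Cfsg Cfsg.Agent.H1 Cfsg.Agent.L Cfsg.Agent.FT Cfsg.Agent.Sg Cfsg.Agent.R1
  Cfsg.Agent.St
open scoped Pointwise commutatorElement

section Ring
variable {R : Type*} [Ring R] {a b c d : R}

theorem mu_left (e : a * b + b * a = 1) (h : a * c = 0) : a * (b * c) = c := by
  rw [← mul_assoc, eq_sub_of_add_eq e, sub_mul, mul_assoc, h, mul_zero, sub_zero, one_mul]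

theorem mu_right (e : a * b + b * a = 1) (h : c * a = 0) : c * (b * a) = c := by
  rw [eq_sub_of_add_eq' e, mul_sub, ← mul_assoc, h, zero_mul, sub_zero, mul_one]

theorem mu_rel (e : a * b + b * a = 1) (aa : a * a = 0) (bb : b * b = 0) (ac : a * c = 0)
    (db : d * b = 0) (E : (1 + a) * (1 + d) * (1 + a) = (1 + b) * (1 + c) * (1 + b)) : a * d = c * b := by
  have h1 : a * (1 + a) = a := by rw [mul_add, aa, mul_one, add_zero]
  have h2 : (1 + b) * b = b := by rw [add_mul, bb, one_mul, add_zero]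
  have := congrArg (fun x => a * x * b) E
  simp only [← mul_assoc a, h1] at this
  simp only [mul_assoc _ _ b, h2] at this
  have h3 := mu_right ((add_comm _ _).trans e) db
  have h4 := mu_left e ac
  linear_combination (norm := noncomm_ring) this - aa * b - a * db - a * h3 + ac * b + a * bb + h4 * b

theorem mu_inv (e : a * b + b * a = 1) (e' : c * d + d * c = 1) (ac : a * c = 0) (ca : c * a = 0)
    (bd : b * d = 0) : (c * b + b * c) * (a * d + d * a) = 1 := by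
  have h1 := mu_left ((add_comm _ _).trans e) bd
  have h2 := mu_left e' ca
  have h3 := mu_left e ac
  have h4 := mu_right ((add_comm _ _).trans e') bd
  linear_combination (norm := noncomm_ring) c * h1 + c * bd * a + b * ca * d + b * h2 + e + a * h4 - h3 * d

end Ring

theorem exists_mod {G : Type u} [Group G] [Finite G] {V : Subgroup G} [V.Normal] (hV : Sq V) (L : Subgroup G) :
    ∃ (W : Type u) (_ : AddCommGroup W) (_ : Finite W) (π : G → W) (α : G → AddMonoid.End W),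
      (∀ w, ∃ v ∈ V, π v = w) ∧ (∀ v ∈ V, ∀ v' ∈ V, π (v * v') = π v + π v') ∧
      (∀ v ∈ V, π v = 0 ↔ v ∈ 𝐂(L)) ∧ ∀ g ∈ L, ∀ v ∈ V, α g (π v) = π ⁅v, g⁆ := by
  classical
  letI : CommGroup V := { (inferInstance : Group V) with
    mul_comm x y := Subtype.ext (mem_cent.1 (hV.cent y.2) x x.2) }
  let φ : ∀ g ∈ L, V ⧸ (𝐂(L)).subgroupOf V →* V ⧸ (𝐂(L)).subgroupOf V := fun g hg =>
    QuotientGroup.map _ _ ((cmh hV.cent g).codRestrict V fun v => comm_mem_nl v.2 g) fun v hv =>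
      show ⁅(v : G), g⁆ ∈ 𝐂(L) by rw [comm_one_of_cent (v := (v : G)) hv hg]; exact one_mem _
  refine ⟨Additive (V ⧸ (𝐂(L)).subgroupOf V), inferInstance, inferInstance,
    fun v => if h : v ∈ V then Additive.ofMul (QuotientGroup.mk ⟨v, h⟩) else 0,
    fun g => if h : g ∈ L then MonoidHom.toAdditive (φ g h) else 0, fun w => ?_, fun v hv v' hv' => ?_,
    fun v hv => ?_, fun g hg v hv => ?_⟩
  · obtain ⟨v, e⟩ := QuotientGroup.mk_surjective w.toMul
    exact ⟨v, v.2, (dif_pos v.2).trans (congrArg Additive.ofMul e)⟩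
  · simp only [dif_pos hv, dif_pos hv', dif_pos (mul_mem hv hv')]; rfl
  · simp only [dif_pos hv]
    exact QuotientGroup.eq_one_iff (N := (𝐂(L)).subgroupOf V) ⟨v, hv⟩
  · simp only [dif_pos hv, dif_pos (comm_mem_nl hv g)]
    exact DFunLike.congr_fun (dif_pos hg) _

instance instFD : FD.{u} where
  main {G} _ _ {V A B L q ℓ} hn hV h hA hB ne := by
    obtain ⟨W, _, _, π, α, sj, ad, kr, ac⟩ := exists_mod hV L
    haveI : Finite (AddMonoid.End W) := Finite.of_injective _ DFunLike.coe_injective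
    have p1 : π 1 = 0 := (kr 1 V.one_mem).2 (one_mem _)
    have w2 : ∀ w : W, w + w = 0 := fun w => by
      obtain ⟨v, hv, rfl⟩ := sj w
      rw [← ad v hv v hv, hV v hv, p1]
    have ex : ∀ {x y : AddMonoid.End W}, (∀ v ∈ V, x (π v) = y (π v)) → x = y := fun H =>
      AddMonoidHom.ext fun w => by obtain ⟨v, hv, rfl⟩ := sj w; exact H v hv
    have cj : ∀ g ∈ L, ∀ v ∈ V, π (g * v * g⁻¹) = π v + α g (π v) := fun g hg v hv => by
      rw [conj_eq_comm, hV.inv (comm_mem_nl hv g), ad _ (comm_mem_nl hv g) v hv, ac g hg v hv, add_comm]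
    have mu : ∀ g ∈ L, ∀ k ∈ L, 1 + α (g * k) = (1 + α g) * (1 + α k) := fun g hg k hk => ex fun v hv => by
      show π v + α (g * k) (π v) = π v + α k (π v) + α g (π v + α k (π v))
      rw [← cj _ (mul_mem hg hk) v hv, ← cj k hk v hv, ← cj g hg _ (hn.conj_mem v hv k)]
      congr 1; group
    have fx : ∀ D ∈ ℓ, ∀ a ∈ D, ∀ v ∈ V ⊓ 𝐂(D), α a (π v) = 0 := fun D hD a ha v hv => by
      rw [ac a (h.le hD ha) v hv.1, comm_one_of_cent hv.2 ha, p1]
    have zz : ∀ D ∈ ℓ, ∀ a ∈ D, ∀ b ∈ D, α a * α b = 0 := fun D hD a ha b hb => ex fun v hv => by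
      show α a (α b (π v)) = 0
      rw [ac b (h.le hD hb) v hv, fx D hD a ha _ ((h.mem D hD).comm_mem hv hb)]
    have zz' : ∀ D ∈ ℓ, ∀ a ∈ D, ∀ b ∈ D, ∀ w, α a (α b w) = 0 := fun D hD a ha b hb w =>
      DFunLike.congr_fun (zz D hD a ha b hb) w
    have am : ∀ D ∈ ℓ, ∀ a ∈ D, ∀ b ∈ D, α (a * b) = α a + α b := fun D hD a ha b hb => by
      have := mu a (h.le hD ha) b (h.le hD hb)
      rw [add_mul, one_mul, mul_add, mul_one, zz D hD a ha b hb, add_zero, add_assoc, add_comm (α b)] at this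
      exact add_left_cancel this
    have kk : ∀ D ∈ ℓ, ∀ a ∈ D, a ≠ 1 → ∀ v ∈ V, α a (π v) = 0 → v ∈ 𝐂(D) := fun D hD a ha h1 v hv e =>
      h.pure D hD a ha h1 v hv ((kr _ (comm_mem_nl hv a)).1 ((ac a (h.le hD ha) v hv).symm.trans e))
    have inj : ∀ D ∈ ℓ, ∀ a ∈ D, α a = 0 → a = 1 := fun D hD a ha e => by
      by_contra h1
      exact (h.mem D hD).not_le fun v hv => kk D hD a ha h1 v hv (by rw [e]; rfl)
    have half : ∀ D ∈ ℓ, ∀ E ∈ ℓ, D ≠ E → ∀ a ∈ D, ∀ b ∈ E, a ⋆ E = b ⋆ D → ∀ x ∈ V ⊓ 𝐂(D),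
        α a (α b (π x)) = π x := fun D hD E hE ne a ha b hb e x hx => by
      have a1 : a ≠ 1 := fun e' => ne (by
        rw [e', one_conj, eq_comm, conj_eq_iff, conj_of_mem (inv_mem hb)] at e; exact e)
      have b1 : b ≠ 1 := fun e' => ne (by
        rw [e', one_conj, conj_eq_iff, conj_of_mem (inv_mem ha)] at e; exact e.symm)
      have z1 := hn.conj_mem x hx.1 b
      have z2 : a * (b * x * b⁻¹) * a⁻¹ ∈ 𝐂(E) := by
        have := conj_mem_conj b hx.2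
        rw [conj_cent, ← e, ← conj_cent, mem_conj] at this
        rwa [(h.mem D hD).sq.inv ha] at this ⊢
      have z3 := fx E hE b hb _ ⟨hn.conj_mem _ z1 a, z2⟩
      rw [cj a (h.le hD ha) _ z1, cj b (h.le hE hb) x hx.1, map_add (α a), fx D hD a ha x hx, zero_add,
        add_right_comm, map_add, zz' E hE b hb b hb, add_zero] at z3
      obtain ⟨v, hv, ev⟩ := sj (π x + α a (α b (π x)))
      have : π v = 0 := (kr v hv).2 ((h.cent_eq hD hE ne).ge ⟨kk D hD a ha a1 v hv (by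
        rw [ev, map_add, fx D hD a ha x hx, zz' D hD a ha a ha, add_zero]), kk E hE b hb b1 v hv (ev ▸ z3)⟩)
      exact add_left_cancel ((ev.symm.trans this).trans (w2 _).symm)
    have key : ∀ a ∈ A, ∀ b ∈ B, a ⋆ B = b ⋆ A → α a * α b + α b * α a = 1 := fun a ha b hb e =>
      ex fun v hv => by
        obtain ⟨x, hx, y, hy, rfl⟩ := (mem_sup_V hV.cent inf_le_left inf_le_left).1 (h.span A hA B hB ne hv)
        show α a (α b _) + α b (α a _) = π _
        rw [ad x hx.1 y hy.1, map_add, map_add (α a) (π x), fx B hB b hb y hy, fx A hA a ha x hx, add_zero,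
          zero_add, half A hA B hB ne a ha b hb e x hx, half B hB A hA ne.symm b hb a ha e.symm y hy]
    have opp : ∀ a ∈ A, a ≠ 1 → ∃ b ∈ B, a ⋆ B = b ⋆ A := fun a ha h1 =>
      (h.regular hB hA (h.inv a (h.le hA ha) B hB) ne.symm (h.conj_ne hA hB ne ha h1).symm).imp
        fun _ e => ⟨e.1, e.2.symm⟩
    obtain ⟨a₀, ha₀, a1⟩ := exists_mem_ne_one (h.mem A hA).ne_bot
    obtain ⟨b₀, hb₀, e₀⟩ := opp a₀ ha₀ a1
    have k₀ := key a₀ ha₀ b₀ hb₀ e₀
    have k₀' := (add_comm _ _).trans k₀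
    have rel : ∀ a ∈ A, ∀ b ∈ B, a₀ * b * a₀⁻¹ = b₀ * a * b₀⁻¹ →
        α a₀ * α b = α a * α b₀ ∧ α b₀ * α a = α b * α a₀ := fun a ha b hb e => by
      rw [(h.mem A hA).sq.inv ha₀, (h.mem B hB).sq.inv hb₀] at e
      have := congrArg (fun g => 1 + α g) e
      simp only [mu _ (mul_mem (h.le hA ha₀) (h.le hB hb)) _ (h.le hA ha₀), mu _ (h.le hA ha₀) _ (h.le hB hb),
        mu _ (mul_mem (h.le hB hb₀) (h.le hA ha)) _ (h.le hB hb₀), mu _ (h.le hB hb₀) _ (h.le hA ha)] at this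
      exact ⟨mu_rel k₀ (zz A hA _ ha₀ _ ha₀) (zz B hB _ hb₀ _ hb₀) (zz A hA _ ha₀ _ ha) (zz B hB _ hb _ hb₀) this,
        mu_rel k₀' (zz B hB _ hb₀ _ hb₀) (zz A hA _ ha₀ _ ha₀) (zz B hB _ hb₀ _ hb) (zz A hA _ ha _ ha₀) this.symm⟩
    have rB : ∀ b ∈ B, ∃ a ∈ A, a₀ * b * a₀⁻¹ = b₀ * a * b₀⁻¹ := fun b hb =>
      mem_conj'.1 (e₀.le (conj_mem_conj a₀ hb))
    have rA : ∀ a ∈ A, ∃ b ∈ B, a₀ * b * a₀⁻¹ = b₀ * a * b₀⁻¹ := fun a ha =>
      (mem_conj'.1 (e₀.ge (conj_mem_conj b₀ ha))).imp fun _ e => ⟨e.1, e.2.symm⟩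
    obtain ⟨φ, hφ⟩ : ∃ φ : G → AddMonoid.End W, ∀ a, φ a = α a * α b₀ + α b₀ * α a := ⟨_, fun _ => rfl⟩
    have φm : ∀ a ∈ A, ∀ b ∈ A, φ (a * b) = φ a + φ b := fun a ha b hb => by
      rw [hφ, hφ, hφ, am A hA a ha b hb]; noncomm_ring
    have r2 : ∀ x : AddMonoid.End W, x + x = 0 := fun x => AddMonoidHom.ext fun w => w2 (x w)
    have φa : ∀ a ∈ A, φ a * α a₀ = α a * (α b₀ * α a₀) := fun a ha => by
      rw [hφ, add_mul, mul_assoc (α b₀), zz A hA a ha _ ha₀, mul_zero, add_zero, mul_assoc]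
    have φa' : ∀ a ∈ A, φ a * α a₀ = α a := fun a ha => (φa a ha).trans (mu_right k₀ (zz A hA a ha _ ha₀))
    have φi : ∀ a ∈ A, ∀ b ∈ A, φ a = φ b → a = b := fun a ha b hb e => by
      rw [← (h.mem A hA).sq.inv ha]
      refine inv_eq_of_mul_eq_one_right (inj A hA _ (mul_mem ha hb) ?_)
      rw [am A hA a ha b hb, ← φa' a ha, ← φa' b hb, e, r2]
    have φ1 : φ 1 = 0 := add_left_cancel ((φm 1 A.one_mem 1 A.one_mem).symm.trans (by rw [mul_one, add_zero]))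
    let 𝔽 : AddSubgroup (AddMonoid.End W) :=
      { carrier := {x | ∃ a ∈ A, φ a = x}
        zero_mem' := ⟨1, A.one_mem, φ1⟩
        add_mem' := by
          rintro _ _ ⟨a, ha, rfl⟩ ⟨b, hb, rfl⟩
          exact ⟨_, mul_mem ha hb, φm a ha b hb⟩
        neg_mem' := fun {x} hx => (neg_eq_of_add_eq_zero_left (r2 x)).symm ▸ hx }
    have jd : JD 𝔽 := ⟨r2, ⟨a₀, ha₀, (hφ _).trans k₀⟩, by
      rintro _ ⟨a, ha, rfl⟩ h0
      obtain ⟨b, hb, e⟩ := opp a ha fun e => h0 (e ▸ φ1)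
      obtain ⟨a', ha', e'⟩ := rB b hb
      have k := key a ha b hb e
      refine ⟨_, ⟨a', ha', rfl⟩, ?_⟩
      rw [hφ, hφ a', ← (rel a' ha' b hb e').1, (rel a' ha' b hb e').2]
      refine ⟨mu_inv k₀ k (zz A hA _ ha₀ _ ha) (zz A hA _ ha _ ha₀) (zz B hB _ hb₀ _ hb), ?_⟩
      rw [add_comm (α a₀ * _), add_comm (α a * _)]
      exact mu_inv k₀' ((add_comm _ _).trans k) (zz B hB _ hb₀ _ hb) (zz B hB _ hb _ hb₀) (zz A hA _ ha₀ _ ha)⟩
    have α0 : α a₀ ≠ 0 := fun e => a1 (inj A hA _ ha₀ e)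
    haveI : Nontrivial (AddMonoid.End W) := ⟨_, _, α0⟩
    obtain ⟨K, _, _, _, ι, hι⟩ := jd.field
    choose a ha ea using fun k : K => (hι (ι k)).2 ⟨k, rfl⟩
    choose b hb eb using fun k : K => rA _ (ha k)
    have as : ∀ g ∈ A, ∃ k, a k = g := fun g hg =>
      have ⟨k, e⟩ := (hι _).1 ⟨g, hg, rfl⟩
      ⟨k, φi _ (ha k) _ hg ((ea k).trans e)⟩
    have aa : ∀ x y, a (x + y) = a x * a y := fun x y => φi _ (ha _) _ (mul_mem (ha x) (ha y)) (by
      rw [φm _ (ha x) _ (ha y), ea, ea, ea, map_add])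
    obtain ⟨w₀, hw₀⟩ : ∃ w, α a₀ w ≠ 0 := not_forall.1 fun H => α0 (AddMonoidHom.ext H)
    have ev : ∀ k, ι k (α a₀ w₀) = α (a k) w₀ := fun k => by
      rw [← φa' _ (ha k), ea]; rfl
    have evi : ∀ {k l}, ι k (α a₀ w₀) = ι l (α a₀ w₀) → k = l := fun {k l} e => by
      by_contra hne
      have h1 : ι (k - l) (α a₀ w₀) = 0 := by rw [map_sub]; exact sub_eq_zero.2 e
      have h2 : (ι (k - l)⁻¹ * ι (k - l)) (α a₀ w₀) = 0 := (congrArg (ι (k - l)⁻¹) h1).trans (map_zero _)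
      rw [← map_mul, inv_mul_cancel₀ (sub_ne_zero.2 hne), map_one] at h2
      exact hw₀ h2
    have evs : ∀ w, ∃ k, ι k (α a₀ w₀) = α a₀ w := fun w => by
      obtain ⟨y, hy, rfl⟩ := sj w₀
      obtain ⟨v, hv, rfl⟩ := sj w
      have m := (h.mem A hA).comm_mem hv ha₀
      obtain ⟨g, hg, e⟩ := h.exists_comm' hV.cent hA hy (fun e => hw₀ (fx A hA _ ha₀ y ⟨hy, e⟩)) m
      obtain ⟨k, rfl⟩ := as g hg
      have := (kr _ e.1).2 e.2
      rw [hV.inv m.1, ad _ m.1 _ (comm_mem_nl hy _), ← ac _ (h.le hA ha₀) v hv, ← ac _ (h.le hA hg) y hy] at this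
      exact ⟨k, (ev k).trans (add_left_cancel (this.trans (w2 _).symm))⟩
    choose c hc using evs
    have ca : ∀ w w', c (w + w') = c w + c w' := fun w w' => evi (by
      rw [hc, map_add, map_add ι, ← hc w, ← hc w']; rfl)
    have cz : ∀ w, c w = 0 ↔ α a₀ w = 0 := fun w =>
      ⟨fun e => by rw [← hc w, e, map_zero]; rfl, fun e => evi (by rw [hc, e, map_zero]; rfl)⟩
    have cm : ∀ x w w', α a₀ w' = φ (a x) (α a₀ w) → c w' = x * c w := fun x w w' e => evi (by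
      rw [hc, e, map_mul, ea, ← hc w]; rfl)
    have ab : ∀ x w, α a₀ (α b₀ (α (a x) w)) = α (a x) w := fun x w =>
      DFunLike.congr_fun (mu_left k₀ (zz A hA _ ha₀ _ (ha x))) w
    refine ⟨K, inferInstance, inferInstance, inferInstance, fun v => c (α b₀ (π v)), fun v => c (π v), a, b, ?_,
      fun v hv w hw => ?_, fun x y => ?_, fun v hv => ?_, fun x y => ⟨aa x y, ?_⟩,
      fun g => ⟨as g, fun ⟨k, e⟩ => e ▸ ha k⟩, fun g => ⟨fun hg => ?_, fun ⟨k, e⟩ => e ▸ hb k⟩,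
      fun x v hv => ?_⟩
    · rw [← (h.mem A hA).card, ← Nat.card_eq_fintype_card]
      exact Nat.card_eq_of_bijective (fun k => ⟨a k, ha k⟩) ⟨fun k l e => ι.injective (by
        rw [← ea, ← ea, show a k = a l from congrArg Subtype.val e]), fun g =>
          (as g g.2).imp fun _ e => Subtype.ext e⟩
    · simp only [ad v hv w hw, map_add, ca, and_self]
    · obtain ⟨v, hv, e⟩ := sj (α (a x) w₀ + α b₀ (α (a y) w₀))
      refine ⟨v, hv, evi ?_, evi ?_⟩
      · rw [hc, e, map_add, zz' B hB _ hb₀ _ hb₀, add_zero, ab, ev]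
      · rw [hc, e, map_add, zz' A hA _ ha₀ _ (ha x), zero_add, ab, ev]
    · rw [← kr v hv, cz, cz]
      refine ⟨fun e => ?_, fun e => by simp [e]⟩
      have : α a₀ (α b₀ (π v)) + α b₀ (α a₀ (π v)) = π v := DFunLike.congr_fun k₀ (π v)
      rw [← this, e.1, e.2, map_zero, add_zero]
    · refine mul_left_cancel (a := a₀) (mul_right_cancel (b := a₀⁻¹) ?_)
      rw [eb, aa, ← conj_mul, ← conj_mul, eb, eb]
    · obtain ⟨g', hg', e⟩ := rB g hg
      obtain ⟨k, rfl⟩ := as g' hg'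
      exact ⟨k, mul_left_cancel (mul_right_cancel ((eb k).trans e.symm))⟩
    · simp only [cj _ (h.le hA (ha x)) v hv, cj _ (h.le hB (hb x)) v hv, map_add, ca,
        (cz _).2 (zz' A hA _ ha₀ _ (ha x) _), zz' B hB _ hb₀ _ (hb x), (cz 0).2 (map_zero _), add_zero,
        add_right_inj, true_and]
      refine ⟨cm x _ _ ((ab x _).trans (DFunLike.congr_fun (φa' _ (ha x)) _).symm), cm x _ _ ?_⟩
      exact (DFunLike.congr_fun (rel _ (ha x) _ (hb x) (eb x)).1 _).trans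
        (DFunLike.congr_fun (φa' _ (ha x)) _).symm

end Cfsg.Agent.Pu
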