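import Cfsg.Agent.Pu.U2

/-! Slice GT of S5175, part 1: two parabolics with a critical pair at distance one. -/

set_option autoImplicit false

universe u

namespace Cfsg.Agent.Pu.Gt

open Subgroup Cfsg Cfsg.Agent.H1 Cfsg.Agent.L Cfsg.Agent.FT Cfsg.Agent.Sg Cfsg.Agent.St
open scoped Pointwise commutatorElement

variable {G : Type*} [Group G] {A B K X S Q V X' Q' V' T P P' : Subgroup G} {q : ℕ}

theorem sq_iff : Sq A ↔ IsElementaryAbelian 2 A :=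
  ⟨fun h => ⟨h.comm, fun a ha => by rw [pow_two]; exact h a ha⟩,
    fun h a ha => by rw [← pow_two]; exact h.2 a ha⟩

theorem sq_oz (S : Subgroup G) : Sq (oz S) := sq_iff.2 (oz_ea S)

theorem sq_sup (hA : Sq A) (hB : Sq B) (h : A ≤ 𝐂(B)) : Sq (A ⊔ B) := fun x hx => by
  obtain ⟨a, ha, b, hb, rfl⟩ := (H1.mem_sup_of_le_normalizer (le_norm_of_le_cent h)).1 hx
  rw [mul_assoc, ← mul_assoc b, mem_cent.1 (h ha) b hb, mul_assoc, hB b hb, mul_one, hA a ha]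

theorem sq_conj (h : Sq A) (g : G) : Sq (g ⋆ A) := fun a ha => by
  obtain ⟨b, hb, rfl⟩ := mem_conj'.1 ha
  rw [conj_mul, h b hb]; group

theorem norm_oz (S : Subgroup G) : 𝐍(S) ≤ 𝐍(oz S) := fun g hg =>
  conj_eq_self_iff.1 (by rw [conj_oz', conj_of_mem_norm hg])

theorem le_oz' (h1 : B ≤ T) (h2 : B ≤ 𝐂(T)) (h3 : Sq B) : B ≤ oz T := le_oz h1 h2 (sq_iff.1 h3)

theorem comm_mem_cent_iff {a b : G} : ⁅a, b⁆ = 1 ↔ a ∈ 𝐂[b] := by
  rw [mem_cent1, commutatorElement_eq_one_iff_mul_comm]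

variable [Finite G]

theorem card_mul_le (hA : A ≤ K) (hB : B ≤ K) : #|A| * #|B| ≤ #|K| * #|A ⊓ B| := by
  rw [← card_set_mul_mul_card_inf]
  refine Nat.mul_le_mul_right _ (Nat.card_mono (Set.toFinite _) ?_)
  rintro _ ⟨a, ha, b, hb, rfl⟩
  exact K.mul_mem (hA ha) (hB hb)

theorem ph_idx (h : PH X S Q V q) : q * #|oz S ⊓ 𝐂(X)| ≤ #|oz S| := by
  obtain ⟨v, hv, hz⟩ := SetLike.not_le_iff_exists.1 h.not_le
  have hm : ∀ a ∈ S, ⁅v, a⁆ ∈ oz S := fun a ha => h.quad (commutator_mem_commutator hv ha)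
  let φ : S →* G := MonoidHom.mk' (fun a => ⁅v, (a : G)⁆) fun a b => by
    have e := mem_cent.1 (oz_le_cent S (hm b b.2)) a a.2
    calc ⁅v, ((a * b : S) : G)⁆ = ⁅v, (a : G)⁆ * ((a * ⁅v, (b : G)⁆) * (a : G)⁻¹) := by
          rw [coe_mul, commutatorElement_def, commutatorElement_def, commutatorElement_def]; group
      _ = _ := by rw [e, mul_inv_cancel_right]
  have h1 : (oz S ⊓ 𝐂(X)).comap φ ≤ Q.subgroupOf S := fun a ha => by
    by_contra e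
    exact hz (h.m2 a a.2 e v hv ha.2)
  have h2 : φ.range ≤ oz S := by
    rintro _ ⟨a, rfl⟩
    exact hm a a.2
  have h3 := index_antitone h1
  rw [index_comap] at h3
  have h4 := relIndex_le_of_le_right (H := oz S ⊓ 𝐂(X)) h2 (relIndex_ne_zero' _ _)
  have h5 := card_mul_relIndex_of_le h.QS
  have h6 := card_mul_relIndex_of_le (inf_le_left : oz S ⊓ 𝐂(X) ≤ oz S)
  have h7 : Q.relIndex S = q := by
    rw [h.iQ, mul_comm q] at h5
    exact Nat.eq_of_mul_eq_mul_left Nat.card_pos h5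
  have h8 : q ≤ (oz S ⊓ 𝐂(X)).relIndex (oz S) := h7 ▸ h3.trans h4
  rw [← h6, mul_comm q]
  exact Nat.mul_le_mul_left _ h8

theorem ph_inf (h : PH X S Q V q) (h' : PH X' S Q' V' q) (hn : ¬ V' ≤ Q) : V ⊓ Q' = oz S := by
  obtain ⟨a, ha, hq⟩ := SetLike.not_le_iff_exists.1 hn
  exact le_antisymm ((inf_le_inf_left _ (h'.cQ.trans (cent_le_cent1 ha))).trans
    (h.m1 a (h'.VS ha) hq)) (le_inf h.zV (h'.zV.trans h'.VQ))

/-- one side of the main lemma -/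
theorem ph_side (h : PH X S Q V q) (h' : PH X' S Q' V' q) (hn : ¬ V' ≤ Q) :
    ∃ D, Q = V ⊔ D ∧ Q ⊓ Q' = oz S ⊔ D ∧ ∃ x ∈ X ⊓ 𝐂(D), ∀ r ∈ oz S, r ∉ 𝐂(X) →
      x * r * x⁻¹ ∈ V ∧ x * r * x⁻¹ ∉ oz S := by
  obtain ⟨g, hg, ho, -⟩ := h.opp
  have eX := conj_of_mem hg
  have eQ := conj_of_mem_norm (h.nQ hg)
  have eV := conj_of_mem_norm (h.nV hg)
  have k : PH X (g ⋆ S) Q V q := by simpa only [eX, eQ, eV] using h.conj g
  have k' := h'.conj g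
  have hn' : ¬ g ⋆ V' ≤ Q := fun e => hn (conj_le_conj_iff.1 (eQ.symm ▸ e))
  have i1 := ph_inf h h' hn
  have i2 := ph_inf k k' hn'
  obtain ⟨m1, m2, -⟩ := h'.loc h h'.VS h.VS hn
  have cX : ∀ r, r ∈ oz S → r ∈ oz (g ⋆ S) → r ∈ 𝐂(X) := fun r h1 h2 => by
    rw [← ho, cent_sup]
    exact ⟨oz_le_cent _ h1, oz_le_cent _ h2⟩
  have c1 : #|Q| = q * #|Q ⊓ Q'| := by
    have e1 := card_sup_mul_card_inf (h.QS.trans (h'.SX.trans h'.nQ))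
    rw [le_antisymm (sup_le h.QS h'.QS) (m2.le.trans (sup_le_sup_right h.VQ _)), h'.iQ] at e1
    refine Nat.eq_of_mul_eq_mul_right (Nat.card_pos (α := Q')) ?_
    rw [← e1]; ring
  have c2 : #|Q ⊓ g ⋆ Q'| = #|Q ⊓ Q'| := by rw [← card_conj g (Q ⊓ Q'), conj_inf, eQ]
  have c3 := card_mul_le (inf_le_left : Q ⊓ Q' ≤ Q) (inf_le_left : Q ⊓ g ⋆ Q' ≤ Q)
  set D := Q ⊓ Q' ⊓ (Q ⊓ g ⋆ Q') with hD
  have DQ : D ≤ Q := inf_le_left.trans inf_le_left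
  have c4 : V ⊓ D ≤ oz S ⊓ 𝐂(X) := fun r hr =>
    have r1 : r ∈ oz S := i1 ▸ ⟨hr.1, hr.2.1.2⟩
    ⟨r1, cX r r1 (i2 ▸ ⟨hr.1, hr.2.2.2⟩)⟩
  have nD : V ≤ 𝐍(D) := le_norm_of_le_cent (le_cent_symm (DQ.trans h.cQ))
  have c5 := card_sup_mul_card_inf nD
  have c6 := card_le_of_le' c4
  have c7 := ph_idx h
  have e1 : Q = V ⊔ D := by
    refine (eq_of_le_of_card_le (sup_le h.VQ DQ) ?_).symm
    have p1 : 0 < #|Q ⊓ Q'| := Nat.card_pos
    have p2 : 0 < #|oz S ⊓ 𝐂(X)| := Nat.card_pos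
    rw [c2, c1] at c3
    have d1 : #|Q ⊓ Q'| ≤ q * #|D| := Nat.le_of_mul_le_mul_left (by nlinarith) p1
    rw [h.iV] at c5
    refine Nat.le_of_mul_le_mul_right ?_ p2
    calc #|Q| * #|oz S ⊓ 𝐂(X)| ≤ q * (q * #|D|) * #|oz S ⊓ 𝐂(X)| := by
          rw [c1]; gcongr
      _ = q * (q * #|oz S ⊓ 𝐂(X)|) * #|D| := by ring
      _ ≤ q * #|oz S| * #|D| := by gcongr
      _ ≤ _ := by rw [← c5]; gcongr
  refine ⟨D, e1, ?_, ?_⟩
  · have := sup_inf_modular' (A := V) (inf_le_left : D ≤ Q ⊓ Q') (Or.inr nD)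
    rw [← e1, ← inf_assoc, inf_idem, ← inf_assoc, inf_eq_left.2 h.VQ, i1] at this
    exact this
  · obtain ⟨b, hb, hq⟩ := SetLike.not_le_iff_exists.1 hn'
    have bS := k'.VS hb
    refine ⟨b, ⟨k.SX bS, le_cent_symm ((inf_le_right.trans inf_le_right).trans k'.cQ) hb⟩,
      fun r hr hc => ⟨(mem_normalizer_iff.1 (h.nV (k.SX bS)) r).1 (h.zV hr), fun e => hc ?_⟩⟩
    refine cX r hr (k.m2 b bS hq r (h.zV hr) (cX _ ?_
      (k.quad (commutator_mem_commutator (h.zV hr) bS))))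
    have : ⁅r, b⁆ = r * (b * r * b⁻¹)⁻¹ := by rw [commutatorElement_def]; group
    rw [this]
    exact mul_mem hr (inv_mem e)

/-- the main lemma: both `Q` are elementary abelian -/
theorem dd (h : PH X S Q V q) (h' : PH X' S Q' V' q) (hn : ¬ V' ≤ Q) (hP : X ≤ P) (hP' : X' ≤ P')
    (hT : S ≤ T) (ns : NSP T P P') : Q = V := by
  obtain ⟨hn', -, -⟩ := h'.loc h h'.VS h.VS hn
  obtain ⟨-, m2, -⟩ := h.loc h' h.VS h'.VS hn'
  obtain ⟨D, d1, d2, x, hx, d3⟩ := ph_side h h' hn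
  obtain ⟨D', -, d2', y, hy, d3'⟩ := ph_side h' h hn'
  rw [inf_comm] at d2'
  have i1 := ph_inf h h' hn
  have i2 := ph_inf h' h hn'
  have KS : Q ⊓ Q' ≤ S := inf_le_left.trans h.QS
  have DK : D ≤ Q ⊓ Q' := d2 ▸ le_sup_right
  have DK' : D' ≤ Q ⊓ Q' := d2' ▸ le_sup_right
  have zc : ∀ {E : Subgroup G}, E ≤ Q ⊓ Q' → oz S ≤ 𝐂(E) := fun e =>
    (oz_le_cent S).trans (cent_anti (e.trans KS))
  have dj : D ⊓ D' = ⊥ := by
    by_contra e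
    refine ns _ ((inf_le_left.trans DK).trans (KS.trans hT)) e
      {r | ∃ a ∈ V, a ∉ oz S ∧ ∃ b ∈ V', b ∉ oz S ∧ r = ⁅a, b⁆} ?_ ?_ ?_
    · obtain ⟨a, ha, ha'⟩ := SetLike.not_le_iff_exists.1 h.not_le
      obtain ⟨b, hb, hb'⟩ := SetLike.not_le_iff_exists.1 h'.not_le
      exact ⟨_, a, ha, ha', b, hb, hb', rfl⟩
    · rintro ⟨a, ha, ha', b, hb, hb', e⟩
      exact ha' (h.m1 b (h'.VS hb) (fun e' => hb' (i2 ▸ ⟨hb, e'⟩)) ⟨ha, comm_mem_cent_iff.1 e.symm⟩)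
    · rintro _ ⟨a, ha, ha', b, hb, hb', rfl⟩
      have r1 : ⁅a, b⁆ ∈ oz S := h.quad (commutator_mem_commutator ha (h'.VS hb))
      obtain ⟨x1, x2⟩ := d3 _ r1 fun e =>
        ha' (h.m2 b (h'.VS hb) (fun e' => hb' (i2 ▸ ⟨hb, e'⟩)) a ha e)
      obtain ⟨y1, y2⟩ := d3' _ r1 fun e =>
        hb' (h'.m2 a (h.VS ha) (fun e' => ha' (i1 ▸ ⟨ha, e'⟩)) b hb
          (by rw [← commutatorElement_inv]; exact inv_mem e))
      exact ⟨⟨hT (oz_le S r1), zc (inf_le_left.trans DK) r1⟩,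
        x, ⟨hP hx.1, cent_anti inf_le_left hx.2⟩, y, ⟨hP' hy.1, cent_anti inf_le_right hy.2⟩,
        hT (h.VS x1), hT (h'.VS y1), _, x1, x2, _, y1, y2, rfl⟩
  have nD : Q ⊓ Q' ≤ 𝐍(D) := d2.le.trans (sup_le (le_norm_of_le_cent (zc DK)) le_normalizer)
  have nD' : Q ⊓ Q' ≤ 𝐍(D') := d2'.le.trans (sup_le (le_norm_of_le_cent (zc DK')) le_normalizer)
  have cc : D ≤ 𝐂(D') := le_cent_of_disjoint (DK'.trans nD) (DK.trans nD') dj
  have cD : D ≤ 𝐂(D) := by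
    refine DK.trans (d2'.le.trans (sup_le (zc DK) (le_cent_symm cc)))
  have sD : Sq D := fun a ha => by
    obtain ⟨z, hz, b, hb, e⟩ := (H1.mem_sup_of_le_normalizer (le_norm_of_le_cent (zc DK'))).1
      (d2'.le (DK ha))
    have e2 : a * a = b * b := by
      rw [← e, mul_assoc, ← mul_assoc b, mem_cent.1 (zc DK' hz) b hb, mul_assoc, ← mul_assoc,
        sq_oz S z hz, one_mul]
    exact mem_bot.1 (dj ▸ ⟨mul_mem ha ha, e2 ▸ mul_mem hb hb⟩)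
  have cS : D ≤ 𝐂(S) := by
    rw [m2, d1, cent_sup, cent_sup]
    exact le_inf (DK.trans (inf_le_right.trans h'.cQ))
      (le_inf (DK.trans (inf_le_left.trans h.cQ)) cD)
  rw [d1]
  exact sup_eq_left.2 ((le_oz' (DK.trans KS) cS sD).trans h.zV)

end Cfsg.Agent.Pu.Gt
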