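import Cfsg.Agent.Pu.G2
import Cfsg.Agent.Pu.A1

/-! Slice GT of S5175, part 3: the hypotheses of the `P(G,V)`-theorem and its consequences. -/

set_option autoImplicit false

universe u

namespace Cfsg.Agent.Pu.Gt

open Subgroup Cfsg Cfsg.Agent.H1 Cfsg.Agent.L Cfsg.Agent.FT Cfsg.Agent.Sg Cfsg.Agent.St
  Cfsg.Agent.R1
open scoped Pointwise commutatorElement

variable {G : Type*} [Group G] [Finite G] {P T M N Q V K E D U S X : Subgroup G} {q : ℕ}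

theorem max_rep (hE : MaxEA T E) (h1 : D ≤ E) (h2 : U ≤ T) (h3 : Sq U) (h4 : D ≤ 𝐂(U))
    (hc : #|E| * #|D ⊓ U| ≤ #|D| * #|U|) : MaxEA T (D ⊔ U) where
  le := sup_le (h1.trans hE.le) h2
  ea := sq_iff.1 (sq_sup ((sq_iff.2 hE.ea).of_le h1) h3 h4)
  max B hB hb := (hE.max B hB hb).trans (Nat.le_of_mul_le_mul_right
    (card_sup_mul_card_inf (le_norm_of_le_cent h4) ▸ hc) Nat.card_pos)

theorem max_off (hE : MaxEA T E) (h1 : V ≤ T) (h2 : Sq V) (h3 : E ≤ 𝐍(V)) :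
    #|inV V| ≤ #|act V E| * #|inV V ⊓ 𝐂(act V E)| := by
  have e1 := hE.offends h1 (sq_iff.1 h2)
  have e2 := card_inf_mul_relIndex 𝐂(E) V
  have e3 := card_inf_mul_relIndex 𝐂(V) E
  rw [← card_act h3, inf_comm, mul_comm] at e3
  rw [Nat.eq_of_mul_eq_mul_right Nat.card_pos e3] at e1
  rw [card_inV, card_fix h3, ← e2, inf_comm, mul_comm]
  exact Nat.mul_le_mul_right _ e1

theorem mp_inf (h : MPi P T M) (hK : K ⊴ P) (hM : K ≤ M) : T ⊓ K ≤ core {2} P := by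
  have h1 := h.syl.inf_of_normalized hK.norm
  rw [inf_eq_right.2 hK.le] at h1
  refine le_core_of_pgroup Nat.prime_two ⟨inf_le_left.trans h.syl.le, ?_⟩ h1.isPGroup
  by_contra e
  have h2 : P ⊓ 𝐍((T ⊓ K : Subgroup G)) ≤ M := h.min _
    (le_inf h.syl.le (le_normalizer_inf le_normalizer (h.syl.le.trans hK.norm)))
    (lt_of_le_of_ne inf_le_left fun e' => e (inf_eq_left.1 e'))
  refine h.lt.not_ge fun x hx => ?_
  obtain ⟨n, hn, e1⟩ := h1.frattini hK.norm hx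
  simpa using mul_mem (inv_mem (hM hn)) (h2 ⟨mul_mem (hK.le hn) hx, e1⟩)

omit [Finite G] in
theorem mp_sup (h : MPi P T M) (hK : K ≤ P) (hM : ¬ K ≤ M) : T ⊔ K = P := by
  by_contra e
  exact hM (le_sup_right.trans (h.min _ le_sup_left (lt_of_le_of_ne (sup_le h.syl.le hK) e)))

/-- the basic situation -/
structure Bs (P T M N Q V : Subgroup G) : Prop extends Amb P T M N where
  eQ : Q = core {2} P
  eV : V = oz Q

namespace Bs

variable (h : Bs P T M N Q V)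
include h

omit [Finite G] in
theorem nQ : P ≤ 𝐍(Q) := h.eQ ▸ (core_normal _ _).norm

theorem QT : Q ≤ T := h.eQ ▸ h.syl.le_of_normalized (core_pgroup Nat.prime_two P) (core_le _ _)
  (core_normal _ _).norm

omit [Finite G] in
theorem nV : P ≤ 𝐍(V) := h.eV ▸ h.nQ.trans (norm_oz Q)

omit [Finite G] in
theorem TV : T ≤ 𝐍(V) := h.syl.le.trans h.nV

omit [Finite G] in
theorem VQ : V ≤ Q := h.eV ▸ oz_le Q

theorem VT : V ≤ T := h.VQ.trans h.QT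

omit [Finite G] in
theorem cV : Q ≤ 𝐂(V) := h.eV ▸ le_cent_symm (oz_le_cent Q)

omit [Finite G] in
theorem sqV : Sq V := h.eV ▸ sq_oz Q

omit [Finite G] in
theorem cen : T ⊓ 𝐂(Q) ≤ Q := h.eQ ▸ (inf_le_inf_right _ h.syl.le).trans h.ch2

theorem T_ne : T ≠ ⊥ := fun e => by
  have h1 : Q = ⊥ := le_bot_iff.1 (e ▸ h.QT)
  have h2 := h.ch2
  rw [← h.eQ, h1, cent_bot, inf_top_eq] at h2
  exact h.lt.not_ge (h2.trans bot_le)

theorem oz_le_V (h1 : Q ≤ S) (h2 : S ≤ T) : oz S ≤ V :=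
  have e := (oz_le_cent S).trans (cent_anti h1)
  h.eV ▸ le_oz' ((le_inf ((oz_le S).trans h2) e).trans h.cen) e (sq_oz S)

theorem not_cent : ¬ P ≤ 𝐂(V ⊓ 𝐂(T)) := fun e =>
  oz_ne_bot h.syl.isPGroup h.T_ne (h.nc _ (oz_le T) (le_normalizer.trans (norm_oz T))
    (le_norm_of_le_cent (e.trans (cent_anti (le_inf (h.oz_le_V h.QT le_rfl) (oz_le_cent T)))))
    (h.nT.trans (norm_oz T)))

theorem CM : P ⊓ 𝐂(V) ≤ M := by
  by_contra e
  refine h.not_cent ((mp_sup h.toMPi inf_le_left e).ge.trans (sup_le ?_ ?_))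
  · exact le_cent_symm inf_le_right
  · exact inf_le_right.trans (cent_anti inf_le_left)

theorem TC : T ⊓ 𝐂(V) ≤ Q := by
  have := mp_inf h.toMPi (NormalIn.subcent h.nV) h.CM
  rwa [← inf_assoc, inf_eq_left.2 h.syl.le, ← h.eQ] at this

theorem le_Q (h1 : K ≤ T) (h2 : K ≤ 𝐂(V)) : K ≤ Q := (le_inf h1 h2).trans h.TC

theorem le_M (h1 : K ≤ P) (h2 : act V K ≤ act V M) : K ≤ M := fun a ha => by
  obtain ⟨m, hm, hn, e⟩ := mem_act.1 (h2 (br_mem_act (h.nV (h1 ha)) ha))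
  simpa using mul_mem hm (h.CM ⟨P.mul_mem (P.inv_mem (h.lt.le hm)) (h1 ha),
    (br_eq_iff hn (h.nV (h1 ha))).1 e⟩)

theorem ex_max : ∃ E, MaxEA T E ∧ act V E ≠ ⊥ := by
  by_contra! e
  have h1 : jt T ≤ Q := jt_le_iff.2 fun E hE =>
    h.le_Q hE.le ((act_eq_bot (hE.le.trans h.TV)).1 (e E hE))
  refine jt_ne_bot h.syl.isPGroup h.T_ne (h.nc _ (jt_le T) (le_normalizer.trans (norm_le_norm_jt T))
    ?_ (h.nT.trans (norm_le_norm_jt T)))
  rw [← jt_eq_of_le h1 h.QT]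
  exact h.nQ.trans (norm_le_norm_jt Q)

theorem pgh : PGH (inV V) (act V P) (act V T) (act V M) where
  toMd := md_act h.sqV P
  syl := syl_act h.syl h.nV
  le := act_mono h.le
  lt := lt_of_le_not_ge (act_mono h.lt.le) fun e => h.lt.not_ge (h.le_M le_rfl e)
  min K h1 h2 := by
    rw [← act_inf_pre h2.le]
    refine act_mono (h.min _ (le_inf h.syl.le ((act_le_iff h.TV).1 h1))
      (lt_of_le_of_ne inf_le_left fun e => h2.ne ?_))
    rw [← act_inf_pre h2.le, e]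
  core := by
    have s := syl_act h.syl h.nV
    have h1 : core {2} (act V P) ≤ act V T := s.le_of_normalized
      (core_pgroup Nat.prime_two _) (core_le _ _) (core_normal _ _).norm
    have h2 := mp_inf h.toMPi (NormalIn.inf_of_norm (le_norm_pre h.nV (core_normal {2} _).norm))
      (h.le_M inf_le_left ((act_inf_pre (core_le _ _)).le.trans (h1.trans (act_mono h.le))))
    rw [← inf_assoc, inf_eq_left.2 h.syl.le, ← h.eQ] at h2
    rw [← act_inf_pre h1, act_eq_bot (inf_le_left.trans h.TV)]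
    exact h2.trans h.cV
  act e := h.not_cent ((le_cent_fix h.TV h.nV).1 e)
  sc := by
    obtain ⟨E, hE, e⟩ := h.ex_max
    exact ser_sci (syl_act h.syl h.nV) (ser_act h.syl h.nV h.ser) (ne_bot_of_le e (act_mono hE.le))
  off := by
    obtain ⟨E, hE, e⟩ := h.ex_max
    exact ⟨_, act_mono hE.le, e, sq_act (sq_iff.2 hE.ea),
      max_off hE h.VT h.sqV (hE.le.trans h.TV)⟩

end Bs

section
variable {H A W L : Subgroup G} {ℓ : Set (Subgroup G)} (h : PGC V H T M q A W L ℓ) {x v : G}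
include h

omit [Finite G] in
theorem pg_cA : W ≤ 𝐂(A) := h.cL.trans (h.line.cent_le h.mem)

omit [Finite G] in
theorem pg_card : #|A ⊔ W| = q * #|W| := by
  rw [card_sup_of_disjoint (le_norm_of_le_cent (le_cent_symm (pg_cA h))) (disjoint_iff.2 h.disj),
    (h.line.mem A h.mem).card]

omit [Finite G] in
theorem pg_dec (hx : x ∈ A ⊔ W) (h1 : x ∉ W) : ∃ a ∈ A, a ≠ 1 ∧ ∃ w ∈ W, a * w = x := by
  obtain ⟨a, ha, w, hw, rfl⟩ :=
    (H1.mem_sup_of_le_normalizer (le_norm_of_le_cent (le_cent_symm (pg_cA h)))).1 hx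
  exact ⟨a, ha, fun e => h1 (by simpa [e] using hw), w, hw, rfl⟩

omit [Finite G] in
theorem pg_m1 (hx : x ∈ A ⊔ W) (h1 : x ∉ W) (hv : v ∈ V) (h2 : v ∈ 𝐂(W)) (h3 : v ∈ 𝐂[x]) :
    v ∈ 𝐂((A ⊔ W : Subgroup G)) := by
  obtain ⟨a, ha, a1, w, hw, rfl⟩ := pg_dec h hx h1
  rw [cent_sup]
  refine ⟨(h.line.mem A h.mem).cent a ha a1 ⟨hv, mem_cent1_comm.1 ?_⟩, h2⟩
  simpa using mul_mem (mem_cent1_comm.1 h3) (inv_mem (mem_cent1_comm.1 (cent_le_cent1 hw h2)))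

omit [Finite G] in
theorem pg_m2 (hx : x ∈ A ⊔ W) (h1 : x ∉ W) (hv : v ∈ V) (h2 : v ∈ 𝐂(W)) (h3 : ⁅v, x⁆ ∈ 𝐂(L)) :
    v ∈ 𝐂((A ⊔ W : Subgroup G)) := by
  obtain ⟨a, ha, a1, w, hw, rfl⟩ := pg_dec h hx h1
  rw [cent_sup]
  refine ⟨h.line.pure A h.mem a ha a1 v hv ?_, h2⟩
  have e : ⁅v, a * w⁆ = ⁅v, a⁆ * (a * ⁅v, w⁆ * a⁻¹) := by
    simp only [commutatorElement_def]; group
  rwa [e, comm_mem_cent_iff.2 (cent_le_cent1 hw h2), mul_one, mul_inv_cancel, mul_one] at h3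

variable [V.Normal]

theorem pg_idx (hV : Sq V) : #|V ⊓ 𝐂(W)| = q * #|V ⊓ 𝐂((A ⊔ W : Subgroup G))| := by
  have h1 := card_sup_V hV.cent (inf_le_left : V ⊓ 𝐂(W) ≤ V) (inf_le_left : V ⊓ 𝐂(A) ≤ V)
  have h2 : V ⊓ 𝐂(W) ⊔ V ⊓ 𝐂(A) = V := le_antisymm (sup_le inf_le_left inf_le_left)
    ((h.line.le_comm_sup hV.cent).trans (sup_le_sup (le_inf (commutator_le_left V L) h.cY)
      (inf_le_inf_left _ (h.line.cent_le h.mem))))
  rw [h2, (h.line.mem A h.mem).idx, ← inf_inf_distrib_left, inf_comm 𝐂(W), ← cent_sup] at h1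
  refine Nat.eq_of_mul_eq_mul_right (Nat.card_pos (α := (V ⊓ 𝐂(A) : Subgroup G))) ?_
  rw [← h1]; ring

theorem pg_opp : ∃ d ∈ L, A ⊔ d ⋆ A = L ∧ ∀ x ∈ A ⊔ W, x ∉ W → A ⊔ (d⁻¹ * x * d) ⋆ A = L := by
  obtain ⟨D, hD, ne⟩ := h.line.exists_ne A
  obtain ⟨d, hd, d1⟩ := exists_mem_ne_one (h.line.mem D hD).ne_bot
  have dL := h.line.le hD hd
  have n1 := h.line.conj_ne hD h.mem ne hd d1
  refine ⟨d, dL, h.line.gen _ h.mem _ (h.line.inv d dL _ h.mem) n1.symm, fun x hx h1 => ?_⟩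
  obtain ⟨a, ha, a1, w, hw, rfl⟩ := pg_dec h hx h1
  have e : d⁻¹ * (a * w) * d = (d⁻¹ * a * d⁻¹⁻¹) * w := by
    rw [inv_inv, mul_assoc, mul_assoc a, ← mem_cent.1 (h.cL hw) d dL]; group
  have m := h.line.inv _ (inv_mem dL) _ h.mem
  rw [e, mul_conj, conj_of_mem_norm (cent_le_norm A (pg_cA h hw))]
  refine h.line.gen _ h.mem _ (h.line.inv _ (h.line.le m (conj_mem_conj _ ha)) _ h.mem)
    (h.line.conj_ne m h.mem (fun e' => n1 ?_) (conj_mem_conj _ ha)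
      (mt conj_eq_one_iff.1 a1)).symm
  rw [conj_eq_iff, e']

end

end Cfsg.Agent.Pu.Gt
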