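import Cfsg.Agent.Pu.G3

/-! Slice GT of S5175, part 4: the Baumann argument and the structure of `T`. -/

set_option autoImplicit false

universe u

namespace Cfsg.Agent.Pu.Gt

open Subgroup Cfsg Cfsg.Agent.H1 Cfsg.Agent.L Cfsg.Agent.FT Cfsg.Agent.Sg Cfsg.Agent.St
  Cfsg.Agent.R1
open scoped Pointwise commutatorElement

variable {G : Type*} [Group G] [Finite G] {P T M N Q V R Q₁ K E S X : Subgroup G} {q : ℕ}
  {A W L : Subgroup (Hol V)} {ℓ : Set (Subgroup (Hol V))} {a v : G}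

/-- the situation after the `P(G,V)`-theorem -/
structure Cx (P T M N Q V R Q₁ : Subgroup G) (q : ℕ) (A W L : Subgroup (Hol V))
    (ℓ : Set (Subgroup (Hol V))) : Prop extends Bs P T M N Q V where
  pg : PGC (inV V) (act V P) (act V T) (act V M) q A W L ℓ
  eR : R = T ⊓ pre V (A ⊔ W)
  e1 : Q₁ = T ⊓ pre V W

namespace Cx

variable (h : Cx P T M N Q V R Q₁ q A W L ℓ)
include h

section
omit [Finite G]

theorem actR : act V R = A ⊔ W := h.eR ▸ act_inf_pre h.pg.le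

theorem act1 : act V Q₁ = W := h.e1 ▸ act_inf_pre (le_sup_right.trans h.pg.le)

theorem RT : R ≤ T := h.eR ▸ inf_le_left

theorem T1 : Q₁ ≤ T := h.e1 ▸ inf_le_left

theorem RV : R ≤ 𝐍(V) := h.RT.trans h.TV

theorem V1 : Q₁ ≤ 𝐍(V) := h.T1.trans h.TV

theorem le_R (h1 : S ≤ T) (h2 : act V S ≤ A ⊔ W) : S ≤ R :=
  h.eR ▸ le_inf h1 ((act_le_iff (h1.trans h.TV)).1 h2)

theorem le_1 (h1 : S ≤ T) (h2 : act V S ≤ W) : S ≤ Q₁ :=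
  h.e1 ▸ le_inf h1 ((act_le_iff (h1.trans h.TV)).1 h2)

theorem le1 : Q₁ ≤ R := h.le_R h.T1 (h.act1.le.trans le_sup_right)

theorem n1 : R ≤ 𝐍(Q₁) := h.e1 ▸ le_normalizer_inf (h.RT.trans le_normalizer)
  (le_norm_pre h.RV (h.actR.le.trans (le_norm_of_le_cent
    (h.pg.sq.cent.trans (cent_anti le_sup_right)))))

theorem inf1 (h1 : S ≤ T) : S ⊓ Q₁ = S ⊓ pre V W := by
  rw [h.e1, ← inf_assoc, inf_eq_left.2 h1]

theorem act_inf (h1 : S ≤ T) (h2 : act V S = A ⊔ W) : act V (S ⊓ Q₁) = W := by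
  rw [h.inf1 h1, act_inf_pre (h2 ▸ le_sup_right)]

theorem card (h1 : S ≤ T) (h2 : act V S = A ⊔ W) : #|S| = q * #|S ⊓ Q₁| := by
  rw [← card_act (h1.trans h.TV), ← card_act (inf_le_right.trans h.V1 : S ⊓ Q₁ ≤ _),
    h.act_inf h1 h2, h2, pg_card h.pg, h.inf1 h1, inf_assoc, inf_eq_right.2 cent_le_pre, mul_assoc]

theorem fix (h1 : S ≤ T) (h2 : act V S = A ⊔ W) (hv : v ∈ V) : v ∈ 𝐂(S) ↔ v ∈ 𝐂(R) := by
  rw [← io_cent (h1.trans h.TV) hv, ← io_cent h.RV hv, h2, h.actR]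

theorem br_mem (ha : a ∈ R) (h1 : a ∉ Q₁) : br V a ∈ A ⊔ W ∧ br V a ∉ W :=
  ⟨h.actR ▸ br_mem_act (h.RV ha) ha, fun e => h1 (h.e1 ▸ ⟨h.RT ha, mem_pre.2 ⟨h.RV ha, e⟩⟩)⟩

theorem m1 (ha : a ∈ R) (h1 : a ∉ Q₁) (hv : v ∈ V ⊓ 𝐂(Q₁)) (h2 : v ∈ 𝐂[a]) : v ∈ 𝐂(R) :=
  (io_cent h.RV hv.1).1 (h.actR ▸ pg_m1 h.pg (h.br_mem ha h1).1 (h.br_mem ha h1).2 (io_mem hv.1)
    (h.act1 ▸ (io_cent h.V1 hv.1).2 hv.2) ((io_cent1 (h.RV ha) hv.1).2 h2))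

theorem m2 (hX : X ≤ P) (hL : L ≤ act V X) (ha : a ∈ R) (h1 : a ∉ Q₁) (hv : v ∈ V ⊓ 𝐂(Q₁))
    (h2 : ⁅v, a⁆ ∈ 𝐂(X)) : v ∈ 𝐂(R) :=
  (io_cent h.RV hv.1).1 (h.actR ▸ pg_m2 h.pg (h.br_mem ha h1).1 (h.br_mem ha h1).2 (io_mem hv.1)
    (h.act1 ▸ (io_cent h.V1 hv.1).2 hv.2) (io_comm (h.RV ha) hv.1 ▸ cent_anti hL
      ((io_cent (hX.trans h.nV) (comm_mem_of_norm (h.RV ha) hv.1)).2 h2)))

theorem quad : ⁅V, R⁆ ≤ 𝐂(R) := (comm_le_cent h.RV h.RV).1 (h.actR ▸ h.pg.quad)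

end

theorem Q1 : Q ≤ Q₁ := h.e1 ▸ le_inf h.QT (h.cV.trans cent_le_pre)

theorem idx : #|V ⊓ 𝐂(Q₁)| = q * #|V ⊓ 𝐂(R)| := by
  have := (md_act h.sqV P).nrm
  rw [← card_fix h.V1, ← card_fix h.RV, h.act1, h.actR]
  exact pg_idx h.pg (md_act h.sqV P).sq

theorem R_le (h1 : S ≤ T) (h2 : act V S = A ⊔ W) : R ≤ S ⊔ Q := fun a ha => by
  obtain ⟨s, hs, hn, e⟩ := mem_act.1 (h2.ge (h.actR.le (br_mem_act (h.RV ha) ha)))
  simpa using mul_mem (mem_sup_left hs : s ∈ S ⊔ Q) (mem_sup_right (h.TC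
    ⟨T.mul_mem (T.inv_mem (h1 hs)) (h.RT ha), (br_eq_iff hn (h.RV ha)).1 e⟩))

theorem cov : L ≤ act V (P ⊓ 𝐍(Q₁)) := fun l hl => by
  obtain ⟨p, hp, hn, rfl⟩ := mem_act.1 (h.pg.LH hl)
  have s := syl_pre h.syl h.nV (le_sup_right.trans h.pg.le)
  rw [← h.e1] at s
  have n : P ⊓ pre V L ≤ 𝐍((P ⊓ pre V W : Subgroup G)) :=
    le_normalizer_inf (inf_le_left.trans le_normalizer) (le_norm_pre (inf_le_right.trans pre_le)
      ((act_inf_pre h.pg.LH).le.trans (le_norm_of_le_cent (le_cent_symm h.pg.cL))))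
  obtain ⟨k, hk, e⟩ := s.frattini n ⟨hp, mem_pre.2 ⟨hn, hl⟩⟩
  have k1 := (mem_pre.1 hk.2).1
  have e1 : br V (k * p) ∈ act V (P ⊓ 𝐍(Q₁)) :=
    br_mem_act (mul_mem k1 hn) ⟨P.mul_mem hk.1 hp, e⟩
  have e2 : br V k ∈ act V (P ⊓ 𝐍(Q₁)) :=
    act_mono (le_inf (h.T1.trans h.syl.le) le_normalizer) (h.act1.ge (mem_pre.1 hk.2).2)
  rw [br_mul k1 hn] at e1
  simpa using mul_mem (inv_mem e2) e1

theorem exX (h1 : S ≤ T) (h2 : act V S = A ⊔ W) : ∃ X, S ≤ X ∧ X ≤ P ∧ X ≤ 𝐍(Q₁) ∧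
    L ≤ act V X ∧ ∃ g ∈ X, (∀ E ≤ S, R ≤ E ⊔ Q₁ → S ⊔ g ⋆ E = X) ∧
      ∀ a ∈ S, a ∉ Q₁ → g ⋆ S ⊔ (a * g) ⋆ S = X := by
  have := (md_act h.sqV P).nrm
  have SR := h.le_R h1 h2.le
  obtain ⟨X, ⟨x1, x2, x3⟩, hm⟩ := exists_minimal_of_wellFoundedLT
    (fun K => S ≤ K ∧ K ≤ P ⊓ 𝐍(Q₁) ∧ L ≤ act V K)
    ⟨_, le_inf (h1.trans h.syl.le) (SR.trans h.n1), le_rfl, h.cov⟩
  have key : ∀ K ≤ X, L ≤ act V (S ⊔ K) → S ⊔ K = X := fun K k1 k2 =>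
    le_antisymm (sup_le x1 k1) (hm ⟨le_sup_left, (sup_le x1 k1).trans x2, k2⟩ (sup_le x1 k1))
  have XV : X ≤ 𝐍(V) := x2.trans (inf_le_left.trans h.nV)
  have a1 : ∀ K, A ⊔ W ≤ act V (S ⊔ K) := fun K => h2.ge.trans (act_mono le_sup_left)
  obtain ⟨d, hd, d1, d2⟩ := pg_opp h.pg
  obtain ⟨g, hg, gn, rfl⟩ := mem_act.1 (x3 hd)
  refine ⟨X, x1, x2.trans inf_le_left, x2.trans inf_le_right, x3, g, hg, fun E e1 e2 => ?_,
    fun a ha hq => ?_⟩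
  · refine key _ (conj_le_of_mem hg (e1.trans x1)) (d1.ge.trans (sup_le (le_sup_left.trans (a1 _)) ?_))
    refine (conj_mono _ (le_sup_left.trans (h.actR.ge.trans (act_mono e2)))).trans ?_
    rw [← act_conj gn, conj_sup, conj_of_mem_norm (x2 hg).2,
      act_sup (conj_le_of_mem gn (e1.trans (x1.trans XV))) h.V1, h.act1]
    exact sup_le (act_mono le_sup_right) (le_sup_right.trans (a1 _))
  · have m : g⁻¹ * a * g ∈ X := mul_mem (mul_mem (inv_mem hg) (x1 ha)) hg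
    have e := key _ (conj_le_of_mem m x1) ((d2 _ (h.br_mem (SR ha) hq).1
      (h.br_mem (SR ha) hq).2).ge.trans (sup_le (le_sup_left.trans (a1 _)) (by
        rw [← br_inv gn, ← br_mul (inv_mem gn) (XV (x1 ha)),
          ← br_mul (mul_mem (inv_mem gn) (XV (x1 ha))) gn]
        refine (conj_mono _ (le_sup_left.trans h2.ge)).trans ?_
        rw [← act_conj (XV m)]
        exact act_mono le_sup_right)))
    rw [← conj_of_mem hg, ← e, conj_sup, ← mul_conj]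
    congr 2
    group

theorem ph (h1 : S ≤ T) (h2 : act V S = A ⊔ W) (h3 : V ≤ S) (x1 : S ≤ X) (x2 : X ≤ P)
    (x3 : L ≤ act V X) {g : G} (hg : g ∈ X) (g1 : ∀ E ≤ S, R ≤ E ⊔ Q₁ → S ⊔ g ⋆ E = X)
    (g2 : ∀ a ∈ S, a ∉ Q₁ → g ⋆ S ⊔ (a * g) ⋆ S = X) (n1 : X ≤ 𝐍((S ⊓ Q₁ : Subgroup G)))
    (n2 : X ≤ 𝐍((oz S ⊔ V ⊓ 𝐂(Q₁) : Subgroup G))) :
    PH X S (S ⊓ Q₁) (oz S ⊔ V ⊓ 𝐂(Q₁)) q := by
  have SR := h.le_R h1 h2.le
  have z1 : oz S ≤ 𝐂((V ⊓ 𝐂(Q₁) : Subgroup G)) :=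
    (oz_le_cent S).trans (cent_anti (inf_le_left.trans h3))
  have z2 : V ⊓ 𝐂(R) ≤ oz S := le_oz' (inf_le_left.trans h3)
    (inf_le_right.trans (cent_anti SR)) (h.sqV.of_le inf_le_left)
  have z3 : oz S ⊓ (V ⊓ 𝐂(Q₁)) = V ⊓ 𝐂(R) := le_antisymm
    (fun v hv => ⟨hv.2.1, (h.fix h1 h2 hv.2.1).1 (oz_le_cent S hv.1)⟩)
    (le_inf z2 (inf_le_inf_left _ (cent_anti h.le1)))
  have dec : ∀ x ∈ oz S ⊔ V ⊓ 𝐂(Q₁), ∃ z ∈ oz S, ∃ v ∈ V ⊓ 𝐂(Q₁), z * v = x := fun x hx =>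
    (H1.mem_sup_of_le_normalizer (le_norm_of_le_cent z1)).1 hx
  refine ⟨inf_le_left, x1, n1, sup_le (le_inf (oz_le S) ((h.le_Q ((oz_le S).trans h1)
      ((oz_le_cent S).trans (cent_anti h3))).trans h.Q1))
      (inf_le_left.trans (le_inf h3 (h.VQ.trans h.Q1))), n2,
    sq_sup (sq_oz S) (h.sqV.of_le inf_le_left) z1, ?_, IsPGroup.le' h.syl.isPGroup h1, le_sup_left,
    h.pg.line.one_lt, h.card h1 h2, ?_, fun a ha hq x hx => ?_, fun a ha hq x hx hc => ?_, ?_,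
    g, hg, g1 S le_rfl ((h.R_le h1 h2).trans (sup_le_sup_left h.Q1 _)),
    fun a ha hq => g2 a ha fun e => hq ⟨ha, e⟩⟩
  · rw [cent_sup]
    exact inf_le_inf (le_cent_symm (oz_le_cent S)) (le_cent_symm inf_le_right)
  · have e := card_sup_mul_card_inf (le_norm_of_le_cent z1)
    rw [z3, h.idx] at e
    refine Nat.eq_of_mul_eq_mul_right (Nat.card_pos (α := (V ⊓ 𝐂(R) : Subgroup G))) ?_
    rw [e]; ring
  · obtain ⟨z, hz, v, hv, rfl⟩ := dec x hx.1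
    refine mul_mem hz (z2 ⟨hv.1, h.m1 (SR ha) (fun e => hq ⟨ha, e⟩) hv ?_⟩)
    simpa using mul_mem (inv_mem (cent_le_cent1 ha (oz_le_cent S hz))) (hx.2 : z * v ∈ 𝐂[a])
  · obtain ⟨z, hz, v, hv, rfl⟩ := dec x hx
    refine mul_mem hz (z2 ⟨hv.1, h.m2 x2 x3 (SR ha) (fun e => hq ⟨ha, e⟩) hv ?_⟩)
    rwa [← mem_cent.1 (z1 hz) v hv, comm_mul_cent v (cent_le_cent1 ha (oz_le_cent S hz))] at hc
  · have n := le_normalizer.trans (norm_oz S)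
    refine comm_sup_left_le (comm_le_left n) ?_ ((oz_le S).trans n)
      ((inf_le_left.trans h3).trans n)
    exact (commutator_mono inf_le_left SR).trans ((le_inf (comm_le_left h.RV) h.quad).trans z2)

theorem maxV (hE : MaxEA T E) : MaxEA T (E ⊓ 𝐂(V) ⊔ V) := by
  have n := hE.le.trans h.TV
  refine max_rep hE inf_le_left h.VT h.sqV inf_le_right ?_
  have e1 := h.pg.f2 _ (act_mono (hE.le.trans h.syl.le)) (sq_act (sq_iff.2 hE.ea))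
  rw [card_fix n, card_inV] at e1
  have e2 : #|E ⊓ 𝐂(V) ⊓ V| ≤ #|V ⊓ 𝐂(E)| := card_le_of_le'
    (le_inf inf_le_right (inf_le_left.trans (inf_le_left.trans (sq_iff.2 hE.ea).cent)))
  calc _ ≤ #|act V E| * #|E ⊓ 𝐂(V)| * #|V ⊓ 𝐂(E)| := by rw [card_act n]; gcongr
    _ = #|E ⊓ 𝐂(V)| * (#|act V E| * #|V ⊓ 𝐂(E)|) := by ring
    _ ≤ _ := by gcongr

theorem V_jt : V ≤ jt T :=
  have ⟨_, hE⟩ := exists_maxEA T
  le_sup_right.trans (h.maxV hE).le_jt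

theorem act_jt : act V (jt T) = A ⊔ W := by
  have off := fun E (hE : MaxEA T E) => h.pg.off _ (act_mono hE.le) (sq_act (sq_iff.2 hE.ea))
    (max_off hE h.VT h.sqV (hE.le.trans h.TV))
  refine le_antisymm ((act_le_iff ((jt_le T).trans h.TV)).2 (jt_le_iff.2 fun E hE =>
    (act_le_iff (hE.le.trans h.TV)).1 (off E hE).1)) ?_
  obtain ⟨E, hE, e⟩ := h.ex_max
  obtain ⟨t, ht, e1⟩ := (off E hE).2 e
  have n : act V T ≤ 𝐍(act V (jt T)) := act_le_norm (le_normalizer.trans (norm_le_norm_jt T))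
  have e2 : A ≤ act V (jt T) := by
    rw [← inv_conj_conj t A]
    exact conj_le_of_mem_norm (n (inv_mem ht)) (e1.trans (act_mono hE.le_jt))
  exact sup_le e2 (h.pg.gen _ fun s hs => conj_le_of_mem_norm (n hs) e2)

omit h in
theorem jB (T : Subgroup G) : jt T ≤ T ⊓ 𝐂(oz (jt T)) :=
  le_inf (jt_le T) (le_cent_symm (oz_le_cent _))

omit h in
theorem ozB (T : Subgroup G) : oz (T ⊓ 𝐂(oz (jt T))) = oz (jt T) :=
  have e := (oz_le_cent _).trans (cent_anti (jB T))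
  le_antisymm (le_oz' (le_jt_of_cent ((oz_le _).trans inf_le_left) (oz_ea _) e) e (sq_oz _))
    (le_oz' ((oz_le _).trans (jB T)) (le_cent_symm inf_le_right) (sq_oz _))

theorem actB : act V (T ⊓ 𝐂(oz (jt T))) = A ⊔ W := by
  refine le_antisymm ((le_inf (act_mono inf_le_left) ?_).trans h.pg.cW)
    (h.act_jt.ge.trans (act_mono (jB T)))
  rw [← h.act_jt, le_cent_fix ((jt_le T).trans h.TV) (inf_le_left.trans h.TV)]
  exact inf_le_right.trans (cent_anti (le_oz' (inf_le_left.trans h.V_jt) inf_le_right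
    (h.sqV.of_le inf_le_left)))

theorem exE : ∃ E, MaxEA T E ∧ R ≤ E ⊔ Q₁ ∧ MaxEA T (E ⊓ Q₁ ⊔ V ⊓ 𝐂(Q₁)) := by
  have : ¬ jt T ≤ Q₁ := fun e => (h.pg.line.mem A h.pg.mem).ne_bot (by
    rw [← h.pg.disj, inf_eq_left.2 (le_sup_left.trans (h.act_jt.ge.trans
      ((act_mono e).trans h.act1.le)))])
  rw [jt_le_iff] at this
  push Not at this
  obtain ⟨E, hE, e⟩ := this
  obtain ⟨a, ha, hq⟩ := SetLike.not_le_iff_exists.1 e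
  have ER : E ≤ R := hE.le_jt.trans (h.le_R (jt_le T) h.act_jt.le)
  have c1 := card_sup_mul_card_inf (ER.trans h.n1)
  have c2 := h.card h.RT h.actR
  rw [inf_eq_right.2 h.le1] at c2
  have c3 := card_le_of_le' (sup_le ER h.le1)
  have c4 : #|E ⊓ Q₁ ⊓ (V ⊓ 𝐂(Q₁))| ≤ #|V ⊓ 𝐂(R)| := card_le_of_le' fun v hv =>
    ⟨hv.2.1, h.m1 (ER ha) hq hv.2 ((sq_iff.2 hE.ea).cent1 ha hv.1.1)⟩
  have c5 : #|E| ≤ q * #|E ⊓ Q₁| :=
    Nat.le_of_mul_le_mul_right (by nlinarith) (Nat.card_pos (α := Q₁))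
  have cc : E ⊓ Q₁ ≤ 𝐂((V ⊓ 𝐂(Q₁) : Subgroup G)) := inf_le_right.trans (le_cent_symm inf_le_right)
  have m := max_rep hE inf_le_left (inf_le_left.trans h.VT) (h.sqV.of_le inf_le_left) cc (by
    rw [h.idx]
    calc _ ≤ q * #|E ⊓ Q₁| * #|V ⊓ 𝐂(R)| := Nat.mul_le_mul c5 c4
      _ = _ := by ring)
  refine ⟨E, hE, (eq_of_le_of_card_le (sup_le ER h.le1) ?_).ge, m⟩
  have c6 := card_sup_mul_card_inf (le_norm_of_le_cent cc)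
  have c7 := hE.max _ m.le m.ea
  rw [h.idx] at c6
  have c8 : q * #|E ⊓ Q₁| ≤ #|E| :=
    Nat.le_of_mul_le_mul_right (by nlinarith [Nat.mul_le_mul c7 c4])
      (Nat.card_pos (α := (V ⊓ 𝐂(R) : Subgroup G)))
  exact Nat.le_of_mul_le_mul_right (by nlinarith)
    (Nat.card_pos (α := (E ⊓ Q₁ : Subgroup G)))

/-- the Baumann argument -/
theorem first : ∃ X ≤ P, L ≤ act V X ∧ PH X (T ⊓ 𝐂(oz (jt T))) (T ⊓ 𝐂(oz (jt T)) ⊓ Q₁)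
    (oz (jt T) ⊔ V ⊓ 𝐂(Q₁)) q := by
  obtain ⟨X, x1, x2, x3, x4, g, hg, g1, g2⟩ := h.exX inf_le_left h.actB
  obtain ⟨E, hE, e1, e2⟩ := h.exE
  have ER : E ≤ R := hE.le_jt.trans (h.le_R (jt_le T) h.act_jt.le)
  have e3 := e2.of_le (sup_le inf_le_right (inf_le_left.trans (h.VQ.trans h.Q1))) h.T1
  have j1 : jt Q₁ ≤ jt T := jt_le_iff.2 fun B hB => MaxEA.le_jt
    ⟨hB.le.trans h.T1, hB.ea, fun C c1 c2 => (e2.max C c1 c2).trans (hB.max _ e3.le e3.ea)⟩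
  have c1 := (oz_le_cent _).trans (cent_anti j1)
  have z1 : oz (jt T) ≤ oz (jt Q₁) := le_oz' (le_jt_of_cent ((h.le_Q ((oz_le _).trans (jt_le T))
    ((oz_le_cent _).trans (cent_anti h.V_jt))).trans h.Q1) (oz_ea _) c1) c1 (sq_oz _)
  have z2 : V ⊓ 𝐂(Q₁) ≤ oz (jt Q₁) := le_oz' (le_sup_right.trans e3.le_jt)
    (inf_le_right.trans (cent_anti (jt_le _))) (h.sqV.of_le inf_le_left)
  have z3 : oz (jt Q₁) ≤ E ⊓ Q₁ ⊔ V ⊓ 𝐂(Q₁) := e3.le_of_cent ((oz_le _).trans (jt_le _)) (oz_ea _)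
    ((oz_le_cent _).trans (cent_anti e3.le_jt))
  have nE : E ≤ 𝐍((V ⊓ 𝐂(Q₁) : Subgroup G)) := le_norm_subcent (ER.trans h.RV) (ER.trans h.n1)
  have nX : X ≤ 𝐍((V ⊓ 𝐂(Q₁) : Subgroup G)) := le_norm_subcent (x2.trans h.nV) x3
  have z4 : ⁅oz (jt Q₁), E⁆ ≤ V ⊓ 𝐂(Q₁) := (commutator_mono z3 le_rfl).trans (comm_sup_left_le
    ((comm_eq_bot_iff.2 (inf_le_left.trans (sq_iff.2 hE.ea).cent)).le.trans bot_le)
    (comm_le_left nE) (inf_le_left.trans nE) le_normalizer)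
  have z5 := conj_mono g z4
  rw [conj_comm, conj_of_mem_norm (nX hg),
    conj_of_mem_norm (norm_oz _ (norm_le_norm_jt _ (x3 hg)))] at z5
  have n2 : X ≤ 𝐍((oz (jt T) ⊔ V ⊓ 𝐂(Q₁) : Subgroup G)) := by
    rw [← g1 E (hE.le_jt.trans (jB T)) e1]
    exact sup_le (le_normalizer_sup (le_norm_of_le_cent inf_le_right) (x1.trans nX))
      (comm_le_left_iff.1 ((commutator_mono (sup_le z1 z2) le_rfl).trans (z5.trans le_sup_right)))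
  have n1 : T ⊓ 𝐂(oz (jt T)) ⊓ Q₁ = Q₁ ⊓ 𝐂((oz (jt T) ⊔ V ⊓ 𝐂(Q₁) : Subgroup G)) := by
    rw [cent_sup, inf_right_comm, inf_eq_right.2 h.T1, inf_comm 𝐂(oz (jt T)), ← inf_assoc,
      inf_eq_left.2 (le_cent_symm inf_le_right)]
  have := h.ph inf_le_left h.actB (h.V_jt.trans (jB T)) x1 x2 x4 hg g1 g2
    (n1 ▸ le_norm_subcent x3 n2) (by rw [ozB]; exact n2)
  rw [ozB] at this
  exact ⟨X, x2, x4, this⟩

end Cx

end Cfsg.Agent.Pu.Gt
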