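import Cfsg.Agent.Pu.G4

/-! Slice GT of S5175, part 5: the instance. -/

set_option autoImplicit false

universe u

namespace Cfsg.Agent.Pu.Gt

open Subgroup Cfsg Cfsg.Agent.H1 Cfsg.Agent.L Cfsg.Agent.FT Cfsg.Agent.Sg Cfsg.Agent.St
  Cfsg.Agent.R1
open scoped Pointwise commutatorElement

variable {G : Type u} [Group G] [Finite G] {P T M N Q V R Q₁ X X' S Q' V' E : Subgroup G} {q : ℕ}
  {A W L : Subgroup (Hol V)} {ℓ : Set (Subgroup (Hol V))}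

theorem ea_le (h : PH X S V V q) (h' : PH X' S V' V' q) (e : S = V' ⊔ V) (h1 : E ≤ S) (h2 : Sq E) :
    E ≤ V ∨ E ≤ V' := by
  have key : ∀ a ∈ E, a ∈ V ∨ a ∈ V' := fun a ha => by
    obtain ⟨b, hb, v, hv, rfl⟩ := (H1.mem_sup_of_le_normalizer (h'.VS.trans (h.SX.trans h.nV))).1
      (e.le (h1 ha))
    by_cases hq : b ∈ V
    · exact Or.inl (mul_mem hq hv)
    refine Or.inr (mul_mem hb (h'.zV (h.m1 b (h'.VS hb) hq ⟨hv, mem_cent1.2 ?_⟩)))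
    rw [← h2.inv ha, mul_inv_rev, h.sq.inv hv, h'.sq.inv hb]
  by_contra! c
  obtain ⟨a, ha, a1⟩ := SetLike.not_le_iff_exists.1 c.1
  obtain ⟨b, hb, b1⟩ := SetLike.not_le_iff_exists.1 c.2
  rcases key _ (mul_mem ha hb) with k | k
  · exact a1 (by simpa using mul_mem k (inv_mem ((key b hb).resolve_right b1)))
  · exact b1 (by simpa using mul_mem (inv_mem ((key a ha).resolve_left a1)) k)

theorem Cx.main (h : Cx P T M N Q V R Q₁ q A W L ℓ) (hT : T ≤ N)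
    (ns : ∀ n ∈ N, NSP T P (n ⋆ P)) : ∃ n ∈ N, Q = V ∧ TS P T V n q ℓ L := by
  obtain ⟨X, x2, x4, p1⟩ := h.first
  have aB := h.actB
  have VJ := h.V_jt
  have JB := Cx.jB T
  have nZ : N ≤ 𝐍(oz (jt T)) := h.nT.trans ((norm_le_norm_jt T).trans (norm_oz _))
  have ZV : oz (jt T) ≤ 𝐂(V) := (oz_le_cent _).trans (cent_anti VJ)
  have nB := le_norm_subcent h.nT nZ
  set Z := oz (jt T)
  set B := T ⊓ 𝐂(Z)
  have BT : B ≤ T := inf_le_left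
  have VB : V ≤ B := VJ.trans JB
  obtain ⟨n, hn, p2⟩ := PU.main p1 nB fun U u1 u2 u3 => h.nc U (u1.trans BT) (hT.trans u3)
    ((mp_sup h.toMPi x2 fun e => h.pg.notM (x4.trans (act_mono e))).ge.trans
      (sup_le (hT.trans u3) u2)) u3
  have p1' := p1.conj n
  rw [conj_of_mem_norm (nB hn)] at p1'
  have e1 := dd p1 p1' p2 x2 (conj_mono n x2) BT (ns n hn)
  have c1 : B ⊓ Q₁ ≤ 𝐂(V) := p1.cQ.trans (cent_anti (e1 ▸ le_inf VB (h.VQ.trans h.Q1)))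
  have W0 : W = ⊥ := by rw [← h.act_inf BT aB, act_eq_bot (inf_le_right.trans h.V1)]; exact c1
  obtain rfl : Q₁ = Q := le_antisymm (h.le_Q h.T1 ((act_eq_bot h.V1).1 (h.act1.trans W0))) h.Q1
  have eV : V ⊓ 𝐂(Q₁) = V := inf_eq_left.2 (le_cent_symm h.cV)
  rw [eV] at p1 p1' p2
  obtain ⟨m1, -, -⟩ := p1'.loc p1 p1'.VS p1.VS p2
  obtain ⟨-, m2, -⟩ := p1.loc p1' p1.VS p1'.VS m1
  have nV' : n ⋆ (Z ⊔ V) ≤ 𝐍(V) := p1'.VS.trans (BT.trans h.TV)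
  have aA : act V (n ⋆ (Z ⊔ V)) = A := by
    rw [m2, act_sup nV' (inf_le_right.trans h.V1), h.act_inf BT h.actB, W0, sup_bot_eq,
      sup_bot_eq] at aB
    exact aB
  have cA : ∀ K ≤ T, ⁅K, n ⋆ (Z ⊔ V)⁆ ≤ 𝐂(V) → K ≤ R := fun K k1 k2 => h.le_R k1
    ((le_inf (act_mono k1) (aA ▸ (act_le_cent (k1.trans h.TV) nV').2 k2)).trans
      ((h.pg.cA W0).trans le_sup_left))
  have eR : R = B ⊔ Q₁ := le_antisymm (h.R_le BT aB) (sup_le (h.le_R BT aB.le) h.le1)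
  have QT' : n ⋆ Q₁ ≤ T := conj_le_of_mem_norm (h.nT hn) h.T1
  have nQZ : Q₁ ≤ 𝐍(Z) := h.T1.trans (hT.trans nZ)
  have nR : n ⋆ R = R := conj_of_mem_norm (mem_norm_of_conj_le (by
    refine (conj_mono n eR.le).trans ?_
    rw [conj_sup, conj_of_mem_norm (nB hn)]
    refine sup_le (h.le_R BT aB.le) (cA _ QT' ?_)
    rw [← conj_comm]
    refine (conj_le_of_mem_norm (nZ hn) ?_).trans ZV
    exact comm_sup_right_le (comm_le_right nQZ) ((comm_eq_bot_iff.2 h.cV).le.trans bot_le)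
      le_normalizer (VB.trans (BT.trans (hT.trans nZ)))))
  obtain ⟨X', y1, y2, y3, y4, g, hg, g1, g2⟩ := h.exX h.RT h.actR
  have e2 : R ⊓ Q₁ = Q₁ := inf_eq_right.2 h.le1
  have e3 : oz R ⊔ V ⊓ 𝐂(Q₁) = V := by rw [eV, sup_eq_right.2 (h.oz_le_V h.le1 h.RT)]
  have p3 := h.ph h.RT h.actR (h.VQ.trans h.le1) y1 y2 y4 hg g1 g2 (by rw [e2]; exact y3)
    (by rw [e3]; exact y2.trans h.nV)
  rw [e2, e3] at p3
  have p3' := p3.conj n
  rw [nR] at p3'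
  have p4 : ¬ n ⋆ V ≤ Q₁ := fun e => p2 (le_inf p1'.VS (by
    rw [conj_sup, conj_of_mem_norm (nZ hn)]
    exact sup_le ((le_sup_left.trans p1.VQ).trans inf_le_right) e))
  obtain rfl : Q₁ = V := dd p3 p3' p4 y2 (conj_mono n y2) h.RT (ns n hn)
  have e4 : Z ⊔ Q₁ = Q₁ := sup_eq_right.2 ((le_sup_left.trans p1.VQ).trans inf_le_right)
  rw [e4] at aA cA
  obtain ⟨m3, -, -⟩ := p3'.loc p3 p3'.VS p3.VS p4
  obtain ⟨-, m4, -⟩ := p3.loc p3' p3.VS p3'.VS m3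
  obtain ⟨E, hE⟩ := exists_maxEA T
  have m5 := h.maxV hE
  rw [sup_eq_right.2 (h.le_Q (inf_le_left.trans hE.le) inf_le_right)] at m5
  have m6 : MaxEA T (n ⋆ Q₁) := ⟨QT', sq_iff.1 p3'.sq, by rw [card_conj]; exact m5.max⟩
  refine ⟨n, hn, rfl, fun e => p4 e.le, h.cen, fun D => ⟨fun hD => ?_, ?_⟩, h.pg.line,
    aA ▸ h.pg.mem, h.pg.LH, fun c hc e => ?_⟩
  · exact (ea_le p3 p3' m4 (hD.le_jt.trans (h.le_R (jt_le T) h.act_jt.le)) (sq_iff.2 hD.ea)).imp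
      (fun e => eq_of_le_of_card_le e (hD.max _ m5.le m5.ea))
      (fun e => eq_of_le_of_card_le e (hD.max _ m6.le m6.ea))
  · rintro (rfl | rfl)
    exacts [m5, m6]
  · rw [sup_comm, ← m4]
    have n1 := (act_le_cent (K := zpowers c) ((zpowers_le.2 hc).trans h.TV) (QT'.trans h.TV)).1
    refine cA (zpowers c) (zpowers_le.2 hc) (n1 (le_cent_symm ?_)) (mem_zpowers c)
    intro x hx
    obtain ⟨v, hv, vn, rfl⟩ := mem_act.1 hx
    refine mem_cent.2 fun y hy => ?_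
    obtain ⟨d, hd, dn, rfl⟩ := mem_act.1 hy
    obtain ⟨k, rfl⟩ := mem_zpowers_iff.1 hd
    have : Commute (br Q₁ c) (br Q₁ v) := by
      rw [← commutatorElement_eq_one_iff_commute, ← br_comm (h.TV hc) vn,
        br_eq_one (h.V1 (e v hv))]
      exact h.cV (e v hv)
    rw [br_of dn, show (⟨c ^ k, dn⟩ : 𝐍(Q₁)) = ⟨c, h.TV hc⟩ ^ k from rfl, map_zpow, ← br_of (h.TV hc)]
    exact (this.zpow_left k).eq

instance instGT [PG.{u}] : GT.{u} where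
  main {G} _ _ {P T M N} h hT ns := by
    have b : Bs P T M N _ _ := ⟨h, rfl, rfl⟩
    obtain ⟨q, A, W, L, ℓ, pg⟩ := PG.main b.pgh
    obtain ⟨n, hn, e, ts⟩ := Cx.main ⟨b, pg, rfl, rfl⟩ hT ns
    rw [e]
    exact ⟨n, hn, q, ℓ, L, ts⟩

end Cfsg.Agent.Pu.Gt
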