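import Cfsg.Agent.Pu.J
import Cfsg.Agent.H6.FusMC

/-! Shared lemmas for the slices `G2`–`G5`: models of `S`, pulling back fusion systems of groups. -/

set_option autoImplicit false

universe u

namespace Cfsg.Agent.Pu

open Subgroup Cfsg Cfsg.Fus Cfsg.FusionSystem Cfsg.Agent.L Equiv
open Cfsg.Agent.H6 (RealBy realBy_group)

variable {Ω M G : Type*} [Group Ω] [Group M] [Group G] {S : Subgroup Ω} {F F' : FusionSystem S}

theorem exists_piso {J : M →* Ω} (hJ : Function.Injective J) (hr : J.range = S) : ∃ J', PIso ⊤ S J J' := by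
  obtain ⟨J', h⟩ := exists_pIso_of_injOn (homOn_hom J ⊤) hJ.injOn
  exact ⟨J', by rwa [img_hom, ← MonoidHom.range_eq_map, hr] at h⟩

theorem img_eq_of {J : M →* Ω} {P : Subgroup Ω} {Q : Subgroup M} (hP : P ≤ J.range) (h : ∀ y, J y ∈ P ↔ y ∈ Q) :
    img J Q = P := by
  rw [img_hom]
  refine le_antisymm (map_le_iff_le_comap.2 fun y hy => (h y).2 hy) fun x hx => ?_
  obtain ⟨y, rfl⟩ := hP hx
  exact ⟨y, (h y).1 hx, rfl⟩

/-- comparison of automorphism groups may be done in a model -/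
theorem tr_le [Finite M] {θ : M → Ω} {θ' : Ω → M} {F₀ F₀' : FusionSystem (⊤ : Subgroup M)}
    (t : Transp ⊤ S θ θ' F₀ F) (t' : Transp ⊤ S θ θ' F₀' F') {P : Subgroup M}
    (h : ∀ σ, F₀.Iso P P σ → F₀'.IsMap P σ) (σ : Perm Ω) (hσ : F.Iso (img θ P) (img θ P) σ) :
    F'.IsMap (img θ P) σ := by
  obtain ⟨τ, h1, h2⟩ := (t.isMap_of_map le_top hσ.isMap).exists_perm
  have h3 : ∀ x ∈ P, σ (θ x) ∈ img θ P := fun x hx => hσ.mem (mem_img_of_mem θ hx)
  refine t'.map_of_rep (h τ (h1.iso_self fun x hx => ?_)) fun x hx => ?_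
  · rw [h2 x hx]; exact t.piso.inv_mem le_top (h3 x hx)
  · rw [h2 x hx]; exact (t.piso.right (hσ.le_right (h3 x hx))).symm

theorem realBy_of_transp {U : Subgroup Ω} {U' T : Subgroup G} {θ : Ω → G} {θ' : G → Ω}
    (t : Transp U U' θ θ' F (groupFusionSystem T)) (hT : IsSylowIn 2 T ⊤) : RealBy F G := by
  obtain ⟨P, rfl⟩ := isSylowIn_top_iff.1 hT
  exact (realBy_group P).of_transp t

theorem realBy_congr [Finite G] {G' : Type*} [Group G'] (h : RealBy F G) (e : G ≃* G') : RealBy F G' := by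
  have : Fact (Nat.Prime 2) := ⟨Nat.prime_two⟩
  obtain ⟨P, θ, θ', t⟩ := h.exists_transp
  have := (isSylowIn_top P).map e.toMonoidHom
  rw [map_top_of_surjective _ e.surjective] at this
  exact realBy_of_transp (t.trans (transp_group_equiv e P).restrict) this

/-- The fusion system of `G` pulled back to a model `M` of a Sylow subgroup and pushed forward to `S`. -/
theorem exists_model [Finite G] {J : M →* Ω} {J' : Ω → M} (h : PIso ⊤ S J J') {I : M →* G}
    (hI : Function.Injective I) (hS : IsSylowIn 2 I.range ⊤) :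
    ∃ (F₀ : FusionSystem (⊤ : Subgroup M)) (F' : FusionSystem S), Transp ⊤ S J J' F₀ F' ∧ RealBy F' G ∧
      F₀.IsSaturated 2 ∧ ∀ (P : Subgroup M) (f : M → M),
        F₀.IsMap P f ↔ ∃ g : G, ∀ x ∈ P, g * I x * g⁻¹ = I (f x) := by
  have : Fact (Nat.Prime 2) := ⟨Nat.prime_two⟩
  obtain ⟨I', k⟩ := exists_piso hI rfl
  obtain ⟨F₀, t⟩ := k.symm.exists_transp le_rfl (groupFusionSystem I.range) k.symm.img_self
  obtain ⟨F', t'⟩ := h.exists_transp le_rfl F₀ h.img_self
  obtain ⟨ι, h1, h2⟩ := realBy_of_transp t.symm hS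
  refine ⟨F₀, F', t', realBy_of_transp (t'.symm.trans t.symm) hS, isSaturated_of_realized h1 h2,
    fun P f => ⟨fun hf => ?_, fun ⟨g, hg⟩ => ?_⟩⟩
  · obtain ⟨φ, ⟨-, -, g, hg⟩, hφ⟩ := t.symm.map hf
    refine ⟨g, fun x hx => ?_⟩
    have := (hg ⟨_, mem_img_of_mem I hx⟩).symm.trans (hφ _)
    rwa [Function.comp_apply, Function.comp_apply, k.left (mem_top x)] at this
  · refine (t.symm.isMap_iff le_top (fun _ _ => mem_top _) (f' := cj g) hg).1
      (isMap_group_cj (t.symm.img_le le_top) ?_)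
    rw [img_hom]
    rintro _ ⟨x, hx, rfl⟩
    exact ⟨_, (hg x hx).symm⟩

end Cfsg.Agent.Pu
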