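import Cfsg.Agent.Pu.K0
import Cfsg.Agent.Jc.J2

/-! Slice `G3`: fusion systems over the model `U0 ⋊ ⟨θ⟩`, the extraspecial subgroup. -/

set_option autoImplicit false

namespace Cfsg.Agent.Pu.K

open Subgroup Cfsg Cfsg.Fus Cfsg.FusionSystem Cfsg.Agent.L Equiv Equiv.Perm Cfsg.Agent.Jc Jc.J3 T1 F4

theorem eqOn_of_gens {Ω Ω' : Type*} [Group Ω] [Group Ω'] {f g : Ω → Ω'} {P : Subgroup Ω} (hf : HomOn f P)
    (hg : HomOn g P) (l : List Ω) (hl : ∀ x ∈ P, ∃ s ∈ l.sublists, s.prod = x)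
    (h : ∀ x ∈ l, x ∈ P ∧ f x = g x) : ∀ x ∈ P, f x = g x := by
  intro x hx
  obtain ⟨s, hs, rfl⟩ := hl x hx
  replace hs : ∀ y ∈ s, y ∈ P ∧ f y = g y := fun y hy => h y ((List.mem_sublists.1 hs).subset hy)
  induction s with
  | nil => exact hf.map_one.trans hg.map_one.symm
  | cons a s ih =>
    have h1 := hs a List.mem_cons_self
    have h2 := P.list_prod_mem fun y hy => (hs y (List.mem_cons_of_mem a hy)).1
    rw [List.prod_cons, hf.map_mul h1.1 h2, hg.map_mul h1.1 h2, h1.2,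
      ih h2 fun y hy => hs y (List.mem_cons_of_mem a hy)]

theorem fn_of_normal {M : Type*} [Group M] [Finite M] (F : FusionSystem (⊤ : Subgroup M)) (P : Subgroup M)
    [P.Normal] : F.IsFullyNormalized P :=
  ⟨le_top, fun Q _ => card_le_of_le (by simp [normalizerIn, normalizer_eq_top])⟩

def v1 : Perm (Fin 5) := swap 1 2 * swap 3 4
def v2 : Perm (Fin 5) := swap 1 3 * swap 2 4
def c3 : Perm (Fin 5) := swap 2 3 * swap 3 4
def VV : List (Perm (Fin 5)) := [1, v1, v2, v1 * v2]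

theorem a5 {H : Subgroup (Perm (Fin 5))} (hV : ∀ v ∈ VV, v ∈ H) {a : Perm (Fin 5)} (ha : a ∈ H) (hs : sign a = 1)
    (h0 : a 0 ≠ 0) {b : Perm (Fin 5)} (hb : sign b = 1) : b ∈ H := by
  have k1 : ∀ i j : Fin 5, i ≠ 0 → j ≠ 0 → ∃ v ∈ VV, v i = j ∧ sign v = 1 := by decide +kernel
  have hc : c3 ∈ H := by
    obtain ⟨v, hv, e, s⟩ := k1 _ 1 h0 (by decide)
    obtain ⟨x, hx, y, hy, z, hz, e⟩ := (by decide +kernel : ∀ a : Perm (Fin 5), a 0 = 1 → sign a = 1 →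
      ∃ x ∈ VV, ∃ y ∈ VV, ∃ z ∈ VV, x * a * y * a * z * a = c3 ∨ x * a * y * a * z * a = c3⁻¹ ∨
        x * a * y * a⁻¹ * z * a = c3 ∨ x * a * y * a⁻¹ * z * a = c3⁻¹) (v * a) e (by simp [s, hs])
    have h1 := mul_mem (hV v hv) ha
    have h2 := mul_mem (mul_mem (hV x hx) h1) (hV y hy)
    have h3 := mul_mem (mul_mem (mul_mem h2 h1) (hV z hz)) h1
    have h4 := mul_mem (mul_mem (mul_mem h2 (inv_mem h1)) (hV z hz)) h1
    rcases e with e | e | e | e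
    exacts [e ▸ h3, inv_mem_iff.1 (e ▸ h3), e ▸ h4, inv_mem_iff.1 (e ▸ h4)]
  have k2 : ∀ b : Perm (Fin 5), b 0 = 0 → sign b = 1 → b ∈ H := fun b h1 h2 => by
    obtain ⟨v, hv, e⟩ := (by decide +kernel : ∀ b : Perm (Fin 5), b 0 = 0 → sign b = 1 →
      ∃ v ∈ VV, b = v ∨ b = v * c3 ∨ b = v * c3⁻¹) b h1 h2
    rcases e with rfl | rfl | rfl
    exacts [hV _ hv, mul_mem (hV v hv) hc, mul_mem (hV v hv) (inv_mem hc)]
  by_cases h : b 0 = 0
  · exact k2 b h hb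
  obtain ⟨v, hv, e, s⟩ := k1 _ _ h0 h
  simpa [mul_assoc] using
    mul_mem (mul_mem (hV v hv) ha) (k2 ((v * a)⁻¹ * b) (by simp [← e]) (by simp [s, hs, hb]))

abbrev MM := T1 theta

theorem two_MM : IsPGroup 2 (⊤ : Subgroup MM) := IsPGroup.of_card (n := 7) (by rw [card_top, T1.card]; rfl)

def zc : MM := inl theta (zz 1)

/-- representatives of the five singular points -/
def pt (i : Fin 5) : MM :=
  ![⟨⟨o, o, w⟩, false⟩, ⟨⟨o, o, o⟩, true⟩, ⟨⟨.i, .i, o⟩, true⟩, ⟨⟨w, v, o⟩, true⟩, ⟨⟨v, w, o⟩, true⟩] i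

def cls (x : MM) : Fin 5 := cond x.e (match x.u.a with | .o => 1 | .i => 2 | .w => 3 | .v => 4) 0

theorem pt_spec : ∀ i, pt i ∈ P0 ∧ pt i * pt i = 1 ∧ pt i ≠ 1 ∧ pt i ≠ zc ∧ cls (pt i) = i := by decide +kernel

theorem zc_mem : zc ∈ P0 := by decide +kernel

theorem fix_zc (σ : autStab P0) : σ.1 zc = zc := by
  have h : (⟨⟨o, o, w⟩, true⟩ : MM) ∈ P0 := by decide
  have h1 := σ.2.1.map_mul h h
  rw [show (⟨⟨o, o, w⟩, true⟩ : MM) * ⟨⟨o, o, w⟩, true⟩ = zc by decide] at h1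
  refine ((by decide +kernel : ∀ x ∈ P0, x * x = 1 ∨ x * x = zc) _ ((σ.2.2 _).2 h)).elim (fun e => ?_) h1.trans
  exact absurd (σ.1.injective (h1.trans (e.trans σ.2.1.map_one.symm))) (by decide)

theorem pt_img (σ : autStab P0) (i : Fin 5) :
    σ.1 (pt i) = pt (cls (σ.1 (pt i))) ∨ σ.1 (pt i) = pt (cls (σ.1 (pt i))) * zc := by
  obtain ⟨h1, h2, h3, h4, -⟩ := pt_spec i
  refine (by decide +kernel : ∀ x ∈ P0, x * x = 1 → x ≠ 1 → x ≠ zc → x = pt (cls x) ∨ x = pt (cls x) * zc) _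
    ((σ.2.2 _).2 h1) ?_ (fun e => h3 (σ.1.injective (e.trans σ.2.1.map_one.symm)))
    fun e => h4 (σ.1.injective (e.trans (fix_zc σ).symm))
  rw [← σ.2.1.map_mul h1 h1, h2, σ.2.1.map_one]

/-- the action on the singular points -/
noncomputable def Pi : autStab P0 →* Perm (Fin 5) := MonoidHom.toHomPerm
  { toFun σ := fun i => cls (σ.1 (pt i))
    map_one' := funext fun i => (pt_spec i).2.2.2.2
    map_mul' σ τ := funext fun i => by
      change cls (σ.1 (τ.1 (pt i))) = cls (σ.1 (pt (cls (τ.1 (pt i)))))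
      rcases pt_img τ i with e | e <;> nth_rw 1 [e]
      rw [σ.2.1.map_mul (pt_spec _).1 zc_mem, fix_zc]
      exact (by decide +kernel : ∀ x, cls (x * zc) = cls x) _ }

theorem Pi_apply (σ : autStab P0) (i : Fin 5) : Pi σ i = cls (σ.1 (pt i)) := rfl

theorem Pi_congr {σ τ : autStab P0} (h : ∀ x ∈ P0, σ.1 x = τ.1 x) : Pi σ = Pi τ :=
  Equiv.ext fun i => by rw [Pi_apply, Pi_apply, h _ (pt_spec i).1]

theorem Pi_ker {σ : autStab P0} (h : Pi σ = 1) : ∃ g ∈ P0, ∀ x ∈ P0, σ.1 x = g * x * g⁻¹ := by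
  have h1 : ∀ i, ∃ e, σ.1 (pt i) = pt i * cond e zc 1 := fun i => by
    have := pt_img σ i
    rw [← Pi_apply, h] at this
    exact this.elim (fun e => ⟨false, e.trans (mul_one _).symm⟩) fun e => ⟨true, e⟩
  choose e he using h1
  obtain ⟨g, hg, h1, h2, h3, h4, h5⟩ := (by decide +kernel : ∀ a b c d : Bool, ∃ g ∈ P0,
    pt 1 * cond a zc 1 = g * pt 1 * g⁻¹ ∧ pt 2 * cond b zc 1 = g * pt 2 * g⁻¹ ∧ pt 3 * cond c zc 1 = g * pt 3 * g⁻¹ ∧
      pt 4 * cond d zc 1 = g * pt 4 * g⁻¹ ∧ zc = g * zc * g⁻¹) (e 1) (e 2) (e 3) (e 4)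
  refine ⟨g, hg, eqOn_of_gens σ.2.1 (homOn_cj g P0) [pt 1, pt 2, pt 3, pt 4, zc] (by decide +kernel) ?_⟩
  simp only [List.mem_cons, List.not_mem_nil, or_false, forall_eq_or_imp, forall_eq]
  exact ⟨⟨(pt_spec _).1, (he _).trans h1⟩, ⟨(pt_spec _).1, (he _).trans h2⟩, ⟨(pt_spec _).1, (he _).trans h3⟩,
    ⟨(pt_spec _).1, (he _).trans h4⟩, zc_mem, (fix_zc σ).trans h5⟩

/-- conjugation -/
def cjP (g : MM) : autStab P0 := ⟨cj g, cj_mem_autStab.2 (normalizer_eq_top P0 ▸ mem_top g)⟩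

theorem Pi_cj (g : MM) : Pi (cjP g) ∈ VV := by
  obtain ⟨v, hv, e⟩ := (by decide +kernel : ∀ g : MM, ∃ v ∈ VV, ∀ i, cls (g * pt i * g⁻¹) = v i) g
  exact (Equiv.ext e : Pi (cjP g) = v) ▸ hv

theorem exists_cj {v : Perm (Fin 5)} (hv : v ∈ VV) : ∃ g, Pi (cjP g) = v :=
  ((by decide +kernel : ∀ v ∈ VV, ∃ g : MM, ∀ i, cls (g * pt i * g⁻¹) = v i) v hv).imp fun _ e => Equiv.ext e

variable {F F' : FusionSystem (⊤ : Subgroup MM)}

theorem sign_Pi (hF : F.IsSaturated 2) {σ : autStab P0} (hσ : F.Iso P0 P0 σ) : sign (Pi σ) = 1 := by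
  have : Fact (Nat.Prime 2) := ⟨Nat.prime_two⟩
  obtain ⟨k, m, hm, e⟩ := Nat.exists_eq_two_pow_mul_odd (orderOf_pos σ.1).ne'
  obtain ⟨χ, h1, h2⟩ := ((fn_of_normal F P0).isFullyAutomized hF two_MM).exists_conj_elt (hσ.pow m) (k := k)
    (by rw [← pow_mul, mul_comm, ← e, pow_orderOf_eq_one]; exact one_mem _)
  obtain ⟨g, -, -, hg⟩ := mem_innS.1 h2
  have h3 := Pi_congr (σ := ⟨χ, h1.mem_autStab⟩ * σ ^ m * (⟨χ, h1.mem_autStab⟩ : autStab P0)⁻¹) (τ := cjP g) hg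
  have h4 := (by decide +kernel : ∀ v ∈ VV, sign v = 1) _ (Pi_cj g)
  rw [← h3, map_mul, map_mul, map_mul, map_mul, map_inv, map_inv, mul_inv_cancel_comm, map_pow, map_pow] at h4
  rcases Int.units_eq_one_or (sign (Pi σ)) with h | h
  · exact h
  · rw [h, hm.neg_one_pow] at h4
    exact absurd h4 (by decide)

/-- some automorphism of `P0` moves `P0 ⊓ U` -/
def Mo (F : FusionSystem (⊤ : Subgroup MM)) : Prop :=
  ∃ f, F.IsMap P0 f ∧ (∀ x ∈ P0, f x ∈ P0) ∧ ∃ x ∈ P0, x.e = false ∧ (f x).e = true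

theorem exists_Pi (hF : F.IsSaturated 2) (hm : Mo F) {b : Perm (Fin 5)} (hb : sign b = 1) :
    ∃ σ : autStab P0, F.Iso P0 P0 σ ∧ Pi σ = b := by
  obtain ⟨f, h1, h2, x, hx, h3, h4⟩ := hm
  obtain ⟨σ, k1, k2⟩ := h1.exists_perm
  have k3 : F.Iso P0 P0 σ := k1.iso_self fun x hx => k2 x hx ▸ h2 x hx
  refine (a5 (H := ((F.stab P0).subgroupOf (autStab P0)).map Pi) (a := Pi ⟨σ, k3.mem_autStab⟩)
    (fun v hv => (exists_cj hv).elim fun g e => ⟨cjP g,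
      (F.iso_cj le_top (mem_top g) (cj_mem_autStab.1 (cjP g).2)).mem_stab, e⟩) ⟨_, k3.mem_stab, rfl⟩ (sign_Pi hF k3)
    (fun e => ?_) hb).imp fun τ h => ⟨(mem_stab le_top).1 h.1, h.2⟩
  have h5 := pt_img ⟨σ, k3.mem_autStab⟩ 0
  rw [← Pi_apply, e] at h5
  have h6 : σ x * σ (pt 0) = σ (pt 0) * σ x := by
    rw [← k3.homOn.map_mul hx (pt_spec 0).1, ← k3.homOn.map_mul (pt_spec 0).1 hx,
      (by decide +kernel : ∀ x : MM, x.e = false → x * pt 0 = pt 0 * x) x h3]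
  rw [k2 x hx] at h6
  exact (by decide +kernel : ∀ y : MM, y.e = true → ∀ c, c = pt 0 ∨ c = pt 0 * zc → y * c ≠ c * y) _ h4 _ h5 h6

theorem le_P0 (hF : F.IsSaturated 2) (hF' : F'.IsSaturated 2) (hm : Mo F') (σ : Perm MM) (hσ : F.Iso P0 P0 σ) :
    F'.IsMap P0 σ := by
  obtain ⟨τ, h1, h2⟩ := exists_Pi hF' hm (sign_Pi hF (σ := ⟨σ, hσ.mem_autStab⟩) hσ)
  obtain ⟨g, -, hg⟩ := Pi_ker (σ := τ⁻¹ * ⟨σ, hσ.mem_autStab⟩) (by rw [map_mul, map_inv, h2, inv_mul_cancel])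
  refine ((F'.iso_cj le_top (mem_top g) (cj_mem_autStab.1 (cjP g).2)).trans h1).isMap.congr fun x hx => ?_
  exact ((congrArg τ.1 (hg x hx)).symm.trans (τ.1.apply_symm_apply _)).symm

/-- an outer automorphism of the whole group -/
theorem exists_out (hF : F.IsSaturated 2) (hm : Mo F) : ∃ τ, F.Iso ⊤ ⊤ τ ∧ ∀ g, ¬ ∀ x, τ x = g * x * g⁻¹ := by
  have : Fact (Nat.Prime 2) := ⟨Nat.prime_two⟩
  obtain ⟨β, h1, h2⟩ := exists_Pi hF hm (b := c3) (by decide)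
  obtain ⟨τ, h3, h4⟩ := ((fn_of_normal F P0).isReceptive hF two_MM).exists_ext_of_le h1 (T := ⊤)
    (by simp [normalizerIn, normalizer_eq_top]) fun g _ => by
      obtain ⟨g', e⟩ := exists_cj ((by decide +kernel : ∀ v ∈ VV, c3 * v * c3⁻¹ ∈ VV) _ (Pi_cj g))
      obtain ⟨k, -, hk⟩ := Pi_ker (σ := (cjP g')⁻¹ * (β * cjP g * β⁻¹)) (by
        rw [map_mul, map_mul, map_mul, map_inv, map_inv, e, h2, inv_mul_cancel])
      refine mem_innS.2 ⟨g' * k, mem_top _, normalizer_eq_top P0 ▸ mem_top _, fun x hx => ?_⟩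
      have := (((cj g').apply_symm_apply _).symm.trans (congrArg (cj g') (hk x hx)))
      exact this.trans (by rw [cj_apply]; group)
  rw [sup_top_eq] at h3
  refine ⟨τ, h3.iso_self fun _ _ => mem_top _, fun g hg => ?_⟩
  have := Pi_cj g
  rw [← Pi_congr (σ := β) fun x hx => (h4 x hx).symm.trans (hg x), h2] at this
  exact absurd this (by decide)

end Cfsg.Agent.Pu.K
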