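import Cfsg.Agent.Pu.K1
import Cfsg.Agent.H9.PL

/-! Slice `G3`: automorphisms of `U` and of the whole model. -/

set_option autoImplicit false

namespace Cfsg.Agent.Pu.K

open Subgroup Cfsg Cfsg.Fus Cfsg.FusionSystem Equiv Cfsg.Agent.Jc Jc.J3 T1 F4

def U1 : Subgroup MM := (inl theta).range

theorem mem_U1 {x : MM} : x ∈ U1 ↔ x.e = false :=
  ⟨fun ⟨_, h⟩ => h ▸ rfl, fun h => ⟨x.u, T1.ext rfl h.symm⟩⟩

instance instNormalU1 : U1.Normal := ⟨fun x hx g => by
  simp [mem_U1, T1.mul_def, T1.inv_def, mem_U1.1 hx]⟩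

/-- an automorphism of `U0` as a permutation of the model -/
def lf : MulAut U0 →* Perm MM where
  toFun π := ⟨fun x => ⟨π x.u, x.e⟩, fun x => ⟨π⁻¹ x.u, x.e⟩, fun x => by simp, fun x => by simp⟩
  map_one' := rfl
  map_mul' _ _ := rfl

theorem lf_inl (π : MulAut U0) (u : U0) : lf π (inl theta u) = inl theta (π u) := rfl

theorem exists_lf {σ : Perm MM} (h : HomOn σ U1) (hm : ∀ x ∈ U1, σ x ∈ U1) :
    ∃ π : MulAut U0, ∀ u, σ (inl theta u) = inl theta (π u) :=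
  (loc_range (α := theta) (J := MonoidHom.id MM) Function.injective_id).exists_aut h σ.injective.injOn
    fun u => (hm _ ⟨u, rfl⟩).imp fun _ e => e.symm

theorem ns_four {σ : Perm MM} {π : MulAut U0} (e : ∀ u, σ (inl theta u) = inl theta (π u)) (h : NS π)
    (h1 : (π (xx 1)).a = 1) (h2 : (π (yy 1)).b = 1) : σ ^ 2 ^ 2 ∈ fixP U1 := by
  obtain ⟨b, l, m, p, q, p', q', -, -, h3⟩ := h.par
  have hf : ∀ b x, fr b (1 * fr b x) = x ∧ fr b 1 = 1 ∧ fr b 0 = 0 := by decide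
  have hl : l = 1 := by rw [← h1, h3]; exact ((congrArg (l * ·) (hf b 0).2.1).trans (mul_one l)).symm
  have hm : m = 1 := by rw [← h2, h3]; exact ((congrArg (m * ·) (hf b 0).2.1).trans (mul_one m)).symm
  subst hl hm
  have h4 : ∀ c, π (zz c) = zz (1 * fr b c) := fun c => by
    rw [h3]; ext <;> simp [ap, zz, (hf b 0).2.2]
  have h5 : ∀ u, π (π u) = u * zz (u.c + (π (π u)).c) := fun u => by
    ext
    · rw [h3, h3]; simpa [ap, zz] using (hf b u.a).1
    · rw [h3, h3]; simpa [ap, zz] using (hf b u.b).1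
    · simp [zz, ← add_assoc]
  rintro _ ⟨u, rfl⟩
  rw [show σ ^ 2 ^ 2 = σ * (σ * (σ * σ)) by norm_num [pow_succ, mul_assoc], Perm.mul_apply, Perm.mul_apply,
    Perm.mul_apply, e, e, e, e, h5 u, map_mul, map_mul, h4, h4, (hf b _).1, one_mul]
  nth_rw 1 [h5 u]
  rw [mul_assoc, zz_sq, mul_one]

theorem ns_pow {π κ : MulAut U0} (h : NS π) (hκ : κ ∈ [1, π, π * π]) : NS κ := by
  simp only [List.mem_cons, List.not_mem_nil, or_false] at hκ
  rcases hκ with rfl | rfl | rfl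
  exacts [⟨fun _ => Iff.rfl, fun _ => Iff.rfl⟩, h, h.mul h]

theorem lf_pow {π κ : MulAut U0} {A : Subgroup (Perm MM)} (h : lf π ∈ A) (hκ : κ ∈ [1, π, π * π]) : lf κ ∈ A := by
  simp only [List.mem_cons, List.not_mem_nil, or_false] at hκ
  rcases hκ with rfl | rfl | rfl
  exacts [one_mem A, h, mul_mem h h]

theorem sw_theta : SW theta := by unfold SW; decide

theorem tt_inl (u : U0) : cj (tt theta) (inl theta u) = inl theta (theta u) := by revert u; decide +kernel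

variable {F F' : FusionSystem (⊤ : Subgroup MM)}

structure Good (F : FusionSystem (⊤ : Subgroup MM)) : Prop where
  sat : F.IsSaturated 2
  rho : F.IsMap U1 (lf rho)
  sig : F.IsMap ⊤ (lf sig)
  mo : Mo F

theorem stab_lf {π : MulAut U0} (h : F.IsMap U1 (lf π)) : lf π ∈ F.stab U1 :=
  (h.iso_self fun x hx => mem_U1.2 (mem_U1 (x := x).1 hx)).mem_stab

theorem stab_cj (F : FusionSystem (⊤ : Subgroup MM)) (P : Subgroup MM) [P.Normal] (g : MM) : cj g ∈ F.stab P :=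
  (F.iso_cj le_top (mem_top g) (normalizer_eq_top P ▸ mem_top g)).mem_stab

theorem le_U1 (h : Good F) (h' : Good F') (σ : Perm MM) (hσ : F.Iso U1 U1 σ) : F'.IsMap U1 σ := by
  have : Fact (Nat.Prime 2) := ⟨Nat.prime_two⟩
  have key : ∀ σ ∈ F.stab U1, ∀ π : MulAut U0, (∀ u, σ (inl theta u) = inl theta (π u)) → NS π →
      σ ∈ F'.stab U1 := by
    intro σ hσ π e ns
    obtain ⟨κ, h1, κ', h2, h3, h4⟩ := (by decide +kernel : ∀ x ∈ F1, x ∉ V0 → ∀ y ∈ Jc.F2, y ∉ V0 →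
      ∃ κ ∈ [1, rho, rho * rho], ∃ κ' ∈ [1, sig, sig * sig], (κ (κ' x)).a = 1 ∧ (κ (κ' y)).b = 1)
      (π (xx 1)) ((ns.1 _).2 rfl) (by rw [aut_V0]; decide) (π (yy 1)) ((ns.2 _).2 rfl) (by rw [aut_V0]; decide)
    have k : ∀ {E : FusionSystem (⊤ : Subgroup MM)}, Good E → lf κ * lf κ' ∈ E.stab U1 := fun hE =>
      mul_mem (lf_pow (stab_lf hE.rho) h1) (lf_pow (stab_lf (hE.sig.mono le_top)) h2)
    refine (mul_mem_cancel_left (k h')).1 ?_
    have h5 := (mem_stab le_top).1 (mul_mem (k h) hσ)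
    have ns' : NS (κ * κ' * π) := ((ns_pow ns_rho h1).mul (ns_pow ns_sig h2)).mul ns
    have e' : ∀ u, (lf κ * lf κ' * σ) (inl theta u) = inl theta ((κ * κ' * π) u) := fun u =>
      congrArg (lf κ * lf κ') (e u)
    generalize lf κ * lf κ' * σ = ψ at h5 e'
    obtain ⟨χ, k1, k2⟩ := ((fn_of_normal F U1).isFullyAutomized h.sat two_MM).exists_conj_elt h5
      (ns_four e' ns' h3 h4)
    obtain ⟨g, -, -, hg⟩ := mem_innS.1 k2
    refine innS_self_le_stab F' le_top ((conj_mem_innS_self_iff k1.mem_autStab).1 (mem_innS_self.2 ⟨g, ?_, hg⟩))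
    obtain ⟨u, hu⟩ := k1.inv_mem (show inl theta (xx 1) ∈ U1 from ⟨_, rfl⟩)
    have k3 : χ (inl theta u) = inl theta (xx 1) := by rw [hu]; simp
    have k4 : ∀ a b, χ (inl theta (a * b)) = χ (inl theta a) * χ (inl theta b) := fun a b => by
      rw [map_mul, k1.homOn.map_mul ⟨a, rfl⟩ ⟨b, rfl⟩]
    have k5 : u * u = 1 := congrArg T1.u (χ.injective (show χ (inl theta (u * u)) = χ 1 by
      rw [k4, k3, k1.homOn.map_one]; decide))
    have k6 : u * (κ * κ' * π) u = (κ * κ' * π) u * u := ((sq_eq_one_iff u).1 k5).elim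
      (fun hu => F1_comm _ hu _ ((ns'.1 _).2 hu)) fun hu => F2_comm _ hu _ ((ns'.2 _).2 hu)
    have k7 := congrArg (fun u => χ (inl theta u)) k6
    simp only [k4, k3, ← e'] at k7
    rw [hu, show χ (ψ (χ⁻¹ (inl theta (xx 1)))) = _ from hg _ ⟨_, rfl⟩] at k7
    exact mem_U1.2 ((by decide +kernel : ∀ g : MM, inl theta (xx 1) * (g * inl theta (xx 1) * g⁻¹) =
      g * inl theta (xx 1) * g⁻¹ * inl theta (xx 1) → g.e = false) g k7)
  obtain ⟨π, e⟩ := exists_lf hσ.homOn fun _ => hσ.mem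
  refine ((mem_stab le_top).1 ((ns_or_sw π).elim (key σ hσ.mem_stab π e) fun sw => ?_)).isMap
  exact (mul_mem_cancel_left (stab_cj F' U1 (tt theta))).1 (key _ (mul_mem (stab_cj F U1 _) hσ.mem_stab) (theta * π)
    (fun u => (congrArg (cj (tt theta)) (e u)).trans (tt_inl _)) (sw_theta.mul sw))

theorem e_eq {σ : Perm MM} (h : HomOn σ ⊤) (y : MM) : (σ y).e = false ↔ y.e = false := by
  have hm : ∀ a b, σ (a * b) = σ a * σ b := fun a b => h.map_mul (mem_top a) (mem_top b)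
  have hz : σ zc = zc := ((by decide +kernel : ∀ x : MM, (∀ y, x * y = y * x) → x = 1 ∨ x = zc) _ fun y => by
    obtain ⟨y, rfl⟩ := σ.surjective y
    rw [← hm, ← hm, (by decide +kernel : ∀ y, zc * y = y * zc) y]).resolve_left
      fun e => absurd (σ.injective (e.trans h.map_one.symm)) (by decide)
  have k : ∀ x : MM, (∀ y, x * y = y * x ∨ x * y = y * x * zc) → x ≠ 1 → x ≠ zc →
      ∀ y, x * y = y * x ↔ y.e = false := by decide +kernel
  have k0 : ∀ y, pt 0 * y = y * pt 0 ∨ pt 0 * y = y * pt 0 * zc := by decide +kernel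
  rw [← k (pt 0) k0 (by decide) (by decide) y, ← k (σ (pt 0)) (fun y => ?_)
    (fun e => absurd (σ.injective (e.trans h.map_one.symm)) (by decide))
    (fun e => absurd (σ.injective (e.trans hz.symm)) (by decide)) (σ y), ← hm, ← hm, σ.injective.eq_iff]
  obtain ⟨y, rfl⟩ := σ.surjective y
  rw [← hz, ← hm, ← hm, ← hm, σ.injective.eq_iff, σ.injective.eq_iff]
  exact k0 y

theorem le_top' (h : Good F) (h' : Good F') (σ : Perm MM) (hσ : F.Iso ⊤ ⊤ σ) : F'.IsMap ⊤ σ := by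
  have : Fact (Nat.Prime 2) := ⟨Nat.prime_two⟩
  have hs : ∀ {E : FusionSystem (⊤ : Subgroup MM)}, Good E → lf sig ∈ E.stab ⊤ := fun hE =>
    (hE.sig.iso_self fun _ _ => mem_top _).mem_stab
  have ht : ∀ {σ : Perm MM}, HomOn σ ⊤ → ∃ u0, σ (tt theta) = ⟨u0, true⟩ ∧ ∀ u,
      ⟨u0, true⟩ * σ (inl theta u) = σ (inl theta (theta u)) * ⟨u0, true⟩ := fun {σ} h => by
    have e : σ (tt theta) = ⟨(σ (tt theta)).u, true⟩ :=
      T1.ext rfl (Bool.of_not_eq_false fun e => absurd ((e_eq h _).1 e) (by decide))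
    refine ⟨_, e, fun u => ?_⟩
    rw [← e, ← h.map_mul (mem_top _) (mem_top _), ← h.map_mul (mem_top _) (mem_top _), ← tt_inl, cj_apply,
      inv_mul_cancel_right]
  have key : ∀ σ ∈ F.stab ⊤, ∀ π : MulAut U0, (∀ u, σ (inl theta u) = inl theta (π u)) → NS π →
      σ ∈ F'.stab ⊤ := by
    intro σ hσ π e ns
    obtain ⟨u0, -, h0⟩ := ht ((mem_stab le_top).1 hσ).homOn
    have h0' := h0 (xx 1)
    rw [e, e, show theta (xx 1) = yy 1 from rfl] at h0'
    have h1 : u0.b + (π (xx 1)).a * (π (xx 1)).a = (π (yy 1)).b + u0.b := congrArg (fun x => x.u.b) h0'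
    obtain ⟨κ, h2, h3, h4⟩ := (by decide +kernel : ∀ x ∈ F1, x ∉ V0 → ∀ y : U0, y.b = x.a * x.a →
      ∃ κ ∈ [1, sig, sig * sig], (κ x).a = 1 ∧ (κ y).b = 1)
      (π (xx 1)) ((ns.1 _).2 rfl) (by rw [aut_V0]; decide) (π (yy 1))
      (add_right_cancel (h1.symm.trans (add_comm _ _)))
    refine (mul_mem_cancel_left (lf_pow (hs h') h2)).1 ?_
    have h5 := (mem_stab le_top).1 (mul_mem (lf_pow (hs h) h2) hσ)
    have h6 := ns_four (σ := lf κ * σ) (π := κ * π) (fun u => congrArg (lf κ) (e u)) ((ns_pow ns_sig h2).mul ns) h3 h4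
    refine innS_self_le_stab F' le_top (h.sat.mem_innS_top two_MM h5 (k := 3) ?_)
    rw [pow_succ 2 2, pow_mul]
    have h7 := (h5.pow (2 ^ 2)).homOn
    generalize (lf κ * σ) ^ 2 ^ 2 = δ at h6 h7
    obtain ⟨u1, k1, k2⟩ := ht h7
    have k3 : ∀ u, δ ⟨u, false⟩ = ⟨u, false⟩ := fun u => h6 _ ⟨u, rfl⟩
    have k4 : ∀ u, δ ⟨u, true⟩ = ⟨u * u1, true⟩ := fun u => by
      rw [show (⟨u, true⟩ : MM) = ⟨u, false⟩ * tt theta from T1.ext (mul_one u).symm rfl,
        h7.map_mul (mem_top _) (mem_top _), k3, k1]; rfl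
    have k5 : u1 * u1 = 1 := (sq_eq_one_iff _).2 (Or.inl ((mem_V0_iff_comm u1).2 fun u => by
      obtain ⟨u, rfl⟩ := theta.surjective u
      have := congrArg T1.u (k2 u)
      simpa only [inl_apply, k3, T1.mul_def, T1.act, cond_true, cond_false] using this).1)
    rintro ⟨u, _ | _⟩ -
    · exact (congrArg δ (k3 u)).trans (k3 u)
    · exact (congrArg δ (k4 u)).trans ((k4 _).trans (by rw [mul_assoc, k5, mul_one]))
  obtain ⟨π, e⟩ := exists_lf (hσ.homOn.mono le_top) fun x hx => mem_U1.2 ((e_eq hσ.homOn x).2 (mem_U1.1 hx))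
  refine ((mem_stab le_top).1 ((ns_or_sw π).elim (key σ hσ.mem_stab π e) fun sw => ?_)).isMap
  exact (mul_mem_cancel_left (stab_cj F' ⊤ (tt theta))).1 (key _ (mul_mem (stab_cj F ⊤ _) hσ.mem_stab) (theta * π)
    (fun u => (congrArg (cj (tt theta)) (e u)).trans (tt_inl _)) (sw_theta.mul sw))

end Cfsg.Agent.Pu.K
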