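import Cfsg.Agent.Pu.K2

/-! Slice `G3`: the model inside `J₃`. -/

set_option autoImplicit false

namespace Cfsg.Agent.Pu.K

open Subgroup Cfsg Cfsg.Agent.L Cfsg.Agent.L.PC Cfsg.Spor Cfsg.Agent.H4.J3 Cfsg.Agent.Jc Jc.J3 T1

def W1 : Subgroup MM := F1.map (inl theta)

/-- the Weyl element on `F1` -/
def w0 (x : MM) : MM := ⟨⟨x.u.c, 0, x.u.a⟩, false⟩

/-- what is needed from `J₃` -/
def JD (G : Type*) [Group G] : Prop :=
  ∃ I : MM →* G, Function.Injective I ∧ IsSylowIn 2 I.range ⊤ ∧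
    (∃ g, ∀ x ∈ U1, g * I x * g⁻¹ = I (lf Jc.rho x)) ∧ (∃ g, ∀ x ∈ (⊤ : Subgroup MM), g * I x * g⁻¹ = I (lf sig x)) ∧
    (∃ g, ∀ x ∈ W1, g * I x * g⁻¹ = I (w0 x)) ∧
    ∃ f : MM → MM, (∃ g, ∀ x ∈ P0, g * I x * g⁻¹ = I (f x)) ∧ (∀ x ∈ P0, f x ∈ P0) ∧ (f (pt 0)).e = true

def wd2 : List (List ℕ) := wds ++ [[37, 67, 66, 67, 43, 66, 67, 43],
  [67, 66, 67, 89, 67, 89, 67, 66, 89, 67, 89, 67, 66, 89, 67, 89, 37, 43, 67, 67, 37, 43, 66, 67, 66, 67]]

def cd2 (k : ℕ) : ℕ := if k = 11 then 0x20ba40de08e5510f6201e407c2c9af525eaddc4f else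
  if k = 12 then 0xc5ab90a6e46a33f01eeb28e5779c8be8ef71a533 else cd k

variable {F : Type*} [Field F] {ω : F} {H : Type*} [Group H] [Finite H] {ρ : H →* Matrix F9 F9 F}

theorem jd_quot (h : Fd ω) (hρ : Function.Injective ρ) (hgen : ∀ i < 45, ∃ g, ρ g = dec ω (tb tG i))
    (htop : ∀ K : Subgroup H, (∀ i < 45, InK ρ ω K (tb tG i)) → K = ⊤) : JD (H ⧸ center H) := by
  have : Fact (Nat.Prime 2) := ⟨Nat.prime_two⟩
  have hm : ∀ {a b : H} {x y : ℕ}, ρ a = dec ω x → ρ b = dec ω y → ρ (a * b) = dec ω (mul x y) :=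
    fun ha hb => by rw [map_mul, ha, hb, h.dec_mul]
  have he : ∀ {a b : H} {x y : ℕ}, ρ a = dec ω x → ρ b = dec ω y → x = y → a = b :=
    fun ha hb e => hρ (by rw [ha, hb, e])
  have h1 : ρ 1 = dec ω idm := by rw [map_one, dec_idm]
  have hw : ∀ w : List ℕ, (∀ i ∈ w, i < 116) → InK ρ ω ⊤ (wv w) := fun w hw => by
    induction w with
    | nil => exact ⟨1, trivial, h1⟩
    | cons i w ih =>
      exact InK.mul h _ _ (slp_ind chk_G (fun i hi => (hgen i hi).imp fun g hg => ⟨trivial, hg⟩) (InK.mul h) i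
        (hw i List.mem_cons_self)) (ih fun j hj => hw j (List.mem_cons_of_mem _ hj))
  have ha : ∀ k : Fin 13, ∃ g, ρ g = dec ω (cd2 k) := fun k => by
    have := (by decide +kernel : ∀ k : Fin 13, (∀ i ∈ wd2.getD k [], i < 116) ∧ cd2 k = wv (wd2.getD k [])) k
    obtain ⟨g, -, hg⟩ := hw _ this.1
    exact ⟨g, this.2 ▸ hg⟩
  choose a ha using ha
  have R : Rel6 (a 0) (a 1) (a 2) (a 3) (a 4) (a 5) := by
    constructor <;> first
      | exact he (hm (ha _) (ha _)) h1 (by decide +kernel)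
      | exact he (hm (ha _) (ha _)) (hm (ha _) (ha _)) (by decide +kernel)
      | exact he (hm (ha _) (ha _)) (hm (hm (ha _) (ha _)) (ha _)) (by decide +kernel)
      | exact he (hm (ha _) (ha _)) (hm (hm (ha _) (ha _)) (hm (ha _) (ha _))) (by decide +kernel)
  have hx : ∀ k l c, ρ (ex (a k) (a l) c) = dec ω (exc (cd2 k) (cd2 l) c) := fun k l c => by
    cases c
    exacts [h1, ha k, ha l, hm (ha k) (ha l)]
  have hU : ∀ u, ρ (R.hom u) = dec ω (cU u) := fun u => hm (hm (hx 2 3 _) (hx 0 1 _)) (hx 4 5 _)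
  let J0 := lift R.hom (a 6) (he (hm (ha _) (ha _)) h1 (by decide +kernel)) fun u =>
    mul_inv_eq_of_eq_mul (he (hm (ha 6) (hU u)) (hm (hU _) (ha 6))
      ((by decide +kernel : ∀ u, mul (cd 6) (cU u) = mul (cU (theta u)) (cd 6)) u))
  have hT : ∀ x, ρ (J0 x) = dec ω (cT x) := fun ⟨u, e⟩ => by
    cases e
    exacts [hm (hU u) h1, hm (hU u) (ha 6)]
  let π := QuotientGroup.mk' (center H)
  have hT' : ∀ (k : Fin 13) {x x'}, mul (cd2 k) (cT x) = mul (cT x') (cd2 k) →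
      π (a k) * π.comp J0 x * (π (a k))⁻¹ = π.comp J0 x' := fun k {x x'} e => by
    simpa only [map_mul, map_inv, MonoidHom.comp_apply] using
      congrArg π (mul_inv_eq_of_eq_mul (he (hm (ha k) (hT x)) (hm (hT x') (ha k)) e))
  have hJ : Function.Injective (π.comp J0) := inj_of_z _ fun e => absurd (h.dec_inj ((hm (ha 7) (hT _)).symm.trans
    ((congrArg ρ (mem_center_iff.1 ((QuotientGroup.eq_one_iff _).1 e) (a 7))).trans (hm (hT _) (ha 7)))))
    (by decide +kernel)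
  obtain ⟨S, hS, hS'⟩ := sylow_card h hρ hgen htop
  have hS1 := hS.map π
  rw [map_top_of_surjective π (QuotientGroup.mk'_surjective _)] at hS1
  obtain ⟨f, hf⟩ := Classical.axiomOfChoice (by decide +kernel : ∀ x : MM, ∃ x', x ∈ P0 → x' ∈ P0 ∧
    mul (cd2 10) (cT x) = mul (cT x') (cd2 10) ∧ (x = pt 0 → x'.e = true))
  refine ⟨_, hJ, hS1.of_card_le (IsPGroup.of_card (n := 7) (card_range hJ)) le_top
    (by rw [card_range hJ]; exact (Nat.le_of_dvd Nat.card_pos (card_map_dvd S π)).trans hS'),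
    ⟨_, fun x hx => hT' 7 ((by decide +kernel : ∀ x : MM, x.e = false →
      mul (cd2 7) (cT x) = mul (cT (lf Jc.rho x)) (cd2 7)) x (mem_U1.1 hx))⟩,
    ⟨_, fun x _ => hT' 11 ((by decide +kernel : ∀ x : MM, mul (cd2 11) (cT x) = mul (cT (lf sig x)) (cd2 11)) x)⟩,
    ⟨π (a 12), ?_⟩, f, ⟨_, fun x hx => hT' 10 (hf x hx).2.1⟩, fun x hx => (hf x hx).1,
    (hf _ (pt_spec 0).1).2.2 rfl⟩
  rintro _ ⟨u, hu, rfl⟩
  exact hT' 12 ((by decide +kernel : ∀ u ∈ F1,
    mul (cd2 12) (cT (inl theta u)) = mul (cT (w0 (inl theta u))) (cd2 12)) u hu)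

theorem jd [Fintype F] (h : Fd ω) : JD (Spor.J3 F ω) := by
  classical
  have h27 : tb tG 27 = idm ∧ tb tG 36 = idm := by decide +kernel
  refine jd_quot (ρ := (Units.coeHom _).comp (threeJ3 F ω).subtype) h
    (Units.val_injective.comp Subtype.val_injective) (fun i hi => ?_) fun K hK => ?_
  · by_cases e : i = 27 ∨ i = 36
    · refine ⟨1, ?_⟩
      rcases e with rfl | rfl
      · rw [map_one, h27.1, dec_idm]
      · rw [map_one, h27.2, dec_idm]
    · have e1 := congrArg (dec ω) (beq_iff.1 (allb_iff.1 chk_unit i hi))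
      simp only [h.dec_mul, dec_idm, mul_assoc] at e1
      obtain ⟨u, hu⟩ := IsUnit.of_mul_eq_one _ e1
      exact ⟨⟨u, subset_closure (h.gens.2 ⟨i, hi, by omega, by omega, hu⟩)⟩, hu⟩
  · refine eq_top_iff.2 fun ⟨g, hg⟩ _ => ?_
    induction hg using closure_induction with
    | mem g hg =>
      obtain ⟨i, hi, -, -, e⟩ := h.gens.1 hg
      obtain ⟨g', hg', e'⟩ := hK i hi
      have : g' = ⟨g, subset_closure hg⟩ := Subtype.ext (Units.ext (e'.trans e.symm))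
      exact this ▸ hg'
    | one => exact one_mem K
    | mul x y hx hy ihx ihy => exact mul_mem (ihx trivial) (ihy trivial)
    | inv x hx ih => exact inv_mem (ih trivial)

end Cfsg.Agent.Pu.K
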