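import Cfsg.Agent.Pu.K3
import Cfsg.Agent.Pu.S5

/-! Slice `G3`. -/

set_option autoImplicit false

universe u

namespace Cfsg.Agent.Pu

open Subgroup Cfsg Cfsg.Fus Cfsg.FusionSystem Cfsg.Agent.L Equiv Cfsg.Agent.Jc Jc.J3 T1
open scoped commutatorElement

variable {Ω : Type u} [Group Ω] {S : Subgroup Ω} {F F' : FusionSystem S} {T V₁ V₂ : Subgroup Ω}
  {K : Type} [Field K] [CharP K 2]

theorem Crd.Y_mem (c : Crd F T V₁ V₂ K) (a : K) : c.Y a ∈ T :=
  (c.mem_T _).2 ⟨a, 0, 0, 0, by simp [add_one' c.U_add, add_one' c.X_add, add_one' c.W_add]⟩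

theorem Crd.U_mem (c : Crd F T V₁ V₂ K) (a : K) : c.U a ∈ T :=
  (c.mem_T _).2 ⟨0, a, 0, 0, by simp [add_one' c.Y_add, add_one' c.X_add, add_one' c.W_add]⟩

theorem Crd.X_mem (c : Crd F T V₁ V₂ K) (a : K) : c.X a ∈ T :=
  (c.mem_T _).2 ⟨0, 0, a, 0, by simp [add_one' c.Y_add, add_one' c.U_add, add_one' c.W_add]⟩

theorem Crd.L3.mul {c : Crd F T V₁ V₂ K} (h : c.L3) (a b x a' b' x' : K) :
    c.U (b + b') * c.Y (a + a') * c.X (x + x' + a * b') =
      c.U b * c.Y a * c.X x * (c.U b' * c.Y a' * c.X x') := by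
  have h1 : c.Y a * c.U b' = c.X (a * b') * (c.U b' * c.Y a) := by
    rw [← mul_one (c.X _), ← h.W (a ^ 2 * b'), ← c.comm, commutatorElement_def]; group
  have h2 := c.X_cent x _ (mul_mem (c.U_mem b') (c.Y_mem a'))
  have h3 := c.X_cent (a * b') _ (mul_mem (mul_mem (c.U_mem b') (c.Y_mem a)) (c.Y_mem a'))
  rw [c.U_add, c.Y_add, add_comm (x + x'), c.X_add, c.X_add]
  calc _ = c.U b * (c.U b' * c.Y a * c.Y a' * c.X (a * b')) * c.X x * c.X x' := by group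
    _ = c.U b * (c.X (a * b') * (c.U b' * c.Y a)) * c.Y a' * c.X x * c.X x' := by rw [h3]; group
    _ = c.U b * c.Y a * (c.U b' * c.Y a' * c.X x) * c.X x' := by rw [← h1]; group
    _ = _ := by rw [h2]; group

omit [CharP K 2] in
theorem Crd.L3.tU {c : Crd F T V₁ V₂ K} (h : c.L3) (a : K) : c.t * c.U a * c.t = c.Y (c.φ a) := by
  rw [← h.φφ a, ← c.tY, h.φφ, ← mul_assoc, ← mul_assoc, c.tt, one_mul, mul_assoc, c.tt, mul_one]

namespace K

theorem exists_eps [Fintype K] (h4 : Fintype.card K = 4) {φ : K ≃+* K} {ω : K} (hω : φ ω ≠ ω) :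
    ω ^ 2 + ω + 1 = 0 ∧ ∃ ε : F4 →+* K, Function.Surjective ε ∧ ε .w = ω ∧ (∀ a, φ (ε a) = ε (a * a)) ∧
      ∀ ψ : K ≃+* K, Odd (orderOf ψ) → ∀ a, ψ a = a := by
  have two : (2 : K) = 0 := CharTwo.two_eq_zero
  have hp : ∀ x : K, x ^ 4 = x := fun x => h4 ▸ FiniteField.pow_card x
  have h0 : ω ≠ 0 := fun e => hω (by rw [e, map_zero])
  have h1 : ω ≠ 1 := fun e => hω (by rw [e, map_one])
  have h2 : ω ^ 2 + ω + 1 = 0 := by have := hp ω; grind
  have h3 : ∀ x : K, x = 0 ∨ x = 1 ∨ x = ω ∨ x = ω + 1 := fun x => by have := hp x; grind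
  have h5 : ∀ ψ : K ≃+* K, ψ ω = ω ∨ ψ ω = ω + 1 := fun ψ =>
    ((h3 (ψ ω)).resolve_left (by simpa using h0)).resolve_left (by simpa using h1)
  let e : F4 → K := fun | .o => 0 | .i => 1 | .w => ω | .v => ω + 1
  refine ⟨h2, ⟨⟨⟨e, rfl⟩, fun a b => ?_⟩, rfl, fun a b => ?_⟩, fun x => ?_, rfl, fun a => ?_, fun ψ hψ => ?_⟩
  · change e (F4.mul a b) = e a * e b
    cases a <;> cases b <;> simp only [F4.mul, e] <;> grind
  · change e (F4.add a b) = e a + e b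
    cases a <;> cases b <;> simp only [F4.add, e] <;> grind
  · rcases h3 x with rfl | rfl | rfl | rfl
    exacts [⟨.o, rfl⟩, ⟨.i, rfl⟩, ⟨.w, rfl⟩, ⟨.v, rfl⟩]
  · have := (h5 φ).resolve_left hω
    change φ (e a) = e (F4.mul a a)
    cases a <;> simp only [F4.mul, e, map_zero, map_one, map_add] <;> grind
  · have : ψ ^ 2 = 1 := RingEquiv.ext fun x => by
      change ψ (ψ x) = x
      rcases h5 ψ with e | e <;> rcases h3 x with rfl | rfl | rfl | rfl <;>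
        simp only [map_zero, map_one, map_add, e] <;> grind
    rw [orderOf_eq_one_iff.1 (hψ.coprime_two_right.eq_one_of_dvd (orderOf_dvd_of_pow_eq_one this))]
    exact fun _ => rfl

def W2 : Subgroup MM := Jc.F2.map (inl theta)

theorem mem_W1 {x : MM} : x ∈ W1 ↔ x.e = false ∧ x.u.b = 0 :=
  ⟨fun ⟨_, h, e⟩ => e ▸ ⟨rfl, h⟩, fun h => ⟨x.u, h.2, T1.ext rfl h.1.symm⟩⟩

theorem mem_W2 {x : MM} : x ∈ W2 ↔ x.e = false ∧ x.u.a = 0 :=
  ⟨fun ⟨_, h, e⟩ => e ▸ ⟨rfl, h⟩, fun h => ⟨x.u, h.2, T1.ext rfl h.1.symm⟩⟩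

theorem ext_U {f g : MM → Ω} (hf : HomOn f U1) (hg : HomOn g U1)
    (h : ∀ a, f (inl theta (xx a)) = g (inl theta (xx a)) ∧ f (inl theta (yy a)) = g (inl theta (yy a))) :
    ∀ x ∈ U1, f x = g x := by
  rintro _ ⟨u, rfl⟩
  exact U0_ind (K := (hf.toHom.comp (inl theta).rangeRestrict).eqLocus (hg.toHom.comp (inl theta).rangeRestrict))
    (h _).1 (h _).1 (h _).2 (h _).2 u

theorem ext_M {f g : MM → Ω} (hf : HomOn f ⊤) (hg : HomOn g ⊤)
    (h : ∀ a, f (inl theta (xx a)) = g (inl theta (xx a)) ∧ f (inl theta (yy a)) = g (inl theta (yy a)))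
    (ht : f (tt theta) = g (tt theta)) (x : MM) : f x = g x := by
  have := ext_U (hf.mono le_top) (hg.mono le_top) h
  obtain ⟨u, _ | _⟩ := x
  · exact this _ ⟨u, rfl⟩
  · rw [show (⟨u, true⟩ : MM) = inl theta u * tt theta from T1.ext (mul_one u).symm rfl,
      hf.map_mul (mem_top _) (mem_top _), hg.map_mul (mem_top _) (mem_top _), ht, this _ ⟨u, rfl⟩]

/-- the model of `S` -/
structure Mod (c : Crd F T V₁ V₂ K) (ε : F4 →+* K) (J : MM →* Ω) : Prop where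
  inj : Function.Injective J
  range : J.range = S
  x : ∀ a, J (inl theta (xx a)) = c.Y (ε a)
  y : ∀ a, J (inl theta (yy a)) = c.U (ε a)
  z : ∀ a, J (inl theta (zz a)) = c.X (ε a)
  t : J (tt theta) = c.t
  eT : img J U1 = T
  e1 : img J W1 = V₁
  e2 : img J W2 = V₂

theorem exists_mod {c : Crd F T V₁ V₂ K} (h : c.L3) (hS : S = T ⊔ zpowers c.t) {ε : F4 →+* K}
    (hε : Function.Surjective ε) (hφ : ∀ a, c.φ (ε a) = ε (a * a)) : ∃ J, Mod c ε J := by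
  have y0 := add_one' c.Y_add
  have u0 := add_one' c.U_add
  have x0 := add_one' c.X_add
  let j : U0 →* Ω := MonoidHom.mk' (fun u => c.U (ε u.b) * c.Y (ε u.a) * c.X (ε u.c)) fun u v => by
    simp only [U0.mul_a, U0.mul_b, U0.mul_c, map_add, map_mul, h.mul]
  have hj : ∀ u, j u = c.U (ε u.b) * c.Y (ε u.a) * c.X (ε u.c) := fun _ => rfl
  have hx : ∀ a, j (xx a) = c.Y (ε a) := fun a => by simp [hj, xx, u0, x0]
  have hy : ∀ a, j (yy a) = c.U (ε a) := fun a => by simp [hj, yy, y0, x0]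
  have hz : ∀ a, j (zz a) = c.X (ε a) := fun a => by simp [hj, zz, u0, y0]
  have k : ∀ {a b : Ω}, c.t * a * c.t = b → c.t * a = b * c.t := fun e => by rw [← e, mul_assoc, c.tt, mul_one]
  have h1 : ∀ a, c.t * j (xx a) = j (theta (xx a)) * c.t := fun a => k (by
    rw [(by decide : ∀ a, theta (xx a) = yy (a * a)), hx, hy, c.tY, hφ])
  have h2 : ∀ a, c.t * j (yy a) = j (theta (yy a)) * c.t := fun a => k (by
    rw [(by decide : ∀ a, theta (yy a) = xx (a * a)), hx, hy, h.tU, hφ])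
  let J := lift j c.t c.tt (conj_of_gens j c.t theta (h1 _) (h1 _) (h2 _) (h2 _))
  have hJ : ∀ u, J (inl theta u) = j u := fun u => mul_one _
  have eT : img J U1 = T := by
    rw [img_hom]
    refine le_antisymm ?_ fun g hg => ?_
    · rintro _ ⟨_, ⟨u, rfl⟩, rfl⟩
      exact hJ u ▸ mul_mem (mul_mem (c.U_mem _) (c.Y_mem _)) (c.X_mem _)
    · obtain ⟨a, b, x, z, rfl⟩ := (c.mem_T g).1 hg
      obtain ⟨a, rfl⟩ := hε a
      obtain ⟨b, rfl⟩ := hε b
      obtain ⟨x, rfl⟩ := hε x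
      exact ⟨_, ⟨xx a * yy b * zz x, rfl⟩, by rw [hJ, map_mul, map_mul, hx, hy, hz, h.W, mul_one]⟩
  have ht : J (tt theta) = c.t := (congrArg (· * c.t) (map_one j)).trans (one_mul _)
  refine ⟨J, inj_of_z J fun e => one_ne_zero (c.inj 0 0 1 0 (by
    rw [y0, u0, h.W, ← map_one ε, ← hz, ← hJ, e]; simp)).2.2, ?_, fun a => (hJ _).trans (hx a),
    fun a => (hJ _).trans (hy a), fun a => (hJ _).trans (hz a), ht, eT, ?_, ?_⟩
  · have hT : ∀ u, J (inl theta u) ∈ T := fun u => eT.le (mem_img_of_mem J ⟨u, rfl⟩)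
    refine (le_antisymm ?_ (sup_le (eT.ge.trans (img_le_iff.2 fun x _ => MonoidHom.mem_range.2 ⟨x, rfl⟩))
      (zpowers_le.2 (MonoidHom.mem_range.2 ⟨_, ht⟩)))).trans
      hS.symm
    rintro _ ⟨⟨u, _ | _⟩, rfl⟩
    · exact mem_sup_left (hT u)
    · exact mul_mem (mem_sup_left (hJ u ▸ hT u)) (mem_sup_right (mem_zpowers _))
  · ext g
    rw [img_hom, c.mem_V₁]
    refine ⟨?_, fun ⟨a, x, z, e⟩ => ?_⟩
    · rintro ⟨_, ⟨u, hu, rfl⟩, rfl⟩
      exact ⟨_, _, 0, by rw [hJ, hj, mem_F1.1 hu, map_zero, u0, one_mul, h.W, mul_one]⟩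
    · obtain ⟨a, rfl⟩ := hε a
      obtain ⟨x, rfl⟩ := hε x
      exact ⟨_, ⟨⟨a, 0, x⟩, rfl, rfl⟩, by rw [hJ, hj, e, map_zero, u0, one_mul, h.W, mul_one]⟩
  · ext g
    rw [img_hom, c.mem_V₂]
    refine ⟨?_, fun ⟨a, x, z, e⟩ => ?_⟩
    · rintro ⟨_, ⟨u, hu, rfl⟩, rfl⟩
      exact ⟨_, _, 0, by rw [hJ, hj, mem_F2.1 hu, map_zero, y0, mul_one, h.W, mul_one]⟩
    · obtain ⟨a, rfl⟩ := hε a
      obtain ⟨x, rfl⟩ := hε x
      exact ⟨_, ⟨⟨0, a, x⟩, rfl, rfl⟩, by rw [hJ, hj, e, map_zero, y0, mul_one, h.W, mul_one]⟩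

variable {c : Crd F T V₁ V₂ K} {ε : F4 →+* K} {J : MM →* Ω} {J' : Ω → MM} {F₀ F₀' : FusionSystem (⊤ : Subgroup MM)}

omit [CharP K 2] in
theorem Mod.exc (m : Mod c ε J) {E : Subgroup Ω} (h : Exc F' T (V₁ ⊓ V₂) c.t E) : img J P0 = E := by
  refine img_eq_of (fun x hx => m.range ▸ ((h.2.2.1 x).1 hx).1) fun y => ?_
  rw [h.2.2.1, ← m.t, ← map_commutatorElement, ← m.e1, ← m.e2, img_hom, img_hom, mem_inf, mem_map_iff_mem m.inj,
    mem_map_iff_mem m.inj, mem_W1, mem_W2, and_iff_right (m.range ▸ ⟨y, rfl⟩)]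
  revert y
  decide +kernel

theorem Mod.le [Finite Ω] [UQ.{u}] [ES.{u}] (m : Mod c ε J) (h : c.L3) {E E' : FusionSystem S} {q : ℕ}
    {ℓ : Set (Subgroup (Hol V₁))} {L : Subgroup (Hol V₁)} (d : Dat2 E T V₁ V₂ c.t q ℓ L)
    (d' : Dat2 E' T V₁ V₂ c.t q ℓ L) (t : Transp ⊤ S J J' F₀ E) (t' : Transp ⊤ S J J' F₀' E') (g : Good F₀)
    (g' : Good F₀') : E ≤ E' := by
  refine UQ.le d d' (m.eT ▸ tr_le t t' (le_U1 g g')) ?_ fun P hP => ?_
  · have := tr_le t t' (le_top' g g')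
    rwa [t.img_eq] at this
  · exact (ES.main d (c.fr (Or.inl h)) P hP).imp_right (Or.imp_right (Or.imp_right fun e => by
      obtain rfl := m.exc e
      exact tr_le t t' (le_P0 g.sat g'.sat g'.mo)))

omit [CharP K 2] in
theorem Mod.good [Finite Ω] (m : Mod c ε J) (hε : Function.Surjective ε) (hφ : ∀ a, c.φ (ε a) = ε (a * a))
    (ho : ∀ ψ : K ≃+* K, Odd (orderOf ψ) → ∀ a, ψ a = a) (hF : F.IsSaturated 2) {E : Subgroup Ω}
    (h : Exc F T (V₁ ⊓ V₂) c.t E) (t : Transp ⊤ S J J' F₀ F) (g' : Good F₀') : Good F₀ := by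
  have sat := t.symm.isSaturated hF
  have mo : Mo F₀ := by
    obtain ⟨σ, h1, x, hx, h2⟩ := h.2.2.2
    rw [← m.exc h] at h1 hx
    have h3 : ∀ y ∈ P0, σ (J y) ∈ img J P0 := fun y hy => h1.mem (mem_img_of_mem J hy)
    obtain ⟨y, hy, rfl⟩ := (t.piso.mem_img le_top).1 hx.1
    refine ⟨_, t.isMap_of_map le_top h1.isMap, fun y hy => t.piso.inv_mem le_top (h3 y hy), y, hy,
      mem_U1.1 ((t.piso.apply_mem_img le_top (mem_top _)).1 (m.eT ▸ hx.2)), Bool.of_not_eq_false fun e => h2 ?_⟩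
    rw [← t.piso.right (h1.le_right (h3 y hy)), ← m.eT]
    exact mem_img_of_mem J (mem_U1.2 e)
  have hJ : ∀ {P} {f : MM → MM}, HomOn f P → HomOn (J ∘ f) P := fun hf => hf.comp (homOn_hom J ⊤) fun _ _ => mem_top _
  have hJ' : ∀ {P} {f : Ω → Ω}, HomOn f (img J P) → HomOn (f ∘ J) P := fun hf =>
    (homOn_hom J _).comp hf fun _ => mem_img_of_mem J
  have st : ∀ {E : FusionSystem (⊤ : Subgroup MM)} {σ : Perm MM}, E.IsMap ⊤ σ → σ ∈ E.stab ⊤ := fun h =>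
    (h.iso_self fun _ _ => mem_top _).mem_stab
  have sg : F₀.IsMap ⊤ (lf sig) := by
    obtain ⟨τ, h1, h2⟩ := exists_out sat mo
    obtain ⟨σ, h3, h4⟩ := (t.map h1.isMap).exists_perm
    replace h4 : ∀ x, σ (J x) = J (τ x) := fun x => by
      rw [h4 _ (mem_img_of_mem J (mem_top x)), Function.comp_apply, Function.comp_apply, t.piso.left (mem_top x)]
    rw [t.img_eq] at h3
    obtain ⟨s, hs, l, hl, e1, e2, e3⟩ := c.autS σ (h3.iso_self fun _ => h3.mem)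
    obtain ⟨σ', k1, k2, k3⟩ := c.lamS l hl e1
    obtain ⟨a, ha⟩ := hε l.1
    simp only [ho _ (c.odd l hl), e1, ← ha, hφ, ← m.t] at e2 e3 k2 k3
    have k4 : F.IsMap (img J ⊤) σ' := k1.isMap.mono t.img_eq.le
    have key : ∀ π, lf π ∈ F₀'.stab ⊤ → lf π (tt theta) = tt theta →
        (∀ b, π (xx b) = xx (a * b) ∧ π (yy b) = yy (a * a * b)) → lf π ∈ F₀.stab ⊤ := fun π p1 p2 p3 => by
      refine st ((t.isMap_iff le_top (fun _ _ => mem_top _) fun x _ => ?_).1 k4)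
      refine ext_M (f := σ' ∘ J) (hJ' k4.homOn) (hJ ((mem_stab le_top).1 p1).homOn) (fun b => ?_)
        (k2.trans (congrArg J p2).symm) x
      have := k3 (ε b)
      simp only [← map_mul, ← m.x, ← m.y] at this
      simpa only [Function.comp_apply, lf_inl, p3] using this
    refine ((mem_stab le_top).1 ?_).isMap
    cases a
    · exact absurd ((map_zero ε).symm.trans ha).symm l.1.ne_zero
    · obtain ⟨s, rfl⟩ := m.range.ge hs
      refine absurd (fun x => m.inj (ext_M (hJ h1.homOn) (hJ (homOn_cj s ⊤)) (fun b => ?_) ?_ x)) (h2 s)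
      · have := e3 (ε b)
        simp only [← map_mul, ← m.x, ← m.y, h4, F4.i_eq, one_mul, ← map_inv] at this
        exact this
      · simpa only [h4, ← map_mul, ← map_inv, Function.comp_apply, cj_apply] using e2
    · exact key sig (st g'.sig) (by decide) (by decide)
    · have := key (sig * sig) (mul_mem (st g'.sig) (st g'.sig)) (by decide) (by decide)
      rw [show sig = sig * sig * (sig * sig) from MulEquiv.ext fun u => (congrArg sig (sig3 u)).symm, map_mul]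
      exact mul_mem this this
  refine ⟨sat, ?_, sg, mo⟩
  have h0 : ε .v * ε .w = 1 := by rw [← map_mul, ← map_one ε]; rfl
  obtain ⟨σ, h1, h2⟩ := c.lamT _ (c.tor ⟨ε .w, ε .v, by rw [mul_comm, h0], h0⟩)
  rw [← m.eT] at h1
  have h3 := mul_mem (stab_lf g'.rho) (stab_lf (g'.sig.mono le_top))
  have h4 : F₀.IsMap U1 (lf (Jc.rho * sig)) := (t.isMap_iff le_top (fun _ _ => mem_top _)
    (ext_U (f := σ ∘ J) (hJ' h1.homOn) (hJ ((mem_stab le_top).1 h3).homOn) fun b => by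
      have := h2 (ε b)
      simp only [Units.inv_mk, pow_two, Units.val_mul, RingAut.one_apply, ← map_mul, ← m.x, ← m.y] at this
      simpa only [Function.comp_apply, ← map_mul, lf_inl, (by decide : ∀ b, (Jc.rho * sig) (xx b) = xx (.v * b)),
        (by decide : ∀ b, (Jc.rho * sig) (yy b) = yy (.w * .w * b))] using this)).1 h1.isMap
  exact ((mem_stab le_top).1 ((mul_mem_cancel_right (stab_lf (sg.mono le_top))).1 (stab_lf h4))).isMap

instance instG3 [UQ.{u}] [ES.{u}] : G3.{u} where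
  main := by
    intro Ω _ _ S F T V₁ V₂ ℓ L K _ _ _ c E h4 d h _ hE
    obtain ⟨ω, hω⟩ : ∃ ω, c.φ ω ≠ ω := not_forall.1 fun e => hE.2.1 fun z hz => by
      obtain ⟨x, w, rfl⟩ := c.mem_Z.1 hz
      have := h.tX x
      rw [e] at this
      rw [h.W, mul_one]
      nth_rw 1 [← this]
      rw [mul_assoc, c.tt, mul_one]
    obtain ⟨h2, ε, hε, -, hφ, ho⟩ := exists_eps h4 hω
    obtain ⟨J, m⟩ := exists_mod h d.eS hε hφ
    obtain ⟨J', p⟩ := exists_piso m.inj m.range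
    obtain ⟨I, hI, hS, hr, hs, hw, f, hf, k1, k2⟩ := jd (F := K) (ω := ω) ⟨CharTwo.add_self_eq_zero 1, h2⟩
    obtain ⟨F₀', F', t', r, sat, hm⟩ := exists_model p hI hS
    have g' : Good F₀' := ⟨sat, (hm _ _).2 hr, (hm _ _).2 hs, f, (hm _ _).2 hf, k1, _, (pt_spec 0).1, rfl, k2⟩
    obtain ⟨F₀, t⟩ := p.symm.exists_transp le_rfl F p.symm.img_self
    have g := m.good hε hφ ho d.sat hE t.symm g'
    have hX : ∀ a, c.X a ∈ V₁ ⊓ V₂ := fun a => c.mem_Z.2 ⟨a, 0, by rw [h.W, mul_one]⟩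
    have hY : ∀ a, c.Y a ∈ V₁ := fun a => (c.mem_V₁ _).2 ⟨a, 0, 0, by rw [h.W, mul_one, add_one' c.X_add, mul_one]⟩
    have w1 : F'.IsMap (img J W1) c.w := t'.map_of_rep ((hm _ _).2 hw) (by
      rintro _ ⟨u, hu, rfl⟩
      have e1 : w0 (inl theta u) = inl theta (zz u.a * xx u.c) :=
        (by decide : ∀ u ∈ F1, w0 (inl theta u) = inl theta (zz u.a * xx u.c)) u hu
      have e2 : u = xx u.a * zz u.c := (by decide : ∀ u ∈ F1, u = xx u.a * zz u.c) u hu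
      rw [e1]
      nth_rw 1 [e2]
      simp only [map_mul, m.x, m.z]
      rw [c.wF.homOn.map_mul (hY _) (hX _).1, (c.wY _).1, (c.wY _).2.1])
    have d' := UQ.trans d (t'.isSaturated sat) c.wF ⟨w1.mono m.e1.ge, c.wF.mem_iff⟩ ⟨_, hX 1, fun e => by
      rw [(c.wY 1).2.1, ← map_one ε, ← m.x] at e
      exact absurd (mem_W2.1 ((p.apply_mem_img le_top (mem_top _)).1 (m.e2.ge e))) (by decide)⟩
    obtain rfl : F = F' := ext_isMap fun P f => ⟨le_iff_isMap.1 (m.le h d d' t.symm t' g g') P f,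
      le_iff_isMap.1 (m.le h d' d t' t.symm g' g) P f⟩
    obtain ⟨ι, r1, r2⟩ := realBy_congr r (MulEquiv.ulift.{0, u}).symm
    exact ⟨_, _, inferInstance, ι, r1, r2, .inr (.inr (.inr (.inr (.inl
      ⟨by rw [← m.range, card_range m.inj]; rfl, K, _, _, ω, h4, h2, ⟨MulEquiv.ulift⟩⟩))))⟩

end K

end Cfsg.Agent.Pu
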