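import Cfsg.Agent.Pu.A1

/-! S5175: slice LN. -/

set_option autoImplicit false

universe u

namespace Cfsg.Agent.Pu

open Subgroup Cfsg Cfsg.Agent.H1 Cfsg.Agent.L Cfsg.Agent.FT Cfsg.Agent.Sg Cfsg.Agent.St
  Cfsg.Agent.R1
open scoped Pointwise commutatorElement

variable {G : Type u} [Group G] [Finite G] {V A B D E H K L T : Subgroup G} {q : ℕ}
  {ℓ 𝒟 : Set (Subgroup G)}

theorem exists_odd_mem (h : ¬ IsPGroup 2 K) : ∃ g ∈ K, g ≠ 1 ∧ Odd (orderOf g) := by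
  rw [← piGrp_iff_isPGroup Nat.prime_two] at h
  obtain ⟨p, hp, h1, h2⟩ : ∃ p : ℕ, p.Prime ∧ p ∣ #|K| ∧ p ≠ 2 := by
    by_contra! e
    exact h e
  obtain ⟨g, hg, rfl⟩ := exists_mem_orderOf_eq hp h1
  exact ⟨g, hg, fun e => hp.ne_one (by rw [e, orderOf_one]), hp.odd_of_ne_two h2⟩

theorem ln_key {Ω : Type*} (ω : Subgroup G → Ω) [V.Normal] (hc : V ≤ 𝐂(V))
    (hm : ∀ D ∈ 𝒟, Mem V q D) (h2 : ∀ D ∈ 𝒟, ∀ E ∈ 𝒟, ω D ≠ ω E → V ≤ V ⊓ 𝐂(D) ⊔ V ⊓ 𝐂(E))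
    (h3 : ∀ A ∈ 𝒟, ∀ a ∈ A, a ≠ 1 → ∀ D ∈ 𝒟, a ⋆ D ∈ 𝒟 ∧ (ω (a ⋆ D) = ω D → ω D = ω A))
    (hl : Line V q ℓ L) (sub : ℓ ⊆ 𝒟) (inj : Set.InjOn ω ℓ) (hA : A ∈ 𝒟) :
    ∃ D ∈ ℓ, ω D = ω A ∧ ⁅V, A⁆ ≤ 𝐂(D) := by
  have key : ∀ a ∈ A, ∀ v ∈ V, ⁅v, a⁆ ≠ 1 → ∃ D ∈ ℓ, ω D = ω A ∧ ⁅v, a⁆ ∈ 𝐂(D) := fun a ha v hv h1 => by
    obtain ⟨D, hD, h4⟩ := hl.spread hc (comm_mem_nl hv a)
    refine ⟨D, hD, ?_, h4⟩
    have a1 : a ≠ 1 := fun e => h1 (by simp [e])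
    obtain ⟨h5, h6⟩ := h3 A hA a ha a1 D (sub hD)
    by_contra ne
    have h7 : cmr hc a ⊔ V ⊓ 𝐂(D) = V := le_antisymm (sup_le (cmr_le hc a) inf_le_left)
      ((h2 _ h5 _ (sub hD) (mt h6 ne)).trans (sup_le (fun x hx => by
        rw [← conj_cent, ← conj_eq_of_normal (V := V) a, ← conj_inf] at hx
        obtain ⟨y, hy, rfl⟩ := mem_conj'.1 hx
        rw [show a * y * a⁻¹ = ⁅y, a⁆⁻¹ * y by group]
        exact mul_mem (mem_sup_left (inv_mem (comm_mem_cmr hc hy.1 a))) (mem_sup_right hy))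
        le_sup_right))
    have h8 := card_sup_V hc (cmr_le hc a) (inf_le_left (b := 𝐂(D)))
    rw [h7, (hm A hA).card_cmr hc ha a1, ← (hl.mem D hD).idx] at h8
    exact h1 (mem_bot.1 (card_eq_one.1 (Nat.eq_of_mul_eq_mul_left Nat.card_pos
      (h8.trans (mul_one _).symm)) ▸ ⟨comm_mem_cmr hc hv a, comm_mem_nl hv a, h4⟩))
  obtain ⟨a, ha, a1⟩ := exists_mem_ne_one (hm A hA).ne_bot
  obtain ⟨v, hv, h1⟩ : ∃ v ∈ V, ⁅v, a⁆ ≠ 1 := by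
    by_contra! e
    exact (hm A hA).not_cent ha a1 fun v hv => commutatorElement_eq_one_iff_mul_comm.1 (e v hv)
  obtain ⟨D, hD, e, -⟩ := key a ha v hv h1
  refine ⟨D, hD, e, commutator_le.2 fun w hw b hb => ?_⟩
  by_cases h4 : ⁅w, b⁆ = 1
  · exact h4 ▸ one_mem _
  obtain ⟨D', hD', e', h5⟩ := key b hb w hw h4
  exact inj hD' hD (e'.trans e.symm) ▸ h5

theorem Ser.sci (hT : IsSylowIn 2 T H) (hs : Ser T H) (h0 : A ≠ ⊥) (hA : A ≤ 𝐂(A)) (AT : A ≤ T)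
    (nA : T ≤ 𝐍(A)) (cA : T ⊓ 𝐂(A) ≤ A)
    (cl : ∀ a ∈ A, a ≠ 1 → ∀ b ∈ A, b ≠ 1 → ∃ g ∈ H, g * a * g⁻¹ = b) : SCI H A := by
  obtain ⟨n, C, c0, cn, c1, c2, c3⟩ := hs
  classical
  have ex : ∃ i, C i ⊓ A ≠ ⊥ := ⟨n, by rwa [cn, inf_eq_right.2 AT]⟩
  obtain ⟨a, ha, a1⟩ := exists_mem_ne_one (Nat.find_spec ex)
  have hmin := fun m => Nat.find_min ex (m := m)
  generalize Nat.find ex = i at ha hmin
  rcases i with _ | i
  · exact absurd (mem_bot.1 (c0 ▸ ha.1)) a1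
  have h1 : C i ⊓ A = ⊥ := not_not.1 (hmin i i.lt_succ_self)
  have h2 : C i = ⊥ := h1 ▸ (inf_eq_left.2 ((le_inf (c1 i) (le_cent_of_disjoint
    (le_norm_iff.2 fun x hx y hy => c3 i y hy x (hT.le (AT hx))
      (T.mul_mem (T.mul_mem (AT hx) (c1 i hy)) (T.inv_mem (AT hx)))) ((c1 i).trans nA) h1)).trans
        cA)).symm
  have h3 : A ≤ C (i + 1) := fun b hb => by
    by_cases b1 : b = 1
    · exact b1 ▸ one_mem _
    obtain ⟨g, hg, rfl⟩ := cl a ha.2 a1 b hb b1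
    exact c3 _ a ha.1 g hg (AT hb)
  have h4 : C (i + 1) ≤ A := (le_inf (c1 _) ((comm_eq_bot_iff.1 (eq_bot_iff.2
    ((c2 i).trans h2.le))).trans (cent_anti h3))).trans cA
  have two := IsPGroup.le' hT.isPGroup AT
  refine ⟨AT.trans hT.le, two, hA, fun e he g hg hn => ?_⟩
  have hg' := H.mul_mem (H.mul_mem hg (hT.le (AT he))) (H.inv_mem hg)
  obtain ⟨x, hx, h5⟩ := (hT.of_le (le_inf hT.le nA) inf_le_left).exists_conj_mem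
    (zpowers_two_of_mem (pgroup_conj two g) (conj_mem_conj g he)) (zpowers_le.2 ⟨hg', hn⟩)
  have h6 := h4 (c3 _ e (h3 he) (x * g) (H.mul_mem hx.1 hg) (by
    convert h5 _ (mem_zpowers _) using 1; group))
  rw [← conj_of_mem_norm (inv_mem hx.2), mem_conj]
  convert h6 using 1; group

theorem span_of_sci [QL.{u}] (hV : Md V H) (hT : IsSylowIn 2 T H) (s : SCI H A) (m : Mem V q A)
    (nA : T ≤ 𝐍(A)) (cA : T ⊓ 𝐂(A) ≤ A) {g : G} (hg : g ∈ H) (ne : A ≠ g ⋆ A) :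
    V ≤ V ⊓ 𝐂(A) ⊔ V ⊓ 𝐂(g ⋆ A) := by
  have := hV.nrm
  have hc := hV.sq.cent
  have ti : ∀ x ∈ H, ∀ a ∈ A, a ∈ x ⋆ A → a ≠ 1 → x ∈ 𝐍(A) := fun x hx a h1 h2 a1 => by
    have := s.conj_eq_of_norm hx H.one_mem (by
      simpa using le_norm_of_le_cent (hV.cent_of_mem (m.conj x) m (s.conj hx).le s.le h2 h1 a1))
    exact conj_eq_self_iff.1 (by simpa using this)
  obtain ⟨L, ⟨h1, h2, h3⟩, hmin⟩ := exists_minimal_of_wellFoundedLT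
    (fun K => A ≤ K ∧ K ≤ A ⊔ g ⋆ A ∧ ¬ K ≤ 𝐍(A)) ⟨_, le_sup_left, le_rfl, fun e => ne (by
      simpa using (s.conj_eq_of_norm hg H.one_mem (by simpa using le_sup_right.trans e)).symm)⟩
  have LH : L ≤ H := h2.trans (sup_le s.le (s.conj hg).le)
  obtain ⟨x, hx, h4⟩ := SetLike.not_le_iff_exists.1 h3
  have hO := core_pgroup Nat.prime_two L
  have nO : core {2} L ≤ 𝐍(A) := s.norm_le_of_two hO ((core_le _ _).trans LH)
    (h1.trans (core_normal _ _).norm)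
  have h5 : core {2} L ⊓ A = ⊥ := eq_bot_iff.2 fun a ha => by
    by_contra a1
    exact h4 (ti x (LH hx) _ (s.mem a ha.2 x (LH hx) (nO ((core_normal _ _).conj_mem hx ha.1)))
      (conj_mem_conj x ha.2) (by simpa using a1))
  have h6 : core {2} L = ⊥ := by
    obtain ⟨y, hy, h7⟩ := (hT.of_le (le_inf hT.le nA) inf_le_left).exists_conj_mem hO
      (le_inf ((core_le _ _).trans LH) nO)
    refine h5 ▸ (inf_eq_left.2 fun o ho => ?_).symm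
    rw [← conj_mem_conj_iff (g := y), conj_of_mem_norm hy.2]
    refine cA ⟨h7 o ho, ?_⟩
    rw [← conj_of_mem_norm hy.2, ← conj_cent]
    exact conj_mem_conj y (le_cent_of_disjoint (h1.trans (core_normal _ _).norm) nO h5 ho)
  have Q : QH V L (L ⊓ 𝐍(A)) A :=
    { md := ⟨this, hV.sq, eq_bot_iff.2 ((inf_le_inf_right _ LH).trans hV.faith.le)⟩
      le := le_inf h1 le_normalizer
      lt := lt_of_le_of_ne inf_le_left fun e => h3 (e.ge.trans inf_le_right)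
      sq := m.sq
      quad := m.quad
      best := fun B hB => by
        by_cases e : B = ⊥
        · simp [e, m.idx, m.card]
        obtain ⟨b, hb, b1⟩ := exists_mem_ne_one e
        exact Nat.mul_le_mul (card_le_of_le' hB) (card_le_of_le' ((inf_le_inf_left _
          (cent_le_cent1 hb)).trans (m.cent_eq (hB hb) b1).le))
      uniq := fun K k1 k2 => le_inf k2.le (by
        by_contra e
        exact k2.not_ge (hmin ⟨le_sup_left.trans k1, k2.le.trans h2, e⟩ k2.le))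
      self := fun y hy => ⟨hy.1, conj_eq_self_iff.1 (by
        simpa using s.conj_eq_of_norm (LH hy.1) H.one_mem (by
          simpa using (conj_le_of_mem_norm hy.2 (le_inf h1 le_normalizer)).trans inf_le_right))⟩
      act := by
        obtain ⟨y, hy, y1, h7⟩ := exists_odd_mem fun e => h3 (s.le_norm e h1 LH)
        refine ⟨y, hy, h7, fun e => y1 (mem_bot.1 (hV.faith ▸ ⟨LH hy, ?_⟩))⟩
        simpa [h6] using e }
  obtain ⟨ℓ, hl, -⟩ := QL.two Q m le_rfl (fun e => m.ne_bot (by simpa [h6] using e)) hx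
    fun e => h4 e.2
  refine (eq_of_le_of_card_le (sup_le inf_le_left inf_le_left) ?_).ge
  have e1 := card_sup_V hc (inf_le_left (b := 𝐂(A))) (inf_le_left (b := 𝐂(g ⋆ A)))
  have e2 : #|(V ⊓ 𝐂(A)) ⊓ (V ⊓ 𝐂(g ⋆ A))| ≤ #|V ⊓ 𝐂((A ⊔ x ⋆ A : Subgroup G))| :=
    card_le_of_le' (by
      rw [← inf_inf_distrib_left, ← cent_sup]
      exact inf_le_inf_left _ (cent_anti ((sup_le h1 (conj_le_of_mem hx h1)).trans h2)))
  have e3 := hl.card_V hc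
  have e4 := m.idx
  have e5 := (m.conj g).idx
  have e6 : 0 < #|V| := Nat.card_pos
  refine Nat.le_of_mul_le_mul_right ?_ e6
  calc _ = q * q * (#|V ⊓ 𝐂(A)| * #|V ⊓ 𝐂(g ⋆ A)|) := by
        conv_lhs => rw [e4]; rw [← e4, e5]
        nth_rewrite 1 [← e5]
        rw [e4]; ring
    _ ≤ _ := by rw [← e1, e3]; nlinarith [Nat.mul_le_mul_left (q * q * #|V ⊓ 𝐂(A) ⊔ V ⊓ 𝐂(g ⋆ A)|) e2]

theorem ln_all {Ω : Type*} (ω : Subgroup G → Ω) [V.Normal] (hc : V ≤ 𝐂(V))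
    (hm : ∀ D ∈ 𝒟, Mem V q D) (h2 : ∀ D ∈ 𝒟, ∀ E ∈ 𝒟, ω D ≠ ω E → V ≤ V ⊓ 𝐂(D) ⊔ V ⊓ 𝐂(E))
    (h3 : ∀ A ∈ 𝒟, ∀ a ∈ A, a ≠ 1 → ∀ D ∈ 𝒟, a ⋆ D ∈ 𝒟 ∧ (ω (a ⋆ D) = ω D → ω D = ω A))
    (h4 : ∀ A ∈ 𝒟, ∃ ℓ L, Line V q ℓ L ∧ A ∈ ℓ ∧ ℓ ⊆ 𝒟 ∧ Set.InjOn ω ℓ)
    (h5 : ∀ D ∈ 𝒟, ∀ E ∈ 𝒟, ⁅V, D⁆ ≤ 𝐂(E) → ⁅V, E⁆ ≤ 𝐂(D) → D = E)
    (hl : Line V q ℓ L) (sub : ℓ ⊆ 𝒟) (inj : Set.InjOn ω ℓ) : 𝒟 ⊆ ℓ := fun A hA => by
  obtain ⟨D, hD, e, h6⟩ := ln_key ω hc hm h2 h3 hl sub inj hA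
  obtain ⟨ℓ', L', hl', hA', sub', inj'⟩ := h4 A hA
  obtain ⟨D', hD', e', h7⟩ := ln_key ω hc hm h2 h3 hl' sub' inj' (sub hD)
  rw [inj' hD' hA' (e'.trans e)] at h7
  exact h5 A hA D (sub hD) h6 h7 ▸ hD

instance instLN [QL.{u}] : LN.{u} where
  all ω _ hs hm h2 h3 h4 h5 _ _ := ln_all ω hs.cent hm h2 h3 h4 h5
  rg := @fun G _ _ V H T A L q ℓ hV hT hs hl hA LH AT nA cA => by
    have := hV.nrm
    have m := hl.mem A hA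
    have s : SCI H A := hs.sci hT m.ne_bot m.sq.cent AT nA cA fun a ha a1 b hb b1 =>
      (hl.conj_elt' hA hA ha a1 hb b1).imp fun g h => ⟨LH h.1, h.2⟩
    have sub : ℓ ⊆ {D | ∃ g ∈ H, g ⋆ A = D} := fun D hD =>
      (hl.trans hA hD).imp fun g h => ⟨LH h.1, h.2⟩
    refine ⟨s, fun g hg => ln_all (𝒟 := {D | ∃ g ∈ H, g ⋆ A = D}) id hV.sq.cent ?_ ?_ ?_ ?_ ?_ hl sub
      (Set.injOn_id _) ⟨g, hg, rfl⟩⟩
    · rintro _ ⟨g, -, rfl⟩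
      exact m.conj g
    · rintro _ ⟨g, hg, rfl⟩ _ ⟨g', hg', rfl⟩ ne
      have := conj_mono g (span_of_sci hV hT s m nA cA (H.mul_mem (H.inv_mem hg) hg') fun e =>
        ne (by rw [id, id, e, ← mul_conj, mul_inv_cancel_left, ← e]))
      rwa [conj_sup, conj_inf, conj_inf, conj_cent, conj_cent, conj_eq_of_normal, ← mul_conj,
        mul_inv_cancel_left] at this
    · rintro _ ⟨g, hg, rfl⟩ a ha a1 _ ⟨g', hg', rfl⟩
      refine ⟨⟨_, H.mul_mem ((s.conj hg).le ha) hg', mul_conj _ _ _⟩, fun e => ?_⟩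
      obtain ⟨b, hb, rfl⟩ := mem_conj'.1 ha
      exact s.conj_eq_of_norm hg' hg (le_norm_of_le_cent (hV.cent_of_mem (m.conj g') (m.conj g)
        (s.conj hg').le (s.conj hg).le (s.mem_conj hb hg hg' (conj_eq_self_iff.1 e)) ha a1))
    · rintro _ ⟨g, hg, rfl⟩
      refine ⟨_, _, hl.conj g, ⟨A, hA, rfl⟩, ?_, Set.injOn_id _⟩
      rintro _ ⟨D, hD, rfl⟩
      obtain ⟨x, hx, rfl⟩ := sub hD
      exact ⟨_, H.mul_mem hg hx, mul_conj _ _ _⟩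
    · rintro _ ⟨g, hg, rfl⟩ _ ⟨g', hg', rfl⟩ h1 h2
      exact s.conj_eq_of_norm hg hg' (le_norm_of_le_cent
        (hV.cent_of (s.conj hg).le (s.conj hg').le h1 h2))

end Cfsg.Agent.Pu
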