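import Cfsg.Agent.Pu.K1

/-! Slice `G2`: the model of order `32` and fusion systems over it. -/

set_option autoImplicit false

namespace Cfsg.Agent.Pu.O

open Subgroup Cfsg Cfsg.Fus Cfsg.FusionSystem Cfsg.Agent.L Equiv Equiv.Perm

/-- `x ^ a * y ^ b * c ^ p * d ^ q * t ^ e` -/
@[ext] structure M5 where
  (a b p q e : Bool)
deriving DecidableEq

namespace M5

instance instDecAll {P : M5 → Prop} [DecidablePred P] : Decidable (∀ m, P m) :=
  decidable_of_iff (∀ a b p q e, P ⟨a, b, p, q, e⟩) ⟨fun h _ => h _ _ _ _ _, fun h _ _ _ _ _ => h _⟩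

instance instDecEx {P : M5 → Prop} [DecidablePred P] : Decidable (∃ m, P m) :=
  decidable_of_iff (∃ a b p q e, P ⟨a, b, p, q, e⟩) ⟨fun ⟨_, _, _, _, _, h⟩ => ⟨_, h⟩, fun ⟨_, h⟩ => ⟨_, _, _, _, _, h⟩⟩

instance instMul : Mul M5 := ⟨fun m n => ⟨m.a ^^ cond m.e n.b n.a, m.b ^^ cond m.e n.a n.b,
  m.p ^^ n.p ^^ cond m.e ((n.a && n.b) ^^ n.q ^^ (m.b && n.b)) (m.b && n.a), m.q ^^ n.q, m.e ^^ n.e⟩⟩
instance instOne : One M5 := ⟨⟨false, false, false, false, false⟩⟩
instance instInv : Inv M5 := ⟨fun m => ⟨cond m.e m.b m.a, cond m.e m.a m.b, m.p ^^ cond m.e m.q (m.a && m.b), m.q, m.e⟩⟩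

instance instGroup : Group M5 := Group.ofLeftAxioms (by decide +kernel) (by decide) (by decide)

def eqv : M5 ≃ Bool × Bool × Bool × Bool × Bool :=
  ⟨fun m => (m.a, m.b, m.p, m.q, m.e), fun m => ⟨m.1, m.2.1, m.2.2.1, m.2.2.2.1, m.2.2.2.2⟩, fun _ => rfl, fun _ => rfl⟩

instance instFintype : Fintype M5 := .ofEquiv _ eqv.symm

theorem card : Nat.card M5 = 2 ^ 5 := by rw [Nat.card_congr eqv]; simp

def x : M5 := ⟨true, false, false, false, false⟩
def y : M5 := ⟨false, true, false, false, false⟩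
def c : M5 := ⟨false, false, true, false, false⟩
def d : M5 := ⟨false, false, false, true, false⟩
def t : M5 := ⟨false, false, false, false, true⟩

end M5

open M5

section
variable {G G' : Type*} [Group G] [Group G']

def pw (g : G) (b : Bool) : G := cond b g 1

def ev (X Y C D T : G) (m : M5) : G := pw X m.a * (pw Y m.b * (pw C m.p * (pw D m.q * pw T m.e)))

structure Rel (X Y C D T : G) : Prop where
  xx : X * X = 1
  cc : C * C = 1
  dd : D * D = 1
  tt : T * T = 1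
  yx : Y * X = X * Y * C
  cx : C * X = X * C
  dx : D * X = X * D
  dy : D * Y = Y * D
  dc : D * C = C * D
  tx : T * X = Y * T
  tc : T * C = C * T
  td : T * D = C * D * T

theorem Rel.map {X Y C D T : G} (h : Rel X Y C D T) (f : G →* G') : Rel (f X) (f Y) (f C) (f D) (f T) := by
  obtain ⟨h1, h2, h3, h4, h5, h6, h7, h8, h9, h10, h11, h12⟩ := h
  constructor <;> simp only [← map_mul, *, map_one]

theorem pw_xor {g : G} (h : g * g = 1) (a b : Bool) (k : G) : pw g a * (pw g b * k) = pw g (a ^^ b) * k := by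
  cases a <;> cases b <;> simp [pw, ← mul_assoc, h]

theorem pw_comm {g g' : G} (h : g * g' = g' * g) (a b : Bool) (k : G) :
    pw g a * (pw g' b * k) = pw g' b * (pw g a * k) := by
  cases a <;> cases b <;> simp [pw, ← mul_assoc, h]

def Rel.lift {X Y C D T : G} (h : Rel X Y C D T) : M5 →* G := MonoidHom.mk' (ev X Y C D T) fun m n => by
  have k : ∀ {a b : G}, T * a = b * T → T * b = a * T := fun {a b} e => by
    rw [← mul_one (T * b), ← h.tt, ← mul_assoc, mul_assoc T, ← e, ← mul_assoc, h.tt, one_mul]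
  have ty := k h.tx
  have e : Y = T * X * T := by rw [h.tx, mul_assoc, h.tt, mul_one]
  have yy : Y * Y = 1 := by rw [e, mul_assoc, ← mul_assoc T, ← mul_assoc T, h.tt, one_mul, mul_assoc, ← mul_assoc X,
    h.xx, one_mul, h.tt]
  have cy : C * Y = Y * C := by rw [e, ← mul_assoc, ← mul_assoc, ← h.tc, mul_assoc T, h.cx, mul_assoc _ T, h.tc]; group
  have r1 : ∀ a b k, pw Y b * (pw X a * k) = pw X a * (pw Y b * (pw C (b && a) * k)) := fun a b k => by
    cases a <;> cases b <;> simp [pw, ← mul_assoc, h.yx]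
  have r2 : ∀ {a b : G}, T * a = b * T → ∀ e k, T * (pw a e * k) = pw b e * (T * k) := fun h e k => by
    cases e <;> simp [pw, ← mul_assoc, h]
  have r3 : ∀ e k, T * (pw D e * k) = pw C e * (pw D e * (T * k)) := fun e k => by
    cases e <;> simp [pw, ← mul_assoc, h.td]
  have r4 : ∀ e, T * pw T e = pw T (true ^^ e) := fun e => by cases e <;> simp [pw, h.tt]
  obtain ⟨a, b, p, q, _ | _⟩ := m <;> obtain ⟨a', b', p', q', e'⟩ := n <;> change ev _ _ _ _ _ ⟨_, _, _, _, _⟩ = _ <;>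
    simp only [ev, show pw T true = T from rfl, show pw T false = 1 from rfl, mul_one, mul_assoc, r1, r2 h.tx, r2 ty,
      r2 h.tc, r3, r4, pw_xor h.xx, pw_xor yy, pw_xor h.cc, pw_xor h.dd, pw_comm h.cx, pw_comm cy, pw_comm h.dx,
      pw_comm h.dy, pw_comm h.dc, cond_true, cond_false, Bool.false_xor] <;>
    congr 4 <;> revert a b p a' b' p' q' <;> decide

theorem Rel.lift_spec {X Y C D T : G} (h : Rel X Y C D T) :
    h.lift x = X ∧ h.lift y = Y ∧ h.lift c = C ∧ h.lift d = D ∧ h.lift t = T := by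
  simp [Rel.lift, ev, pw, x, y, c, d, t]

theorem inj_of_c {I : M5 →* G} (h : I c ≠ 1) : Function.Injective I := (injective_iff_map_eq_one I).2 fun m hm => by
  by_contra h1
  obtain e | ⟨g, e⟩ := (by decide +kernel : ∀ m : M5, m ≠ 1 → m = c ∨ ∃ g, c = g * m * g⁻¹ * m⁻¹ ∨
    c = (g * m * g⁻¹ * m⁻¹) ^ 2) m h1
  · exact h (e ▸ hm)
  · rcases e with e | e <;> exact h (by rw [e]; simp [hm])

theorem ev_map {σ : M5 → G} {P : Subgroup M5} (h : HomOn σ P) (hx : x ∈ P) (hy : y ∈ P) (hc : c ∈ P) (hd : d ∈ P)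
    (m : M5) {s : G} (ht : pw t m.e ∈ P ∧ σ (pw t m.e) = pw s m.e) : σ m = ev (σ x) (σ y) (σ c) (σ d) s m := by
  have k : ∀ {g k : M5} {k' : G} (b : Bool), g ∈ P → k ∈ P ∧ σ k = k' →
      pw g b * k ∈ P ∧ σ (pw g b * k) = pw (σ g) b * k' := fun b hg hk => by
    cases b
    · simpa [pw] using hk
    · exact ⟨mul_mem hg hk.1, hk.2 ▸ h.map_mul hg hk.1⟩
  exact (congrArg σ ((by decide : ∀ m, m = ev x y c d t m) m)).trans (k _ hx (k _ hy (k _ hc (k _ hd ht)))).2

end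

def T0 : Subgroup M5 := ⟨⟨⟨{m | m.e = false}, by decide⟩, rfl⟩, by decide⟩
def E0 : Subgroup M5 := ⟨⟨⟨{m | m.a = m.b}, by decide⟩, rfl⟩, by decide⟩
def W1 : Subgroup M5 := ⟨⟨⟨{m | m.e = false ∧ m.b = false}, by decide⟩, ⟨rfl, rfl⟩⟩, by decide⟩
def W2 : Subgroup M5 := ⟨⟨⟨{m | m.e = false ∧ m.a = false}, by decide⟩, ⟨rfl, rfl⟩⟩, by decide⟩

instance instDecT0 : DecidablePred (· ∈ T0) := fun m => inferInstanceAs (Decidable (m.e = false))
instance instDecE0 : DecidablePred (· ∈ E0) := fun m => inferInstanceAs (Decidable (m.a = m.b))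
instance instDecW1 : DecidablePred (· ∈ W1) := fun m => inferInstanceAs (Decidable (m.e = false ∧ m.b = false))
instance instDecW2 : DecidablePred (· ∈ W2) := fun m => inferInstanceAs (Decidable (m.e = false ∧ m.a = false))
instance instNormalT0 : T0.Normal := ⟨by decide +kernel⟩
instance instNormalE0 : E0.Normal := ⟨by decide +kernel⟩

theorem two_M5 : IsPGroup 2 (⊤ : Subgroup M5) := IsPGroup.of_card (n := 5) (by rw [card_top, M5.card])

variable {F F' : FusionSystem (⊤ : Subgroup M5)}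

theorem le_two (hF : F.IsSaturated 2) {P : Subgroup M5} [P.Normal]
    (h : ∀ σ : Perm M5, HomOn σ P → (∀ m ∈ P, σ m ∈ P) → ∃ f : M5 → M5, (∀ m ∈ P, σ m = f m) ∧
      ∀ m ∈ P, f (f (f (f m))) = m) (σ : Perm M5) (hσ : F.Iso P P σ) : F'.IsMap P σ := by
  have : Fact (Nat.Prime 2) := ⟨Nat.prime_two⟩
  refine ((mem_stab le_top).1 (F'.innS_le_stab le_top ((((K.fn_of_normal F P).isFullyAutomized hF two_M5).le_innS
    (F.innS_le_stab le_top) le_rfl fun τ hτ => ⟨2, fun m hm => ?_⟩).le hσ.mem_stab))).isMap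
  have h1 := (mem_stab le_top).1 hτ
  obtain ⟨f, h2, h3⟩ := h τ h1.homOn fun _ => h1.mem
  change τ (τ (τ (τ m))) = m
  rw [h2 _ (h1.mem (h1.mem (h1.mem hm))), h2 _ (h1.mem (h1.mem hm)), h2 _ (h1.mem hm), h2 _ hm, h3 m hm]

theorem le_T0 (hF : F.IsSaturated 2) : ∀ σ : Perm M5, F.Iso T0 T0 σ → F'.IsMap T0 σ := le_two hF fun σ h hm => by
  have k : ∀ {a b}, a ∈ T0 → b ∈ T0 → σ a * σ b = σ (a * b) := fun ha hb => (h.map_mul ha hb).symm
  have hx : x ∈ T0 := rfl
  have hy : y ∈ T0 := rfl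
  have hd : d ∈ T0 := rfl
  have hc : σ x * σ y * (σ x * σ y) = σ c := by rw [k hx hy, k rfl rfl]; rfl
  refine ⟨_, fun m hm => ev_map (s := 1) h hx hy rfl hd m (by rw [show m.e = false from hm]; exact ⟨rfl, h.map_one⟩),
    (by decide +kernel : ∀ a ∈ T0, a * a = 1 → ∀ b ∈ T0, b * b = 1 → ∀ g, a * b * (a * b) = g → g ≠ 1 → ∀ e ∈ T0,
      e * e = 1 → e * a = a * e → e * b = b * e → e ≠ 1 → e ≠ g → ∀ m ∈ T0,
      ev a b g e 1 (ev a b g e 1 (ev a b g e 1 (ev a b g e 1 m))) = m) _ (hm _ hx) ((k hx hx).trans h.map_one)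
    _ (hm _ hy) ((k hy hy).trans h.map_one) _ hc ?_ _ (hm _ hd) ((k hd hd).trans h.map_one)
    ((k hd hx).trans (k hx hd).symm) ((k hd hy).trans (k hy hd).symm) ?_ (σ.injective.ne (by decide))⟩ <;>
    exact h.map_one ▸ σ.injective.ne (by decide)

theorem le_top' (hF : F.IsSaturated 2) : ∀ σ : Perm M5, F.Iso ⊤ ⊤ σ → F'.IsMap ⊤ σ := le_two hF fun σ h _ => by
  have k : ∀ a b, σ a * σ b = σ (a * b) := fun a b => (h.map_mul trivial trivial).symm
  refine ⟨_, fun m _ => ev_map (s := σ t) h trivial trivial trivial trivial m ⟨trivial, by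
      cases m.e
      exacts [h.map_one, rfl]⟩, fun m _ =>
    (by decide +kernel : ∀ a : M5, a * a = 1 → ∀ s, s * s = 1 → ∀ b, s * a * s = b → ∀ g, a * b * (a * b) = g → g ≠ 1 →
      ∀ e, e * e = 1 → e * a = a * e → e * b = b * e → e * s * (e * s) = g → ∀ m,
      ev a b g e s (ev a b g e s (ev a b g e s (ev a b g e s m))) = m) _ ((k x x).trans h.map_one)
    _ ((k t t).trans h.map_one) _ (by rw [k, k]; rfl) _ (by rw [k, k]; rfl) (h.map_one ▸ σ.injective.ne (by decide)) _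
    ((k d d).trans h.map_one) ((k d x).trans (k x d).symm) ((k d y).trans (k y d).symm) (by rw [k, k]; rfl) m⟩

end Cfsg.Agent.Pu.O
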