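import Cfsg.Agent.Pu.O1

/-! Slice `G2`: the exceptional subgroup `C₄ ∘ D₈`. -/

set_option autoImplicit false

namespace Cfsg.Agent.Pu.O

open Subgroup Cfsg Cfsg.Fus Cfsg.FusionSystem Cfsg.Agent.L Equiv Equiv.Perm M5

/-- representatives of five conjugacy classes of `E0` -/
def pt (i : Fin 5) : M5 := ![d, t, x * y * t, x * y * d, x * y * d * c] i

def cls (m : M5) : Fin 5 := cond m.e (cond m.a 2 1) (cond m.a (cond (m.p && m.q) 4 3) 0)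

def Cen (m : M5) : Prop := ∀ z ∈ E0, z * m = m * z

instance instDecCen : DecidablePred Cen := fun m => inferInstanceAs (Decidable (∀ z ∈ E0, z * m = m * z))

theorem pt_spec : ∀ i, pt i ∈ E0 ∧ cls (pt i) = i ∧ (pt i * pt i = 1 ↔ ¬ Cen (pt i)) := by decide +kernel

theorem cen_iff (σ : autStab E0) {m : M5} (hm : m ∈ E0) : Cen (σ.1 m) ↔ Cen m := by
  refine ⟨fun h z hz => σ.1.injective ?_, fun h z hz => ?_⟩
  · rw [σ.2.1.map_mul hz hm, σ.2.1.map_mul hm hz, h _ ((σ.2.2 _).2 hz)]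
  · obtain ⟨z, rfl⟩ := σ.1.surjective z
    rw [← σ.2.1.map_mul ((σ.2.2 _).1 hz) hm, ← σ.2.1.map_mul hm ((σ.2.2 _).1 hz), h _ ((σ.2.2 _).1 hz)]

theorem pt_img (σ : autStab E0) (i : Fin 5) : ∃ g ∈ E0, σ.1 (pt i) = g * pt (cls (σ.1 (pt i))) * g⁻¹ := by
  obtain ⟨h1, -, h2⟩ := pt_spec i
  refine (by decide +kernel : ∀ m ∈ E0, (m * m = 1 ↔ ¬ Cen m) → ∃ g ∈ E0, m = g * pt (cls m) * g⁻¹) _
    ((σ.2.2 _).2 h1) ?_
  rw [cen_iff σ h1, ← h2, ← σ.2.1.map_mul h1 h1, ← σ.1.injective.eq_iff (a := pt i * pt i), σ.2.1.map_one]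

/-- the action on the five classes -/
noncomputable def Pi : autStab E0 →* Perm (Fin 5) := MonoidHom.toHomPerm
  { toFun σ := fun i => cls (σ.1 (pt i))
    map_one' := funext fun i => (pt_spec i).2.1
    map_mul' σ τ := funext fun i => by
      change cls (σ.1 (τ.1 (pt i))) = cls (σ.1 (pt (cls (τ.1 (pt i)))))
      obtain ⟨g, hg, e⟩ := pt_img τ i
      nth_rw 1 [e]
      rw [σ.2.1.map_mul (mul_mem hg (pt_spec _).1) (inv_mem hg), σ.2.1.map_mul hg (pt_spec _).1, σ.2.1.map_inv hg]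
      exact (by decide +kernel : ∀ g ∈ E0, ∀ m ∈ E0, cls (g * m * g⁻¹) = cls m) _ ((σ.2.2 _).2 hg) _
        ((σ.2.2 _).2 (pt_spec _).1) }

theorem Pi_apply (σ : autStab E0) (i : Fin 5) : Pi σ i = cls (σ.1 (pt i)) := rfl

theorem Pi_congr {σ τ : autStab E0} (h : ∀ x ∈ E0, σ.1 x = τ.1 x) : Pi σ = Pi τ :=
  Equiv.ext fun i => by rw [Pi_apply, Pi_apply, h _ (pt_spec i).1]

theorem Pi_three (σ : autStab E0) : 3 ≤ Pi σ 3 ∧ 3 ≤ Pi σ 4 := by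
  have k : ∀ i, Cen (pt i) → 3 ≤ Pi σ i := fun i h => by
    obtain ⟨g, hg, e⟩ := pt_img σ i
    exact (by decide +kernel : ∀ g ∈ E0, ∀ i, Cen (g * pt i * g⁻¹) → 3 ≤ i) g hg _
      (e ▸ (cen_iff σ (pt_spec i).1).2 h)
  exact ⟨k _ (by decide), k _ (by decide)⟩

theorem Pi_ker {σ : autStab E0} (h : Pi σ = 1) : ∃ g ∈ E0, ∀ x ∈ E0, σ.1 x = g * x * g⁻¹ := by
  have h1 := pt_img σ
  simp only [← Pi_apply, h, Perm.one_apply] at h1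
  choose e he h1 using h1
  obtain ⟨g, hg, h2, h3, h4⟩ := (by decide +kernel : ∀ a ∈ E0, ∀ b ∈ E0, ∀ e ∈ E0, ∃ g ∈ E0,
    a * pt 0 * a⁻¹ = g * pt 0 * g⁻¹ ∧ b * pt 1 * b⁻¹ = g * pt 1 * g⁻¹ ∧ e * pt 3 * e⁻¹ = g * pt 3 * g⁻¹)
    _ (he 0) _ (he 1) _ (he 3)
  refine ⟨g, hg, K.eqOn_of_gens σ.2.1 (homOn_cj g E0) [pt 0, pt 1, pt 0, pt 3, pt 3, pt 3] (by decide +kernel) ?_⟩
  simp only [List.mem_cons, List.not_mem_nil, or_false, forall_eq_or_imp, forall_eq]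
  have k0 := And.intro (pt_spec 0).1 ((h1 _).trans h2)
  have k3 := And.intro (pt_spec 3).1 ((h1 _).trans h4)
  exact ⟨k0, ⟨(pt_spec _).1, (h1 _).trans h3⟩, k0, k3, k3, k3⟩

/-- conjugation -/
def cjP (g : M5) : autStab E0 := ⟨cj g, cj_mem_autStab.2 (normalizer_eq_top E0 ▸ mem_top g)⟩

def vv : Perm (Fin 5) := swap 1 2 * swap 3 4

theorem Pi_cj (g : M5) : Pi (cjP g) ∈ [1, vv] := by
  obtain ⟨v, hv, e⟩ := (by decide +kernel : ∀ g : M5, ∃ v ∈ [1, vv], ∀ i, cls (g * pt i * g⁻¹) = v i) g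
  exact (Equiv.ext e : Pi (cjP g) = v) ▸ hv

variable {F F' : FusionSystem (⊤ : Subgroup M5)}

theorem iso_cjP (F : FusionSystem (⊤ : Subgroup M5)) (g : M5) : F.Iso E0 E0 (cjP g) :=
  F.iso_cj le_top (mem_top g) (cj_mem_autStab.1 (cjP g).2)

theorem sign_Pi (hF : F.IsSaturated 2) {σ : autStab E0} (hσ : F.Iso E0 E0 σ) : sign (Pi σ) = 1 := by
  have : Fact (Nat.Prime 2) := ⟨Nat.prime_two⟩
  obtain ⟨k, m, hm, e⟩ := Nat.exists_eq_two_pow_mul_odd (orderOf_pos σ.1).ne'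
  obtain ⟨χ, h1, h2⟩ := ((K.fn_of_normal F E0).isFullyAutomized hF two_M5).exists_conj_elt (hσ.pow m) (k := k)
    (by rw [← pow_mul, mul_comm, ← e, pow_orderOf_eq_one]; exact one_mem _)
  obtain ⟨g, -, -, hg⟩ := mem_innS.1 h2
  have h3 := Pi_congr (σ := ⟨χ, h1.mem_autStab⟩ * σ ^ m * (⟨χ, h1.mem_autStab⟩ : autStab E0)⁻¹) (τ := cjP g) hg
  have h4 := (by decide +kernel : ∀ v ∈ [1, vv], sign v = 1) _ (Pi_cj g)
  rw [← h3, map_mul, map_mul, map_mul, map_mul, map_inv, map_inv, mul_inv_cancel_comm, map_pow, map_pow] at h4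
  rcases Int.units_eq_one_or (sign (Pi σ)) with h | h
  · exact h
  · rw [h, hm.neg_one_pow] at h4
    exact absurd h4 (by decide)

/-- some automorphism of `E0` moves `E0 ⊓ T0` -/
def Mo (F : FusionSystem (⊤ : Subgroup M5)) : Prop :=
  ∃ f, F.IsMap E0 f ∧ (∀ x ∈ E0, f x ∈ E0) ∧ ∃ x ∈ E0, x.e = false ∧ (f x).e = true

theorem exists_Pi (hF : F.IsSaturated 2) (hm : Mo F) {b : Perm (Fin 5)} (hb : sign b = 1) (hb' : 3 ≤ b 3 ∧ 3 ≤ b 4) :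
    ∃ σ : autStab E0, F.Iso E0 E0 σ ∧ Pi σ = b := by
  obtain ⟨f, h1, h2, m, hx, h3, h4⟩ := hm
  obtain ⟨σ, k1, k2⟩ := h1.exists_perm
  have k3 : F.Iso E0 E0 σ := k1.iso_self fun x hx => k2 x hx ▸ h2 x hx
  have h0 : Pi ⟨σ, k3.mem_autStab⟩ 0 ≠ 0 := fun e => by
    obtain ⟨g, hg, h5⟩ := pt_img ⟨σ, k3.mem_autStab⟩ 0
    rw [← Pi_apply, e] at h5
    have h6 : σ m * σ (pt 0) = σ (pt 0) * σ m := by
      rw [← k3.homOn.map_mul hx (pt_spec 0).1, ← k3.homOn.map_mul (pt_spec 0).1 hx,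
        (by decide +kernel : ∀ m : M5, m.e = false → m * pt 0 = pt 0 * m) m h3]
    rw [k2 m hx, show σ (pt 0) = _ from h5] at h6
    exact (by decide +kernel : ∀ m : M5, m.e = true → ∀ g ∈ E0, m * (g * pt 0 * g⁻¹) ≠ g * pt 0 * g⁻¹ * m) _ h4 _ hg h6
  let H := ((F.stab E0).subgroupOf (autStab E0)).map Pi
  have ha : Pi ⟨σ, k3.mem_autStab⟩ ∈ H := ⟨_, k3.mem_stab, rfl⟩
  have hv : vv ∈ H := ⟨cjP x, (iso_cjP F x).mem_stab, Equiv.ext (by decide +kernel : ∀ i, cls (x * pt i * x⁻¹) = vv i)⟩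
  have := (by decide +kernel : ∀ a : Perm (Fin 5), 3 ≤ a 3 ∧ 3 ≤ a 4 → sign a = 1 → a 0 ≠ 0 → ∀ b : Perm (Fin 5),
    3 ≤ b 3 ∧ 3 ≤ b 4 → sign b = 1 → b ∈ [1, vv, a, vv * a, a * vv, vv * a * vv]) _ (Pi_three _) (sign_Pi hF k3) h0
    b hb' hb
  simp only [List.mem_cons, List.not_mem_nil, or_false] at this
  refine (?_ : b ∈ H).imp fun τ h => ⟨(mem_stab le_top).1 h.1, h.2⟩
  rcases this with rfl | rfl | rfl | rfl | rfl | rfl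
  exacts [one_mem _, hv, ha, mul_mem hv ha, mul_mem ha hv, mul_mem (mul_mem hv ha) hv]

theorem le_E0 (hF : F.IsSaturated 2) (hF' : F'.IsSaturated 2) (hm : Mo F') (σ : Perm M5) (hσ : F.Iso E0 E0 σ) :
    F'.IsMap E0 σ := by
  obtain ⟨τ, h1, h2⟩ := exists_Pi hF' hm (sign_Pi hF (σ := ⟨σ, hσ.mem_autStab⟩) hσ) (Pi_three _)
  obtain ⟨g, -, hg⟩ := Pi_ker (σ := τ⁻¹ * ⟨σ, hσ.mem_autStab⟩) (by rw [map_mul, map_inv, h2, inv_mul_cancel])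
  refine ((iso_cjP F' g).trans h1).isMap.congr fun x hx => ?_
  exact ((congrArg τ.1 (hg x hx)).symm.trans (τ.1.apply_symm_apply _)).symm

theorem exists_dt (hF : F.IsSaturated 2) (hm : Mo F) : ∃ f g, F.IsMap E0 f ∧ f d = g * t * g⁻¹ := by
  obtain ⟨σ, h1, h2⟩ := exists_Pi hF hm (b := swap 0 1 * swap 3 4) (by decide) (by decide)
  obtain ⟨g, -, e⟩ := pt_img σ 0
  rw [← Pi_apply, h2] at e
  exact ⟨_, g, h1.isMap, e⟩

/-- what is needed from both groups -/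
structure GD {G : Type*} [Group G] (I : M5 →* G) : Prop where
  ne : I c ≠ 1
  syl : IsSylowIn 2 I.range ⊤
  w : ∃ g, g * I x * g⁻¹ = I c ∧ g * I c * g⁻¹ = I x ∧ g * I d * g⁻¹ = I d

/-- `Aut(A₆)` -/
class GA : Prop where
  main : ∃ I : M5 →* MulAut (alternatingGroup (Fin 6)), GD I ∧ ∀ g, g * I d * g⁻¹ ≠ I t

/-- `Aut(L₃(3))` -/
class GB : Prop where
  main : ∃ I : M5 →* MulAut (Matrix.ProjectiveSpecialLinearGroup (Fin 3) (ZMod 3)), GD I ∧ ∃ g, ∃ a ∈ E0, ∃ b ∈ E0,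
    a.e = true ∧ g * I d * g⁻¹ = I a ∧ g * I t * g⁻¹ = I b ∧ g * I (x * y * d) * g⁻¹ = I (x * y * d)

end Cfsg.Agent.Pu.O
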