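import Cfsg.Agent.Pu.O2
import Cfsg.Agent.Pu.B1

/-! Slice `G2`: identification of `S` with the model, and the assembly. -/

set_option autoImplicit false

universe u

namespace Cfsg.Agent.Pu.O

open Subgroup Cfsg Cfsg.Fus Cfsg.FusionSystem Cfsg.Agent.L Cfsg.Agent.FT Cfsg.Agent.Sg Equiv SemidirectProduct M5
open Cfsg.Agent.H6 (RealBy)
open scoped commutatorElement Pointwise

variable {Ω : Type u} [Group Ω] [Finite Ω] {S : Subgroup Ω} {F : FusionSystem S} {T V₁ V₂ : Subgroup Ω} {s : Ω}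
  {ℓ : Set (Subgroup (Hol V₁))} {L : Subgroup (Hol V₁)}

omit [Finite Ω] in
theorem card_fix (h : Dat2 F T V₁ V₂ s 2 ℓ L) : #|fixV V₁ L| = 2 := h.dq.resolve_left fun e => absurd e.2 (by decide)

theorem setup (h : Dat2 F T V₁ V₂ s 2 ℓ L) : ∃ D D', D ∈ fixV V₁ L ∧ D ≠ 1 ∧ D' ∉ fixV V₁ L ∧ D' ∈ V₁ ⊓ V₂ ∧
    s * D * s⁻¹ = D' ∧ (∀ z ∈ V₁ ⊓ V₂, z = 1 ∨ z = D ∨ z = D' ∨ z = D * D') ∧
    ∀ z ∈ V₁ ⊓ V₂, s * z * s⁻¹ = z ↔ z = 1 ∨ z = D * D' := by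
  obtain ⟨⟨D, hD⟩, h1, h2⟩ := (Nat.card_eq_two_iff' (1 : fixV V₁ L)).1 (card_fix h)
  have h3 : ∀ g ∈ fixV V₁ L, g = 1 ∨ g = D := fun g hg => or_iff_not_imp_left.2 fun e =>
    congrArg Subtype.val (h2 ⟨g, hg⟩ fun e' => e (congrArg Subtype.val e'))
  replace h1 : D ≠ 1 := fun e => h1 (Subtype.ext e)
  have h4 : s ⋆ fixV V₁ L ≤ V₁ ⊓ V₂ := (fixV_map h.sw L).ge.trans (h.swap.toDat.fix_le.trans (inf_comm _ _).le)
  have h5 : s * D * s⁻¹ ∉ fixV V₁ L := fun e => h1 (by simpa using h.dd.le ⟨e, conj_mem_conj s hD⟩)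
  have hc := h.toDat.sq₁.cent
  have h6 := h.toDat.fix_le
  have h7 := card_sup_V hc (h6.trans inf_le_left) (h4.trans inf_le_left)
  rw [h.dd, card_bot, card_conj, mul_one] at h7
  have h8 := eq_of_le_of_card_le (sup_le h6 h4) (by rw [h7, h.toDat.card_fix, card_fix h])
  have h9 : s * (s * D * s⁻¹) * s⁻¹ = D := by
    rw [show s * (s * D * s⁻¹) * s⁻¹ = s * s * D * (s * s)⁻¹ by group, ← hc h.tt.1 _ (h6 hD).1, mul_inv_cancel_right]
  have hZ : ∀ z ∈ V₁ ⊓ V₂, z = 1 ∨ z = D ∨ z = s * D * s⁻¹ ∨ z = D * (s * D * s⁻¹) := fun z hz => by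
    obtain ⟨a, ha, b, hb, rfl⟩ := (mem_sup_V hc (h6.trans inf_le_left) (h4.trans inf_le_left)).1 (h8.ge hz)
    obtain ⟨b', hb', rfl⟩ := mem_conj'.1 hb
    rcases h3 a ha with rfl | rfl <;> rcases h3 b' hb' with rfl | rfl <;> simp
  refine ⟨D, _, hD, h1, h5, h4 (conj_mem_conj s hD), rfl, hZ, fun z hz => ⟨fun e => ?_, ?_⟩⟩
  · rcases hZ z hz with rfl | rfl | rfl | rfl
    exacts [.inl rfl, absurd (e.symm ▸ hD) h5, absurd (h9.symm.trans e ▸ hD) h5, .inr rfl]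
  · rintro (rfl | rfl)
    · simp
    · rw [← conj_mul, h9, hc (h6 hD).1 _ (h4 (conj_mem_conj s hD)).1]

theorem exists_inv (h : Dat2 F T V₁ V₂ s 2 ℓ L) : ∃ s', Dat2 F T V₁ V₂ s' 2 ℓ L ∧ s' * s' = 1 := by
  obtain ⟨D, D', h1, -, -, h2, rfl, -, h3⟩ := setup h
  obtain e | e := (h3 _ h.tt).1 (by group)
  · exact ⟨s, h, e⟩
  have h4 := (h.toDat.fix_le h1).1
  have h5 : s * D * (s * D) = 1 := by
    rw [show s * D * (s * D) = s * D * s⁻¹ * (s * s) * D by group, e, ← mul_assoc, ← h.toDat.sq₁.cent h2.1 _ h4,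
      mul_assoc D, h.toDat.sq₁ _ h2.1, mul_one, h.toDat.sq₁ _ h4]
  exact ⟨_, h.chg (mul_mem h.tS (h.toDat.TS (h.toDat.le₁ h4)))
    (fun e => h.toDat.t_not ((mul_mem_cancel_right (h.toDat.le₁ h4)).1 e)) (h5 ▸ one_mem _), h5⟩

theorem le_of_gens {P K : Subgroup M5} (l : List M5) (hl : ∀ m ∈ P, ∃ s ∈ l.sublists, s.prod = m)
    (h : ∀ g ∈ l, g ∈ K) : P ≤ K := fun m hm => by
  obtain ⟨s, hs, rfl⟩ := hl m hm
  exact K.list_prod_mem fun g hg => h g ((List.mem_sublists.1 hs).subset hg)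

/-- the model of `S` -/
structure Mod (S T V₁ V₂ : Subgroup Ω) (s : Ω) (J : M5 →* Ω) : Prop where
  inj : Function.Injective J
  range : J.range = S
  t : J t = s
  eT : img J T0 = T
  e1 : img J W1 = V₁
  e2 : img J W2 = V₂

theorem exists_mod (h : Dat2 F T V₁ V₂ s 2 ℓ L) (ss : s * s = 1) : ∃ J w, Mod S T V₁ V₂ s J ∧ F.Iso V₁ V₁ w ∧
    w (J x) = J c ∧ w (J c) = J x ∧ w (J d) = J d := by
  obtain ⟨D, D', h1, h2, h3, h4, h5, hZ, hF⟩ := setup h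
  have g := h.toDat
  have h6 := g.fix_le h1
  have hC := mul_mem h6 h4
  have hC' : D * D' ∉ fixV V₁ L := fun e => h3 ((mul_mem_cancel_left h1).1 e)
  obtain ⟨B, hB, ne⟩ := h.line.exists_ne (act V₁ V₂)
  obtain ⟨⟨b, hb⟩, hb1⟩ := ne_bot_iff_exists_ne_one.1 (h.line.mem B hB).ne_bot
  replace hb1 : b ≠ 1 := fun e => hb1 (Subtype.ext e)
  have hbL := h.line.le hB hb
  obtain ⟨w, w1, w2⟩ := exists_iso_of_mem (g.le₁.trans g.TS) (h.LF hbL)
  have w3 : w D = D := by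
    obtain ⟨a, e⟩ := mem_fixV.1 h1
    obtain ⟨_, e'⟩ := w2 D a
    rw [e b hbL, mul_inv_cancel_right] at e'
    exact (congrArg Subtype.val (inl_injective e')).symm
  obtain ⟨hX, w4⟩ := w2 _ hC.1
  have w5 : w (w (D * D')) = D * D' := by
    obtain ⟨_, e⟩ := w2 _ hX
    rw [← w4, ← mul_assoc, ← mul_assoc, (h.line.mem B hB).sq b hb, mul_assoc, ← mul_inv_rev,
      (h.line.mem B hB).sq b hb, inv_one, mul_one, one_mul] at e
    exact (congrArg Subtype.val (inl_injective e)).symm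
  have k : D * D' * (w (D * D'))⁻¹ ∉ fixV V₁ L := fun e => hC' (mem_fixV.2 ⟨hC.1, by
    obtain ⟨_, e⟩ := mem_fixV.1 e
    rw [h.line.cent_eq h.mem hB ne.symm]
    refine ⟨g.inl_cent.2 hC.2, h.line.pure B hB b hb hb1 _ (inl_mem_inV _) ?_⟩
    rwa [show ∀ v : Hol V₁, ⁅v, b⁆ = v * (b * v * b⁻¹)⁻¹ from fun v => by rw [commutatorElement_def]; group, w4,
      ← map_inv, ← map_mul]⟩)
  have hX2 : w (D * D') ∉ V₂ := fun e => by
    rcases hZ _ ⟨hX, e⟩ with e | e | e | e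
    · exact hC' (w.injective (e.trans w1.homOn.map_one.symm) ▸ one_mem _)
    · exact hC' ((w.injective (e.trans w3.symm)).symm ▸ h1 :)
    · exact k (by rwa [e, mul_inv_cancel_right])
    · exact k (by rw [e, mul_inv_cancel]; exact one_mem _)
  generalize hw : w (D * D') = X at *
  have si : s⁻¹ = s := inv_eq_of_mul_eq_one_right ss
  have hY : s * X * s⁻¹ ∈ V₂ := h.sw.le (conj_mem_conj s hX)
  have hs : s * (s * X * s⁻¹) * s⁻¹ = X := by rw [← mul_assoc, ← mul_assoc, ss, si, mul_assoc, ss, one_mul, mul_one]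
  have hY1 : s * X * s⁻¹ ∉ V₁ := fun e => hX2 (hs ▸ h.sw.le (conj_mem_conj s e))
  have hk := g.comm_mem hX hY
  have hc : ⁅X, s * X * s⁻¹⁆ = D * D' := ((hF _ hk).1 (by
    rw [conjugate_commutatorElement, hs, ← commutatorElement_inv, g.sq₁.inv hk.1])).resolve_left fun e =>
      (g.m1 hX hY (commutatorElement_eq_one_iff_mul_comm.1 e)).elim hX2 hY1
  have R : Rel X (s * X * s⁻¹) (D * D') D s :=
    ⟨g.sq₁ _ hX, g.sq₁ _ hC.1, g.sq₁ _ h6.1, ss, by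
      rw [h.Z_cent hC _ (mul_mem (g.le₁ hX) (g.le₂ hY)), ← g.sq₁.inv hC.1, ← hc, commutatorElement_def]; group,
      g.sq₁.cent hX _ hC.1, g.sq₁.cent hX _ h6.1, g.sq₂.cent hY _ h6.2, g.sq₁.cent hC.1 _ h6.1, by group,
      eq_mul_of_mul_inv_eq ((hF _ hC).2 (.inr rfl)), by
      rw [g.sq₁.cent h4.1 _ h6.1, mul_assoc D', g.sq₁ _ h6.1, mul_one, ← h5, inv_mul_cancel_right]⟩
  obtain ⟨j1, j2, j3, j4, j5⟩ := R.lift_spec
  generalize R.lift = J at j1 j2 j3 j4 j5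
  have hJ := inj_of_c (I := J) fun e => hC' (j3.symm.trans e ▸ one_mem _)
  have c1 : #|V₁| = 8 := by rw [g.card_Z, g.card_fix, card_fix h]
  have key : ∀ {W : Subgroup M5} {V : Subgroup Ω}, W ≤ V.comap J → #|V| = 8 → #|W| = 8 → img J W = V :=
    fun a b e => by
      rw [img_hom]
      exact eq_of_le_of_card_le (map_le_iff_le_comap.2 a) (by rw [card_map_of_injective hJ, b, e])
  have e1 := key (V := V₁) (le_of_gens (P := W1) [x, c, d] (by decide) (by simpa [j1, j3, j4] using ⟨hX, hC.1, h6.1⟩)) c1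
    (Nat.card_eq_fintype_card.trans (by decide +kernel))
  have e2 := key (V := V₂) (le_of_gens (P := W2) [y, c, d] (by decide) (by simpa [j2, j3, j4] using ⟨hY, hC.2, h6.2⟩))
    (g.card_eq.trans c1)
    (Nat.card_eq_fintype_card.trans (by decide +kernel))
  have hT : ∀ m ∈ [x, y, c, d], m ∈ T.comap J := by
    simpa [j1, j2, j3, j4] using ⟨g.le₁ hX, g.le₂ hY, g.le₁ hC.1, g.le₁ h6.1⟩
  have eT : img J T0 = T := le_antisymm (img_le_iff.2 (le_of_gens _ (by decide) hT))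
    (h.eT.le.trans (sup_le (e1.ge.trans (img_mono _ fun _ a => a.1)) (e2.ge.trans (img_mono _ fun _ a => a.1))))
  refine ⟨J, w, ⟨hJ, le_antisymm ?_ (h.eS.le.trans (sup_le (eT.ge.trans (img_le_iff.2 fun m _ => ⟨m, rfl⟩))
    (zpowers_le.2 ⟨t, j5⟩))), j5, eT, e1, e2⟩, w1, by rw [j1, j3, w5], by rw [j1, j3, hw], by rw [j4, w3]⟩
  rintro _ ⟨m, rfl⟩
  exact le_of_gens (P := ⊤) (K := S.comap J) ([x, y, c, d] ++ [t]) (fun m _ => by clear * - m; revert m; decide) (List.forall_mem_append.2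
    ⟨fun m a => g.TS (hT m a), List.forall_mem_singleton.2 (j5.symm ▸ h.tS :)⟩) (mem_top m)

variable {J : M5 →* Ω} {J' : Ω → M5} {F₀ F₀' : FusionSystem (⊤ : Subgroup M5)}

omit [Finite Ω] in
theorem Mod.mem_Z (m : Mod S T V₁ V₂ s J) {g : M5} : J g ∈ V₁ ⊓ V₂ ↔ g ∈ W1 ∧ g ∈ W2 := by
  rw [← m.e1, ← m.e2, img_hom, img_hom, mem_inf, mem_map_iff_mem m.inj, mem_map_iff_mem m.inj]

theorem Mod.le [UQ.{u}] [ES.{u}] (m : Mod S T V₁ V₂ s J) {E E' : FusionSystem S} (d : Dat2 E T V₁ V₂ s 2 ℓ L)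
    (d' : Dat2 E' T V₁ V₂ s 2 ℓ L) (p : Transp ⊤ S J J' F₀ E) (p' : Transp ⊤ S J J' F₀' E') (h : Mo F₀ → Mo F₀') :
    E ≤ E' := by
  have sat := p.symm.isSaturated d.sat
  refine UQ.le d d' (m.eT ▸ tr_le p p' (le_T0 sat)) ?_ fun P hP => ?_
  · have := tr_le p p' (le_top' sat)
    rwa [p.img_eq] at this
  refine (ES.main d (.inr fun z hz e => ?_) P hP).imp_right (Or.imp_right (Or.imp_right fun e => ?_))
  · obtain ⟨z, rfl⟩ := m.range.ge (d.toDat.TS (d.toDat.le₁ hz.1))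
    rw [← m.t, ← map_mul, ← map_mul, m.inj.eq_iff] at e
    obtain ⟨g, a, b⟩ := (by decide : ∀ z, z ∈ W1 ∧ z ∈ W2 → M5.t * z = z * M5.t →
      ∃ g, (g ∈ W1 ∧ g ∈ W2) ∧ z = g * M5.t * g⁻¹ * M5.t⁻¹) z (m.mem_Z.1 hz) e
    exact ⟨J g, m.mem_Z.2 a, by rw [← m.t, ← map_commutatorElement, b, commutatorElement_def]⟩
  obtain rfl : img J E0 = P := img_eq_of (fun x hx => m.range ▸ ((e.2.2.1 x).1 hx).1) fun g => by
    rw [e.2.2.1, ← m.t, ← map_commutatorElement, m.mem_Z, and_iff_right (m.range ▸ ⟨g, rfl⟩), commutatorElement_def]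
    revert g
    decide
  refine tr_le p p' (le_E0 sat (p'.symm.isSaturated d'.sat) (h ?_))
  obtain ⟨σ, h1, g, hg, h2⟩ := e.2.2.2
  have h3 : ∀ y ∈ E0, σ (J y) ∈ img J E0 := fun y hy => h1.mem (mem_img_of_mem J hy)
  obtain ⟨g, hy, rfl⟩ := (p.piso.mem_img le_top).1 hg.1
  refine ⟨_, p.isMap_of_map le_top h1.isMap, fun y hy => p.piso.inv_mem le_top (h3 y hy), g, hy,
    (p.piso.apply_mem_img (P := T0) le_top (mem_top _)).1 (m.eT ▸ hg.2), Bool.of_not_eq_false fun e => h2 ?_⟩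
  rw [← p.piso.right (h1.le_right (h3 g hy)), ← m.eT]
  exact mem_img_of_mem J (P := T0) e

theorem ext_W1 {H : Type*} [Group H] (j : M5 →* H) {a : M5 → H} (ha : HomOn a W1) (e1 : a x = j c) (e2 : a c = j x)
    (e3 : a d = j d) : ∀ m ∈ W1, a m = j ⟨m.p, false, m.a, m.q, false⟩ :=
  K.eqOn_of_gens ha (HomOn.comp (fun a ha b hb => by revert a b; decide) (homOn_hom j ⊤) fun _ _ => mem_top _)
    [x, c, d] (by decide) (by simpa using ⟨⟨by decide, e1⟩, ⟨by decide, e2⟩, by decide, e3⟩)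

theorem realBy_of [UQ.{u}] [ES.{u}] (h : Dat2 F T V₁ V₂ s 2 ℓ L) (m : Mod S T V₁ V₂ s J) {w : Perm Ω}
    (w1 : F.Iso V₁ V₁ w) (w2 : w (J x) = J c ∧ w (J c) = J x ∧ w (J d) = J d) (p : Transp ⊤ S J J' F₀ F)
    {G : Type} [Group G] [Finite G] {I : M5 →* G} (g : GD I) (hm : ∀ F₁ : FusionSystem (⊤ : Subgroup M5),
      F₁.IsSaturated 2 → (∀ P f, F₁.IsMap P f ↔ ∃ g : G, ∀ x ∈ P, g * I x * g⁻¹ = I (f x)) → (Mo F₀ ↔ Mo F₁)) :
    RealBy F G := by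
  obtain ⟨F₁, F', p', r, sat, h1⟩ := exists_model p.piso (inj_of_c g.ne) g.syl
  obtain ⟨k, k1, k2, k3⟩ := g.w
  have h3 : F'.IsMap (img J W1) w := p'.map_of_rep ((h1 _ _).2 ⟨k, ext_W1 I (((homOn_hom I W1).comp (homOn_cj k ⊤)
    fun _ _ => mem_top _)) k1 k2 k3⟩) (ext_W1 J ((homOn_hom J W1).comp w1.homOn fun _ a => m.e1.le (mem_img_of_mem J a))
      w2.1 w2.2.1 w2.2.2)
  have h' := UQ.trans h (p'.isSaturated sat) w1 ⟨h3.mono m.e1.ge, w1.mem_iff⟩ ⟨J c, m.mem_Z.2 (by decide), fun e =>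
    absurd ((p.piso.apply_mem_img le_top (mem_top _)).1 (m.e2.ge (w2.2.1 ▸ e))) (by decide)⟩
  obtain rfl : F = F' := ext_isMap fun P f => ⟨le_iff_isMap.1 (m.le h h' p p' (hm _ sat h1).1) P f,
    le_iff_isMap.1 (m.le h' h p' p (hm _ sat h1).2) P f⟩
  exact r

instance instG2' [UQ.{u}] [ES.{u}] [GA] [GB] : G2.{u} where
  main := by
    intro Ω _ _ S F T V₁ V₂ s ℓ L h
    obtain ⟨s, h, ss⟩ := exists_inv h
    obtain ⟨J, w, m, w1, w2⟩ := exists_mod h ss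
    obtain ⟨J', p⟩ := exists_piso m.inj m.range
    obtain ⟨F₀, p⟩ := p.symm.exists_transp le_rfl F p.symm.img_self
    have hS : Nat.card S = 32 := by rw [← m.range, ← Nat.card_congr (MonoidHom.ofInjective m.inj).toEquiv, M5.card]; rfl
    by_cases mo : Mo F₀
    · obtain ⟨I, g, k, a, ha, b, hb, e, k1, k2, k3⟩ := GB.main
      obtain ⟨ι, r1, r2⟩ := realBy_congr (realBy_of h m w1 w2 p.symm g fun F₁ _ h1 => iff_of_true mo (by
        have : E0 ≤ ((E0.map I).comap (MulAut.conj k).toMonoidHom).comap I :=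
          le_of_gens [d, t, d, x * y * d, x * y * d, x * y * d] (by decide) (by
            simp only [List.mem_cons, List.not_mem_nil, or_false, forall_eq_or_imp, forall_eq, and_self]
            exact ⟨⟨a, ha, k1.symm⟩, ⟨b, hb, k2.symm⟩, ⟨a, ha, k1.symm⟩, _, rfl, k3.symm⟩)
        choose! f f1 f2 using this
        exact ⟨f, (h1 _ _).2 ⟨k, fun _ hx => (f2 hx).symm⟩, fun _ hx => f1 hx, d, rfl, rfl,
          inj_of_c g.ne ((f2 (x := d) rfl).trans k1) ▸ e⟩)) (MulEquiv.ulift.{0, u}).symm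
      exact ⟨_, _, inferInstance, ι, r1, r2, .inr (.inr (.inr (.inl ⟨hS, .inr ⟨MulEquiv.ulift⟩⟩)))⟩
    · obtain ⟨I, g, k⟩ := GA.main
      obtain ⟨ι, r1, r2⟩ := realBy_congr (realBy_of h m w1 w2 p.symm g fun F₁ sat h1 => iff_of_false mo fun e => by
        obtain ⟨f, a, f1, f2⟩ := exists_dt sat e
        obtain ⟨b, hb⟩ := (h1 _ _).1 f1
        refine k ((I a)⁻¹ * b) ?_
        rw [mul_inv_rev, mul_assoc, mul_assoc, ← mul_assoc b, ← mul_assoc (b * _), hb d rfl, f2, map_mul, map_mul,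
          map_inv]
        group) (MulEquiv.ulift.{0, u}).symm
      exact ⟨_, _, inferInstance, ι, r1, r2, .inr (.inr (.inr (.inl ⟨hS, .inl ⟨MulEquiv.ulift⟩⟩)))⟩

end Cfsg.Agent.Pu.O
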