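import Cfsg.Agent.Pu.O2
import Cfsg.Agent.H5.Flag

/-! Slice `G2`: the model inside `Aut(A₆)`. -/

set_option autoImplicit false

namespace Cfsg.Agent.Pu.O

open Subgroup Cfsg Equiv Equiv.Perm M5

abbrev S6 := Perm (Fin 6)
abbrev A6 := alternatingGroup (Fin 6)

/-- the six one-factorisations of `K₆` -/
def tb : Fin 6 → ℕ := ![
  0x4e69ff5023556cb624485ea5e993198a0904af503945232939611fa18e266125bbadaaf320ef5b0e16888dc7731110cda33f09627b66aec78e1ebe9494d1969cd522a1595736,
  0x4e69ff501a0f32a99b5dfae31b09f65fa2b84c316b43a1ee30abddd57447a507ac9cf79350b5fe9a5bcf1ada7a9d9ddf81ed5d08ea3579f77d71c48c02627e0c7ad8835bfe36,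
  0x4e69fedbacba7fab77028f5ffb41ff4e7e50afd07b3861fce68e54e1c633d69747b604b0fef16e70ca0b3275c876311f5667433f0477bf91be8354810086596a8170d6ea9736,
  0x4e69fedba7d753fe6c9bc4fd44f9d974aef0166a99d9ff0a861f586537d55bb46ad18b72aa4be95dec8200fabfd9957b77d7d5d97404fbd0ac41faba7686654034c3d7aa5e36,
  0x4e6a00101bde15c30ecb252a2316cd68f1b4a3cbd8d5c7320768e704e85e18863931b3f777cb851e93ac2d227769294187b96ac5bff96f76d459c00d85ca1cae21221d636836,
  0x4e6a00102041199b46d69dba4e959230e1595e0c4aaf71233e4ae09bd25cd1f56e650ba7b62b227e15c223464de9abbb49fb19d4d25ddba90713858ea43fe804893a51308836]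

/-- the partner of `c` in the factor of the `i`-th factorisation containing `{a, b}` -/
def ff (i a b c : Fin 6) : Fin 6 := Fin.ofNat 6 (tb i / 6 ^ (36 * a.1 + 6 * b.1 + c.1))

def cl (u v : Fin 6) : Fin 6 :=
  if v = 3 then (if u = 4 then 0 else 1) else if v = 5 then (if u = 4 then 2 else 4) else if u = 5 then 3 else 5

def ps (g : S6) (i : Fin 6) : Fin 6 := cl (g (ff i (g⁻¹ 0) (g⁻¹ 1) (g⁻¹ 2))) (g (ff i (g⁻¹ 0) (g⁻¹ 2) (g⁻¹ 1)))

def Eqv (g : S6) (i j : Fin 6) : Prop := ∀ a b c, ff j (g a) (g b) (g c) = g (ff i a b c)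

theorem Eqv.eq {g : S6} {i j : Fin 6} (h : Eqv g i j) : ps g i = j := by
  rw [ps, ← h, ← h]
  simp only [Perm.coe_inv, apply_symm_apply]
  exact (by decide +kernel : ∀ j, cl (ff j 0 1 2) (ff j 0 2 1) = j) j

theorem Eqv.mul {g h : S6} {i j k : Fin 6} (a : Eqv g j k) (b : Eqv h i j) : Eqv (g * h) i k :=
  fun _ _ _ => (a _ _ _).trans (congrArg g (b _ _ _))

theorem eqv (g : S6) (i : Fin 6) : Eqv g i (ps g i) := by
  suffices h : ∃ j, Eqv g i j from h.elim fun j h => h.eq ▸ h
  induction g using swap_induction_on with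
  | one => exact ⟨i, fun _ _ _ => rfl⟩
  | swap_mul f u v _ ih => exact ih.elim fun j h => ⟨_, Eqv.mul ((by decide +kernel : ∀ u v j a b c,
      ff (ps (swap u v) j) (swap u v a) (swap u v b) (swap u v c) = swap u v (ff j a b c)) u v j) h⟩

def psi : S6 →* S6 := MonoidHom.toHomPerm
  { toFun := ps
    map_one' := funext fun _ => Eqv.eq fun _ _ _ => rfl
    map_mul' g h := funext fun i => ((eqv g _).mul (eqv h i)).eq }

theorem psi_psi : psi.comp psi = MonoidHom.id S6 := MonoidHom.ext fun g => by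
  induction g using swap_induction_on with
  | one => exact map_one _
  | swap_mul f u v _ ih =>
    rw [map_mul, ih]
    exact congrArg (· * f) ((by decide +kernel : ∀ u v, psi (psi (swap u v)) = swap u v) u v)

/-- an outer involution -/
def tau : MulAut S6 := psi.toMulEquiv psi psi_psi psi_psi

def pc : S6 := swap 0 1 * swap 2 3
def pb : S6 := swap 0 4 * swap 0 2 * swap 0 1 * swap 3 5

theorem rel6 : Rel (MulAut.conj (swap 0 2 * swap 1 3)) (MulAut.conj (swap 2 3 * swap 4 5)) (MulAut.conj pc)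
    (MulAut.conj (swap 4 5)) tau := by
  have k : ∀ g h, psi g = h → tau * MulAut.conj g = MulAut.conj h * tau := fun g h e => MulEquiv.ext fun a => by
    simp [← e, show ∀ a, tau a = psi a from fun _ => rfl]
  refine ⟨?_, ?_, ?_, MulEquiv.ext fun g => DFunLike.congr_fun psi_psi g, ?_, ?_, ?_, ?_, ?_, k _ _ (by decide +kernel),
    k _ _ (by decide +kernel), by rw [← map_mul]; exact k _ _ (by decide +kernel)⟩ <;>
    simp only [← map_mul] <;> first
      | exact congrArg _ (by decide)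
      | exact (congrArg _ (by decide)).trans (map_one _)

def wd : ℕ → ℕ → S6
  | 0, _ => 1
  | k + 1, n => if n ≤ 1 then 1 else (if n % 2 = 0 then pc else pb) * wd k (n / 2)

theorem gen6 {K : Subgroup A6} {a b : A6} (ea : a.1 = pc) (eb : b.1 = pb) (ha : a ∈ K) (hb : b ∈ K) : K = ⊤ := by
  have h : ∀ k n, wd k n ∈ K.map A6.subtype := fun k => by
    induction k with
    | zero => exact fun _ => one_mem _
    | succ k ih =>
      intro n
      rw [wd]
      split_ifs
      exacts [one_mem _, mul_mem ⟨a, ha, ea⟩ (ih _), mul_mem ⟨b, hb, eb⟩ (ih _)]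
  rw [eq_top_iff, ← alternatingGroup.closure_isThreeCycles_eq_top, closure_le]
  intro g hg
  obtain ⟨n, -, e⟩ := (by decide +kernel : ∀ g : S6, g.support.card = 3 → ∃ n ∈ [699, 727, 749, 861, 875, 949, 2746,
    2774, 2797, 2922, 3546, 5867, 7085, 10987, 11181, 14170, 22362, 23255, 23981, 27485],
      g = wd 15 n ∨ g = (wd 15 n)⁻¹) g (IsThreeCycle.card_support hg)
  exact (mem_map_iff_mem A6.subtype_injective).1 (e.elim (fun e => e ▸ h _ _) fun e => e ▸ inv_mem (h _ _) :
    g.1 ∈ K.map A6.subtype)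

instance instGA : GA where
  main := by
    have : Fact (Nat.Prime 2) := ⟨Nat.prime_two⟩
    let I := (MulAut.characteristic A6).comp rel6.lift
    have hI : ∀ m (a : A6), (I m a).1 = rel6.lift m a := fun _ _ => rfl
    let a : A6 := ⟨pc, by simp [pc]⟩
    let b : A6 := ⟨pb, by simp [pb]⟩
    have hc : I c = MulAut.conj a := MulEquiv.ext fun g => Subtype.ext (by rw [hI, rel6.lift_spec.2.2.1]; rfl)
    have hz : ∀ g : A6, MulAut.conj g = 1 → g = 1 := fun g e => (alternatingGroup.center_eq_bot (by simp)).le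
      (mem_center_iff.2 fun h => (mul_inv_eq_iff_eq_mul.1 (DFunLike.congr_fun e h)).symm)
    have ne : I c ≠ 1 := fun e => absurd (hz a (hc ▸ e)) (by decide)
    have hj : ∀ α : MulAut A6, α * I c * α⁻¹ = I c → α a = a := fun α e => mul_inv_eq_one.1 (hz _ (by
      rw [map_mul, map_inv, mul_inv_eq_one, ← hc, ← e, hc]
      exact MulEquiv.ext fun g => by simp))
    refine ⟨I, ⟨ne, H5.Cl.isSylowIn_of_normalizer ((two_M5.map I).to_le (MonoidHom.range_eq_map I).le)
      fun α hα _ => ?_, MulAut.characteristic A6 (MulAut.conj (swap 1 2 * swap 4 5)), ?_⟩, fun α e => ?_⟩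
    · obtain ⟨m, hm⟩ := (mem_normalizer_iff.1 hα _).1 ⟨x * t, rfl⟩
      have h1 : α * I c * α⁻¹ = I (m ^ 4) := by rw [map_pow, hm, conj_pow, ← map_pow]; rfl
      have h2 := hj α (((by decide : ∀ m : M5, m ^ 4 = 1 ∨ m ^ 4 = c) m).elim
        (fun e => absurd (by simpa [e] using h1) ne) fun e => e ▸ h1)
      obtain ⟨n, hn⟩ := (by decide +kernel : ∀ g : S6, g ^ 4 = 1 → g ^ 2 ≠ 1 → (pc * g) ^ 5 = 1 →
        ∃ n, rel6.lift n pb = g) (α b) (congrArg Subtype.val (show α b ^ 4 = 1 by
          rw [← map_pow, (by decide : b ^ 4 = 1), map_one])) (fun e => absurd (α.injective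
          ((map_pow α b 2).trans ((Subtype.ext e).trans (map_one α).symm))) (by decide))
        (congrArg Subtype.val (show (a * α b) ^ 5 = 1 by
          rw [← h2, ← map_mul, ← map_pow, (by decide +kernel : (a * b) ^ 5 = 1), map_one]))
      refine ⟨n, MulEquiv.ext fun g => (gen6 (K := (I n).toMonoidHom.eqLocus α.toMonoidHom) (a := a) (b := b) rfl rfl
        ((hj _ ?_).trans h2.symm) (Subtype.ext hn)).ge (mem_top g)⟩
      rw [← map_inv, ← map_mul, ← map_mul, (by decide : ∀ n : M5, n * c * n⁻¹ = c)]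
    · obtain ⟨j1, -, j2, j3, -⟩ := rel6.lift_spec
      simp only [I, MonoidHom.comp_apply, j1, j2, j3, ← map_inv, ← map_mul]
      refine ⟨?_, ?_, ?_⟩ <;> exact congrArg _ (congrArg _ (by decide))
    · let r : A6 := ⟨swap 0 1 * swap 0 2, by simp⟩
      have h1 : I d r = r := Subtype.ext (by rw [hI, rel6.lift_spec.2.2.2.1]; decide)
      have h2 : I t (α r) = α r := by simp [← e, h1]
      have h3 := (by decide +kernel : ∀ g : S6, g ^ 3 = 1 → psi g = g → g = 1) (α r) (congrArg Subtype.val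
        (show α r ^ 3 = 1 by rw [← map_pow, (by decide : r ^ 3 = 1), map_one]))
        ((congrArg (· (α r).1) rel6.lift_spec.2.2.2.2).symm.trans (congrArg Subtype.val h2))
      exact absurd (α.injective ((Subtype.ext h3).trans (map_one α).symm)) (by decide)

end Cfsg.Agent.Pu.O
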