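import Cfsg.Agent.Pu.O2
import Cfsg.Agent.H5.Flag

/-! Slice `G2`: the Sylow `2`-subgroup of `Aut(L₃(3))`. -/

set_option autoImplicit false

namespace Cfsg.Agent.Pu.O

open Subgroup Cfsg Cfsg.Agent.L M5 Matrix

namespace B3

abbrev H3 := Matrix.SpecialLinearGroup (Fin 3) (ZMod 3)

structure N9 where
  (a b c d e f g h i : ZMod 3)
deriving DecidableEq

def N9.mul (u v : N9) : N9 :=
  ⟨u.a * v.a + u.b * v.d + u.c * v.g, u.a * v.b + u.b * v.e + u.c * v.h, u.a * v.c + u.b * v.f + u.c * v.i,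
    u.d * v.a + u.e * v.d + u.f * v.g, u.d * v.b + u.e * v.e + u.f * v.h, u.d * v.c + u.e * v.f + u.f * v.i,
    u.g * v.a + u.h * v.d + u.i * v.g, u.g * v.b + u.h * v.e + u.i * v.h, u.g * v.c + u.h * v.f + u.i * v.i⟩

def N9.adj (u : N9) : N9 :=
  ⟨u.e * u.i - u.f * u.h, -(u.b * u.i) + u.c * u.h, u.b * u.f - u.c * u.e,
    -(u.d * u.i) + u.f * u.g, u.a * u.i - u.c * u.g, -(u.a * u.f) + u.c * u.d,
    u.d * u.h - u.e * u.g, -(u.a * u.h) + u.b * u.g, u.a * u.e - u.b * u.d⟩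

def N9.tr (u : N9) : N9 := ⟨u.a, u.d, u.g, u.b, u.e, u.h, u.c, u.f, u.i⟩

def enc (A : H3) : N9 := ⟨A.1 0 0, A.1 0 1, A.1 0 2, A.1 1 0, A.1 1 1, A.1 1 2, A.1 2 0, A.1 2 1, A.1 2 2⟩

theorem enc_inj {A B : H3} (h : enc A = enc B) : A = B := by
  simp only [enc, N9.mk.injEq] at h
  obtain ⟨h1, h2, h3, h4, h5, h6, h7, h8, h9⟩ := h
  ext i j
  fin_cases i <;> fin_cases j <;> assumption

theorem enc_mul (A B : H3) : enc (A * B) = (enc A).mul (enc B) := by
  simp only [enc, N9.mul, Matrix.SpecialLinearGroup.coe_mul, Matrix.mul_apply, Fin.sum_univ_three]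

theorem enc_inv (A : H3) : enc A⁻¹ = (enc A).adj := by
  simp only [enc, N9.adj, Matrix.SpecialLinearGroup.coe_inv, adjugate_fin_three]
  rfl

theorem tr_mul (A B : H3) : (A * B).transpose = B.transpose * A.transpose := Subtype.ext (transpose_mul _ _)

theorem tr_inv (A : H3) : A.transpose⁻¹ = A⁻¹.transpose :=
  inv_eq_of_mul_eq_one_right (by rw [← tr_mul, inv_mul_cancel]; exact Subtype.ext transpose_one)

/-- the inverse transpose -/
def tau : MulAut H3 where
  toFun A := A⁻¹.transpose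
  invFun A := A⁻¹.transpose
  left_inv A := by simp only [tr_inv, inv_inv]; rfl
  right_inv A := by simp only [tr_inv, inv_inv]; rfl
  map_mul' A B := by rw [_root_.mul_inv_rev, tr_mul]

theorem enc_tau (A : H3) : enc (tau A) = (enc A).adj.tr := by
  rw [← enc_inv]; rfl

theorem tau_tau : tau * tau = 1 := MulEquiv.ext tau.left_inv

def mX : H3 := ⟨!![-1, 0, 0; 0, 1, 0; 0, 0, -1], by decide +kernel⟩
def mY : H3 := ⟨!![-1, 0, 0; 0, 0, 1; 0, 1, 0], by decide +kernel⟩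
def mC : H3 := ⟨!![1, 0, 0; 0, -1, 0; 0, 0, -1], by decide +kernel⟩
def mS : H3 := ⟨!![1, 0, 0; 0, 1, 1; 0, 1, -1], by decide +kernel⟩
def mW : H3 := ⟨!![0, 1, 0; 1, 0, 0; 0, 0, -1], by decide +kernel⟩
def mR : H3 := ⟨!![1, 0, 0; 0, 1, 1; 0, 0, 1], by decide +kernel⟩

theorem center_bot : center H3 = ⊥ := by
  refine eq_bot_iff.2 fun A hA => ?_
  obtain ⟨r, h1, h2⟩ := Matrix.SpecialLinearGroup.mem_center_iff.1 hA
  obtain rfl := (by decide : ∀ r : ZMod 3, r ^ 3 = 1 → r = 1) r (by simpa using h1)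
  exact Subtype.ext (by rw [← h2, map_one]; rfl)

theorem conj_inj {A B : H3} (h : MulAut.conj A = MulAut.conj B) : A = B := by
  have : B⁻¹ * A ∈ center H3 := mem_center_iff.2 fun g => by
    have := MulEquiv.congr_fun h g
    simp only [MulAut.conj_apply] at this
    calc g * (B⁻¹ * A) = B⁻¹ * (B * g * B⁻¹) * A := by group
      _ = _ := by rw [← this]; group
  rw [center_bot, mem_bot, inv_mul_eq_one] at this
  exact this.symm

theorem aut_conj (β : MulAut H3) (A : H3) : β * MulAut.conj A = MulAut.conj (β A) * β := by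
  ext1 g
  simp

theorem tau_conj (A : H3) (k : MulAut H3) : tau * (MulAut.conj A * k) = MulAut.conj (tau A) * (tau * k) := by
  rw [← mul_assoc, aut_conj, mul_assoc]

theorem conj_conj (A B : H3) (k : MulAut H3) : MulAut.conj A * (MulAut.conj B * k) = MulAut.conj (A * B) * k := by
  rw [map_mul, mul_assoc]

theorem eq0 {A B : H3} (h : enc A = enc B) : MulAut.conj A = MulAut.conj B := by rw [enc_inj h]

theorem eq1 {A B : H3} (h : enc A = enc B) : MulAut.conj A * tau = MulAut.conj B * tau := by rw [enc_inj h]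

theorem e1 : enc 1 = ⟨1, 0, 0, 0, 1, 0, 0, 0, 1⟩ := by decide +kernel
theorem eX : enc mX = ⟨-1, 0, 0, 0, 1, 0, 0, 0, -1⟩ := rfl
theorem eY : enc mY = ⟨-1, 0, 0, 0, 0, 1, 0, 1, 0⟩ := rfl
theorem eC : enc mC = ⟨1, 0, 0, 0, -1, 0, 0, 0, -1⟩ := rfl
theorem eS : enc mS = ⟨1, 0, 0, 0, 1, 1, 0, 1, -1⟩ := rfl
theorem eW : enc mW = ⟨0, 1, 0, 1, 0, 0, 0, 0, -1⟩ := rfl
theorem eR : enc mR = ⟨1, 0, 0, 0, 1, 1, 0, 0, 1⟩ := rfl

theorem tau_tau' : tau * tau = MulAut.conj 1 := tau_tau.trans (map_one _).symm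

theorem rel : Rel (MulAut.conj mX) (MulAut.conj mY) (MulAut.conj mC) (MulAut.conj 1 * tau) (MulAut.conj mS * tau) := by
  constructor <;> try rw [← map_one (MulAut.conj (G := H3))]
  all_goals simp only [mul_assoc, tau_conj, conj_conj, aut_conj tau, tau_tau', ← map_mul]
  all_goals with_reducible first | refine eq0 ?_ | refine eq1 ?_
  all_goals simp only [enc_mul, enc_tau, e1, eX, eY, eC, eS]; decide +kernel

noncomputable def II : M5 →* MulAut H3 := rel.lift

theorem I_x : II x = MulAut.conj mX := rel.lift_spec.1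
theorem I_y : II y = MulAut.conj mY := rel.lift_spec.2.1
theorem I_c : II c = MulAut.conj mC := rel.lift_spec.2.2.1
theorem I_d : II d = MulAut.conj 1 * tau := rel.lift_spec.2.2.2.1
theorem I_t : II t = MulAut.conj mS * tau := rel.lift_spec.2.2.2.2

theorem I_td : II (t * d) = MulAut.conj mS := by
  rw [map_mul, I_t, I_d, map_one, one_mul, mul_assoc, tau_tau, mul_one]

theorem I_ne : II c ≠ 1 := fun h => by
  rw [I_c, ← map_one (MulAut.conj (G := H3))] at h
  have := congrArg enc (conj_inj h)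
  rw [eC, e1] at this
  exact absurd this (by decide)

theorem trace_conj (A B : H3) : (A * B * A⁻¹).1.trace = B.1.trace := by
  rw [Matrix.SpecialLinearGroup.coe_mul, trace_mul_comm, ← Matrix.SpecialLinearGroup.coe_mul, ← mul_assoc,
    inv_mul_cancel, one_mul]

theorem tau_outer : tau ∉ (MulAut.conj (G := H3)).range := fun ⟨A, h⟩ => by
  have h1 := trace_conj A (mX * mS)
  rw [← MulAut.conj_apply, h, trace_fin_three, trace_fin_three] at h1
  change (enc (tau (mX * mS))).a + (enc (tau (mX * mS))).e + (enc (tau (mX * mS))).i =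
    (enc (mX * mS)).a + (enc (mX * mS)).e + (enc (mX * mS)).i at h1
  simp only [enc_tau, enc_mul, eX, eS] at h1
  exact absurd h1 (by decide +kernel)

theorem inner_iff (m : M5) : II m ∈ (MulAut.conj (G := H3)).range ↔ m.q = m.e := by
  have h1 : ∀ m : M5, m.q = m.e → II m ∈ (MulAut.conj (G := H3)).range := fun m hm => by
    have hx : II x ∈ (MulAut.conj (G := H3)).range := ⟨_, I_x.symm⟩
    have hk : II (x * (t * d)) ∈ (MulAut.conj (G := H3)).range := by
      rw [map_mul]; exact mul_mem hx ⟨_, I_td.symm⟩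
    obtain ⟨k, -, e | e⟩ := (by decide +kernel : ∀ m : M5, m.q = m.e → ∃ k ∈ List.range 8,
      m = (x * (t * d)) ^ k ∨ m = (x * (t * d)) ^ k * x) m hm
    · rw [e, map_pow]; exact pow_mem hk _
    · rw [e, map_mul, map_pow]; exact mul_mem (pow_mem hk _) hx
  refine ⟨fun h => by_contra fun hn => tau_outer ?_, h1 m⟩
  have h2 := mul_mem (inv_mem h) (h1 (m * d) ((by decide : ∀ m : M5, ¬ m.q = m.e → (m * d).q = (m * d).e) m hn))
  rwa [map_mul, inv_mul_cancel_left, I_d, map_one, one_mul] at h2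

def gen (i : Fin 3) : H3 := ![mX, mS, mW] i

def wd (l : List (Fin 3)) : N9 := l.foldr (fun i u => (enc (gen i)).mul u) ⟨1, 0, 0, 0, 1, 0, 0, 0, 1⟩

theorem enc_wd (l : List (Fin 3)) : enc (l.map gen).prod = wd l := by
  induction l with
  | nil => exact e1
  | cons i l ih => rw [List.map_cons, List.prod_cons, enc_mul, ih]; rfl

def WL : List (List (Fin 3)) := [[], [0, 1, 1], [0], [1, 1],
  [0, 1, 0, 2, 1, 2, 1, 2, 1, 0, 2, 1, 0, 2, 1, 2, 1, 2, 1, 0],
  [1, 0, 2, 1, 2, 1, 2, 1, 0, 2, 1, 0, 2, 1, 2, 1, 2, 1],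
  [1, 2, 1, 2, 1, 2, 1, 0, 2, 1, 0, 2, 1, 0, 2, 1, 2, 1],
  [1, 2, 0, 1, 2, 1, 2, 1, 0, 2, 1, 0, 2, 1, 0, 2, 1, 0, 2, 1],
  [0, 1, 2, 1, 0, 2, 1, 0, 2, 1, 2, 1, 2, 1, 0, 2, 1, 2, 1, 0],
  [1, 2, 1, 0, 2, 1, 0, 2, 1, 2, 1, 2, 1, 0, 2, 1, 2, 1],
  [2, 1, 0, 2, 1, 0, 2, 1, 0, 2, 1, 2, 1, 2, 1, 2, 1, 2, 1, 2, 1],
  [2, 1, 2, 1, 2, 1, 2, 1, 0, 2, 1, 0, 2, 1, 0, 2, 1, 2, 1, 2],
  [1, 0, 2, 1, 0, 2, 1, 0, 2, 1, 2, 1, 2, 1, 2, 1, 2, 1],
  [1, 0, 2, 0, 1, 0, 2, 1, 0, 2, 1, 2, 1, 2, 1, 2, 1, 0, 2, 1],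
  [1, 2, 1, 2, 1, 2, 1, 2, 1, 0, 2, 1, 0, 2, 1, 0, 2, 1, 2, 1, 2],
  [2, 1, 0, 2, 1, 0, 2, 1, 0, 2, 1, 2, 1, 2, 1, 2, 1, 2, 1, 2]]

theorem eq_one_of_fix {β : MulAut H3} (h1 : β mX = mX) (h2 : β mS = mS) (h3 : β mW = mW) : β = 1 := by
  have k : ∀ A : H3, (∃ l ∈ WL, enc A = wd l) → β A = A := fun A ⟨l, _, hl⟩ => by
    rw [enc_inj (hl.trans (enc_wd l).symm), map_list_prod, List.map_map]
    congr 2
    funext i
    fin_cases i
    exacts [h1, h2, h3]
  ext1 A
  refine Matrix.SpecialLinearGroup.diagonal_transvection_induction' (fun A => β A = A) A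
    (fun i j hij c hc => k _ ?_) (fun i j hij a => k _ ?_) fun A B hA hB => by rw [map_mul, hA, hB]
  · have hc' : c⁻¹ = c := inv_eq_of_mul_eq_one_right ((by decide : ∀ c : ZMod 3, c ≠ 0 → c * c = 1) c hc)
    simp only [enc, Matrix.SpecialLinearGroup.diag2n_coe, hc']
    clear hc'
    revert i j c
    decide +kernel
  · simp only [enc, Matrix.SpecialLinearGroup.transvection_coe]
    revert i j a
    decide +kernel

theorem fix_W {β : MulAut H3} (h1 : β mX = mX) (h2 : β mS = mS) : β mW = mW ∨ β mW = mC * mW * mC⁻¹ := by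
  have hC : mC = mS * mS := enc_inj (by simp only [enc_mul, eC, eS]; decide +kernel)
  have h3 : β mC = mC := by rw [hC, map_mul, h2]
  have r1 : mW * mX = mC * mW := enc_inj (by simp only [enc_mul, eC, eX, eW]; decide +kernel)
  have r2 : mW * mC = mX * mW := enc_inj (by simp only [enc_mul, eC, eX, eW]; decide +kernel)
  have r3 : mW * mW = 1 := enc_inj (by simp only [enc_mul, e1, eW]; decide +kernel)
  have k1 := congrArg (fun A => enc (β A)) r1
  have k2 := congrArg (fun A => enc (β A)) r2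
  have k3 := congrArg (fun A => enc (β A)) r3
  have k4 := congrArg enc (mul_inv_cancel (β mW))
  simp only [map_mul, map_one, h1, h3, enc_mul, enc_inv, eX, eC, e1] at k1 k2 k3 k4
  suffices h : enc (β mW) = enc mW ∨ enc (β mW) = enc (mC * mW * mC⁻¹) from h.imp enc_inj enc_inj
  simp only [enc_mul, enc_inv, eC, eW]
  generalize enc (β mW) = u at k1 k2 k3 k4
  obtain ⟨a, b, c, d, e, f, g, h, i⟩ := u
  have z : ∀ r : ZMod 3, r = -r → r = 0 := by decide
  simp only [N9.mul, N9.mk.injEq, mul_zero, zero_mul, mul_one, one_mul, add_zero, zero_add, mul_neg, neg_mul,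
    neg_zero] at k1 k2
  obtain rfl := z a k1.1.symm
  obtain rfl := z c k1.2.2.1.symm
  obtain rfl := z e k1.2.2.2.2.1
  obtain rfl := z h k1.2.2.2.2.2.2.2.1
  obtain rfl := z f k2.2.2.2.2.2.1.symm
  obtain rfl := z g k2.2.2.2.2.2.2.1
  revert b d i
  decide +kernel

theorem mem_range {α : MulAut H3} (h : ∀ m, ∃ m', α * II m * α⁻¹ = II m') : α ∈ II.range := by
  have inj := inj_of_c I_ne
  obtain ⟨a, ha⟩ := h x
  obtain ⟨b, hb⟩ := h (t * d)
  have ka : a.q = a.e := (inner_iff a).1 ⟨α mX, by rw [← ha, I_x, aut_conj, mul_inv_cancel_right]⟩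
  have kb : b.q = b.e := (inner_iff b).1 ⟨α mS, by rw [← hb, I_td, aut_conj, mul_inv_cancel_right]⟩
  have k1 : a * a = 1 := inj (by
    rw [map_mul, ← ha, conj_mul, ← map_mul, show x * x = 1 from rfl, map_one, mul_one, mul_inv_cancel])
  have k2 : b ^ 4 = 1 := inj (by
    rw [map_pow, ← hb, conj_pow, ← map_pow, show (t * d) ^ 4 = 1 by decide, map_one, mul_one, mul_inv_cancel])
  have k3 : (a * b) ^ 4 ≠ 1 := fun e => I_ne (by
    have := congrArg II e
    rwa [map_pow, map_mul, ← ha, ← hb, conj_mul, conj_pow, ← map_mul, ← map_pow, show (x * (t * d)) ^ 4 = c by decide,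
      map_one, conj_eq_one_iff] at this)
  obtain ⟨g, rfl, rfl⟩ := (by decide +kernel : ∀ a : M5, a.q = a.e → a * a = 1 → ∀ b : M5, b.q = b.e → b ^ 4 = 1 →
    (a * b) ^ 4 ≠ 1 → ∃ g, a = g * x * g⁻¹ ∧ b = g * (t * d) * g⁻¹) a ka k1 b kb k2 k3
  have fx : ∀ {m : M5} {A : H3}, II m = MulAut.conj A → α * II m * α⁻¹ = II (g * m * g⁻¹) → ((II g)⁻¹ * α) A = A :=
    fun {m A} h1 h2 => conj_inj (by
      rw [map_mul, map_mul, map_inv, h1] at h2
      have := aut_conj ((II g)⁻¹ * α) A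
      refine mul_right_cancel (this.symm.trans ?_)
      calc (II g)⁻¹ * α * MulAut.conj A = (II g)⁻¹ * (α * MulAut.conj A * α⁻¹) * α := by group
        _ = _ := by rw [h2]; group)
  have f1 := fx I_x ha
  have f2 := fx I_td hb
  rcases fix_W f1 f2 with f3 | f3
  · exact ⟨g, (inv_mul_eq_one.1 (eq_one_of_fix f1 f2 f3))⟩
  · refine ⟨g * c, ?_⟩
    have : (MulAut.conj mC)⁻¹ * ((II g)⁻¹ * α) = 1 := by
      refine eq_one_of_fix ?_ ?_ ?_ <;> simp only [MulAut.mul_apply _ (MulAut.conj mC)⁻¹, f1, f2, f3, MulAut.conj_inv_apply] <;>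
        refine enc_inj ?_ <;> simp only [enc_mul, enc_inv, eX, eC, eS, eW] <;> decide +kernel
    rw [map_mul, I_c, inv_mul_eq_one.1 this, mul_inv_cancel_left]

theorem conj_tau (A B : H3) : MulAut.conj B * (tau * (MulAut.conj A)⁻¹) = MulAut.conj (B * tau A⁻¹) * tau := by
  rw [← map_inv, aut_conj, conj_conj]

theorem conj_cj (A B : H3) : MulAut.conj B * (MulAut.conj A)⁻¹ = MulAut.conj (B * A⁻¹) := by
  rw [← map_inv, map_mul]

theorem conj_cc (A B : H3) : MulAut.conj A * MulAut.conj B = MulAut.conj (A * B) := (map_mul _ _ _).symm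

theorem gd {G : Type*} [Group G] [Finite G] (φ : MulAut H3 ≃* G) : GD (φ.toMonoidHom.comp II) := by
  have : Fact (Nat.Prime 2) := ⟨Nat.prime_two⟩
  refine ⟨fun h => I_ne (φ.injective (h.trans (map_one φ).symm)), H5.Cl.isSylowIn_of_normalizer ?_ fun g hg _ => ?_,
    φ (MulAut.conj mW), ?_, ?_, ?_⟩
  · rw [MonoidHom.range_eq_map]
    exact two_M5.map _
  · obtain ⟨α, rfl⟩ := φ.surjective g
    obtain ⟨m, hm⟩ := mem_range (α := α) fun m => by
      obtain ⟨m', e⟩ := (mem_normalizer_iff.1 hg _).1 ⟨m, rfl⟩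
      exact ⟨m', φ.injective (by rw [map_mul, map_mul, map_inv]; exact e.symm)⟩
    exact ⟨m, congrArg φ hm⟩
  all_goals
    change φ _ * φ _ * (φ _)⁻¹ = φ _
    rw [← map_inv, ← map_mul, ← map_mul]
    refine congrArg φ ?_
    simp only [I_x, I_c, I_d, mul_assoc, conj_conj, conj_tau, conj_cj, conj_cc]
    with_reducible first | refine eq0 ?_ | refine eq1 ?_
    simp only [enc_mul, enc_inv, enc_tau, e1, eX, eC, eW]
    decide +kernel

end B3

open B3 in
instance instGB : GB := ⟨by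
  let e : H3 ≃* ProjectiveSpecialLinearGroup (Fin 3) (ZMod 3) :=
    ((QuotientGroup.quotientMulEquivOfEq center_bot).trans QuotientGroup.quotientBot).symm
  refine ⟨_, gd (MulAut.congr e), MulAut.congr e (MulAut.conj mR), x * y * c * t, by decide, c * d, by decide, rfl,
    ?_, ?_, ?_⟩
  all_goals
    change MulAut.congr e _ * MulAut.congr e _ * (MulAut.congr e _)⁻¹ = MulAut.congr e _
    rw [← map_inv, ← map_mul, ← map_mul]
    refine congrArg (MulAut.congr e) ?_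
    simp only [map_mul II, I_x, I_y, I_c, I_d, I_t, mul_assoc, conj_conj, conj_tau]
    refine eq1 ?_
    simp only [enc_mul, enc_inv, enc_tau, e1, eX, eY, eC, eS, eR]
    decide +kernel⟩

end Cfsg.Agent.Pu.O
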