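import Cfsg.Agent.Pu.A1
import Cfsg.Agent.L.NormalModel

/-! `P(G,V)`: the measure, replacement, and the L-lemma. -/

set_option autoImplicit false
set_option linter.unusedSectionVars false

namespace Cfsg.Agent.Pu

open Subgroup Cfsg Cfsg.Agent.H1 Cfsg.Agent.L Cfsg.Agent.FT Cfsg.Agent.Sg Cfsg.Agent.R1
  Cfsg.Agent.St
open scoped Pointwise commutatorElement

variable {G : Type*} [Group G] {V H T M A B E K R U W X : Subgroup G} {g : G}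

/-- the measure -/
noncomputable abbrev fm (V E : Subgroup G) : ℕ := #|E| * #|V ⊓ 𝐂(E)|

theorem fm_bot (V : Subgroup G) : fm V ⊥ = #|V| := by simp [fm]

theorem conj_nrm [hV : V.Normal] (g : G) : g ⋆ V = V :=
  conj_of_mem_norm (by rw [normalizer_eq_top]; trivial)

theorem cv_conj [V.Normal] (g : G) (E : Subgroup G) : V ⊓ 𝐂(g ⋆ E) = g ⋆ (V ⊓ 𝐂(E)) := by
  rw [conj_inf, conj_cent, conj_nrm (V := V)]

theorem fm_conj [V.Normal] (g : G) (E : Subgroup G) : fm V (g ⋆ E) = fm V E := by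
  rw [fm, cv_conj, card_conj, card_conj]

theorem sq_conj (h : Sq A) (g : G) : Sq (g ⋆ A) := fun x hx => by
  obtain ⟨y, hy, rfl⟩ := mem_conj'.1 hx
  rw [show g * y * g⁻¹ * (g * y * g⁻¹) = g * (y * y) * g⁻¹ by group, h y hy]; group

theorem quad_conj [V.Normal] (h : ⁅V, A⁆ ≤ 𝐂(B)) (g : G) : ⁅V, g ⋆ A⁆ ≤ 𝐂(g ⋆ B) := by
  have := conj_mono g h
  rwa [conj_comm, conj_nrm, conj_cent] at this

theorem sq_sup (hA : Sq A) (hB : Sq B) (h : A ≤ 𝐂(B)) : Sq (A ⊔ B) := fun x hx => by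
  obtain ⟨a, ha, b, hb, rfl⟩ := (H1.mem_sup_of_le_normalizer (le_norm_of_le_cent h)).1 hx
  rw [mul_assoc, ← mul_assoc b, mem_cent.1 (h ha) b hb, mul_assoc, hB b hb, mul_one, hA a ha]

theorem Md.pmono (h : Md V H) (hK : K ≤ H) : Md V K :=
  ⟨h.nrm, h.sq, le_bot_iff.1 (h.faith ▸ inf_le_inf_right _ hK)⟩

theorem Md.eq_bot (h : Md V H) (hK : K ≤ H) (h1 : K ≤ 𝐂(V)) : K = ⊥ :=
  le_bot_iff.1 (h.faith ▸ le_inf hK h1)

theorem Md.sq_of_quad (h : Md V H) (hK : K ≤ H) (q : ⁅V, K⁆ ≤ 𝐂(K)) : Sq K := fun x hx => by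
  have := h.nrm
  refine mem_bot.1 (h.faith ▸ ⟨hK (mul_mem hx hx), mem_cent.2 fun v hv => ?_⟩ : x * x ∈ (⊥ : Subgroup G))
  have e1 := mem_cent.1 (q (commutator_mem_commutator hv hx)) x hx
  have e2 := h.sq _ (comm_mem_nl (V := V) hv x)
  rw [← commutatorElement_eq_one_iff_mul_comm, commutatorElement_mul_right_eq_mul_conj, mul_assoc ⁅v, x⁆,
    e1, ← mul_assoc, e2]
  group

/-- quadratic and best -/
structure Qb (V A : Subgroup G) : Prop where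
  sq : Sq A
  quad : ⁅V, A⁆ ≤ 𝐂(A)
  best : ∀ B ≤ A, fm V B ≤ fm V A

theorem Qb.conj [V.Normal] (h : Qb V A) (g : G) : Qb V (g ⋆ A) :=
  ⟨sq_conj h.sq g, quad_conj h.quad g, fun B hB => by
    rw [fm_conj, ← fm_conj g⁻¹ B]; exact h.best _ (le_conj_iff.1 hB)⟩

theorem Qb.of_le (h : Qb V A) (h1 : B ≤ A) (e : fm V B = fm V A) : Qb V B :=
  ⟨h.sq.of_le h1, (commutator_mono le_rfl h1).trans (le_cent_of_le h.quad h1),
    fun X hX => e ▸ h.best X (hX.trans h1)⟩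

/-- `R ≤ M` lies in no other conjugate of `M` -/
def Bg (H M R : Subgroup G) : Prop := ∀ g ∈ H, g ⋆ R ≤ M → g ∈ M

theorem Bg.mono (h : Bg H M R) (h1 : R ≤ K) : Bg H M K := fun g hg e =>
  h g hg ((conj_mono g h1).trans e)

theorem Bg.inv (h : Bg H M R) (hg : g ∈ H) (e : R ≤ g ⋆ M) : g ∈ M :=
  inv_mem_iff.1 (h _ (inv_mem hg) (le_conj_iff.1 e))

/-- the hypotheses that are invariant under conjugation -/
structure MH (V H T M : Subgroup G) : Prop extends Md V H, MPi H T M where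
  core : core {2} H = ⊥
  act : ¬ H ≤ 𝐂(V ⊓ 𝐂(T))

variable [Finite G]

theorem fm_cd (hV : V ≤ 𝐂(V)) (h : A ≤ 𝐍(B)) : fm V A * fm V B ≤ fm V (A ⊔ B) * fm V (A ⊓ B) := by
  have h1 := card_sup_mul_card_inf h
  have h2 := card_sup_mul_card_inf (H := V ⊓ 𝐂(A)) (N := V ⊓ 𝐂(B))
    (le_norm_of_le_cent (inf_le_left.trans (le_cent_of_le hV inf_le_left)))
  have h3 : #|V ⊓ 𝐂(A) ⊔ V ⊓ 𝐂(B)| ≤ #|V ⊓ 𝐂((A ⊓ B : Subgroup G))| := card_le_of_le' (sup_le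
    (inf_le_inf_left _ (cent_anti inf_le_left)) (inf_le_inf_left _ (cent_anti inf_le_right)))
  rw [← inf_inf_distrib_left, ← cent_sup] at h2
  calc _ = (#|A| * #|B|) * (#|V ⊓ 𝐂(A)| * #|V ⊓ 𝐂(B)|) := by ring
    _ ≤ _ := by rw [← h1, ← h2, fm, fm]; nlinarith [Nat.mul_le_mul_left (#|A ⊔ B| * #|A ⊓ B| * #|V ⊓ 𝐂((A ⊔ B : Subgroup G))|) h3]

/-- Timmesfeld's replacement theorem -/
theorem Md.timm (hM : Md V H) (hH : B ≤ H) (sq : Sq B) (h0 : B ≠ ⊥) (h1 : #|V| ≤ fm V B) :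
    ∃ A ≤ B, A ≠ ⊥ ∧ Qb V A ∧ fm V B ≤ fm V A := by
  have := hM.nrm
  have h := hM.sq.cent
  have h2 : IsPGroup 2 (V ⊔ B : Subgroup G) :=
    pgroup_sup hM.sq.two sq.two (.inr (by rw [normalizer_eq_top]; exact le_top))
  have hB : ∀ b ∈ B, b * b ∈ 𝐂(V) := fun b hb => by rw [sq b hb]; exact one_mem _
  obtain ⟨A, ⟨a1, a2, a3⟩, a4⟩ := wellFounded_lt.has_min {A : Subgroup G | A ≤ B ∧ ¬ A ≤ 𝐂(V) ∧
      ∀ X ≤ B, #|X| * #|𝐂(X) ⊓ V| ≤ #|A| * #|𝐂(A) ⊓ V|} (by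
    obtain ⟨A, a1, a2⟩ := Set.exists_max_image {A | A ≤ B} (fun A => #|A| * #|𝐂(A) ⊓ V|)
      (Set.toFinite _) ⟨B, le_refl B⟩
    by_cases e : A ≤ 𝐂(V)
    · refine ⟨B, le_rfl, fun e => h0 (hM.eq_bot hH e), fun X hX => (a2 X hX).trans ?_⟩
      rw [hM.eq_bot (a1.trans hH) e, inf_comm, inf_comm _ V]
      exact (fm_bot V).trans_le h1
    · exact ⟨A, a1, e, a2⟩)
  have b1 : ∀ X ≤ A, (𝐂(A)).relIndex (𝐂(X) ⊓ V) ≤ X.relIndex A := fun X hX => by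
    obtain ⟨c, e0, e1, e2⟩ := mu_eq hX V
    exact Nat.le_of_mul_le_mul_left (e1 ▸ e2 ▸ a3 X (hX.trans a1)) e0
  have a5 : ∀ X ≤ B, fm V X ≤ fm V A := fun X hX => by simpa only [inf_comm _ V] using a3 X hX
  refine ⟨A, a1, fun e => a2 (e ▸ bot_le), ⟨sq.of_le a1, commutator_le.2 fun v hv => ?_,
    fun X hX => a5 X (hX.trans a1)⟩, a5 B le_rfl⟩
  have n1 : A ≤ 𝐍(𝐂(A)) := le_norm_cent le_normalizer
  have c1 : stb v 𝐂(A) A n1 ≤ A := fun _ e => e.1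
  have c2 := relIndex_le_of_inj (⁅v, ·⁆) (X := A) (X₁ := stb v 𝐂(A) A n1) (Y₁ := 𝐂(A))
    (Y := (𝐂(A) ⊓ V ⊔ ⁅V, A⁆) ⊓ 𝐂(stb v 𝐂(A) A n1)) (fun a ha =>
      ⟨mem_sup_right (commutator_mem_commutator hv ha), mem_cent.2 fun c hc => by
        rw [eq_comm, ← commutatorElement_eq_one_iff_mul_comm, comm_swap h hv (der_le_of_sq hB
          (commutator_mem_commutator (inv_mem (a1 hc.1)) (inv_mem (a1 ha)))),
          commutatorElement_eq_one_iff_mul_comm, mem_cent.1 hc.2 a ha]⟩)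
    fun a ha b hb => mem_stb_of_div ha hb
  have c3 : (𝐂(A) ⊓ V ⊔ ⁅V, A⁆) ⊓ 𝐂(stb v 𝐂(A) A n1) ≤ 𝐂(stb v 𝐂(A) A n1) ⊓ V := le_inf
    inf_le_right (inf_le_left.trans (sup_le inf_le_right (commutator_le_left V A)))
  by_contra e
  refine a4 _ ⟨c1.trans a1, fun e' => a2 (le_cent_symm ((B1.le_of_le_sup_comm (M := V ⊔ A)
    ⟨inf_le_right.trans le_sup_left, sup_le (le_norm_of_le_cent (le_cent_of_le h inf_le_right))
      (le_norm_of_le_cent (le_cent_symm inf_le_left))⟩ (NormalIn.refl _)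
    (pgroup_nil Nat.prime_two (h2.to_le (sup_le_sup_left a1 _))) le_sup_left ?_).trans
      inf_le_left)), fun X hX => (a3 X hX).trans ?_⟩ (c1.lt_of_not_ge fun e' => e fun a ha => (e' ha).2)
  · refine (le_inf (le_cent_symm e') le_rfl).trans ((le_of_idx_le c3 (le_inf (le_sup_of_le_left
      (inf_le_inf_left _ inf_le_right)) (inf_le_right.trans inf_le_left)) ((b1 _ c1).trans c2)).trans
      (inf_le_left.trans (sup_le_sup_left (commutator_mono le_rfl le_sup_right) _)))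
  · obtain ⟨c, -, e1, e2⟩ := mu_eq c1 V
    rw [e1, e2]
    exact Nat.mul_le_mul_left _ (c2.trans (idx_le_right c3 _))

namespace MH

variable (h : MH V H T M)
include h

theorem TH : T ≤ H := h.syl.le

theorem MH' : M ≤ H := h.lt.le

theorem conj (hg : g ∈ H) : MH V H (g ⋆ T) (g ⋆ M) where
  toMd := h.toMd
  syl := sylow_conj_mem Nat.prime_two h.syl hg
  le := conj_mono g h.le
  lt := by rw [← conj_of_mem hg]; exact conj_lt_conj_iff.2 h.lt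
  min K h1 h2 := le_conj_iff.2 (h.min _ (conj_le_iff.1 h1) (by
    rw [← conj_of_mem (inv_mem hg)]; exact conj_lt_conj_iff.2 h2))
  core := h.core
  act e := h.act (by
    have := h.nrm
    rw [cv_conj, ← conj_cent, le_conj_iff, conj_of_mem (inv_mem hg)] at e
    exact e)

theorem eq_bot' (h1 : U ≤ H) (h2 : IsPGroup 2 U) (h3 : H ≤ 𝐍(U)) : U = ⊥ :=
  le_bot_iff.1 (h.core ▸ le_core_of_pgroup Nat.prime_two ⟨h1, h3⟩ h2)

theorem eq_bot_of (h1 : U ≤ H) (h2 : IsPGroup 2 U) (h3 : T ≤ 𝐍(U)) (h4 : K ≤ 𝐍(U)) (h5 : K ≤ H)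
    (h6 : ¬ K ≤ M) : U = ⊥ := by
  refine h.eq_bot' h1 h2 ?_
  by_contra e
  exact h6 ((le_inf h5 h4).trans (h.min _ (le_inf h.TH h3)
    (inf_le_left.lt_of_ne fun e' => e (inf_eq_left.1 e'))))

theorem norm_le (h0 : U ≠ ⊥) (h1 : U ≤ H) (h2 : IsPGroup 2 U) (h3 : T ≤ 𝐍(U)) : H ⊓ 𝐍(U) ≤ M := by
  by_contra e
  exact h0 (h.eq_bot_of h1 h2 h3 inf_le_right inf_le_left e)

theorem conj_le (h1 : R ≤ M) (h2 : IsPGroup 2 R) : ∃ m ∈ M, m ⋆ R ≤ T :=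
  sylow_exists_conj_le Nat.prime_two (h.syl.of_le h.le h.MH') h1 h2

theorem big_of_wc (h1 : W ≤ T) (h0 : W ≠ ⊥) (wc : ∀ g ∈ H, g ⋆ W ≤ T → g ⋆ W ≤ W) : Bg H M W :=
  fun g hg e => by
    have h2 := h.syl.isPGroup.to_le h1
    obtain ⟨m, hm, e1⟩ := h.conj_le e (pgroup_conj h2 g)
    rw [← mul_conj] at e1
    have h3 := mul_mem (h.MH' hm) hg
    exact (mul_mem_cancel_left hm).1 (h.norm_le h0 (h1.trans h.TH) h2
      (le_norm_of_conj fun t ht => wc t (h.TH ht) (conj_le_of_mem ht h1))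
      ⟨h3, mem_norm_of_conj_le (wc _ h3 e1)⟩)

/-- the L-lemma inside a given overgroup -/
theorem ll0 (hA : Qb V A) (h1 : A ⊔ U ≤ M) (h2 : IsPGroup 2 U) (big : Bg H M (A ⊔ U))
    (h3 : A ⊔ U ≤ K) (h4 : K ≤ H) (h5 : ¬ K ≤ M) (h6 : K ≤ 𝐍(U)) :
    ∃ L ≤ K, U ≤ FT.core {2} L ∧ QH V L (L ⊓ M) A := by
  obtain ⟨L, ⟨l1, l2, l3⟩, l4⟩ := wellFounded_lt.has_min {L | A ⊔ U ≤ L ∧ L ≤ K ∧ ¬ L ≤ M}
    ⟨K, h3, le_rfl, h5⟩
  have hU : U ≤ FT.core {2} L := le_core_of_pgroup Nat.prime_two ⟨le_sup_right.trans l1, l2.trans h6⟩ h2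
  have hL := l2.trans h4
  refine ⟨L, l2, hU, h.toMd.pmono hL, le_sup_left.trans (le_inf l1 h1),
    inf_le_left.lt_of_ne fun e => l3 (inf_eq_left.1 e), hA.sq, hA.quad, hA.best, fun X x1 x2 => ?_,
    fun g hg => ⟨hg.1, big g (hL hg.1) ((conj_le_of_mem_norm hg.2 (le_inf l1 h1)).trans inf_le_right)⟩, ?_⟩
  · refine le_inf x2.le ?_
    by_contra e
    exact l4 X ⟨(sup_le_sup_left hU _).trans x1, x2.le.trans l2, e⟩ x2
  · by_contra! e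
    obtain ⟨S, s1, s2⟩ := exists_isSylowIn_ge
      (pgroup_sup hA.sq.two h2 (.inl ((le_sup_left.trans h3).trans h6))) l1
    obtain ⟨c, hc, s3⟩ := sylow_exists_le_conj Nat.prime_two h.syl (s1.le.trans hL) s1.isPGroup
    have h7 : L ≤ 𝐂(V ⊓ 𝐂(c ⋆ T)) := by
      rw [← s1.pResidual_sup]
      refine sup_le (map_le_iff_le_comap.2 (pResidual_le_iff.2 fun g hg => ?_))
        (s3.trans (le_cent_symm inf_le_right))
      exact cent_anti (inf_le_inf_left _ (cent_anti ((sylow_core_le Nat.prime_two s1).trans s3)))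
        (e g g.2 (by rw [Subgroup.orderOf_coe]; exact Nat.coprime_two_right.1 hg))
    have h8 := (le_inf hL h7).trans ((h.conj hc).min _ (le_inf (h.conj hc).TH (le_cent_symm inf_le_right))
      (inf_le_left.lt_of_ne fun e => (h.conj hc).act (inf_eq_left.1 e)))
    exact l3 (conj_of_mem (big.inv hc (l1.trans h8)) ▸ h8)

end MH

/-- the subgroup generated by the conjugates of `A` in `E` -/
def cjs (H A E : Subgroup G) : Subgroup G := sSup {B | (∃ g ∈ H, B = g ⋆ A) ∧ B ≤ E}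

omit [Finite G] in
theorem cjs_le : cjs H A E ≤ E := sSup_le fun _ h => h.2

omit [Finite G] in
theorem le_cjs (hg : g ∈ H) (h : g ⋆ A ≤ E) : g ⋆ A ≤ cjs H A E := le_sSup ⟨⟨g, hg, rfl⟩, h⟩

omit [Finite G] in
theorem cjs_le_iff : cjs H A E ≤ K ↔ ∀ g ∈ H, g ⋆ A ≤ E → g ⋆ A ≤ K :=
  ⟨fun h _ hg e => (le_cjs hg e).trans h, fun h => sSup_le (by
    rintro _ ⟨⟨g, hg, rfl⟩, e⟩; exact h g hg e)⟩

omit [Finite G] in
theorem conj_cjs (hg : g ∈ H) (h : g ⋆ cjs H A E ≤ K) : g ⋆ cjs H A E ≤ cjs H A K :=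
  conj_le_iff.2 (cjs_le_iff.2 fun k hk e => conj_le_iff.1 (by
    rw [← mul_conj]
    exact le_cjs (mul_mem hg hk) (by rw [mul_conj]; exact (conj_mono g (le_cjs hk e)).trans h)))

namespace MH

variable (h : MH V H T M)
include h

theorem ll_step (hA : Qb V A) (a1 : A ≤ H) (a0 : A ≠ ⊥) (h1 : U ≤ M) (h2 : IsPGroup 2 U)
    (h3 : U ≤ cjs H A U) (h4 : ¬ Bg H M U) : ∃ k ∈ H, k ⋆ A ≤ M ⊓ 𝐍(U) ∧ ¬ k ⋆ A ≤ U := by
  wlog hT : U ≤ T generalizing T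
  · obtain ⟨m, hm, e⟩ := h.conj_le h1 h2
    have h' := h.conj (inv_mem (h.MH' hm))
    rw [conj_of_mem (inv_mem hm)] at h'
    exact this h' (conj_le_iff.1 e)
  by_contra! hn
  have e1 : cjs H A (T ⊓ 𝐍(U)) = U := le_antisymm
    (cjs_le_iff.2 fun g hg e => hn g hg (e.trans (inf_le_inf_right _ h.le)))
    (h3.trans (cjs_le_iff.2 fun g hg e => le_cjs hg (e.trans (le_inf hT le_normalizer))))
  have e2 : T ⊓ 𝐍(U) = T := eq_of_nil_of_norm_le (pgroup_nil Nat.prime_two h.syl.isPGroup) inf_le_left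
    fun g hg => ⟨hg.1, mem_norm_of_conj_le (by
      nth_rw 1 [← e1]
      exact (conj_cjs (h.TH hg.1) (conj_le_of_mem_norm hg.2 cjs_le)).trans e1.le)⟩
  rw [e2] at e1
  obtain ⟨g, hg, e⟩ := sylow_exists_conj_le Nat.prime_two h.syl a1 hA.sq.two
  exact h4 (e1 ▸ h.big_of_wc cjs_le (ne_bot_of_le (conj_ne_bot g a0) (le_cjs hg e))
    fun g hg e => conj_cjs hg e)

/-- the L-lemma -/
theorem ll (hA : Qb V A) (a1 : A ≤ H) (a0 : A ≠ ⊥) : ∃ g ∈ H, ∃ L M', QH V L M' (g ⋆ A) := by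
  have := h.nrm
  obtain ⟨U, ⟨u1, u2, c, hc, u3, u4⟩, u5⟩ := wellFounded_gt.has_min
    {U : Subgroup G | IsPGroup 2 U ∧ U ≤ cjs H A U ∧ ∃ c ∈ H, U ≤ c ⋆ M ∧ ¬ Bg H (c ⋆ M) U}
    ⟨⊥, IsPGroup.of_bot, bot_le, 1, one_mem _, bot_le, fun e => h.lt.not_ge fun g hg => by
      simpa using e g hg (by simp)⟩
  have key : ∀ c ∈ H, U ≤ c ⋆ M → ¬ Bg H (c ⋆ M) U → ∃ k ∈ H, k ⋆ A ⊔ U ≤ c ⋆ M ⊓ 𝐍(U) ∧
      Bg H (c ⋆ M) (k ⋆ A ⊔ U) := fun c hc u3 u4 => by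
    obtain ⟨k, hk, k1, k2⟩ := (h.conj hc).ll_step hA a1 a0 u3 u1 u2 u4
    refine ⟨k, hk, sup_le k1 (le_inf u3 le_normalizer), by_contra fun e => u5 (k ⋆ A ⊔ U)
      ⟨pgroup_sup (hA.conj k).sq.two u1 (.inl (k1.trans inf_le_right)), sup_le (le_cjs hk le_sup_left)
        (u2.trans (cjs_le_iff.2 fun g hg e => le_cjs hg (e.trans le_sup_right))), c, hc,
        sup_le (k1.trans inf_le_left) u3, e⟩ (right_lt_sup.2 k2)⟩
  obtain ⟨k, hk, k1, k2⟩ := key c hc u3 u4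
  obtain ⟨g, hg, g1, g2⟩ : ∃ g ∈ H, g ⋆ U ≤ c ⋆ M ∧ g ∉ c ⋆ M := by simpa [Bg] using u4
  have g3 : g⁻¹ ∉ (g⁻¹ * c) ⋆ M := fun e => g2 (by
    rw [mul_conj, mem_conj, inv_inv, mul_inv_cancel, one_mul, inv_mem_iff] at e; exact e)
  obtain ⟨k', hk', k3, k4⟩ := key (g⁻¹ * c) (mul_mem (inv_mem hg) hc)
    (by rw [mul_conj]; exact conj_le_iff.1 g1)
    fun e => g3 (e _ (inv_mem hg) (by rw [mul_conj]; exact conj_mono _ u3))
  obtain ⟨L, -, -, hL⟩ := (h.conj hc).ll0 (hA.conj k) (k1.trans inf_le_left) u1 k2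
    (K := (k ⋆ A ⊔ U) ⊔ (k' ⋆ A ⊔ U)) le_sup_left
    (sup_le (k1.trans (inf_le_left.trans (h.conj hc).MH'))
      (k3.trans (inf_le_left.trans (h.conj (mul_mem (inv_mem hg) hc)).MH')))
    (fun e => g3 (k4 _ (inv_mem hg) (by rw [mul_conj]; exact conj_mono _ (le_sup_right.trans e))))
    (sup_le (k1.trans inf_le_right) (k3.trans inf_le_right))
  exact ⟨k, hk, L, _, hL⟩

end MH

end Cfsg.Agent.Pu
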