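import Cfsg.Agent.Pu.P1

/-! `P(G,V)`: no over-offenders, members, and members in a `2`-group commute. -/

set_option autoImplicit false
set_option linter.unusedSectionVars false

universe u

namespace Cfsg.Agent.Pu

open Subgroup Cfsg Cfsg.Agent.H1 Cfsg.Agent.L Cfsg.Agent.FT Cfsg.Agent.Sg Cfsg.Agent.R1
  Cfsg.Agent.St
open scoped Pointwise commutatorElement

section
variable {G : Type*} [Group G] [Finite G] {V H T M A B E K R U W X Y : Subgroup G} {g : G} {q r : ℕ}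

theorem Mem.fm_eq (h : Mem V q A) : fm V A = #|V| := by rw [fm, h.card, h.idx]

theorem Mem.rel (h : Mem V q A) : (𝐂(A)).relIndex V = q := by
  have := card_inf_mul_relIndex 𝐂(A) V
  rw [h.idx, inf_comm, mul_comm] at this
  exact Nat.eq_of_mul_eq_mul_right Nat.card_pos this

theorem le_sup_of_card (hV : V ≤ 𝐂(V)) (h1 : X ≤ V) (h2 : Y ≤ V)
    (h : #|V| * #|X ⊓ Y| ≤ #|X| * #|Y|) : V ≤ X ⊔ Y :=
  (eq_of_le_of_card_le (sup_le h1 h2) (Nat.le_of_mul_le_mul_right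
    (h.trans_eq (card_sup_V hV h1 h2).symm) Nat.card_pos)).ge

theorem exists_normal_lt (hR : Group.IsNilpotent R) (h : A < R) : ∃ K, A ≤ K ∧ K < R ∧ R ≤ 𝐍(K) := by
  obtain ⟨K, ⟨k1, k2⟩, k3⟩ := wellFounded_gt.has_min {K | A ≤ K ∧ K < R} ⟨A, le_rfl, h⟩
  have := lt_inf_norm_of_nil hR k2
  refine ⟨K, k1, k2, by_contra fun e => k3 _ ⟨k1.trans this.le, ?_⟩ this⟩
  exact inf_le_left.lt_of_ne fun e' => e (inf_eq_left.1 e')

/-- a faithful module without over-offenders -/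
structure MF (V H : Subgroup G) : Prop extends Md V H where
  f2 : F2 V H

namespace MF

variable (h : MF V H)
include h

theorem qb (hA : Mem V q A) (a1 : A ≤ H) : Qb V A :=
  ⟨hA.sq, hA.quad, fun B hB => hA.fm_eq ▸ h.f2 B (hB.trans a1) (hA.sq.of_le hB)⟩

theorem ex_sup (a1 : A ≤ H) (b1 : B ≤ H) (a2 : Sq A) (b2 : Sq B) (c : A ≤ 𝐂(B)) (a3 : #|V| ≤ fm V A)
    (b3 : #|V| ≤ fm V B) : #|V| ≤ fm V (A ⊔ B) ∧ #|V| ≤ fm V (A ⊓ B) := by
  have h1 := (Nat.mul_le_mul a3 b3).trans (fm_cd h.sq.cent (le_norm_of_le_cent c))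
  have h2 := h.f2 _ (sup_le a1 b1) (sq_sup a2 b2 c)
  have h3 := h.f2 _ (inf_le_left.trans a1) (a2.of_le (inf_le_left (b := B)))
  exact ⟨Nat.le_of_mul_le_mul_right (h1.trans (Nat.mul_le_mul_left _ h3)) Nat.card_pos,
    Nat.le_of_mul_le_mul_left (h1.trans (Nat.mul_le_mul_right _ h2)) Nat.card_pos⟩

theorem eq_of_cv (a1 : B ≤ H) (a2 : Sq B) (h1 : A ≤ B) (h2 : V ⊓ 𝐂(A) ≤ 𝐂(B)) (h3 : #|V| ≤ fm V A) :
    A = B := by
  have := h3.trans' (h.f2 B a1 a2)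
  rw [show V ⊓ 𝐂(B) = V ⊓ 𝐂(A) from le_antisymm (inf_le_inf_left _ (cent_anti h1))
    (le_inf inf_le_left h2)] at this
  exact eq_of_le_of_card_le h1 (Nat.le_of_mul_le_mul_right this Nat.card_pos)

theorem ti (hA : Mem V q A) (hB : Mem V r B) (a1 : A ≤ H) (b1 : B ≤ H) (ne : A ≠ B) : A ⊓ B = ⊥ := by
  by_contra e
  obtain ⟨a, ⟨ha, hb⟩, a0⟩ := exists_mem_ne_one e
  have c := h.toMd.cent_of_mem hA hB a1 b1 ha hb a0
  have e1 := (hA.cent_eq ha a0).symm.trans (hB.cent_eq hb a0)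
  have s := sq_sup hA.sq hB.sq c
  refine ne ((h.eq_of_cv (sup_le a1 b1) s le_sup_left ?_ hA.fm_eq.ge).trans
    (h.eq_of_cv (sup_le a1 b1) s le_sup_right ?_ hB.fm_eq.ge).symm) <;> rw [cent_sup]
  exacts [le_inf inf_le_right (e1.le.trans inf_le_right), le_inf (e1.ge.trans inf_le_right) inf_le_right]

theorem idx2 (hA : Mem V q A) (hB : Mem V r B) (a1 : A ≤ H) (b1 : B ≤ H) (ne : A ≠ B)
    (c : A ≤ 𝐂(B)) : #|V| = q * r * #|V ⊓ 𝐂((A ⊔ B : Subgroup G))| := by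
  have h1 := card_sup_mul_card_inf (le_norm_of_le_cent c)
  rw [h.ti hA hB a1 b1 ne, card_bot, mul_one, hA.card, hB.card] at h1
  rw [← h1]
  exact le_antisymm (h.ex_sup a1 b1 hA.sq hB.sq c hA.fm_eq.ge hB.fm_eq.ge).1
    (h.f2 _ (sup_le a1 b1) (sq_sup hA.sq hB.sq c))

theorem span_of (hA : Mem V q A) (hB : Mem V r B)
    (e : q * r * #|V ⊓ 𝐂((A ⊔ B : Subgroup G))| ≤ #|V|) : V ≤ V ⊓ 𝐂(A) ⊔ V ⊓ 𝐂(B) := by
  refine le_sup_of_card h.sq.cent inf_le_left inf_le_left (Nat.le_of_mul_le_mul_left (c := q * r) ?_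
    (Nat.mul_pos hA.one_lt.le hB.one_lt.le))
  rw [← inf_inf_distrib_left, ← cent_sup, mul_mul_mul_comm q r #|V ⊓ 𝐂(A)|, ← hA.idx, ← hB.idx,
    mul_left_comm]
  exact Nat.mul_le_mul_left _ e

theorem quad2 (hA : Mem V q A) (hB : Mem V r B) (a1 : A ≤ H) (b1 : B ≤ H) (c : A ≤ 𝐂(B)) :
    ⁅V, A⁆ ≤ 𝐂(B) := by
  by_cases ne : A = B
  · exact ne ▸ hA.quad
  refine commutator_le.2 fun v hv a ha => ?_
  obtain ⟨y, hy, x, hx, rfl⟩ := (mem_sup_V h.sq.cent inf_le_left inf_le_left).1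
    (h.span_of hB hA (h.idx2 hB hA b1 a1 (Ne.symm ne) (le_cent_symm c)).ge hv)
  rw [comm_mul_cent _ (cent_le_cent1 ha hx.2)]
  exact comm_le_of_le le_rfl le_rfl (commutator_mem_commutator hy.2 (c ha))

theorem comm_one (hA : Mem V q A) (hB : Mem V r B) (a1 : A ≤ H) (b1 : B ≤ H) (n : B ≤ 𝐍(A))
    (c : ∀ a ∈ A, a ⋆ B ≤ 𝐂(B)) : A ≤ 𝐂(B) := by
  have := h.nrm
  by_cases n' : A ≤ 𝐍(B)
  · by_cases e : A = B
    · exact e ▸ hA.sq.cent
    · exact le_cent_of_disjoint n n' (h.ti hA hB a1 b1 e)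
  obtain ⟨a, ha, ne⟩ := SetLike.not_le_iff_exists.1 n'
  rw [← conj_eq_self_iff] at ne
  have b2 := conj_le_of_mem (a1 ha) b1
  have t := h.ti (hB.conj a) hB b2 b1 ne
  have m : ∀ b ∈ B, ⁅a, b⁆ ∈ A ⊓ (a ⋆ B ⊔ B) := fun b hb => ⟨comm_mem_of_norm ha (n hb),
    mul_mem (mem_sup_left (conj_mem_conj a hb)) (mem_sup_right (inv_mem hb))⟩
  have i : ∀ b ∈ B, a * b * a⁻¹ = b → b = 1 := fun b hb e =>
    mem_bot.1 (t ▸ ⟨e ▸ conj_mem_conj a hb, hb⟩ : b ∈ (⊥ : Subgroup G))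
  have k1 : r ≤ #|A ⊓ (a ⋆ B ⊔ B)| := hB.card ▸ Nat.card_le_card_of_injective
    (fun b : B => (⟨⁅a, b⁆, m b b.2⟩ : (A ⊓ (a ⋆ B ⊔ B) : Subgroup G))) fun b b' e => by
      have e1 : ⁅a, (b : G)⁆ = ⁅a, (b' : G)⁆ := congrArg Subtype.val e
      refine Subtype.ext (inv_mul_eq_one.1 (i _ (mul_mem (inv_mem b.2) b'.2) ?_))
      calc _ = a * (b : G)⁻¹ * a⁻¹ * ⁅a, (b' : G)⁆ * b' := by simp only [commutatorElement_def]; group
        _ = _ := by rw [← e1]; simp only [commutatorElement_def]; group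
  obtain ⟨b, hb, b0⟩ := exists_mem_ne_one hB.ne_bot
  have c0 : ⁅a, b⁆ ≠ 1 := fun e => b0 (i b hb (by
    rw [commutatorElement_eq_one_iff_mul_comm.1 e]; group))
  have k2 : ∀ w ∈ V, ⁅w, b⁆ ∈ 𝐂(A) := fun w hw => hA.cent _ (m b hb).1 c0 ⟨comm_mem_nl hw b,
    cent_le_cent1 (m b hb).2 (by
      rw [cent_sup]
      exact le_inf (h.quad2 hB (hB.conj a) b1 b2 (le_cent_symm (c a ha))) hB.quad
        (commutator_mem_commutator hw hb))⟩
  have k3 := relIndex_le_of_inj (⁅·, a⁆) (X := V) (X₁ := 𝐂(A)) (Y := V) (Y₁ := 𝐂(B))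
    (fun v hv => comm_mem_nl hv a) fun v hv w hw e => by
      have hu := mul_mem (inv_mem hv) hw
      rw [comm_div_ab h.sq.cent hv hw] at e
      generalize v⁻¹ * w = u at hu e
      refine hA.cent _ (m b hb).1 c0 ⟨hu, mem_cent1.2 ?_⟩
      have e1 := mem_cent.1 e b hb
      have e2 := mem_cent.1 (k2 u hu) a ha
      have e3 := mem_cent.1 (h.sq.cent (comm_mem_nl hu a)) _ (comm_mem_nl hu b)
      have e4 : u * (a * b) * u⁻¹ = ⁅u, a⁆ * ⁅u, b⁆ * (a * b) := by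
        rw [mul_assoc ⁅u, a⁆, ← mul_assoc ⁅u, b⁆, ← e2]; simp only [commutatorElement_def]; group
      have e5 : u * (b * a) * u⁻¹ = ⁅u, a⁆ * ⁅u, b⁆ * (b * a) := by
        rw [← e3, mul_assoc ⁅u, b⁆, ← mul_assoc ⁅u, a⁆, ← e1]; simp only [commutatorElement_def]; group
      calc _ = u * (a * b) * u⁻¹ * (u * (b * a) * u⁻¹)⁻¹ * u := by
            simp only [commutatorElement_def]; group
        _ = ⁅u, a⁆ * ⁅u, b⁆ * ⁅a, b⁆ * (⁅u, a⁆ * ⁅u, b⁆)⁻¹ * u := by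
            rw [e4, e5, commutatorElement_def a b]; group
        _ = _ := by
            rw [← mem_cent.1 (mul_mem (hA.comm_mem hu ha).2 (k2 u hu)) _ (m b hb).1]; group
  rw [hA.rel, hB.rel] at k3
  rw [← eq_of_le_of_card_le inf_le_left (hA.card.trans_le (k3.trans k1))]
  exact inf_le_right.trans (sup_le (c a ha) hB.sq.cent)

theorem comm_two (hA : Mem V q A) (hB : Mem V r B) (a1 : A ≤ H) (b1 : B ≤ H)
    (h2 : IsPGroup 2 (A ⊔ B : Subgroup G)) (cA : ∀ b ∈ B, b ⋆ A ≤ 𝐂(A)) (cB : ∀ a ∈ A, a ⋆ B ≤ 𝐂(B)) :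
    A ≤ 𝐍(B) ∨ B ≤ 𝐍(A) := by
  have := h.nrm
  by_contra! hn
  have k0 : #|V| ≤ q * r * #|V ⊓ 𝐂((A ⊔ B : Subgroup G))| := by
    have h1 := card_sup_V h.sq.cent (inf_le_left (b := 𝐂(A))) (inf_le_left (b := 𝐂(B)))
    have h3 := card_le_of_le' (sup_le (inf_le_left (a := V) (b := 𝐂(A))) (inf_le_left (b := 𝐂(B))))
    rw [← inf_inf_distrib_left, ← cent_sup] at h1
    refine Nat.le_of_mul_le_mul_left (c := #|V|) ?_ Nat.card_pos
    nth_rw 1 [hA.idx]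
    nth_rw 1 [hB.idx]
    rw [mul_mul_mul_comm, ← h1, mul_left_comm #|V|]
    gcongr
  have k1 : ∀ {A B : Subgroup G} {r : ℕ}, Mem V r B → A ≤ H → B ≤ H → (∀ a ∈ A, a ⋆ B ≤ 𝐂(B)) →
      ¬ A ≤ 𝐍(B) → ∃ a ∈ A, #|V| = r * r * #|V ⊓ 𝐂((a ⋆ B ⊔ B : Subgroup G))| ∧
        V ⊓ 𝐂((A ⊔ B : Subgroup G)) ≤ V ⊓ 𝐂((a ⋆ B ⊔ B : Subgroup G)) := fun hB a1 b1 c n => by
    obtain ⟨a, ha, ne⟩ := SetLike.not_le_iff_exists.1 n
    exact ⟨a, ha, h.idx2 (hB.conj a) hB (conj_le_of_mem (a1 ha) b1) b1 (mt conj_eq_self_iff.1 ne) (c a ha),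
      inf_le_inf_left _ (cent_anti (sup_le (conj_le_of_mem (mem_sup_left ha) le_sup_right) le_sup_right))⟩
  obtain ⟨a, ha, e1, e2⟩ := k1 hB a1 b1 cB hn.1
  obtain ⟨b, hb, e3, e4⟩ := k1 hA b1 a1 cA hn.2
  rw [sup_comm B] at e4
  have p : 0 < #|V ⊓ 𝐂((A ⊔ B : Subgroup G))| := Nat.card_pos
  have l1 := card_le_of_le' e2
  have l2 := card_le_of_le' e4
  have q1 := hA.one_lt
  have r1 := hB.one_lt
  obtain rfl : q = r := by
    refine le_antisymm (Nat.le_of_mul_le_mul_left (c := q) (Nat.le_of_mul_le_mul_right ?_ p) q1.le)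
      (Nat.le_of_mul_le_mul_right (c := r) (Nat.le_of_mul_le_mul_right ?_ p) r1.le)
    · exact (Nat.mul_le_mul_left _ l2).trans (e3.ge.trans k0)
    · exact (Nat.mul_le_mul_left _ l1).trans (e1.ge.trans k0)
  have p2 : 0 < q * q := by positivity
  have e5 := eq_of_le_of_card_le e2 (Nat.le_of_mul_le_mul_left (e1.ge.trans k0) p2)
  have e6 := eq_of_le_of_card_le e4 (Nat.le_of_mul_le_mul_left (e3.ge.trans k0) p2)
  have sp := h.span_of hA hB ((Nat.mul_le_mul_left _ l1).trans e1.ge)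
  obtain ⟨v, hv, v0, v1⟩ := exists_fix_mod' (Y := 𝐂((A ⊔ B : Subgroup G))) h.sq.two h2
    (by rw [normalizer_eq_top]; exact le_top) fun e => hA.not_le (le_cent_of_le e le_sup_left)
  have k2 : ∀ {B : Subgroup G} {a y : G}, y ∈ V ⊓ 𝐂(B) → a * a = 1 → ⁅y, a⁆ ∈ 𝐂(B) →
      y ∈ V ⊓ 𝐂((a ⋆ B ⊔ B : Subgroup G)) := fun {B a y} hy aa e => by
    rw [cent_sup, ← conj_cent]
    refine ⟨hy.1, mem_conj.2 ?_, hy.2⟩
    have := (𝐂(B)).inv_mem ((𝐂(B)).mul_mem ((𝐂(B)).inv_mem hy.2) e)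
    rw [inv_eq_of_mul_eq_one_right aa]
    simpa [commutatorElement_def, mul_assoc, inv_eq_of_mul_eq_one_right aa] using this
  obtain ⟨x, hx, y, hy, rfl⟩ := (mem_sup_V h.sq.cent inf_le_left inf_le_left).1 (sp hv)
  refine v0 (mul_mem (e6.ge (k2 hx (hB.sq b hb) ?_)).2 (e5.ge (k2 hy (hA.sq a ha) ?_)).2)
  · have := v1 b (mem_sup_right hb)
    rw [comm_mul_cent _ (cent_le_cent1 hb hy.2)] at this
    exact cent_anti le_sup_left this
  · have := v1 a (mem_sup_left ha)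
    rw [mem_cent.1 (h.sq.cent hy.1) x hx.1, comm_mul_cent _ (cent_le_cent1 ha hx.2)] at this
    exact cent_anti le_sup_right this

/-- members in a `2`-group commute -/
theorem comm (hR : IsPGroup 2 R) (h1 : R ≤ H) (hA : Mem V q A) (hB : Mem V r B) (a1 : A ≤ R)
    (b1 : B ≤ R) : A ≤ 𝐂(B) := by
  have := h.nrm
  induction R using WellFoundedLT.induction generalizing A B q r with | _ R ih
  by_contra hn
  obtain rfl : A ⊔ B = R := by
    by_contra e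
    exact hn (ih _ ((sup_le a1 b1).lt_of_ne e) (hR.to_le (sup_le a1 b1)) ((sup_le a1 b1).trans h1) hA hB
      le_sup_left le_sup_right)
  have k : ∀ {D : Subgroup G} {q : ℕ}, Mem V q D → D ≤ A ⊔ B → ∀ g ∈ A ⊔ B, g ⋆ D ≤ 𝐂(D) :=
    fun {D q} hD d1 g hg => by
      obtain ⟨K, k1, k2, k3⟩ := exists_normal_lt (pgroup_nil Nat.prime_two hR) (d1.lt_of_ne fun e =>
        hn (le_sup_left.trans (e ▸ le_cent_of_le hD.sq.cent (e ▸ le_sup_right))))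
      exact ih K k2 (hR.to_le k2.le) (k2.le.trans h1) (hD.conj g) hD (conj_le_of_mem_norm (k3 hg) k1) k1
  have cA : ∀ b ∈ B, b ⋆ A ≤ 𝐂(A) := fun b hb => k hA a1 b (b1 hb)
  have cB : ∀ a ∈ A, a ⋆ B ≤ 𝐂(B) := fun a ha => k hB b1 a (a1 ha)
  rcases h.comm_two hA hB (a1.trans h1) (b1.trans h1) hR cA cB with e | e
  · exact hn (le_cent_symm (h.comm_one hB hA (b1.trans h1) (a1.trans h1) e cA))
  · exact hn (h.comm_one hA hB (a1.trans h1) (b1.trans h1) e cB)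

end MF

theorem QC.fm_eq {L : Subgroup G} (h : QC V L A q) : fm V (A ⊓ core {2} L) = fm V A := by
  rw [fm, fm, h.eq, h.card]; ring

theorem QC.lt {L : Subgroup G} (h : QC V L A q) : A ⊓ core {2} L < A :=
  inf_le_left.lt_of_ne fun e => by
    have := h.card
    rw [e] at this
    exact h.one_lt.ne' (Nat.eq_of_mul_eq_mul_right Nat.card_pos (this.symm.trans (one_mul _).symm))

end

variable [hQ : QL.{u}] {G : Type u} [Group G] [Finite G] {V H T M A E : Subgroup G}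

namespace MH

variable (h : MH V H T M)
include h

theorem red (hA : Qb V A) (a1 : A ≤ H) (a0 : A ≠ ⊥) :
    ∃ D < A, fm V D = fm V A ∧ (D = ⊥ → ∃ q, Mem V q A) := by
  have := h.nrm
  obtain ⟨g, -, L, M', hL⟩ := h.ll hA a1 a0
  obtain ⟨q, c⟩ := hQ.one hL
  refine ⟨g⁻¹ ⋆ (g ⋆ A ⊓ FT.core {2} L), by simpa only [inv_conj_conj] using (conj_lt_conj_iff (g := g⁻¹)).2 c.lt,
    by rw [fm_conj, c.fm_eq, fm_conj], fun e => ⟨q, ?_⟩⟩
  rw [conj_eq_bot_iff] at e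
  have : Mem V q (g ⋆ A) := ⟨hL.sq, hL.quad, by simpa [e] using c.card, c.one_lt, by simpa [e] using c.eq,
    fun a ha a0 v hv => by
      obtain ⟨y, hy, x, hx, rfl⟩ := (mem_sup_V h.sq.cent inf_le_left inf_le_left).1
        (c.sup (show v ∈ _ by simpa [e] using hv.1))
      exact mul_mem (c.cent a ha (fun e' => a0 (mem_bot.1 (e ▸ ⟨ha, e'⟩ : a ∈ (⊥ : Subgroup G))))
        ⟨hy, (mul_mem_cancel_right (cent_le_cent1 ha hx.2)).1 hv.2⟩) hx.2⟩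
  simpa only [inv_conj_conj] using this.conj g⁻¹

theorem mf : MF V H := by
  have k : ∀ A, Qb V A → A ≤ H → fm V A ≤ #|V| := fun A => by
    induction A using WellFoundedLT.induction with | _ A ih
    intro hA a1
    by_cases a0 : A = ⊥
    · rw [a0, fm_bot]
    obtain ⟨D, d1, d2, -⟩ := h.red hA a1 a0
    exact d2 ▸ ih D d1 (hA.of_le d1.le d2) (d1.le.trans a1)
  refine ⟨h.toMd, fun E e1 e2 => not_lt.1 fun e => ?_⟩
  obtain ⟨A, a1, -, a2, a3⟩ := h.toMd.timm e1 e2 (by rintro rfl; exact e.ne (fm_bot V).symm) e.le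
  exact (e.trans_le a3).not_ge (k A a2 (a1.trans e1))

theorem exists_mem (e1 : E ≤ H) (e2 : Sq E) (e0 : E ≠ ⊥) (e3 : #|V| ≤ fm V E) :
    ∃ A ≤ E, ∃ q, Mem V q A := by
  obtain ⟨A, a1, a0, hA, -⟩ := h.toMd.timm e1 e2 e0 e3
  induction A using WellFoundedLT.induction with | _ A ih
  obtain ⟨D, d1, d2, d3⟩ := h.red hA (a1.trans e1) a0
  by_cases d0 : D = ⊥
  exacts [⟨A, a1, d3 d0⟩, ih D d1 (d1.le.trans a1) d0 (hA.of_le d1.le d2)]

end MH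

end Cfsg.Agent.Pu
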