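import Cfsg.Agent.Pu.P2

/-! `P(G,V)`: the subgroup generated by the members in `T`. -/

set_option autoImplicit false
set_option linter.unusedSectionVars false

universe u

namespace Cfsg.Agent.Pu

open Subgroup Cfsg Cfsg.Agent.H1 Cfsg.Agent.L Cfsg.Agent.FT Cfsg.Agent.Sg Cfsg.Agent.R1
  Cfsg.Agent.St
open scoped Pointwise commutatorElement

section
variable {G : Type*} [Group G] [Finite G] {V H T M A B E K P L Z : Subgroup G} {g : G} {q r : ℕ}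
  {𝒳 : Set (Subgroup G)}

theorem sc_ctrl (h : SC E) {S : Sylow 2 G} (hS : E ≤ S) (hP : P ≤ S) (hg : g ⋆ P ≤ S) :
    ∃ n ∈ 𝐍(E), ∀ a ∈ P, n * a * n⁻¹ = g * a * g⁻¹ := by
  have hSN : (S : Subgroup G) ≤ 𝐍(E) := h.sci.le_norm S.2 hS le_top
  have h1 : (groupFusionSystem (S : Subgroup G)).StronglyClosed E := by
    refine ⟨hS, ?_⟩
    rintro R hR φ ⟨-, h2, c, hc⟩ x
    rw [hc]; exact h.mem _ (hR x.2) c (hSN (hc x ▸ h2 x))
  obtain ⟨-, h2⟩ := h1.isNormal_of_comm (L.isSaturated_groupFusionSystem S) S.2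
    (comm_eq_bot_iff.2 h.comm)
  obtain ⟨ψ, ⟨-, -, n, hn⟩, h3, h4⟩ := h2 P (conjHom P g)
    ⟨hP, fun x => hg (conj_mem_conj g x.2), g, fun _ => rfl⟩
  refine ⟨n, mem_norm_of_conj_le fun x hx => ?_, fun a ha => ?_⟩
  · obtain ⟨e, he, rfl⟩ := mem_conj'.1 hx
    rw [← h4]
    exact ⟨⟨e, mem_sup_right he⟩, he, hn _⟩
  · exact (hn ⟨a, mem_sup_left ha⟩).symm.trans (h3 ⟨a, ha⟩)

theorem sci_ctrl (h : SCI H Z) (hT : IsSylowIn 2 T H) (hZ : Z ≤ T) (hP : P ≤ T) (hg : g ∈ H)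
    (h2 : g ⋆ P ≤ T) : ∃ n ∈ H ⊓ 𝐍(Z), ∀ a ∈ P, n * a * n⁻¹ = g * a * g⁻¹ := by
  obtain ⟨n, hn, e⟩ := sc_ctrl h.sub (S := hT.toSylow) (P := P.subgroupOf H) (g := ⟨g, hg⟩)
    (comap_mono hZ) (comap_mono hP) fun x hx => by
      obtain ⟨y, hy, rfl⟩ := mem_conj'.1 hx
      exact h2 (conj_mem_conj g hy)
  have := map_norm_le H.subtype _ (mem_map_of_mem H.subtype hn)
  rw [subgroupOf_map_subtype, inf_of_le_left h.le] at this
  exact ⟨n, ⟨n.2, this⟩, fun a ha => congrArg Subtype.val (e ⟨a, hT.le (hP ha)⟩ ha)⟩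

omit [Finite G] in
theorem conj_sSup_le (h : ∀ B ∈ 𝒳, g ⋆ B ≤ K) : g ⋆ sSup 𝒳 ≤ K :=
  conj_le_iff.2 (sSup_le fun B hB => conj_le_iff.1 (h B hB))

omit [Finite G] in
theorem le_cent_sSup (h : ∀ B ∈ 𝒳, K ≤ 𝐂(B)) : K ≤ 𝐂((sSup 𝒳 : Subgroup G)) :=
  le_cent_symm (sSup_le fun B hB => le_cent_symm (h B hB))

/-- the members in `T` -/
def Xs (V T : Subgroup G) : Set (Subgroup G) := {A | A ≤ T ∧ ∃ q, Mem V q A}

/-- the subgroup generated by the members in `T` -/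
def Ws (V T : Subgroup G) : Subgroup G := sSup (Xs V T)

/-- the subgroup generated by the members in `T` other than `A` -/
def W1 (V T A : Subgroup G) : Subgroup G := sSup (Xs V T \ {A})

theorem le_Ws (h : A ∈ Xs V T) : A ≤ Ws V T := le_sSup h

theorem le_W1 (h : B ∈ Xs V T) (ne : B ≠ A) : B ≤ W1 V T A := le_sSup ⟨h, ne⟩

theorem Ws_le : Ws V T ≤ T := sSup_le fun _ h => h.1

theorem W1_le : W1 V T A ≤ Ws V T := sSup_le_sSup Set.sdiff_subset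

theorem Ws_eq (h : A ∈ Xs V T) : A ⊔ W1 V T A = Ws V T :=
  le_antisymm (sup_le (le_Ws h) W1_le) (sSup_le fun B hB => by
    by_cases e : B = A
    exacts [e.le.trans le_sup_left, (le_W1 hB e).trans le_sup_right])

theorem Xs.conj [V.Normal] (h : A ∈ Xs V T) (e : g ⋆ A ≤ K) : g ⋆ A ∈ Xs V K :=
  ⟨e, h.2.imp fun _ h => h.conj g⟩

theorem mem_norm_W1 [V.Normal] (hg : g ∈ T) (e : g ⋆ A = A) : g ∈ 𝐍(W1 V T A) :=
  mem_norm_of_conj_le (conj_sSup_le fun _ hB => le_W1 (Xs.conj hB.1 (conj_le_of_mem hg hB.1.1))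
    fun e' => hB.2 (conj_eq_conj_iff.1 (e'.trans e.symm)))

theorem MF.ws (h : MF V H) (h1 : T ≤ H) (h2 : IsPGroup 2 T) :
    Sq (Ws V T) ∧ ⁅V, Ws V T⁆ ≤ 𝐂(Ws V T) ∧ #|V| ≤ fm V (Ws V T) := by
  have c : ∀ A ∈ Xs V T, ∀ B ∈ Xs V T, A ≤ 𝐂(B) := fun A ⟨a1, _, hA⟩ B ⟨b1, _, hB⟩ =>
    h.comm h2 h1 hA hB a1 b1
  have k : ∀ 𝒳 ⊆ Xs V T, Sq (sSup 𝒳) ∧ (∀ B ∈ Xs V T, ⁅V, sSup 𝒳⁆ ≤ 𝐂(B)) ∧
      #|V| ≤ fm V (sSup 𝒳) := fun 𝒳 hX => by
    induction 𝒳, 𝒳.toFinite using Set.Finite.induction_on with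
    | empty => simp [Sq, fm_bot]
    | @insert A 𝒳 _ _ ih =>
      obtain ⟨hA, hX⟩ := Set.insert_subset_iff.1 hX
      obtain ⟨i1, i2, i3⟩ := ih hX
      obtain ⟨a1, q, a2⟩ := id hA
      have c1 := le_cent_sSup fun B hB => c A hA B (hX hB)
      rw [sSup_insert]
      refine ⟨sq_sup a2.sq i1 c1, fun B hB => ?_, (h.ex_sup (a1.trans h1)
        (sSup_le fun B hB => (hX hB).1.trans h1) a2.sq i1 c1 a2.fm_eq.ge i3).1⟩
      obtain ⟨b1, r, b2⟩ := id hB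
      exact comm_sup_right_le' (h.quad2 a2 b2 (a1.trans h1) (b1.trans h1) (c A hA B hB)) (i2 B hB)
        ((c A hA B hB).trans le_normalizer)
        ((sSup_le fun D hD => c D (hX hD) B hB).trans le_normalizer)
  obtain ⟨k1, k2, k3⟩ := k _ subset_rfl
  exact ⟨k1, le_cent_sSup k2, k3⟩

theorem MH.wc (h : MH V H T M) (e : g ⋆ Ws V T ≤ T) : g ⋆ Ws V T ≤ Ws V T :=
  have := h.nrm
  conj_sSup_le fun _ hB => le_Ws (Xs.conj hB ((conj_mono g (le_Ws hB)).trans e))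

theorem MH.norm_Ws (h : MH V H T M) : T ≤ 𝐍(Ws V T) :=
  le_norm_of_conj fun _ ht => h.wc (conj_le_of_mem ht Ws_le)

theorem MH.mem_le (h : MH V H T M) (h1 : P ≤ H) (h2 : IsPGroup 2 P) (h3 : Ws V T ≤ P)
    (hB : Mem V q B) (b1 : B ≤ P) : B ≤ Ws V T := by
  have := h.nrm
  obtain ⟨g, -, e⟩ := sylow_exists_conj_le Nat.prime_two h.syl h1 h2
  rw [← conj_le_conj_iff (g := g),
    conj_of_mem_norm (mem_norm_of_conj_le (h.wc ((conj_mono g h3).trans e)))]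
  exact le_Ws ⟨(conj_mono g b1).trans e, q, hB.conj g⟩

/-- the first stage -/
structure Sa (V H T M : Subgroup G) (q : ℕ) (A L : Subgroup G) (ℓ : Set (Subgroup G)) : Prop
    extends MH V H T M where
  big : Bg H M (Ws V T)
  AT : A ≤ T
  line : Line V q ℓ L
  mem : A ∈ ℓ
  LH : L ≤ H
  nM : ∀ g ∈ L, g ∈ M → g ⋆ A = A
  cL : W1 V T A ≤ 𝐂(L)
  cY : ⁅V, L⁆ ≤ 𝐂(W1 V T A)
  qB : ∀ B ∈ Xs V T, B ≠ A → ⁅V, B⁆ ≤ 𝐂(L)
  disj : A ⊓ W1 V T A = ⊥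

end

variable [hQ : QL.{u}] {G : Type u} [Group G] [Finite G] {V H T M A E : Subgroup G}

theorem MH.sa (h : MH V H T M) (h0 : Ws V T ≠ ⊥) : ∃ q A L ℓ, Sa V H T M q A L ℓ := by
  have := h.nrm
  have f := h.mf
  obtain ⟨w1, w2, w3⟩ := f.ws h.TH h.syl.isPGroup
  have wH : Ws V T ≤ H := Ws_le.trans h.TH
  have big := h.big_of_wc Ws_le h0 fun _ _ => h.wc
  obtain ⟨L, LH, -, hL⟩ := h.ll0 (U := ⊥) (K := H)
    ⟨w1, w2, fun B hB => (f.f2 B (hB.trans wH) (w1.of_le hB)).trans w3⟩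
    (sup_le (Ws_le.trans h.le) bot_le) IsPGroup.of_bot (big.mono le_sup_left) (sup_le wH bot_le) le_rfl
    h.lt.not_ge (norm_bot (G := G) ▸ le_top)
  obtain ⟨q₀, c⟩ := hQ.one hL
  obtain ⟨x, xL, xM⟩ := SetLike.exists_of_lt hL.lt
  have wL : Ws V T ≤ L := hL.le.trans inf_le_left
  have nO := (core_normal {2} L).norm
  have OH := (core_le {2} L).trans LH
  generalize hO : FT.core {2} L = O at nO OH
  have o2 : IsPGroup 2 O := hO ▸ core_pgroup Nat.prime_two L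
  have k1 : ∀ {B : Subgroup G} {r : ℕ}, Mem V r B → B ≤ O → B ≤ Ws V T := fun hB b1 =>
    h.mem_le (sup_le wH OH) (pgroup_sup w1.two o2 (.inl (wL.trans nO))) le_sup_left hB
      (b1.trans le_sup_right)
  have k2 : ∀ {B : Subgroup G} {r : ℕ}, Mem V r B → B ≤ O → B ≤ x ⋆ Ws V T := fun hB b1 =>
    le_conj_iff.2 (k1 (hB.conj _) (conj_le_of_mem_norm (nO (inv_mem xL)) b1))
  have k3 : ∀ {B : Subgroup G} {r : ℕ}, Mem V r B → B ≤ Ws V T → ¬ B ≤ O → B ⊓ O = ⊥ :=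
    fun {B r} hB b1 b2 => by
      by_contra e
      obtain ⟨b, ⟨hb, hb'⟩, b0⟩ := exists_mem_ne_one e
      obtain ⟨a, ha, ha'⟩ := SetLike.not_le_iff_exists.1 b2
      have e1 : V ⊓ 𝐂(O) ≤ 𝐂(Ws V T) := fun v hv => c.cent a (b1 ha) (hO ▸ ha')
        ⟨hO ▸ hv, cent_le_cent1 ha (hB.cent b hb b0 ⟨hv.1, cent_le_cent1 hb' hv.2⟩)⟩
      have e2 := card_le_of_le' (c.sup.trans (sup_le (hO ▸ le_inf inf_le_left e1) le_rfl))
      rw [c.eq] at e2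
      exact c.one_lt.not_ge (Nat.le_of_mul_le_mul_right (e2.trans_eq (one_mul _).symm) Nat.card_pos)
  obtain ⟨A, hA, AO⟩ : ∃ A ∈ Xs V T, ¬ A ≤ O := by
    by_contra! e
    exact c.lt.not_ge (le_inf le_rfl (hO ▸ sSup_le e))
  obtain ⟨AT, q, mA⟩ := id hA
  have AW := le_Ws hA
  obtain ⟨ℓ, l1, l2, -, l3, l4⟩ := hQ.two hL mA AW (hO ▸ AO) xL xM
  rw [hO] at l3
  have k4 : ∀ {B : Subgroup G} {r : ℕ}, Mem V r B → B ≤ O → B ≤ 𝐂((A ⊔ x ⋆ A : Subgroup G)) ∧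
      ⁅V, B⁆ ≤ 𝐂((A ⊔ x ⋆ A : Subgroup G)) ∧ ⁅V, A ⊔ x ⋆ A⁆ ≤ 𝐂(B) := fun {B r} hB b1 => by
    have e1 := k1 hB b1
    have e2 := k2 hB b1
    have e3 := (sq_conj w1 x).cent
    have e4 := quad_conj w2 x
    have e5 := conj_mono x AW
    rw [cent_sup]
    exact ⟨le_inf (e1.trans (le_cent_of_le w1.cent AW)) (e2.trans (le_cent_of_le e3 e5)),
      le_inf ((commutator_mono le_rfl e1).trans (le_cent_of_le w2 AW))
        ((commutator_mono le_rfl e2).trans (le_cent_of_le e4 e5)),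
      comm_sup_right_le' ((commutator_mono le_rfl AW).trans (le_cent_of_le w2 e1))
        ((commutator_mono le_rfl e5).trans (le_cent_of_le e4 e2))
        ((AW.trans (le_cent_of_le w1.cent e1)).trans le_normalizer)
        ((e5.trans (le_cent_of_le e3 e2)).trans le_normalizer)⟩
  have k5 : ∀ B ∈ Xs V T, B ≠ A → B ≤ O := fun B hB ne => by
    by_contra BO
    obtain ⟨BT, r, mB⟩ := id hB
    have BW := le_Ws hB
    have cAB : A ≤ 𝐂(B) := AW.trans (le_cent_of_le w1.cent BW)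
    have sW := sup_le AW BW
    have i2 := f.idx2 mA mB (AW.trans wH) (BW.trans wH) ne.symm cAB
    have e1 : A ⊔ O ⊓ (A ⊔ B) = A ⊔ B := by
      rw [← sup_inf_modular le_sup_left (.inr ((AW.trans wL).trans nO)), inf_eq_right.2 (sW.trans l3)]
    have e2 : #|O ⊓ (A ⊔ B)| = r := by
      have a1 := card_sup_mul_card_inf (le_norm_of_le_cent cAB)
      have a2 := card_sup_mul_card_inf (H := A) (N := O ⊓ (A ⊔ B))
        (le_norm_of_le_cent (AW.trans (le_cent_of_le w1.cent (inf_le_right.trans sW))))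
      rw [f.ti mA mB (AW.trans wH) (BW.trans wH) ne.symm, mB.card] at a1
      rw [e1, ← inf_assoc, k3 mA AW AO, bot_inf_eq, a1] at a2
      exact (Nat.eq_of_mul_eq_mul_left Nat.card_pos a2).symm
    have e3 : #|V| = r * #|V ⊓ 𝐂((O ⊓ (A ⊔ B) : Subgroup G))| := by
      have a1 := (f.ex_sup (inf_le_left.trans wH) (sW.trans wH) (w1.of_le (inf_le_left (b := O)))
        (w1.of_le sW) (inf_le_left.trans (le_cent_of_le w1.cent sW)) (w3.trans_eq (hO ▸ c.fm_eq.symm))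
        (f.ex_sup (AW.trans wH) (BW.trans wH) mA.sq mB.sq cAB mA.fm_eq.ge mB.fm_eq.ge).1).2
      rw [inf_comm (Ws V T), inf_assoc, inf_eq_right.2 sW] at a1
      exact e2 ▸ le_antisymm a1 (f.f2 _ ((inf_le_right.trans sW).trans wH)
        (w1.of_le (inf_le_right.trans sW)))
    have e4 : ∀ d ∈ O ⊓ (A ⊔ B), d ≠ 1 → ∃ a ∈ A, ∃ b ∈ B, a * b = d ∧ a ≠ 1 ∧ b ≠ 1 := fun d hd d0 => by
      obtain ⟨a, ha, b, hb, rfl⟩ := (H1.mem_sup_of_le_normalizer (le_norm_of_le_cent cAB)).1 hd.2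
      refine ⟨a, ha, b, hb, rfl, ?_, ?_⟩ <;> rintro rfl
      · exact d0 (mem_bot.1 (k3 mB BW BO ▸ ⟨by simpa using hb, hd.1⟩ : _ ∈ (⊥ : Subgroup G)))
      · exact d0 (mem_bot.1 (k3 mA AW AO ▸ ⟨by simpa using ha, hd.1⟩ : _ ∈ (⊥ : Subgroup G)))
    have mD : Mem V r (O ⊓ (A ⊔ B)) := ⟨w1.of_le (inf_le_right.trans sW),
      (commutator_mono le_rfl (inf_le_right.trans sW)).trans (le_cent_of_le w2 (inf_le_right.trans sW)),
      e2, mB.one_lt, e3, fun d hd d0 => by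
        obtain ⟨a, ha, b, hb, rfl, -, b0⟩ := e4 d hd d0
        have a1 := card_inf_mul_relIndex 𝐂(A) (V ⊓ 𝐂[a * b])
        have a2 := (idx_le_right (inf_le_left (a := V) (b := 𝐂[a * b])) 𝐂(A)).trans_eq mA.rel
        have a3 : #|𝐂(A) ⊓ (V ⊓ 𝐂[a * b])| ≤ #|V ⊓ 𝐂((A ⊔ B : Subgroup G))| := card_le_of_le' fun v hv => by
          rw [cent_sup]
          refine ⟨hv.2.1, hv.1, mB.cent b hb b0 ⟨hv.2.1, mem_cent1_comm.1 ?_⟩⟩
          exact (mul_mem_cancel_left (mem_cent1_comm.1 (cent_le_cent1 ha hv.1))).1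
            (mem_cent1_comm.1 hv.2.2)
        refine (eq_of_le_of_card_le (inf_le_inf_left V (cent_le_cent1 hd))
          (Nat.le_of_mul_le_mul_left ?_ mB.one_lt.le)).ge.trans inf_le_right
        rw [← e3, i2, ← a1]
        calc _ ≤ r * (#|V ⊓ 𝐂((A ⊔ B : Subgroup G))| * q) := by gcongr
          _ = _ := by ring⟩
    obtain ⟨d, hd, d0⟩ := exists_mem_ne_one mD.ne_bot
    obtain ⟨a, ha, b, hb, rfl, a0, -⟩ := e4 d hd d0
    refine mA.not_le ((f.span_of mA mB i2.ge).trans (sup_le inf_le_right fun v hv =>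
      l1.pure A l2 a ha a0 v hv.1 ?_))
    have a1 := (k4 mD inf_le_left).2.1 (commutator_mem_commutator hv.1 hd)
    have a2 := comm_eq_one_iff.2 (cent_le_cent1 hb hv.2)
    rwa [comm_mul_quad v (a2 ▸ one_mem _), a2, mul_one] at a1
  exact ⟨q, A, _, ℓ, h, big, AT, l1, l2,
    sup_le (AW.trans wH) (conj_le_of_mem (LH xL) (AW.trans wH)),
    fun g hg hm => (l4 g hg).2 ⟨sup_le (AW.trans wL) (conj_le_of_mem xL (AW.trans wL)) hg, hm⟩,
    sSup_le fun B hB => let ⟨_, m⟩ := hB.1.2; (k4 m (k5 B hB.1 hB.2)).1,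
    le_cent_sSup fun B hB => let ⟨_, m⟩ := hB.1.2; (k4 m (k5 B hB.1 hB.2)).2.2,
    fun B hB ne => let ⟨_, m⟩ := hB.2; (k4 m (k5 B hB ne)).2.1,
    le_bot_iff.1 (k3 mA AW AO ▸ inf_le_inf_left A (sSup_le fun B hB => k5 B hB.1 hB.2))⟩

end Cfsg.Agent.Pu
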