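import Cfsg.Agent.Pu.P3

/-! `P(G,V)`: the conclusion. -/

set_option autoImplicit false
set_option linter.unusedSectionVars false

universe u

namespace Cfsg.Agent.Pu

open Subgroup Cfsg Cfsg.Agent.H1 Cfsg.Agent.L Cfsg.Agent.FT Cfsg.Agent.Sg Cfsg.Agent.R1
  Cfsg.Agent.St
open scoped Pointwise commutatorElement

variable [hQ : QL.{u}] {G : Type u} [Group G] [Finite G] {V H T M A B E L Z : Subgroup G} {q : ℕ}
  {ℓ : Set (Subgroup G)} {a c g : G}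

namespace Sa

variable (h : Sa V H T M q A L ℓ)
include h

theorem mA : Mem V q A := h.line.mem A h.mem

theorem xA : A ∈ Xs V T := ⟨h.AT, q, h.mA⟩

theorem AH : A ≤ H := h.AT.trans h.syl.le

theorem WH : Ws V T ≤ H := Ws_le.trans h.syl.le

theorem ws : Sq (Ws V T) ∧ ⁅V, Ws V T⁆ ≤ 𝐂(Ws V T) ∧ #|V| ≤ fm V (Ws V T) :=
  h.toMH.mf.ws h.syl.le h.syl.isPGroup

theorem cA1 : A ≤ 𝐂(W1 V T A) := (le_Ws h.xA).trans (le_cent_of_le h.ws.1.cent W1_le)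

theorem notM : ¬ L ≤ M := fun e => by
  have := h.nrm
  obtain ⟨D, hD, ne⟩ := h.line.exists_ne A
  obtain ⟨d, hd, d0⟩ := exists_mem_ne_one (h.line.mem D hD).ne_bot
  exact h.line.conj_ne hD h.mem ne hd d0 (h.nM d (h.line.le hD hd) (e (h.line.le hD hd)))

theorem orb (hB : B ∈ Xs V T) : ∃ t ∈ T, B = t ⋆ A := by
  have := h.nrm
  by_contra! hn
  have e : sSup {B ∈ Xs V T | ∀ t ∈ T, B ≠ t ⋆ A} ≤ W1 V T A :=
    sSup_le fun B hB => le_W1 hB.1 (by simpa using hB.2 1 (one_mem _))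
  have := h.toMH.eq_bot_of ((e.trans W1_le).trans h.WH) (h.ws.1.two.to_le (e.trans W1_le))
    (le_norm_of_conj fun t ht => conj_sSup_le fun D hD => le_sSup ⟨Xs.conj hD.1 (conj_le_of_mem ht hD.1.1),
      fun s hs e => hD.2 _ (mul_mem (inv_mem ht) hs) (by rw [mul_conj, ← e, inv_conj_conj])⟩)
    (le_norm_of_le_cent (le_cent_symm (e.trans h.cL))) h.LH h.notM
  obtain ⟨_, m⟩ := hB.2
  exact m.ne_bot (le_bot_iff.1 (this ▸ le_sSup ⟨hB, hn⟩))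

theorem conj_Ws (hc : c ∈ 𝐍(W1 V T A)) : c ⋆ Ws V T = c ⋆ A ⊔ W1 V T A := by
  rw [← Ws_eq h.xA, conj_sup, conj_of_mem_norm hc]

theorem nA (h1 : c ∈ H) (hc : c ∈ 𝐍(W1 V T A)) (e : c ⋆ A = A) : c ∈ M :=
  h.big c h1 (by rw [h.conj_Ws hc, e, Ws_eq h.xA]; exact Ws_le.trans h.le)

theorem cA2 (hc : c ∈ 𝐍(W1 V T A)) : c ⋆ A ≤ 𝐂(W1 V T A) :=
  conj_le_of_mem_norm (norm_le_norm_cent _ hc) h.cA1

theorem base_a (h1 : c ∈ H) (hc : c ∈ 𝐍(W1 V T A)) (h2 : c ∉ M) : V ≤ V ⊓ 𝐂(A) ⊔ V ⊓ 𝐂(c ⋆ A) := by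
  have := h.nrm
  have f := h.toMH.mf
  have e := Ws_eq h.xA
  have n : A ⊔ c ⋆ A ≤ 𝐂(W1 V T A) := sup_le h.cA1 (h.cA2 hc)
  obtain ⟨K, k1, -, hK⟩ := h.toMH.ll0 (U := W1 V T A) (K := (A ⊔ c ⋆ A) ⊔ W1 V T A) (f.qb h.mA h.AH)
    (e ▸ Ws_le.trans h.le) (h.ws.1.two.to_le W1_le) (e ▸ h.big) (sup_le_sup_right le_sup_left _)
    (sup_le (sup_le h.AH (conj_le_of_mem h1 h.AH)) (W1_le.trans h.WH))
    (fun e => h2 (h.big c h1 (h.conj_Ws hc ▸ (sup_le_sup_right le_sup_right _).trans e)))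
    (sup_le (le_norm_of_le_cent n) le_normalizer)
  obtain ⟨q₁, c1⟩ := hQ.one hK
  obtain ⟨y, y1, y2⟩ := SetLike.exists_of_lt hK.lt
  obtain ⟨ℓ₁, l1, -⟩ := hQ.two hK h.mA le_rfl (fun e => c1.lt.not_ge (le_inf le_rfl e)) y1 y2
  obtain ⟨z, hz, w, hw, rfl⟩ := (H1.mem_sup_of_le_normalizer (le_norm_of_le_cent n)).1 (k1 y1)
  rw [mul_conj, conj_of_mem_norm (le_norm_of_le_cent (le_cent_symm h.cA1) hw)] at l1
  refine f.span_of h.mA (h.mA.conj c) (le_of_le_of_eq (Nat.mul_le_mul_left _ (card_le_of_le'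
    (inf_le_inf_left _ (cent_anti ?_)))) (l1.card_V h.sq.cent).symm)
  exact sup_le le_sup_left (conj_le_of_mem hz le_sup_left)

theorem base_b (hZ : SCI H Z) (z1 : Z ≤ T) (z0 : Z ≠ ⊥) (ha : a ∈ A) (a0 : a ≠ 1) (h1 : c ∈ H)
    (hc : c ∈ 𝐍(W1 V T A)) (h2 : c * a * c⁻¹ ∈ M) : c ∈ M := by
  have := h.nrm
  have p1 : zpowers a ⊔ W1 V T A ≤ Ws V T := sup_le (zpowers_le.2 (le_Ws h.xA ha)) W1_le
  obtain ⟨m, hm, e⟩ := h.toMH.conj_le (R := c ⋆ (zpowers a ⊔ W1 V T A)) (by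
    rw [conj_sup, conj_zpowers, conj_of_mem_norm hc]
    exact sup_le (zpowers_le.2 h2) ((W1_le.trans Ws_le).trans h.le))
    (pgroup_conj (h.ws.1.two.to_le p1) c)
  rw [← mul_conj] at e
  have mc := mul_mem (h.lt.le hm) h1
  obtain ⟨n, hn, e1⟩ := sci_ctrl hZ h.syl z1 (p1.trans Ws_le) mc e
  have e2 : n⁻¹ * (m * c) ∈ 𝐂((zpowers a ⊔ W1 V T A : Subgroup G)) := mem_cent.2 fun y hy => by
    calc _ = n⁻¹ * (n * y * n⁻¹) * (m * c) := by group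
      _ = _ := by rw [e1 y hy]; group
  have e3 := H.mul_mem (H.inv_mem hn.1) mc
  have e4 := h.nA e3 (cent_le_norm _ (cent_anti le_sup_right e2)) (by_contra fun ne => a0 (mem_bot.1
    (h.toMH.mf.ti (h.mA.conj _) h.mA (conj_le_of_mem e3 h.AH) h.AH ne ▸ ⟨mem_conj.2 (by
      rw [mul_assoc, mem_cent.1 e2 a (mem_sup_left (mem_zpowers a)), inv_mul_cancel_left]
      exact ha), ha⟩ : a ∈ (⊥ : Subgroup G))))
  exact (mul_mem_cancel_left hm).1 ((mul_mem_cancel_left (inv_mem (h.toMH.norm_le z0 hZ.le hZ.two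
    (hZ.le_norm h.syl.isPGroup z1 h.syl.le) hn))).1 e4)

theorem base_d (h1 : c ∈ H) (hc : c ∈ 𝐍(W1 V T A)) (h2 : c ⋆ A ≤ 𝐂(A)) : c ⋆ A = A := by
  have := h.nrm
  have m := h.mA.conj c
  have e := h.toMH.mem_le (sup_le h.WH (conj_le_of_mem h1 h.AH)) (pgroup_sup h.ws.1.two m.sq.two
    (.inr (le_norm_of_le_cent (by rw [← Ws_eq h.xA, cent_sup]; exact le_inf h2 (h.cA2 hc)))))
    le_sup_left m le_sup_right
  by_contra ne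
  have e1 := le_W1 ⟨e.trans Ws_le, q, m⟩ ne
  exact h.mA.ne_bot (le_bot_iff.1 (h.disj ▸ le_inf le_rfl (conj_le_conj_iff.1
    (e1.trans_eq (conj_of_mem_norm hc).symm))))

theorem perm [hL : LN.{u}] (hZ : SCI H Z) (z1 : Z ≤ T) (z0 : Z ≠ ⊥) (h1 : c ∈ H)
    (hc : c ∈ 𝐍(W1 V T A)) : ∀ D ∈ ℓ, c ⋆ D ∈ ℓ := by
  classical
  have := h.nrm
  set N := H ⊓ 𝐍(W1 V T A)
  have LN' : L ≤ N := le_inf h.LH (le_norm_of_le_cent (le_cent_symm h.cL))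
  let ω : Subgroup G → G ⧸ M := fun D => if e : ∃ g ∈ N, D = g ⋆ A then (e.choose : G ⧸ M) else (1 : G)
  have hω : ∀ g ∈ N, ω (g ⋆ A) = g := fun g hg => by
    have e : ∃ k ∈ N, g ⋆ A = k ⋆ A := ⟨g, hg, rfl⟩
    have e1 := mul_mem (inv_mem e.choose_spec.1) hg
    exact (dif_pos e).trans (QuotientGroup.eq.2 (h.nA e1.1 e1.2 (by
      rw [mul_conj, conj_eq_iff, inv_inv]; exact e.choose_spec.2)))
  have tr : ∀ k ∈ N, ∀ D ∈ (k ⋆ ·) '' ℓ, ∃ l ∈ L, D = (k * l) ⋆ A := by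
    rintro k - _ ⟨D, hD, rfl⟩
    obtain ⟨l, hl, rfl⟩ := h.line.trans h.mem hD
    exact ⟨l, hl, (mul_conj _ _ _).symm⟩
  have ln : ∀ k ∈ N, (k ⋆ ·) '' ℓ ⊆ {D | ∃ g ∈ N, D = g ⋆ A} ∧ Set.InjOn ω ((k ⋆ ·) '' ℓ) := fun k hk =>
    ⟨fun D hD => let ⟨l, hl, e⟩ := tr k hk D hD; ⟨_, mul_mem hk (LN' hl), e⟩, fun D hD E hE e => by
      obtain ⟨l, hl, rfl⟩ := tr k hk D hD
      obtain ⟨l', hl', rfl⟩ := tr k hk E hE
      rw [hω _ (mul_mem hk (LN' hl)), hω _ (mul_mem hk (LN' hl')), QuotientGroup.eq, mul_inv_rev,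
        mul_assoc, inv_mul_cancel_left] at e
      have := h.nM _ (mul_mem (inv_mem hl) hl') e
      rw [mul_conj, conj_eq_iff, inv_inv] at this
      rw [mul_conj, mul_conj, this]⟩
  have l1 := ln 1 (one_mem _)
  simp only [one_conj, Set.image_id'] at l1
  have key := hL.all (𝒟 := {D | ∃ g ∈ N, D = g ⋆ A}) ω h.nrm h.sq
    (by rintro _ ⟨g, -, rfl⟩; exact h.mA.conj g) ?_ ?_ ?_ ?_ ℓ L h.line l1.1 l1.2
  · intro D hD
    obtain ⟨g, hg, rfl⟩ := l1.1 hD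
    exact key ⟨c * g, mul_mem ⟨h1, hc⟩ hg, (mul_conj _ _ _).symm⟩
  · rintro _ ⟨g, hg, rfl⟩ _ ⟨k, hk, rfl⟩ e
    rw [hω g hg, hω k hk, Ne, QuotientGroup.eq] at e
    have e1 := mul_mem (inv_mem hg) hk
    have := conj_mono g (h.base_a e1.1 e1.2 e)
    rwa [conj_nrm, conj_sup, ← cv_conj, ← cv_conj, ← mul_conj, mul_inv_cancel_left] at this
  · rintro _ ⟨k, hk, rfl⟩ a ha a0 _ ⟨g, hg, rfl⟩
    have aN : a ∈ N := ⟨conj_le_of_mem hk.1 h.AH ha, cent_le_norm _ (h.cA2 hk.2 ha)⟩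
    rw [← mul_conj, hω g hg, hω k hk, hω _ (mul_mem aN hg), QuotientGroup.eq, QuotientGroup.eq]
    have e1 := mul_mem (inv_mem hg) hk
    refine ⟨⟨_, mul_mem aN hg, rfl⟩, fun e => h.base_b hZ z1 z0 (mem_conj.1 (inv_mem ha))
      (fun e => a0 (by
        rwa [mul_assoc, inv_mul_eq_one, right_eq_mul, inv_eq_one] at e)) e1.1 e1.2 (by simpa [mul_assoc] using e)⟩
  · rintro _ ⟨k, hk, rfl⟩
    exact ⟨_, _, h.line.conj k, ⟨A, h.mem, rfl⟩, ln k hk⟩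
  · rintro _ ⟨g, hg, rfl⟩ _ ⟨k, hk, rfl⟩ e1 e2
    have e3 := mul_mem (inv_mem hk) hg
    have := h.base_d e3.1 e3.2 (by
      rw [mul_conj, conj_le_iff, inv_inv, conj_cent]
      exact h.toMd.cent_of (conj_le_of_mem hg.1 h.AH) (conj_le_of_mem hk.1 h.AH) e1 e2)
    rwa [mul_conj, conj_eq_iff, inv_inv] at this

theorem step (p : ∀ c ∈ H, c ∈ 𝐍(W1 V T A) → ∀ D ∈ ℓ, c ⋆ D ∈ ℓ) (e1 : E ≤ T) (e2 : Sq E) (e3 : A ≤ E) :
    ∃ C < E, E ≤ A ⊔ C ∧ fm V E ≤ fm V C := by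
  have := h.nrm
  have sp := h.line.le_comm_sup h.sq.cent
  have cL := h.line.cent_le h.mem
  have k : E ≤ A ⊔ E ⊓ 𝐂((⁅V, L⁆ : Subgroup G)) := fun c hc => by
    have cA := le_cent_of_le e2.cent e3 hc
    obtain ⟨a, ha, -, -, e⟩ := h.line.cen h.sq h.mem (e2.two.to_le (zpowers_le.2 hc)) cA
      (p c (h.syl.le (e1 hc)) (mem_norm_W1 (e1 hc) (conj_of_mem_norm (cent_le_norm _ cA))))
    simpa using mul_mem (mem_sup_left (inv_mem ha)) (mem_sup_right (S := A) (mem_inf.2 ⟨mul_mem (e3 ha) hc, e⟩))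
  refine ⟨_, inf_le_left.lt_of_ne fun e => h.mA.not_le (sp.trans (sup_le (le_cent_symm
    (e3.trans (e.ge.trans inf_le_right))) (inf_le_right.trans cL))), k, ?_⟩
  generalize hC : E ⊓ 𝐂((⁅V, L⁆ : Subgroup G)) = C at k
  have c1 : C ≤ E := hC ▸ inf_le_left
  have a1 := card_sup_mul_card_inf (H := A) (N := C)
    (le_norm_of_le_cent (e3.trans (le_cent_of_le e2.cent c1)))
  have a2 := card_sup_V h.sq.cent (inf_le_left (b := 𝐂(C))) (inf_le_left (b := 𝐂(A)))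
  rw [le_antisymm (sup_le inf_le_left inf_le_left) (sp.trans (sup_le_sup (le_inf (commutator_le_left V L)
    (le_cent_symm (hC ▸ inf_le_right))) (inf_le_inf_left _ cL))), ← inf_inf_distrib_left, ← cent_sup,
    sup_comm, h.mA.idx, mul_right_comm] at a2
  rw [le_antisymm (sup_le e3 c1) k] at a1 a2
  rw [fm, fm, ← Nat.eq_of_mul_eq_mul_right Nat.card_pos a2, ← mul_assoc, mul_comm #|C|, ← h.mA.card, ← a1]
  exact Nat.mul_le_mul_right _ (Nat.le_mul_of_pos_right _ Nat.card_pos)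

theorem off1 (e1 : E ≤ T) (e2 : Sq E) (e3 : #|V| ≤ fm V E) (e0 : E ≠ ⊥) : ∃ t ∈ T, t ⋆ A ≤ E := by
  obtain ⟨B, b1, b2⟩ := h.toMH.exists_mem (e1.trans h.syl.le) e2 e0 e3
  obtain ⟨t, ht, rfl⟩ := h.orb ⟨b1.trans e1, b2⟩
  exact ⟨t, ht, b1⟩

theorem off2 (p : ∀ c ∈ H, c ∈ 𝐍(W1 V T A) → ∀ D ∈ ℓ, c ⋆ D ∈ ℓ) (e1 : E ≤ T) (e2 : Sq E)
    (e3 : #|V| ≤ fm V E) : E ≤ Ws V T := by
  have := h.nrm
  induction hn : #|E| using Nat.strong_induction_on generalizing E with | _ n ih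
  by_cases e0 : E = ⊥
  · exact e0 ▸ bot_le
  obtain ⟨t, ht, e⟩ := h.off1 e1 e2 e3 e0
  have e4 := conj_le_of_mem (inv_mem ht) e1
  obtain ⟨C, c1, c2, c3⟩ := h.step p e4 (sq_conj e2 _) (conj_le_iff.1 e)
  rw [← conj_of_mem_norm (h.toMH.norm_Ws ht)]
  exact le_conj_iff.2 (c2.trans (sup_le (le_Ws h.xA) (ih _ (hn ▸ card_conj t⁻¹ E ▸ card_lt_of_lt c1)
    (c1.le.trans e4) ((sq_conj e2 _).of_le c1.le) (e3.trans ((fm_conj t⁻¹ E).ge.trans c3)) rfl)))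

theorem cW : T ⊓ 𝐂(V ⊓ 𝐂(Ws V T)) ≤ Ws V T := by
  have := h.nrm
  have q1 : ⁅V, A⁆ ≤ V ⊓ 𝐂(Ws V T) :=
    le_inf (commutator_le_left V A) ((commutator_mono le_rfl (le_Ws h.xA)).trans h.ws.2.1)
  have k : ∀ c ∈ T ⊓ 𝐂(V ⊓ 𝐂(Ws V T)), ∀ v ∈ V, ⁅v, c⁆ ∈ 𝐂(A) := fun c hc v hv => by
    have n : c ⋆ A = A := by
      by_contra ne
      have e := h.qB _ (Xs.conj h.xA (conj_le_of_mem hc.1 h.AT)) ne
      rw [← conj_nrm (V := V) c, ← conj_comm, conj_of_mem_norm (cent_le_norm _ (cent_anti q1 hc.2))] at e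
      obtain ⟨a, ha, a0⟩ := exists_mem_ne_one h.mA.ne_bot
      exact h.mA.not_le fun v hv => h.line.pure A h.mem a ha a0 v hv (e (commutator_mem_commutator hv ha))
    obtain ⟨a, ha, a0⟩ := exists_mem_ne_one (inf_cent_ne_bot_of_pgroup Nat.prime_two h.mA.sq.two
      (h.syl.isPGroup.to_le (zpowers_le.2 hc.1)) (zpowers_le.2 (conj_eq_self_iff.1 n)) h.mA.ne_bot)
    refine h.mA.cent a ha.1 a0 ⟨comm_mem_nl hv c, comm_eq_one_iff.1 ?_⟩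
    rw [comm_swap' h.sq.cent hv (mem_cent.1 ha.2 c (mem_zpowers c)), comm_eq_one_iff, mem_cent1_comm]
    exact cent_le_cent1 (q1 (commutator_mem_commutator hv ha.1)) hc.2
  have n : T ≤ 𝐍((T ⊓ 𝐂(V ⊓ 𝐂(Ws V T)) : Subgroup G)) := le_norm_subcent le_normalizer
    (le_norm_subcent (by rw [normalizer_eq_top]; exact le_top) h.toMH.norm_Ws)
  have k2 : ⁅V, T ⊓ 𝐂(V ⊓ 𝐂(Ws V T))⁆ ≤ 𝐂(Ws V T) := le_cent_sSup fun B hB => by
    obtain ⟨t, ht, rfl⟩ := h.orb hB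
    rw [← conj_of_mem_norm (n ht)]
    exact quad_conj (commutator_le.2 fun v hv c hc => k c hc v hv) t
  have kH := (inf_le_left (b := 𝐂(V ⊓ 𝐂(Ws V T)))).trans h.syl.le
  exact (h.toMH.mf.eq_of_cv kH (h.toMd.sq_of_quad kH ((le_inf (commutator_le_left _ _) k2).trans
    (le_cent_symm inf_le_right))) (le_inf Ws_le (le_cent_symm inf_le_right)) (le_cent_symm inf_le_right)
    h.ws.2.2).ge

end Sa

instance instPG [LN.{u}] : PG.{u} := ⟨fun {G} _ _ {V H T M} h => by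
  have := h.nrm
  have m : MH V H T M := ⟨h.toMd, h.toMPi, h.core, h.act⟩
  obtain ⟨Z, z0, z1, hZ⟩ := h.sc
  obtain ⟨E, e1, e0, e2, e3⟩ := h.off
  obtain ⟨B, b1, r, b2⟩ := m.exists_mem (e1.trans m.TH) e2 e0 e3
  obtain ⟨q, A, L, ℓ, s⟩ := m.sa (ne_bot_of_le b2.ne_bot (le_Ws ⟨b1.trans e1, r, b2⟩))
  have p : ∀ c ∈ H, c ∈ 𝐍(W1 V T A) → ∀ D ∈ ℓ, c ⋆ D ∈ ℓ := fun c => s.perm hZ z1 z0
  have e := Ws_eq s.xA
  refine ⟨q, A, W1 V T A, L, ℓ, m.mf.f2, s.line, s.mem, s.LH, s.notM, e ▸ Ws_le, e ▸ s.ws.1, e ▸ s.ws.2.1,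
    s.disj, e ▸ m.norm_Ws, s.cL, s.cY, fun K hK => sSup_le fun B hB => ?_,
    fun E e1 e2 e3 => ⟨e ▸ s.off2 p e1 e2 e3, s.off1 e1 e2 e3⟩, e ▸ s.cW,
    fun c hc => s.line.mem_norm (p c hc.1 hc.2), fun w0 c hc => ?_⟩
  · obtain ⟨t, ht, rfl⟩ := s.orb hB.1
    exact hK t ht
  · have p' : ∀ c ∈ T, ∀ D ∈ ℓ, c ⋆ D ∈ ℓ := fun c hc => p c (m.TH hc) (by rw [w0, norm_bot]; trivial)
    obtain ⟨a, ha, e1, -⟩ := s.line.cen h.sq s.mem (h.syl.isPGroup.to_le (zpowers_le.2 hc.1)) hc.2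
      (p' c hc.1)
    have := m.eq_bot_of (U := T ⊓ 𝐂(L)) (inf_le_left.trans m.TH) (h.syl.isPGroup.to_le inf_le_left)
      (le_norm_subcent le_normalizer fun t ht => s.line.mem_norm (p' t ht))
      (le_norm_of_le_cent (le_cent_symm inf_le_right)) s.LH s.notM
    rw [eq_inv_of_mul_eq_one_right (mem_bot.1 (this ▸ ⟨mul_mem (s.AT ha) hc.1, e1⟩ :
      a * c ∈ (⊥ : Subgroup G)))]
    exact inv_mem ha⟩

end Cfsg.Agent.Pu
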