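import Cfsg.Agent.Pu.Q1

/-! Slice QL of S5175, second part. -/

set_option autoImplicit false

universe u

namespace Cfsg.Agent.Pu

open Subgroup Cfsg Cfsg.Agent.H1 Cfsg.Agent.L Cfsg.Agent.FT Cfsg.Agent.Sg Cfsg.Agent.R1
  Cfsg.Agent.St
open scoped Pointwise commutatorElement

variable {G : Type*} [Group G] {V L M A B K W X Y : Subgroup G} {x g k a v y e : G} {q : ℕ}

theorem conj_comm_elt (g v a : G) : g * ⁅v, a⁆ * g⁻¹ = ⁅g * v * g⁻¹, g * a * g⁻¹⁆ := by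
  simp only [commutatorElement_def]; group

/-- the facts about a member not in `O₂(L)`; `Y = C_V(O₂(L))` -/
structure QB (V L M B Y : Subgroup G) (q : ℕ) : Prop where
  md : Md V L
  mem : Mem V q B
  BM : B ≤ M
  lt : M < L
  YV : Y ≤ V
  YO : Y ≤ 𝐂(core {2} L)
  nY : L ≤ 𝐍(Y)
  gen : ∀ x ∈ L, x ∉ M → B ⊔ x ⋆ B ⊔ core {2} L = L
  span : ∀ x ∈ L, x ∉ M → Y ≤ Y ⊓ 𝐂(B) ⊔ Y ⊓ 𝐂((x ⋆ B : Subgroup G))
  pure : ∀ b ∈ B, b ≠ 1 → ∀ y ∈ Y, ⁅y, b⁆ ∈ 𝐂(L) → y ∈ 𝐂(B)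
  idx : (𝐂(B)).relIndex Y = q
  VY : V ≤ Y ⊔ V ⊓ 𝐂(B)

variable [Finite G]

theorem QH.qb (h : QH V L M A) (hB : Mem V q B) (BA : B ≤ A) (nO : ¬ B ≤ core {2} L) :
    QB V L M B (V ⊓ 𝐂(core {2} L)) q ∧ A ≤ B ⊔ core {2} L := by
  obtain ⟨r, c, sp⟩ := h.one'
  obtain ⟨b, hb, bO⟩ := SetLike.not_le_iff_exists.1 nO
  have c1 : V ⊓ 𝐂(core {2} L) ⊓ 𝐂(B) ≤ 𝐂(A) :=
    (inf_le_inf_left _ (cent_le_cent1 hb)).trans (c.cent b (BA hb) bO)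
  have i0 : (𝐂(A)).relIndex (V ⊓ 𝐂((A ⊓ core {2} L : Subgroup G))) = r := by
    have e2 := card_inf_mul_relIndex (𝐂(A)) (V ⊓ 𝐂((A ⊓ core {2} L : Subgroup G)))
    rw [← inf_assoc, inf_comm _ V, inf_eq_left.2 (inf_le_right.trans (cent_anti inf_le_left)), c.eq,
      mul_comm r] at e2
    exact Nat.eq_of_mul_eq_mul_left Nat.card_pos e2
  have i1 : (𝐂(B)).relIndex V = q := by
    have e2 := card_inf_mul_relIndex (𝐂(B)) V
    rw [inf_comm, hB.idx, mul_comm q] at e2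
    exact Nat.eq_of_mul_eq_mul_left Nat.card_pos e2
  have i2 : r ≤ (𝐂(B)).relIndex (V ⊓ 𝐂(core {2} L)) :=
    i0.ge.trans ((idx_le_right c.sup _).trans ((idx_sup_le inf_le_right
      (norm_of_le_ab h.ab inf_le_left inf_le_left)).trans (idx_le_left' ((inf_comm _ _).le.trans c1))))
  have i3 := idx_le_right (inf_le_left (a := V) (b := 𝐂(core {2} L))) (𝐂(B))
  have d : ∀ b ∈ B, b ∈ core {2} L → b = 1 := fun b hb ho => by
    by_contra e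
    have : V ⊓ 𝐂(core {2} L) ≤ 𝐂(B) := (inf_le_inf_left V (cent_le_cent1 ho)).trans (hB.cent b hb e)
    have := relIndex_eq_one.2 this
    have := c.one_lt
    omega
  have e1 := card_sup_of_disjoint (H := B) (N := A ⊓ core {2} L)
    (norm_of_le_ab h.sq.cent BA inf_le_left) (disjoint_def.2 fun hb ho => d _ hb ho.2)
  have l1 : B ⊔ A ⊓ core {2} L ≤ A := sup_le BA inf_le_left
  have i4 : q ≤ r := by
    have := card_le_of_le' l1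
    rw [e1, hB.card, c.card] at this
    exact Nat.le_of_mul_le_mul_right this Nat.card_pos
  have AB : A ≤ B ⊔ core {2} L := (eq_of_le_of_card_le l1 (by
    rw [e1, hB.card, c.card]; exact Nat.mul_le_mul_right _ (by omega))).ge.trans
      (sup_le_sup_left inf_le_right _)
  refine ⟨⟨h.md, hB, BA.trans h.le, h.lt, inf_le_left, inf_le_right, h.nY, fun x hx hm => ?_,
    fun x hx hm => (sp x hx hm).trans (sup_le_sup (inf_le_inf_left _ (cent_anti BA))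
      (inf_le_inf_left _ (cent_anti (conj_mono x BA)))),
    fun b hb h1 y hy e => cent_anti BA (c.pure b (BA hb) (fun e => h1 (d b hb e)) y hy e), by omega,
    (le_sup_of_idx inf_le_left (by omega)).trans (sup_le_sup_left (inf_comm _ _).le _)⟩, AB⟩
  refine le_antisymm (sup_le (sup_le (BA.trans h.AL) (conj_le_of_mem hx (BA.trans h.AL))) (core_le _ _))
    ((h.gen hx hm).ge.trans (sup_le (sup_le (AB.trans (sup_le_sup_right le_sup_left _))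
      ((conj_mono x AB).trans ?_)) le_sup_right))
  rw [conj_sup, (core_normal _ _).conj_eq hx]
  exact sup_le_sup_right le_sup_right _

namespace QB
variable (h : QB V L M B Y q)
include h

section
omit [Finite G]

theorem ab : V ≤ 𝐂(V) := h.md.sq.cent

theorem BL (hg : g ∈ L) : g ⋆ B ≤ L := conj_le_of_mem hg (h.BM.trans h.lt.le)

theorem conjP (hg : g ∈ L) (k : G) :
    g ⋆ (Y ⊓ 𝐂((k ⋆ B : Subgroup G))) = Y ⊓ 𝐂(((g * k) ⋆ B : Subgroup G)) := by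
  rw [conj_inf, conj_cent, mul_conj, conj_of_mem_norm (h.nY hg)]

theorem genG (hg : g ∈ L) (hk : k ∈ L) (hm : g⁻¹ * k ∉ M) : g ⋆ B ⊔ k ⋆ B ⊔ core {2} L = L := by
  have := congrArg (g ⋆ ·) (h.gen _ (mul_mem (inv_mem hg) hk) hm)
  simpa only [conj_sup, ← mul_conj, mul_inv_cancel_left, (core_normal _ _).conj_eq hg, conj_of_mem hg]
    using this

theorem spanG (hg : g ∈ L) (hk : k ∈ L) (hm : g⁻¹ * k ∉ M) :
    Y ≤ Y ⊓ 𝐂((g ⋆ B : Subgroup G)) ⊔ Y ⊓ 𝐂((k ⋆ B : Subgroup G)) := by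
  have := conj_mono g (h.span _ (mul_mem (inv_mem hg) hk) hm)
  simpa only [conj_sup, conj_inf, conj_cent, ← mul_conj, mul_inv_cancel_left, conj_of_mem_norm (h.nY hg)]
    using this

theorem pureG (hg : g ∈ L) (he : e ∈ g ⋆ B) (h1 : e ≠ 1) (hy : y ∈ Y) (hc : ⁅y, e⁆ ∈ 𝐂(L)) :
    y ∈ 𝐂((g ⋆ B : Subgroup G)) := by
  rw [← conj_cent, mem_conj]
  refine h.pure _ (mem_conj.1 he) (fun e' => h1 (by simpa [mul_assoc, inv_mul_eq_one] using e')) _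
    (conj_mem_of_mem_normalizer' (h.nY hg) hy) ?_
  have := conj_mem_of_mem_normalizer (le_norm_cent le_normalizer (inv_mem hg)) hc
  rwa [conj_comm_elt, inv_inv] at this

theorem idxG (hg : g ∈ L) : (𝐂((g ⋆ B : Subgroup G))).relIndex Y = q := by
  rw [← h.idx, ← relIndex_conj g (𝐂(B)), conj_cent, conj_of_mem_norm (h.nY hg)]

theorem VYG (hg : g ∈ L) : V ≤ Y ⊔ V ⊓ 𝐂((g ⋆ B : Subgroup G)) := by
  haveI := h.md.nrm
  simpa only [conj_sup, conj_inf, conj_cent, conj_normal, conj_of_mem_norm (h.nY hg)] using conj_mono g h.VY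

theorem Pm (hg : g ∈ L) (hk : k ∈ L) (h1 : y ∈ Y ⊓ 𝐂((g ⋆ B : Subgroup G)))
    (h2 : y ∈ 𝐂((k ⋆ B : Subgroup G))) (h3 : y ∉ 𝐂(L)) : g⁻¹ * k ∈ M := by
  by_contra hm
  refine h3 ?_
  rw [← h.genG hg hk hm, cent_sup, cent_sup]
  exact ⟨⟨h1.2, h2⟩, h.YO h1.1⟩

theorem cP (hg : g ∈ L) (he : e ∈ g ⋆ B) (hy : y ∈ Y) : ⁅y, e⁆ ∈ Y ⊓ 𝐂((g ⋆ B : Subgroup G)) :=
  haveI := h.md.nrm
  ⟨comm_mem_of_norm hy (h.nY (h.BL hg he)), (h.mem.conj g).quad (commutator_mem_commutator (h.YV hy) he)⟩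

theorem other (hg : g ∈ L) : ∃ k ∈ L, g⁻¹ * k ∉ M := by
  obtain ⟨x, hx, hm⟩ := SetLike.exists_of_lt h.lt
  exact ⟨g * x, mul_mem hg hx, by rwa [inv_mul_cancel_left]⟩

theorem spanV (hg : g ∈ L) (hk : k ∈ L) (hm : g⁻¹ * k ∉ M) :
    V ≤ V ⊓ 𝐂((g ⋆ B : Subgroup G)) ⊔ V ⊓ 𝐂((k ⋆ B : Subgroup G)) :=
  (h.VYG hg).trans (sup_le ((h.spanG hg hk hm).trans
    (sup_le_sup (inf_le_inf_right _ h.YV) (inf_le_inf_right _ h.YV))) le_sup_left)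

theorem VU (hg : g ∈ L) (hk : k ∈ L) (hm : g⁻¹ * k ∉ M) :
    V ≤ Y ⊔ V ⊓ 𝐂((g ⋆ B ⊔ k ⋆ B : Subgroup G)) := by
  refine (h.VYG hg).trans (sup_le le_sup_left fun c hc => ?_)
  obtain ⟨y, hy, c', hc', rfl⟩ := (mem_sup_V h.ab h.YV inf_le_left).1 (h.VYG hk hc.1)
  obtain ⟨y1, h1, y2, h2, rfl⟩ := (mem_sup_V h.ab (inf_le_left.trans h.YV) (inf_le_left.trans h.YV)).1
    (h.spanG hg hk hm hy)
  rw [mul_assoc] at hc ⊢
  refine mul_mem (mem_sup_left h1.1) (mem_sup_right ⟨mul_mem (h.YV h2.1) hc'.1, ?_⟩)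
  rw [cent_sup]
  exact ⟨(Subgroup.mul_mem_cancel_left _ h1.2).1 hc.2, mul_mem h2.2 hc'.2⟩

end

theorem surj (hg : g ∈ L) (hy : y ∈ Y) (hn : y ∉ 𝐂((g ⋆ B : Subgroup G))) :
    ∀ p ∈ Y ⊓ 𝐂((g ⋆ B : Subgroup G)), ∃ e ∈ g ⋆ B, p⁻¹ * ⁅y, e⁆ ∈ 𝐂(L) := by
  obtain ⟨k, hk, hm⟩ := h.other hg
  refine surj_of_inj (fun e => ⁅y, e⁆) (X₁ := ⊥) (fun e he => h.cP hg he hy) (fun a ha b hb e => ?_) ?_
  · by_contra h1
    exact hn (h.pureG hg (mul_mem (inv_mem ha) hb) h1 hy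
      (mem_stb_of_div (h := le_norm_cent le_normalizer) (h.BL hg ha) (h.BL hg hb) e).2)
  · rw [relIndex_bot_left, card_conj, h.mem.card, ← h.idxG hk]
    refine (idx_le_left' fun z hz => ?_).trans (idx_le_right inf_le_left _)
    by_contra e
    exact hm (h.Pm hg hk hz.2 hz.1 e)

theorem exP (hg : g ∈ L) : ∃ y ∈ Y ⊓ 𝐂((g ⋆ B : Subgroup G)), y ∉ 𝐂(L) := by
  by_contra H
  have H1 : Y ⊓ 𝐂((g ⋆ B : Subgroup G)) ≤ 𝐂(L) := fun y hy => by_contra fun e => H ⟨y, hy, e⟩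
  obtain ⟨k, hk, hm⟩ := h.other hg
  have := relIndex_eq_one.2 ((h.spanG hg hk hm).trans (sup_le (H1.trans (cent_anti (h.BL hk))) inf_le_right))
  exact h.mem.one_lt.ne' ((h.idxG hk).symm.trans this)

theorem part (hg : g ∈ L) (hk : k ∈ L) (hm : g⁻¹ * k ∉ M) (hy : y ∈ Y) :
    y ∈ 𝐂((g ⋆ B : Subgroup G)) ∨ ∃ e ∈ g ⋆ B, y ∈ 𝐂(((e * k) ⋆ B : Subgroup G)) := by
  obtain ⟨y1, h1, y2, h2, rfl⟩ := (mem_sup_V h.ab (inf_le_left.trans h.YV) (inf_le_left.trans h.YV)).1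
    (h.spanG hg hk hm hy)
  by_cases c : y2 ∈ 𝐂((g ⋆ B : Subgroup G))
  · exact Or.inl (mul_mem h1.2 c)
  obtain ⟨e, he, h3⟩ := h.surj hg h2.1 c _ (inv_mem h1)
  have h4 := conj_mem_conj e h2
  rw [h.conjP (h.BL hg he), conj_eq_comm] at h4
  refine Or.inr ⟨e, he, ?_⟩
  have := mul_mem (cent_anti (h.BL (mul_mem (h.BL hg he) hk)) h3) h4.2
  rwa [inv_inv, mul_assoc, mul_inv_cancel_left] at this

theorem PM (hg : g ∈ L) (hk : k ∈ L) (hm : g⁻¹ * k ∈ M) :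
    Y ⊓ 𝐂((k ⋆ B : Subgroup G)) ≤ Y ⊓ 𝐂((g ⋆ B : Subgroup G)) := fun y hy => ⟨hy.1, by
  by_cases c : y ∈ 𝐂(L)
  · exact cent_anti (h.BL hg) c
  obtain ⟨j, hj, hm'⟩ := h.other hg
  refine (h.part hg hj hm' hy.1).resolve_right fun ⟨e, he, h1⟩ => hm' ?_
  have := mul_mem (inv_mem (h.BM (mem_conj.1 he)))
    (mul_mem hm (h.Pm hk (mul_mem (h.BL hg he) hj) hy h1 c))
  convert this using 1; group⟩

theorem faith (hx : x ∈ L) (hm : x ∉ M) (hg : g ∈ B ⊔ x ⋆ B)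
    (H : ∀ v ∈ V, ⁅v, g⁆ ∈ 𝐂((B ⊔ x ⋆ B : Subgroup G))) : g = 1 := by
  haveI := h.md.nrm
  have VU := h.VU L.one_mem hx (by simpa using hm)
  rw [one_conj] at VU
  have gn := h.gen x hx hm
  generalize B ⊔ x ⋆ B = L' at *
  have l1 : L' ≤ L := le_sup_left.trans gn.le
  have n1 : L' ≤ 𝐍((V ⊓ 𝐂(L') : Subgroup G)) := le_norm_subcent (le_norm_normal _ _) le_normalizer
  have n2 : L' ≤ 𝐍((L' ⊓ centMod V (V ⊓ 𝐂(L')) : Subgroup G)) :=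
    le_normalizer_inf le_normalizer (le_norm_centMod (le_norm_normal _ _) n1)
  have s : Sq (L' ⊓ centMod V (V ⊓ 𝐂(L'))) := fun c hc => mem_bot.1 (h.md.faith.le
    ⟨l1 (mul_mem hc.1 hc.1), le_cent_symm (B := zpowers (c * c)) (fun v hv => by
      have w := (mem_centMod.1 hc.2).2 v hv
      rw [cent_zpowers, ← comm_eq_one_iff, commutatorElement_mul_right_eq_mul_conj,
        mul_assoc _ c, mem_cent.1 w.2 _ hc.1, ← mul_assoc, mul_inv_cancel_right]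
      exact h.md.sq _ w.1) (mem_zpowers _)⟩)
  have nO := (core_normal {2} L).norm
  have : g ∈ core {2} L := le_core_of_pgroup Nat.prime_two (N := L' ⊓ centMod V (V ⊓ 𝐂(L')) ⊔ core {2} L)
    ⟨sup_le (inf_le_left.trans l1) (core_le _ _), gn.ge.trans (sup_le
      (le_normalizer_sup n2 (l1.trans nO)) (le_sup_right.trans le_normalizer))⟩
    (pgroup_sup s.two (core_pgroup Nat.prime_two L) (Or.inl ((inf_le_left.trans l1).trans nO)))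
    (mem_sup_left ⟨hg, mem_centMod.2 ⟨⟨le_norm_normal _ _ hg, n1 hg⟩, fun v hv => ⟨comm_mem_nl hv g, H v hv⟩⟩⟩)
  exact mem_bot.1 (h.md.faith.le ⟨l1 hg, le_cent1_iff.1 (VU.trans (sup_le (h.YO.trans (cent_le_cent1 this))
    (inf_le_right.trans (cent_le_cent1 hg))))⟩)

theorem eqE (hx : x ∈ L) (hm : x ∉ M) (hg : g ∈ L) (hk : k ∈ L) (h1 : g ⋆ B ≤ B ⊔ x ⋆ B)
    (h2 : k ⋆ B ≤ B ⊔ x ⋆ B) (hM : g⁻¹ * k ∈ M) : k ⋆ B = g ⋆ B := by
  haveI := h.md.nrm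
  refine eq_of_le_of_card_le (fun e' he' => ?_) (by rw [card_conj, card_conj])
  have VU := h.VU L.one_mem hx (by simpa using hm)
  rw [one_conj] at VU
  have l1 : B ⊔ x ⋆ B ≤ L := le_sup_left.trans (h.gen x hx hm).le
  obtain ⟨j, hj, hm'⟩ := h.other hg
  obtain ⟨y, hy, hy'⟩ := h.exP hj
  have p1 := h.PM hg hk hM
  have p2 := h.PM hk hg (by simpa using inv_mem hM)
  have p3 : ∀ z ∈ Y ⊓ 𝐂((g ⋆ B : Subgroup G)), z ∈ 𝐂((j ⋆ B : Subgroup G)) → z ∈ 𝐂(L) :=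
    fun z h1 h2 => by_contra fun e => hm' (h.Pm hg hj h1 h2 e)
  obtain ⟨e, he, h3⟩ := h.surj hg hy.1 (fun e => hy' (p3 y ⟨hy.1, e⟩ hy.2)) _ (p1 (h.cP hk he' hy.1))
  obtain ⟨cL, h4⟩ := mem_stb_of_div (h := le_norm_cent le_normalizer) (h.BL hk he') (h.BL hg he) h3
  have n1 : e'⁻¹ * e ∈ 𝐍((Y ⊓ 𝐂((j ⋆ B : Subgroup G)) : Subgroup G)) := by
    refine mem_norm_of_conj_le ((h.conjP cL j).le.trans (h.PM hj (mul_mem cL hj) ?_))
    have h5 := conj_mem_conj (e'⁻¹ * e) hy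
    rw [h.conjP cL, conj_eq_comm] at h5
    exact h.Pm hj (mul_mem cL hj) ⟨h5.1, Subgroup.mul_mem _ (Subgroup.inv_mem _ (cent_anti (h.BL hj) h4)) hy.2⟩ h5.2
      fun e => hy' ((mul_mem_cancel_left (inv_mem h4)).1 e)
  have c1 : Y ⊓ 𝐂((g ⋆ B : Subgroup G)) ≤ 𝐂[e'⁻¹ * e] := le_cent1_iff.2 (mul_mem
    (inv_mem (le_cent_symm (p2.trans inf_le_right) he')) (le_cent_symm inf_le_right he))
  have c2 := mul_mem (inv_mem (h2 he')) (h1 he)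
  rw [inv_mul_eq_one.1 (h.faith hx hm c2 fun v hv => ?_)]
  · exact he
  obtain ⟨y, hy, u, hu, rfl⟩ := (mem_sup_V h.ab h.YV inf_le_left).1 (VU hv)
  obtain ⟨z, hz, w, hw, rfl⟩ := (mem_sup_V h.ab (inf_le_left.trans h.YV) (inf_le_left.trans h.YV)).1
    ((h.spanG hg hj hm').trans (sup_comm _ _).le hy)
  rw [comm_mul_cent _ (cent_le_cent1 c2 hu.2),
    comm_mul_cent _ (c1 hw)]
  refine cent_anti l1 (p3 _ ?_ (comm_mem_of_norm hz n1).2)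
  have n2 : g ⋆ B ⊔ k ⋆ B ≤ 𝐍((Y ⊓ 𝐂((g ⋆ B : Subgroup G)) : Subgroup G)) := le_norm_of_le_cent
    (sup_le (le_cent_symm inf_le_right) (le_cent_symm (p2.trans inf_le_right)))
  exact (mem_stb_of_div (h := n2) (mem_sup_right he') (mem_sup_left he)
    (mul_mem (inv_mem (p1 (h.cP hk he' hz.1))) (h.cP hg he hz.1))).2

theorem cover (hx : x ∈ L) (hm : x ∉ M) (hg : g ∈ L) (hk : k ∈ L) (h1 : g ⋆ B ≤ B ⊔ x ⋆ B)
    (h2 : k ⋆ B ≤ B ⊔ x ⋆ B) (hM : g⁻¹ * k ∉ M) {j : G} (hj : j ∈ L) (h3 : j ⋆ B ≤ B ⊔ x ⋆ B) :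
    j ⋆ B = g ⋆ B ∨ ∃ e ∈ g ⋆ B, e ⋆ k ⋆ B = j ⋆ B := by
  obtain ⟨y, hy, hy'⟩ := h.exP hj
  refine (h.part hg hk hM hy.1).imp (fun e => (h.eqE hx hm hj hg h3 h1 (h.Pm hj hg hy e hy')).symm)
    fun ⟨e, he, h4⟩ => ⟨e, he, ?_⟩
  have := mul_mem (h.BL hg he) hk
  rw [← mul_conj]
  exact h.eqE hx hm hj this h3 (by rw [mul_conj]; exact conj_le_of_mem (h1 he) h2) (h.Pm hj this hy h4 hy')

theorem line (hx : x ∈ L) (hm : x ∉ M) :
    Line V q {E | ∃ g ∈ L, g ⋆ B ≤ B ⊔ x ⋆ B ∧ g ⋆ B = E} (B ⊔ x ⋆ B) := by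
  haveI := h.md.nrm
  have o1 : (1 : G) ⋆ B ≤ B ⊔ x ⋆ B := (one_conj B).le.trans le_sup_left
  have o2 : (1 : G)⁻¹ * x ∉ M := by simpa using hm
  have BL : B ≤ L := h.BM.trans h.lt.le
  have ne : ∀ {g k : G}, g ∈ L → k ∈ L → g ⋆ B ≤ B ⊔ x ⋆ B → k ⋆ B ≤ B ⊔ x ⋆ B → g ⋆ B ≠ k ⋆ B →
      g⁻¹ * k ∉ M := fun hg hk h1 h2 e hM => e (h.eqE hx hm hg hk h1 h2 hM).symm
  refine ⟨?_, ?_, ?_, ?_, ?_, ?_, fun g => h.faith hx hm⟩
  · have : {E | ∃ g ∈ L, g ⋆ B ≤ B ⊔ x ⋆ B ∧ g ⋆ B = E} = insert B ((fun e : G => e ⋆ x ⋆ B) '' B) := by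
      refine Set.Subset.antisymm ?_ (Set.insert_subset ⟨1, L.one_mem, o1, one_conj B⟩ ?_)
      · rintro _ ⟨j, hj, h3, rfl⟩
        have := h.cover hx hm L.one_mem hx o1 le_sup_right o2 hj h3
        rwa [one_conj] at this
      · rintro _ ⟨e, he, rfl⟩
        exact ⟨e * x, mul_mem (BL he) hx, (mul_conj _ _ _).le.trans
          (conj_le_of_mem (mem_sup_left he) le_sup_right), mul_conj _ _ _⟩
    obtain ⟨y, hy, hy'⟩ := h.exP hx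
    have hB : y ∉ 𝐂(B) := fun e => hm (by simpa using h.Pm L.one_mem hx ⟨hy.1, by rwa [one_conj]⟩ hy.2 hy')
    rw [this, Set.ncard_insert_of_notMem, Set.InjOn.ncard_image, ← h.mem.card]
    · rfl
    · intro a ha b hb e
      have hc : a⁻¹ * b ∈ B := mul_mem (inv_mem ha) hb
      have n : a⁻¹ * b ∈ 𝐍((Y ⊓ 𝐂((x ⋆ B : Subgroup G)) : Subgroup G)) := conj_eq_self_iff.1 (by
        rw [h.conjP (BL hc), mul_conj, mul_conj, ← show a ⋆ x ⋆ B = b ⋆ x ⋆ B from e, inv_conj_conj])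
      by_contra hne
      refine hB (h.pure _ hc (fun e => hne (inv_mul_eq_one.1 e)) y hy.1 (by_contra fun e => o2 ?_))
      exact h.Pm L.one_mem hx (h.cP L.one_mem (by rwa [one_conj]) hy.1) (comm_mem_of_norm hy n).2 e
    · rintro ⟨e, he, h1⟩
      have := conj_eq_iff.1 h1
      rw [conj_of_mem (inv_mem he)] at this
      exact hB (this ▸ hy.2)
  · rintro _ ⟨g, -, -, rfl⟩
    exact h.mem.conj g
  · rintro _ ⟨g, hg, h1, rfl⟩ _ ⟨k, hk, h2, rfl⟩ e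
    have : ∀ j ∈ L, j ⋆ B ≤ B ⊔ x ⋆ B → j ⋆ B ≤ g ⋆ B ⊔ k ⋆ B := fun j hj h3 => by
      rcases h.cover hx hm hg hk h1 h2 (ne hg hk h1 h2 e) hj h3 with e | ⟨e, he, e'⟩
      · exact e.le.trans le_sup_left
      · exact e'.ge.trans (conj_le_of_mem (mem_sup_left he) le_sup_right)
    exact le_antisymm (sup_le h1 h2) (sup_le ((one_conj B).ge.trans (this 1 L.one_mem o1))
      (this x hx le_sup_right))
  · rintro _ ⟨g, hg, h1, rfl⟩ _ ⟨k, hk, h2, rfl⟩ e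
    exact h.spanV hg hk (ne hg hk h1 h2 e)
  · rintro l hl _ ⟨g, hg, h1, rfl⟩
    exact ⟨l * g, mul_mem (sup_le BL (h.BL hx) hl) hg, (mul_conj _ _ _).le.trans (conj_le_of_mem hl h1),
      mul_conj _ _ _⟩
  · rintro _ ⟨g, hg, h1, rfl⟩ a ha a1 v hv e
    have VU := h.VU L.one_mem hx o2
    rw [one_conj] at VU
    obtain ⟨y, hy, u, hu, rfl⟩ := (mem_sup_V h.ab h.YV inf_le_left).1 (VU hv)
    rw [comm_mul_cent _ (cent_le_cent1 (h1 ha) hu.2)] at e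
    refine mul_mem (h.pureG hg ha a1 hy ?_) (cent_anti h1 hu.2)
    rw [← h.gen x hx hm, cent_sup]
    exact ⟨e, h.YO (h.cP hg ha hy).1⟩

end QB

instance instQL : QL.{u} where
  one h := h.one'.imp fun _ => And.left
  two {G} _ _ {V L M A B q x} h hB BA nO hx hm := by
    obtain ⟨c, AB⟩ := h.qb hB BA nO
    have o1 : (1 : G) ⋆ B ≤ B ⊔ x ⋆ B := (one_conj B).le.trans le_sup_left
    refine ⟨_, c.line hx hm, ⟨1, L.one_mem, o1, one_conj B⟩, ⟨x, hx, le_sup_right, rfl⟩, AB, fun g hg => ?_⟩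
    have gL : g ∈ L := le_sup_left.trans (c.gen x hx hm).le hg
    refine ⟨fun e => h.mem_of gL ((conj_mono g AB).trans ?_), fun e => ?_⟩
    · rw [conj_sup, e, (core_normal _ _).conj_eq gL]
      exact sup_le c.BM (le_sup_right.trans h.OM)
    · simpa using c.eqE hx hm L.one_mem gL o1 (conj_le_of_mem hg le_sup_left) (by simpa using e)

end Cfsg.Agent.Pu
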