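import Cfsg.Agent.Pu.A1

/-! S5175, slice TB: involutions acting on a line. -/

set_option autoImplicit false

namespace Cfsg.Agent.Pu

open Subgroup Cfsg Cfsg.Agent.H1 Cfsg.Agent.L Cfsg.Agent.FT Cfsg.Agent.Sg Cfsg.Agent.St
open scoped Pointwise commutatorElement

variable {G : Type*} [Group G] {V A B D E L W W' W'' : Subgroup G} {q : ℕ}
  {ℓ : Set (Subgroup G)} {a b f v z z' : G}

/-- `W / W'` is a free `⟨f⟩`-module -/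
def Fr (f : G) (W W' : Subgroup G) : Prop :=
  ∀ w ∈ W, ⁅w, f⁆ ∈ W' → ∃ x ∈ W, ⁅x, f⁆⁻¹ * w ∈ W'

theorem comm_mul_ab'' (h : W ≤ 𝐂(W)) (hf : f ∈ 𝐍(W)) (ha : a ∈ W) (hb : b ∈ W) :
    ⁅a * b, f⁆ = ⁅a, f⁆ * ⁅b, f⁆ := by
  rw [commutatorElement_mul_left_eq_conj_mul, h ha _ (comm_mem_of_norm hb hf) |>.symm,
    mul_inv_cancel_right]
  exact h (comm_mem_of_norm ha hf) _ (comm_mem_of_norm hb hf)

theorem comm_comm_invol (h : Sq W) (hf : f ∈ 𝐍(W)) (h2 : f * f ∈ 𝐂(W)) (ha : a ∈ W) :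
    ⁅⁅a, f⁆, f⁆ = 1 := by
  have h1 := (NormalIn.self_norm W).conj_mem hf ha
  rw [commutatorElement_def a, h.inv ha, mul_assoc, mul_assoc, ← mul_assoc f,
    comm_mul_ab'' h.cent hf ha h1, commutatorElement_def (f * a * f⁻¹), h.inv h1,
    show f * a * f⁻¹ * f * (f * a * f⁻¹) * f⁻¹ = f * a * f⁻¹ * (f * f * a * (f * f)⁻¹) by group,
    ← h2 a ha, mul_inv_cancel_right, h.cent ha _ h1, commutatorElement_def, h.inv ha,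
    ← mul_assoc a, ← mul_assoc a]
  exact h _ (by simpa [mul_assoc] using W.mul_mem ha h1)

theorem Fr.trans (h : Sq W) (hf : f ∈ 𝐍(W)) (h2 : f * f ∈ 𝐂(W)) (h1 : Fr f W W')
    (h3 : Fr f W' W'') (l1 : W' ≤ W) (l2 : W'' ≤ W') : Fr f W W'' := fun w hw e => by
  obtain ⟨x, hx, h4⟩ := h1 w hw (l2 e)
  have hx' := comm_mem_of_norm hx hf
  obtain ⟨y, hy, h5⟩ := h3 _ h4 (by
    rwa [h.inv hx', comm_mul_ab'' h.cent hf hx' hw, comm_comm_invol h hf h2 hx, one_mul])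
  exact ⟨x * y, W.mul_mem hx (l1 hy), by
    rwa [comm_mul_ab'' h.cent hf hx (l1 hy), mul_inv_rev, mul_assoc]⟩

namespace Line

variable [Finite G] [V.Normal] (h : Line V q ℓ L)
include h

theorem exists_comm_ne (hc : V ≤ 𝐂(V)) (hA : A ∈ ℓ) (hB : B ∈ ℓ) (ne : A ≠ B) (ha : a ∈ A)
    (h1 : a ≠ 1) (hv : v ∈ V ⊓ 𝐂(A)) : ∃ y ∈ V ⊓ 𝐂(B), ∃ u ∈ V ⊓ 𝐂(L), v = ⁅y, a⁆ * u := by
  obtain ⟨w, hw, u, hu, rfl⟩ := h.exists_comm hc hA ha h1 hv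
  obtain ⟨y, hy, x, hx, rfl⟩ := (mem_sup_V hc inf_le_left inf_le_left).1
    (h.span B hB A hA ne.symm hw)
  exact ⟨y, hy, u, hu, by rw [comm_mul_cent y (cent_le_cent1 ha hx.2)]⟩

theorem fr (hV : Sq V) (hA : A ∈ ℓ) (hB : B ∈ ℓ) (ne : A ≠ B) (f2 : f * f = 1) (fA : f ∈ 𝐍(A))
    (fB : f ∈ 𝐍(B)) (hn : f ∉ 𝐂(A)) : Fr f V (V ⊓ 𝐂(A)) ∧ Fr f (V ⊓ 𝐂(A)) (V ⊓ 𝐂(L)) := by
  have hc := hV.cent
  have m := h.mem A hA
  have fV : f ∈ 𝐍(V) := by rw [normalizer_eq_top]; trivial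
  have fL : f ∈ 𝐍(L) := conj_eq_self_iff.1 (by
    rw [← h.gen A hA B hB ne, conj_sup, conj_of_mem_norm fB, conj_of_mem_norm fA])
  have fU := le_norm_subcent (zpowers_le.2 fV) (zpowers_le.2 fL) (mem_zpowers f)
  obtain ⟨a, ha, d1⟩ : ∃ a ∈ A, ⁅a, f⁆ ≠ 1 := by
    by_contra! e
    exact hn fun a ha => commutatorElement_eq_one_iff_mul_comm.1 (e a ha)
  have hd := comm_mem_of_norm ha fA
  have df := commutatorElement_eq_one_iff_mul_comm.1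
    (comm_comm_invol m.sq fA (f2 ▸ one_mem _) ha)
  have s : Fr f (V ⊓ 𝐂(A)) (V ⊓ 𝐂(L)) := fun w hw e => by
    obtain ⟨y, hy, u, hu, rfl⟩ := h.exists_comm_ne hc hA hB ne hd d1 hw
    have hy' := comm_mem_nl hy.1 f
    rw [comm_mul_ab' hc (comm_mem_nl hy.1 _) hu.1, mul_mem_cancel_right (comm_mem_of_norm hu fU),
      comm_swap' hc hy.1 df] at e
    have h1 : ⁅y, f⁆ ∈ 𝐂(L) := h.cent_eq hA hB ne ▸ ⟨h.pure A hA _ hd d1 _ hy' e.2,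
      comm_mem_of_norm hy.2 (norm_le_norm_cent B fB)⟩
    have ha' := (NormalIn.self_norm A).conj_mem fA ha
    refine ⟨_, m.comm_mem hy.1 ha, ?_⟩
    rw [show ⁅⁅y, a⁆, f⁆ = ⁅y, ⁅a, f⁆⁆ by
      rw [commutatorElement_def a, m.sq.inv ha, mul_assoc, mul_assoc, ← mul_assoc f,
        m.comm_mul hy.1 ha ha', commutatorElement_def ⁅y, a⁆, hV.inv (comm_mem_nl hy.1 a),
        mul_assoc, mul_assoc, ← mul_assoc f, conjugate_commutatorElement,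
        show f * y * f⁻¹ = ⁅y, f⁆⁻¹ * y by group, comm_mul_ab' hc (inv_mem hy') hy.1,
        comm_eq_one_iff.2 (cent_le_cent1 (h.le hA ha') (inv_mem h1)), one_mul],
      inv_mul_cancel_left]
    exact hu
  refine ⟨fun v hv e => ?_, s⟩
  obtain ⟨x, hx, h1⟩ := s _ (m.comm_mem hv hd) (by
    rw [comm_swap' hc hv df, comm_eq_one_iff.2 (cent_le_cent1 hd e.2)]; exact one_mem _)
  obtain ⟨y, hy, u, hu, rfl⟩ := h.exists_comm hc hA hd d1 hx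
  have hy' := comm_mem_nl hy f
  refine ⟨y, hy, V.mul_mem (V.inv_mem hy') hv, h.pure A hA _ hd d1 _ (V.mul_mem (V.inv_mem hy') hv) ?_⟩
  rw [comm_mul_ab' hc (comm_mem_nl hy _) hu.1, mul_inv_rev, mul_assoc,
    mul_mem_cancel_left ((V ⊓ 𝐂(L)).inv_mem (comm_mem_of_norm hu fU)), comm_swap' hc hy df,
    comm_div_ab hc hy' hv] at h1
  exact h1.2

theorem conj_not_mem (hA : A ∈ ℓ) (hB : B ∈ ℓ) (ne : B ≠ A) (hb : b ∈ B) (h1 : b ≠ 1)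
    (hz : z ∈ 𝐂(A)) (hn : z ∉ 𝐂(L)) : b * z * b⁻¹ ∉ 𝐂(A) := fun e => hn (by
  have hL := h.le hB hb
  rw [← conj_mem_conj_iff (g := b), conj_cent, conj_of_mem hL,
    h.cent_eq hA (h.inv b hL A hA) (h.conj_ne hB hA ne hb h1).symm, ← conj_cent]
  exact ⟨e, conj_mem_conj b hz⟩)

/-- `N_L(A)` is transitive on the nonzero vectors of `C_V(A) / C_V(L)` -/
theorem trans_vec (hc : V ≤ 𝐂(V)) (hA : A ∈ ℓ) (hz : z ∈ V ⊓ 𝐂(A)) (h1 : z ∉ 𝐂(L))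
    (hz' : z' ∈ V ⊓ 𝐂(A)) (h2 : z' ∉ 𝐂(L)) :
    ∃ g ∈ L ⊓ 𝐍(A), z'⁻¹ * (g * z * g⁻¹) ∈ 𝐂(L) := by
  obtain ⟨B, hB, ne⟩ := h.exists_ne A
  have e := h.cent_eq hA hB ne.symm
  obtain ⟨y, hy, h3⟩ : ∃ y ∈ V ⊓ 𝐂(B), y ∉ 𝐂(A) := SetLike.not_le_iff_exists.1 fun e =>
    (h.mem A hA).not_le ((h.span A hA B hB ne.symm).trans (sup_le inf_le_right e))
  let R : G → G → Prop := fun v w => ∃ g ∈ L, w⁻¹ * (g * v * g⁻¹) ∈ 𝐂(L)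
  have nC : ∀ g ∈ L, ∀ u ∈ 𝐂(L), g * u * g⁻¹ ∈ 𝐂(L) := fun g hg u hu => by
    rwa [hu g hg, mul_inv_cancel_right]
  have symm : ∀ {v w}, R v w → R w v := fun ⟨g, hg, e⟩ => ⟨g⁻¹, inv_mem hg, by
    convert inv_mem (nC _ (inv_mem hg) _ e) using 1; group⟩
  have trans : ∀ {u v w}, R u v → R v w → R u w := fun ⟨g, hg, e⟩ ⟨g', hg', e'⟩ =>
    ⟨g' * g, mul_mem hg' hg, by convert mul_mem e' (nC _ hg' _ e) using 1; group⟩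
  have step : ∀ D ∈ ℓ, ∀ v ∈ V, v ∉ 𝐂(D) → ∀ w ∈ V ⊓ 𝐂(D), R v (w * v) := fun D hD v hv hn w hw => by
    obtain ⟨a, ha, h4⟩ := h.exists_comm' hc hD hv hn (inv_mem hw)
    refine ⟨a, h.le hD ha, ?_⟩
    have := (𝐂(L)).inv_mem h4.2
    rw [inv_inv, hc (comm_mem_nl hv a) w hw.1] at this
    rw [← hc hw.1 v hv, show (v * w)⁻¹ * (a * v * a⁻¹) = w⁻¹ * (v⁻¹ * (⁅v, a⁆⁻¹ * v)) by group,
      ← hc (inv_mem (comm_mem_nl hv a)) v hv]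
    convert this using 1; group
  have key : ∀ z ∈ V ⊓ 𝐂(A), z ∉ 𝐂(L) → R z y := fun z hz hn =>
    trans (step B hB z hz.1 (fun h4 => hn (e ▸ ⟨hz.2, h4⟩)) y hy)
      (hc hy.1 z hz.1 ▸ symm (step A hA y hy.1 h3 z hz))
  obtain ⟨g, hg, h4⟩ := trans (key z hz h1) (symm (key z' hz' h2))
  refine ⟨g, ⟨hg, conj_eq_self_iff.1 ?_⟩, h4⟩
  by_contra ne
  refine h1 ?_
  rw [← conj_mem_conj_iff (g := g), conj_cent, conj_of_mem hg,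
    h.cent_eq hA (h.inv g hg A hA) (Ne.symm ne), ← conj_cent]
  exact ⟨by simpa using mul_mem hz'.2 (h.cent_le hA h4), conj_mem_conj g hz.2⟩

end Line

end Cfsg.Agent.Pu
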