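import Cfsg.Agent.Pu.J

/-! S5175: the series of the local subsystems. -/

set_option autoImplicit false

universe u

namespace Cfsg.Agent.Pu

open Subgroup Cfsg Cfsg.Fus Cfsg.FusionSystem Cfsg.Agent.H1 Cfsg.Agent.L Cfsg.Agent.FT Equiv
open scoped Pointwise commutatorElement

variable {Ω : Type u} [Group Ω] {S : Subgroup Ω} {F : FusionSystem S} {P Q U : Subgroup Ω}

theorem chain_of_solvUp (h : F.SolvUp P) : ∃ (n : ℕ) (C : ℕ → Subgroup Ω), C 0 = ⊥ ∧ C n = P ∧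
    (∀ i, C i ≤ P) ∧ (∀ i, ⁅C (i + 1), C (i + 1)⁆ ≤ C i) ∧ ∀ i, F.StronglyClosed (C i) := by
  induction h with
  | bot => exact ⟨0, fun _ => ⊥, rfl, rfl, fun _ => le_rfl, fun _ => by simp,
      fun _ => SolvUp.bot.stronglyClosed⟩
  | @step A B _ hB hAB hc ih =>
    obtain ⟨n, C, h0, hn, h1, h2, h3⟩ := ih
    refine ⟨n + 1, fun i => if i ≤ n then C i else B, by simp [h0], by simp, fun i => ?_,
      fun i => ?_, fun i => ?_⟩
    · by_cases hi : i ≤ n <;> simp [hi, (h1 i).trans hAB]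
    · by_cases hi : i + 1 ≤ n
      · simp [hi, Nat.le_of_succ_le hi, h2 i]
      · by_cases hi' : i ≤ n
        · obtain rfl : i = n := by omega
          simp [hn, hc]
        · simp only [hi, hi', if_false]
          exact hc.trans hAB
    · by_cases hi : i ≤ n <;> simp [hi, h3 i, hB]

/-- conjugating a map of `N_F(U)` by a map defined on `N_S(U)` -/
theorem nMap_conj [Finite S] {τ : Perm Ω} {f : Ω → Ω} (hU : U ≤ S)
    (hτ : F.IsMap (normalizerIn S U) τ) (h : F.NMap U P f) :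
    F.NMap (img τ U) (img τ P) (τ ∘ f ∘ ⇑τ⁻¹) := by
  have hUN : U ≤ normalizerIn S U := le_inf hU le_normalizer
  obtain ⟨hP, σ, h1, h2, h3⟩ := nMap_iff_perm.1 h
  have hPU : P ⊔ U ≤ normalizerIn S U := sup_le hP hUN
  have hm : ∀ x ∈ P ⊔ U, σ x ∈ normalizerIn S U := fun x hx =>
    h1.homOn.mapsTo_sup (fun y hy => by rw [h2 y hy]; exact h.mem hy)
      (fun y hy => hUN ((h3 y).2 hy)) x hx
  refine nMap_iff_perm.2 ⟨?_, τ * σ * τ⁻¹, ?_, fun x hx => ?_, fun x => ?_⟩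
  · exact img_le_iff.2 fun x hx => hτ.mem_normalizerIn hUN (hP hx) (hP hx).2
  · rw [← (hτ.homOn.mono hPU).img_sup]
    refine IsMap.mul (hτ.mono hPU).inv (h1.mul hτ hm) fun x hx => ?_
    exact (hτ.mono hPU).iso.inv_mem hx
  · obtain ⟨y, hy, rfl⟩ := (hτ.mono hP).mem_img.1 hx
    simp [h2 y hy]
  · have := (hτ.mono hUN).iso
    rw [Perm.mul_apply, Perm.mul_apply, this.mem_iff, h3, this.inv_mem_iff]

theorem serN_of_map [Finite S] {τ : Perm Ω} (hU : U ≤ S) (hτ : F.IsMap (normalizerIn S U) τ)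
    (h : SerN F (img τ U)) : SerN F U := by
  obtain ⟨n, C, h0, hn, h1, h2, h3⟩ := h
  have hUN : U ≤ normalizerIn S U := le_inf hU le_normalizer
  have hh := hτ.homOn
  let D : ℕ → Subgroup Ω := fun i => ((C i).comap hh.toHom).map (normalizerIn S U).subtype
  have hD : ∀ i x, x ∈ D i ↔ x ∈ normalizerIn S U ∧ τ x ∈ C i := fun i x =>
    ⟨fun ⟨y, hy, e⟩ => e ▸ ⟨y.2, hy⟩, fun ⟨a, b⟩ => ⟨⟨x, a⟩, b, rfl⟩⟩
  refine ⟨n, D, ?_, ?_, fun i x hx => ((hD i x).1 hx).1, fun i => ?_, fun i P f hf x hx hc => ?_⟩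
  · refine eq_bot_iff.2 fun x hx => ?_
    obtain ⟨a, b⟩ := (hD 0 x).1 hx
    rw [h0, mem_bot, hτ.apply_eq_one a] at b
    exact mem_bot.2 b
  · ext x
    rw [hD, hn]
    exact ⟨fun h => h.1, fun h => ⟨h, hτ.mem_normalizerIn hUN h h.2⟩⟩
  · refine commutator_le.2 fun x hx y hy => ?_
    obtain ⟨a, b⟩ := (hD _ x).1 hx
    obtain ⟨c, d⟩ := (hD _ y).1 hy
    refine (hD _ _).2 ⟨mul_mem (mul_mem (mul_mem a c) (inv_mem a)) (inv_mem c), ?_⟩
    rw [hh.map_commutator a c]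
    exact h2 i (commutator_mem_commutator b d)
  · refine (hD _ _).2 ⟨hf.mem hx, ?_⟩
    have := h3 i _ _ (nMap_conj hU hτ hf) (τ x) (mem_img_of_mem _ hx) ((hD _ _).1 hc).2
    simpa using this

theorem exists_nsys [Finite S] (F : FusionSystem S) (hU : U ≤ S) :
    ∃ E : FusionSystem (normalizerIn S U), F.IsNormalizerSystem U E := by
  have h := F.isKSys_kSys (K := ⊤) hU le_top
  have key : ∀ (T : Subgroup Ω) (E : FusionSystem T), F.IsKSys U ⊤ E → T = normalizerIn S U →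
      ∃ E : FusionSystem (normalizerIn S U), F.IsNormalizerSystem U E := by
    rintro T E h rfl
    exact ⟨E, isNormalizerSystem_iff.2 fun P f => by rw [h.isMap_iff, kMap_top_iff]⟩
  exact key _ _ h (kN_top S U)

theorem serN [Finite S] (hF : F.IsSaturated 2) (hS : IsPGroup 2 S) (h : HMin F) (hU : U ≤ S)
    (h1 : U ≠ ⊥) : SerN F U := by
  haveI : Fact (Nat.Prime 2) := ⟨Nat.prime_two⟩
  obtain ⟨τ, hτ, hn⟩ := hF.exists_map_normalizer hS hU
  have hUN : U ≤ normalizerIn S U := le_inf hU le_normalizer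
  refine serN_of_map hU hτ ?_
  have hb : img τ U ≠ ⊥ := fun e => h1 (by
    rw [← card_eq_one, ← (hτ.mono hUN).card_img, e, card_bot])
  obtain ⟨E, hE⟩ := exists_nsys F hn.le
  have hs := hE.isSaturated hF hS hn
  haveI : Finite (normalizerIn S (img τ U)) := Finite.of_injective _ (inclusion_injective
    (inf_le_left : normalizerIn S (img τ U) ≤ S))
  obtain ⟨n, C, a, b, c, d, e⟩ := chain_of_solvUp
    ((hs.isSolvableSystem_iff (hS.to_le inf_le_left)).1 (h _ hb hn E hE))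
  exact ⟨n, C, a, b, c, d, fun i P f hf x hx hc =>
    (e i).mem ((isNormalizerSystem_iff.1 hE P f).2 hf) hx hc⟩

instance instSN : SN.{u} := ⟨fun hF hS h _ hU h1 => serN hF hS h hU h1⟩

/-- the lemma `NS` -/
theorem SerN.ns (h : SerN F U) {R : Set Ω} (hne : R.Nonempty) (h1 : (1 : Ω) ∉ R)
    (hR : ∀ r ∈ R, r ∈ S ⊓ 𝐍(U) ∧ ∃ f g : Ω → Ω, F.NMap U (zpowers r) f ∧
      F.NMap U (zpowers r) g ∧ ⁅f r, g r⁆ ∈ R) : False := by
  obtain ⟨n, C, h0, hn, -, h2, h3⟩ := h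
  have key : ∀ i, ∀ r ∈ R, r ∉ C i := fun i => by
    induction i with
    | zero => exact fun r hr hc => h1 (by rw [h0, mem_bot] at hc; rwa [hc] at hr)
    | succ i ih =>
      intro r hr hc
      obtain ⟨-, f, g, hf, hg, e⟩ := hR r hr
      exact ih _ e (h2 i (commutator_mem_commutator (h3 _ _ _ hf r (mem_zpowers r) hc)
        (h3 _ _ _ hg r (mem_zpowers r) hc)))
  obtain ⟨r, hr⟩ := hne
  exact key n r hr (hn ▸ (hR r hr).1)

end Cfsg.Agent.Pu
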