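import Cfsg.Agent.Pu.J
import Cfsg.Agent.Pu.A1

/-! S5175: the holomorph and the basic consequences of `Dat`. -/

set_option autoImplicit false

universe u

namespace Cfsg.Agent.Pu

open Subgroup Cfsg Cfsg.Fus Cfsg.FusionSystem Cfsg.Agent.H1 Cfsg.Agent.L Cfsg.Agent.FT
  Cfsg.Agent.Sg Cfsg.Agent.St Equiv SemidirectProduct
open scoped Pointwise commutatorElement

section
variable {G : Type*} [Group G] {Q K A B E : Subgroup G}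

theorem sq_iff_ea : Sq A ↔ IsElementaryAbelian 2 A :=
  ⟨fun h => ⟨h.comm, fun a ha => by rw [sq, h a ha]⟩, fun h a ha => by rw [← sq, h.2 a ha]⟩

theorem Sq.conj' (h : Sq A) (g : G) : Sq (g ⋆ A) := fun x hx => by
  obtain ⟨y, hy, rfl⟩ := mem_conj'.1 hx
  calc _ = g * (y * y) * g⁻¹ := by group
    _ = 1 := by rw [h y hy]; group

theorem le_or_le_of_forall (h : ∀ x ∈ E, x ∈ A ∨ x ∈ B) : E ≤ A ∨ E ≤ B := by
  by_contra hc
  obtain ⟨h1, h2⟩ := not_or.1 hc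
  obtain ⟨x, a, b⟩ := SetLike.not_le_iff_exists.1 h1
  obtain ⟨y, c, d⟩ := SetLike.not_le_iff_exists.1 h2
  rcases h _ (mul_mem a c) with e | e
  · exact b ((mul_mem_cancel_right ((h y c).resolve_right d)).1 e)
  · exact d ((mul_mem_cancel_left ((h x a).resolve_left b)).1 e)

theorem inl_mem_inV (v : Q) : (inl v : Hol Q) ∈ inV Q := ⟨v, rfl⟩

theorem inr_mem_inA {K : Subgroup (MulAut Q)} {α : MulAut Q} : (inr α : Hol Q) ∈ inA Q K ↔ α ∈ K :=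
  mem_map_iff_mem inr_injective

theorem mem_act {x : Hol Q} : x ∈ act Q K ↔
    ∃ (k : G) (hk : k ∈ 𝐍(Q)), k ∈ K ∧ inr (Q.normalizerMonoidHom ⟨k, hk⟩) = x :=
  ⟨by rintro ⟨_, ⟨k, a, rfl⟩, rfl⟩; exact ⟨k, k.2, a, rfl⟩,
    by rintro ⟨k, a, b, rfl⟩; exact ⟨_, ⟨⟨k, a⟩, b, rfl⟩, rfl⟩⟩

theorem inr_conj_inl (α : MulAut Q) (v : Q) : (inr α : Hol Q) * inl v * (inr α)⁻¹ = inl (α v) := by
  rw [← map_inv]; exact (inl_aut (φ := MonoidHom.id _) α v).symm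

theorem comm_inl_inr (v : Q) (α : MulAut Q) :
    ⁅(inl v : Hol Q), (inr α : Hol Q)⁆ = inl (v * (α v)⁻¹) := by
  rw [map_mul, ← map_inv α, ← inr_conj_inl, map_inv]; group

theorem inl_comm_inr {v : Q} {α : MulAut Q} : (inr α : Hol Q) * inl v = inl v * inr α ↔ α v = v := by
  rw [← mul_inv_eq_iff_eq_mul, inr_conj_inl, inl_inj]

theorem inl_mem_cent_inA {K : Subgroup (MulAut Q)} {v : Q} :
    (inl v : Hol Q) ∈ 𝐂(inA Q K) ↔ ∀ α ∈ K, α v = v :=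
  ⟨fun h α a => inl_comm_inr.1 (h _ (inr_mem_inA.2 a)), by
    rintro h _ ⟨α, a, rfl⟩; exact inl_comm_inr.2 (h α a)⟩

theorem inl_mem_cent_act (hK : K ≤ 𝐍(Q)) {v : Q} : (inl v : Hol Q) ∈ 𝐂(act Q K) ↔ (v : G) ∈ 𝐂(K) := by
  refine ⟨fun h k hk => ?_, fun h x hx => ?_⟩
  · have := congrArg Subtype.val (inl_comm_inr.1 (h _ (mem_act.2 ⟨k, hK hk, hk, rfl⟩)))
    exact mul_inv_eq_iff_eq_mul.1 this
  · obtain ⟨k, a, b, rfl⟩ := mem_act.1 hx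
    exact inl_comm_inr.2 (Subtype.ext (mul_inv_eq_iff_eq_mul.2 (h k b)))

instance inV_normal (Q : Subgroup G) : (inV Q).Normal := by
  rw [inV, range_inl_eq_ker_rightHom]; infer_instance

theorem sq_inV (h : Sq Q) : Sq (inV Q) := by
  rintro _ ⟨v, rfl⟩
  rw [← map_mul, ← map_one inl]; exact congrArg _ (Subtype.ext (h v v.2))

theorem md_inA (h : Sq Q) (K : Subgroup (MulAut Q)) : Md (inV Q) (inA Q K) :=
  ⟨inferInstance, sq_inV h, eq_bot_iff.2 fun x hx => by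
    obtain ⟨⟨α, -, rfl⟩, b⟩ := hx
    rw [mem_bot, show α = 1 from MulEquiv.ext fun v => inl_comm_inr.1 (b _ (inl_mem_inV v)).symm,
      map_one]⟩

theorem card_inV_inf (X : Subgroup (Hol Q)) :
    #|inV Q ⊓ X| = #|(X.comap (inl : Q →* Hol Q)).map Q.subtype| := by
  rw [card_map_inj Q.subtype_injective,
    ← card_map_inj (inl_injective (φ := MonoidHom.id (MulAut Q))) (X.comap _), map_comap_eq]; rfl

theorem card_inV (Q : Subgroup G) : #|inV Q| = #|Q| := by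
  rw [inV, MonoidHom.range_eq_map, card_map_inj inl_injective, card_top]

instance finite_hol [Finite G] : Finite (Hol Q) :=
  Finite.of_equiv _ SemidirectProduct.equivProd.symm

/-- an isomorphism induces an isomorphism of holomorphs -/
def holE {G' : Type*} [Group G'] {Q' : Subgroup G'} (e : Q ≃* Q') : Hol Q ≃* Hol Q' :=
  SemidirectProduct.congr e (MulAut.congr e) fun _ => by ext; simp

variable {G' : Type*} [Group G'] {Q' : Subgroup G'} (e : Q ≃* Q')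

theorem holE_inl (v : Q) : holE e (inl v) = inl (e v) := by ext <;> simp [holE]

theorem holE_inr (α : MulAut Q) : holE e (inr α) = inr (MulAut.congr e α) := by ext <;> simp [holE]

theorem map_inV : (inV Q).map (holE e).toMonoidHom = inV Q' := by
  ext x
  refine ⟨?_, ?_⟩
  · rintro ⟨_, ⟨v, rfl⟩, rfl⟩; exact ⟨e v, (holE_inl e v).symm⟩
  · rintro ⟨v, rfl⟩; exact ⟨_, ⟨e.symm v, rfl⟩, (holE_inl e _).trans (by simp)⟩

theorem map_inA (K : Subgroup (MulAut Q)) :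
    (inA Q K).map (holE e).toMonoidHom = inA Q' (K.map (MulAut.congr e).toMonoidHom) := by
  rw [inA, inA, map_map, map_map]; exact congrArg K.map (MonoidHom.ext (holE_inr e))

end

variable {Ω : Type u} [Group Ω] {S : Subgroup Ω} {F : FusionSystem S} {T V V₁ V₂ E : Subgroup Ω}
  {t g : Ω} {q : ℕ} {ℓ : Set (Subgroup (Hol V₁))} {L : Subgroup (Hol V₁)}

theorem mem_fixV {L : Subgroup (Hol V)} :
    g ∈ fixV V L ↔ ∃ h : g ∈ V, (inl ⟨g, h⟩ : Hol V) ∈ 𝐂(L) :=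
  ⟨by rintro ⟨v, a, rfl⟩; exact ⟨v.2, a⟩, fun ⟨a, b⟩ => ⟨⟨g, a⟩, b, rfl⟩⟩

theorem fixV_le (V : Subgroup Ω) (L : Subgroup (Hol V)) : fixV V L ≤ V := map_subtype_le _

theorem card_fixV (L : Subgroup (Hol V)) : #|fixV V L| = #|inV V ⊓ 𝐂(L)| := (card_inV_inf _).symm

/-- conjugation as an isomorphism -/
def cjE (h : t ⋆ V₁ = V₂) : V₁ ≃* V₂ :=
  ((MulAut.conj t).subgroupMap V₁).trans (MulEquiv.subgroupCongr ((conj_eq_map t V₁).symm.trans h))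

theorem coe_cjE (h : t ⋆ V₁ = V₂) (v : V₁) : (cjE h v : Ω) = t * v * t⁻¹ := rfl

theorem coe_cjE_symm (h : t ⋆ V₁ = V₂) (v : V₂) : ((cjE h).symm v : Ω) = t⁻¹ * v * t := by
  obtain ⟨v, rfl⟩ := (cjE h).surjective v
  rw [MulEquiv.symm_apply_apply, coe_cjE]; group

theorem map_act (h : t ⋆ V₁ = V₂) (K : Subgroup Ω) :
    (act V₁ K).map (holE (cjE h)).toMonoidHom = act V₂ (t ⋆ K) := by
  have k : ∀ k (a : k ∈ 𝐍(V₁)) (b : t * k * t⁻¹ ∈ 𝐍(V₂)), holE (cjE h)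
      (inr (V₁.normalizerMonoidHom ⟨k, a⟩)) = inr (V₂.normalizerMonoidHom ⟨_, b⟩) := fun k a b => by
    rw [holE_inr]; congr 1; ext v
    show t * (k * ((cjE h).symm v : Ω) * k⁻¹) * t⁻¹ = (t * k * t⁻¹) * v * (t * k * t⁻¹)⁻¹
    rw [coe_cjE_symm]; group
  ext x
  refine ⟨?_, fun hx => ?_⟩
  · rintro ⟨y, hy, rfl⟩
    obtain ⟨k', a, b, rfl⟩ := mem_act.1 hy
    exact mem_act.2 ⟨_, h ▸ R1.conj_mem_norm_iff.2 a, conj_mem_conj t b, (k _ _ _).symm⟩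
  · obtain ⟨k', a, b, rfl⟩ := mem_act.1 hx
    obtain ⟨y, hy, rfl⟩ := mem_conj'.1 b
    exact ⟨_, mem_act.2 ⟨y, R1.conj_mem_norm_iff.1 (h ▸ a), hy, rfl⟩, k _ _ _⟩

theorem fixV_map (h : t ⋆ V₁ = V₂) (L : Subgroup (Hol V₁)) :
    fixV V₂ (L.map (holE (cjE h)).toMonoidHom) = t ⋆ fixV V₁ L := by
  ext x
  rw [mem_fixV, mem_conj, mem_fixV]
  have k : ∀ (a : x ∈ V₂) (b : t⁻¹ * x * t ∈ V₁), (inl ⟨x, a⟩ : Hol V₂) ∈
      𝐂(L.map (holE (cjE h)).toMonoidHom) ↔ (inl ⟨_, b⟩ : Hol V₁) ∈ 𝐂(L) := fun a b => by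
    have e : (inl ⟨x, a⟩ : Hol V₂) = (holE (cjE h)).toMonoidHom (inl ⟨_, b⟩) :=
      ((holE_inl _ _).trans (congrArg _ (Subtype.ext (by rw [coe_cjE]; group)))).symm
    rw [e, ← mem_comap, comap_cent_map (holE (cjE h)).injective]
  exact ⟨fun ⟨a, b⟩ => ⟨mem_conj.1 (h ▸ a), (k _ _).1 b⟩, fun ⟨a, b⟩ => ⟨h ▸ mem_conj.2 a, (k _ _).2 b⟩⟩

namespace Dat

variable (d : Dat F T V₁ V₂ t q ℓ L)
include d

theorem TS : T ≤ S := d.nV ▸ inf_le_left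
theorem n₁ : T ≤ 𝐍(V₁) := d.nV ▸ inf_le_right
theorem m₁ : MaxEA T V₁ := (d.ea _).2 (Or.inl rfl)
theorem m₂ : MaxEA T V₂ := (d.ea _).2 (Or.inr rfl)
theorem le₁ : V₁ ≤ T := d.m₁.le
theorem le₂ : V₂ ≤ T := d.m₂.le
theorem sq₁ : Sq V₁ := sq_iff_ea.2 d.m₁.ea
theorem sq₂ : Sq V₂ := sq_iff_ea.2 d.m₂.ea
theorem tT' : t ⋆ T = T := conj_of_mem_norm d.tT
theorem n₂ : T ≤ 𝐍(V₂) := by rw [← d.sw, ← conj_norm, ← d.tT']; exact conj_mono t d.n₁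
theorem t_not : t ∉ T := fun h => d.ne (by rw [← d.sw, conj_of_mem_norm (d.n₁ h)])
theorem card_eq : #|V₂| = #|V₁| := by rw [← d.sw, card_conj]
theorem mA : Mem (inV V₁) q (act V₁ V₂) := d.line.mem _ d.mem
theorem one_lt : 1 < q := d.line.one_lt

theorem conj_or (hg : g ∈ 𝐍(T)) : g ⋆ V₁ = V₁ ∧ g ⋆ V₂ = V₂ ∨ g ⋆ V₁ = V₂ ∧ g ⋆ V₂ = V₁ := by
  have k : ∀ A, MaxEA T A → g ⋆ A = V₁ ∨ g ⋆ A = V₂ := fun A h => (d.ea _).1 (by
    have := (maxEA_map (conj_inj g)).2 h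
    rwa [← conj_eq_map, ← conj_eq_map, conj_of_mem_norm hg] at this)
  have n : g ⋆ V₁ ≠ g ⋆ V₂ := fun e => d.ne (conj_eq_conj_iff.1 e)
  rcases k _ d.m₁ with a | a <;> rcases k _ d.m₂ with b | b
  exacts [absurd (a.trans b.symm) n, Or.inl ⟨a, b⟩, Or.inr ⟨a, b⟩, absurd (a.trans b.symm) n]

theorem sw' : t ⋆ V₂ = V₁ := by
  rcases d.conj_or d.tT with a | a
  exacts [absurd (a.1.symm.trans d.sw) d.ne, a.2]

theorem nV₂ : S ⊓ 𝐍(V₂) = T := by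
  rw [← d.sw, ← conj_norm, ← conj_of_mem d.tS, ← conj_inf, d.nV, d.tT']

theorem cen₂ : S ⊓ 𝐂(V₂) ≤ V₂ := by
  rw [← d.sw, ← conj_cent, ← conj_of_mem d.tS, ← conj_inf]; exact conj_mono t d.cen

/-- `N_S(T) = T ∪ T t` -/
theorem mem_or (hg : g ∈ S) (hn : g ∈ 𝐍(T)) : g ∈ T ∨ g * t ∈ T := by
  rcases d.conj_or hn with a | a
  · exact Or.inl (d.nV ▸ ⟨hg, conj_eq_self_iff.1 a.1⟩)
  · exact Or.inr (d.nV ▸ ⟨mul_mem hg d.tS, conj_eq_self_iff.1 (by rw [mul_conj, d.sw, a.2])⟩)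

theorem tt_mem : t * t ∈ T := (d.mem_or d.tS d.tT).resolve_left d.t_not

/-- elements of `S ∩ N(T)` outside `T` swap -/
theorem swap_of (hg : g ∈ S) (hn : g ∈ 𝐍(T)) (h : g ∉ T) : g ⋆ V₁ = V₂ ∧ g ⋆ V₂ = V₁ :=
  (d.conj_or hn).resolve_left fun a => h (d.nV ▸ ⟨hg, conj_eq_self_iff.1 a.1⟩)

theorem inf_cent : V₁ ⊓ 𝐂(V₂) = V₁ ⊓ V₂ :=
  le_antisymm (le_inf inf_le_left ((inf_le_inf_right _ (d.le₁.trans d.TS)).trans d.cen₂))
    (inf_le_inf_left _ d.sq₂.cent)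

theorem comm_le : ⁅V₁, V₂⁆ ≤ V₁ ⊓ V₂ := comm_le_inf (d.le₂.trans d.n₁) (d.le₁.trans d.n₂)

theorem comm_mem {a b : Ω} (ha : a ∈ V₁) (hb : b ∈ V₂) : ⁅a, b⁆ ∈ V₁ ⊓ V₂ :=
  d.comm_le (commutator_mem_commutator ha hb)

theorem Z_cent : V₁ ⊓ V₂ ≤ 𝐂((V₁ ⊔ V₂ : Subgroup Ω)) := by
  rw [cent_sup]; exact inf_le_inf d.sq₁.cent d.sq₂.cent

theorem inl_cent {v : V₁} : (inl v : Hol V₁) ∈ 𝐂(act V₁ V₂) ↔ (v : Ω) ∈ V₂ := by
  rw [inl_mem_cent_act (d.le₂.trans d.n₁)]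
  exact ⟨fun h => (d.inf_cent.le ⟨v.2, h⟩).2, fun h => d.sq₂.cent h⟩

theorem card_Z : #|V₁| = q * #|(V₁ ⊓ V₂ : Subgroup Ω)| := by
  rw [← card_inV, d.mA.idx, card_inV_inf]
  congr 3
  ext x
  exact ⟨by rintro ⟨v, a, rfl⟩; exact ⟨v.2, d.inl_cent.1 a⟩,
    fun h => ⟨⟨x, h.1⟩, d.inl_cent.2 h.2, rfl⟩⟩

theorem fix_le : fixV V₁ L ≤ V₁ ⊓ V₂ := fun _ h => by
  obtain ⟨a, b⟩ := mem_fixV.1 h
  exact ⟨a, d.inl_cent.1 (d.line.cent_le d.mem b)⟩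

theorem act_ne_one {b : Ω} (hb : b ∈ V₂) (h : b ∉ V₁) :
    (inr (V₁.normalizerMonoidHom ⟨b, d.n₁ (d.le₂ hb)⟩) : Hol V₁) ≠ 1 := fun e =>
  h (d.cen ⟨d.TS (d.le₂ hb), fun v hv => by
    have := congrArg Subtype.val (DFunLike.congr_fun (inr_injective (e.trans (map_one _).symm))
      ⟨v, hv⟩)
    exact (mul_inv_eq_iff_eq_mul.1 this).symm⟩)

/-- commuting elements of `V₁` and `V₂` -/
theorem m1 {a b : Ω} (ha : a ∈ V₁) (hb : b ∈ V₂) (h : a * b = b * a) : a ∈ V₂ ∨ b ∈ V₁ := by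
  refine or_iff_not_imp_right.2 fun h1 => (d.inl_cent (v := ⟨a, ha⟩)).1 (d.mA.cent _
    (mem_act.2 ⟨b, _, hb, rfl⟩) (d.act_ne_one hb h1) ⟨inl_mem_inV _, mem_cent1.2 ?_⟩)
  exact (inl_comm_inr.2 (Subtype.ext (mul_inv_eq_iff_eq_mul.2 h.symm))).symm

/-- purity -/
theorem pure {a b : Ω} (ha : a ∈ V₁) (hb : b ∈ V₂) (h : ⁅a, b⁆ ∈ fixV V₁ L) : a ∈ V₂ ∨ b ∈ V₁ := by
  refine or_iff_not_imp_right.2 fun h1 => (d.inl_cent (v := ⟨a, ha⟩)).1 (d.line.pure _ d.mem _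
    (mem_act.2 ⟨b, _, hb, rfl⟩) (d.act_ne_one hb h1) _ (inl_mem_inV _) ?_)
  obtain ⟨c, e⟩ := mem_fixV.1 h
  rw [comm_inl_inr]
  convert e using 3
  show a * (b * a * b⁻¹)⁻¹ = _
  rw [commutatorElement_def]; group

theorem mem_sup {x : Ω} : x ∈ V₁ ⊔ V₂ ↔ ∃ a ∈ V₁, ∃ b ∈ V₂, a * b = x :=
  (NormalIn.mk d.le₁ d.n₁).mem_sup d.le₂

theorem invol {x : Ω} (hx : x ∈ V₁ ⊔ V₂) (h : x * x = 1) : x ∈ V₁ ∨ x ∈ V₂ := by
  obtain ⟨a, ha, b, hb, rfl⟩ := d.mem_sup.1 hx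
  rcases d.m1 ha hb (by
    rw [← inv_eq_of_mul_eq_one_right h, mul_inv_rev, d.sq₁.inv ha, d.sq₂.inv hb]) with c | c
  exacts [Or.inr (mul_mem c hb), Or.inl (mul_mem ha c)]

theorem ea_le (hE : E ≤ V₁ ⊔ V₂) (h : Sq E) : E ≤ V₁ ∨ E ≤ V₂ :=
  le_or_le_of_forall fun x hx => d.invol (hE hx) (h x hx)

/-- replacing `t` -/
theorem chg (hg : g ∈ S) (hn : g ∈ 𝐍(T)) (h : g ∉ T) : Dat F T V₁ V₂ g q ℓ L :=
  { d with tS := hg, tT := hn, sw := (d.swap_of hg hn h).1 }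

variable [Finite Ω]

theorem card_fix : #|(V₁ ⊓ V₂ : Subgroup Ω)| = q * #|fixV V₁ L| := by
  have := d.line.card_V (sq_inV d.sq₁).cent
  rw [card_inV, d.card_Z, ← card_fixV, mul_assoc] at this
  exact Nat.eq_of_mul_eq_mul_left (by have := d.one_lt; omega) this

/-- the configuration seen from `V₂` -/
theorem swap : Dat F T V₂ V₁ t q (Subgroup.map (holE (cjE d.sw)).toMonoidHom '' ℓ)
    (L.map (holE (cjE d.sw)).toMonoidHom) := by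
  have i : F.Iso V₁ V₂ (cj t) := (F.isMap_cj d.fn.1 d.tS).iso_of_img
    ((img_cj _ _).trans ((conj_eq_map _ _).symm.trans d.sw))
  refine ⟨d.sat, d.two, d.tS, d.tT, d.sw', d.ne.symm, d.nV₂, ⟨i.le_right, fun R hR => ?_⟩, d.cen₂,
    fun A => (d.ea A).trans or_comm, ?_, ⟨_, d.mem, by rw [map_act, d.sw']⟩, ?_, fun c hc h => ?_⟩
  · exact (d.fn.2 R (i.isConj.trans hR)).trans_eq (congrArg (#|·|) (d.nV.trans d.nV₂.symm))
  · rw [← map_inV (cjE d.sw)]; exact d.line.map (holE _).injective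
  · refine (map_mono d.LF).trans ?_
    rw [map_inA]
    refine map_mono ?_
    rintro _ ⟨α, a, rfl⟩
    refine mem_autGroup_of_rep (i.conj ((mem_autGroup_iff d.fn.1).1 a)).isMap fun v => ?_
    show t * (α ((cjE d.sw).symm v) : Ω) * t⁻¹ = t * extAut V₁ α ((cj t)⁻¹ v) * t⁻¹
    rw [cj_inv_apply, ← coe_cjE_symm d.sw, extAut_coe]
  · have := conj_mem_conj t (d.cA (t⁻¹ * c * t) (mem_conj.1 (d.tT'.ge hc)) fun v hv => by
      have := h _ (d.sw' ▸ conj_mem_conj t hv)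
      rw [← d.sw, mem_conj] at this
      convert this using 1
      simp only [commutatorElement_def]; group)
    rw [conj_sup, d.sw, d.sw'] at this
    convert this using 1; group

end Dat

end Cfsg.Agent.Pu
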