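import Cfsg.Agent.Pu.R1
import Cfsg.Agent.Pu.T1
import Cfsg.Agent.Pu.G2
import Cfsg.Agent.Pu.S1

/-! S5175, slice TB: `Aut_F(V₁)` permutes the line; `D₁ ⊓ D₂ = 1`. -/

set_option autoImplicit false

universe u

namespace Cfsg.Agent.Pu.Tb

open Subgroup Cfsg Cfsg.Fus Cfsg.FusionSystem Cfsg.Agent.H1 Cfsg.Agent.L Cfsg.Agent.FT
  Cfsg.Agent.Sg Cfsg.Agent.St Equiv SemidirectProduct
open Gt (br io br_io io_mem io_inj io_mul io_inv io_of br_mul br_conj br_mem_act br_eq_one io_comm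
  io_cent mem_inV)
open scoped Pointwise commutatorElement

variable {Ω : Type u} [Group Ω] {S : Subgroup Ω} {F : FusionSystem S} {T V V₁ V₂ K U : Subgroup Ω}
  {t g v z : Ω} {q : ℕ} {ℓ : Set (Subgroup (Hol V₁))} {L B : Subgroup (Hol V₁)}
  {ℓ' : Set (Subgroup (Hol V₂))} {L' : Subgroup (Hol V₂)} {σ τ : Perm Ω}

/-- `x` acts on `V` as `σ` -/
def Rp (V : Subgroup Ω) (x : Hol V) (σ : Ω → Ω) : Prop :=
  ∀ v ∈ V, x * io V v * x⁻¹ = io V (σ v)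

theorem exists_rp {x : Hol V} (hV : V ≤ S) (hx : x ∈ inA V (F.autGroup V)) :
    ∃ σ, F.Iso V V σ ∧ Rp V x σ := by
  obtain ⟨α, a, rfl⟩ := hx
  refine ⟨_, (mem_autGroup_iff hV).1 a, fun v hv => ?_⟩
  rw [io_of hv, extAut_of_mem _ hv, io_of (α ⟨v, hv⟩).2]
  exact inr_conj_inl α _

theorem exists_rp' (h : F.Iso V V σ) : ∃ x ∈ inA V (F.autGroup V), Rp V x σ := by
  obtain ⟨α, a, e⟩ := h.exists_aut
  refine ⟨inr α, inr_mem_inA.2 a, fun v hv => ?_⟩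
  rw [io_of hv, ← e ⟨v, hv⟩, io_of (α ⟨v, hv⟩).2]
  exact inr_conj_inl α _

theorem br_mem_top (V : Subgroup Ω) (g : Ω) : br V g ∈ inA V ⊤ := by
  unfold br
  split_ifs
  exacts [⟨_, trivial, rfl⟩, one_mem _]

theorem eq_of_rp (h : Sq V) {x y : Hol V} (hx : x ∈ inA V ⊤) (hy : y ∈ inA V ⊤)
    (e : ∀ v ∈ V, x * io V v * x⁻¹ = y * io V v * y⁻¹) : x = y :=
  (inv_mul_eq_one.1 (mem_bot.1 ((md_inA h ⊤).faith ▸ ⟨(inA V ⊤).mul_mem ((inA V ⊤).inv_mem hy) hx,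
    fun w hw => by
      obtain ⟨v, hv, rfl⟩ := mem_inV.1 hw
      rw [mul_assoc, mul_inv_eq_iff_eq_mul.1 (e v hv)]; group⟩))).symm

theorem io_mem_cent (hv : v ∈ V) {L : Subgroup (Hol V)} : io V v ∈ 𝐂(L) ↔ v ∈ fixV V L := by
  rw [mem_fixV, io_of hv]
  exact ⟨fun h => ⟨hv, h⟩, fun h => h.2⟩

variable (d : Dat F T V₁ V₂ t q ℓ L)
include d

theorem io_A (hv : v ∈ V₁) : io V₁ v ∈ 𝐂(act V₁ V₂) ↔ v ∈ V₂ := by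
  rw [io_of hv]; exact d.inl_cent

theorem act_T : act V₁ T = inA V₁ (autInducedBy S V₁) := by
  refine congrArg (inA V₁) (Subgroup.ext fun α => ⟨?_, fun h => ?_⟩)
  · rintro ⟨g, hg, rfl⟩
    exact mem_autInducedBy.2 ⟨g, d.TS hg, fun _ => rfl⟩
  · obtain ⟨g, hg, e⟩ := mem_autInducedBy.1 h
    have hn := mem_normalizer_of_induces e
    exact ⟨⟨g, hn⟩, (d.nV.le ⟨hg, hn⟩ :), MulEquiv.ext fun x => Subtype.ext (e x).symm⟩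

theorem br_eq_one' (hg : g ∈ T) : br V₁ g = 1 ↔ g ∈ V₁ :=
  (br_eq_one (d.n₁ hg)).trans ⟨fun h => d.cen ⟨d.TS hg, h⟩, fun h => d.sq₁.cent h⟩

theorem cent_A (hg : g ∈ T) (h : br V₁ g ∈ 𝐂(act V₁ V₂)) : g ∈ V₁ ⊔ V₂ :=
  d.cA g hg fun v hv => (br_eq_one' d (comm_le_of_le le_rfl d.le₂
    (commutator_mem_commutator hg hv))).1 (by
      rw [Gt.br_comm (d.n₁ hg) (d.n₁ (d.le₂ hv)), commutatorElement_eq_one_iff_mul_comm]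
      exact (h _ (br_mem_act (d.n₁ (d.le₂ hv)) hv)).symm)

theorem act_B : act V₁ (V₁ ⊔ V₂) = act V₁ V₂ := by
  rw [Gt.act_sup le_normalizer (d.le₂.trans d.n₁), (Gt.act_eq_bot le_normalizer).2 d.sq₁.cent,
    bot_sup_eq]

variable [Finite Ω]

theorem syl : IsSylowIn 2 (act V₁ T) (inA V₁ (F.autGroup V₁)) := by
  have h := d.fn.isFullyAutomized d.sat d.two
  rw [act_T d]
  exact ((isSylowIn_iff (F.autInducedBy_le_autGroup h.1)).2 h.2).map_of_injective _ inr_injective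

theorem ext {x : Hol V₁} (hx : x ∈ inA V₁ (F.autGroup V₁)) (hK : K ≤ T)
    (h : ∀ g ∈ K, x * br V₁ g * x⁻¹ ∈ act V₁ T) : ∃ τ : Perm Ω, F.IsMap (V₁ ⊔ K) τ ∧
      F.Iso V₁ V₁ τ ∧ Rp V₁ x τ ∧ ∀ g ∈ V₁ ⊔ K, τ g ∈ T ∧ br V₁ (τ g) = x * br V₁ g * x⁻¹ := by
  obtain ⟨σ, h1, h2⟩ := exists_rp d.fn.1 hx
  have key : ∀ g ∈ 𝐍(V₁), ∀ v ∈ V₁, x * br V₁ g * x⁻¹ * io V₁ v * (x * br V₁ g * x⁻¹)⁻¹ =
      io V₁ (σ (g * σ⁻¹ v * g⁻¹)) := fun g hg v hv => by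
    have h3 := h1.inv_mem hv
    rw [← h2 _ (Gt.conj_mem_of_norm hg h3), ← br_io hg h3]
    conv_lhs => rw [← perm_apply_inv_self σ v, ← h2 _ h3]
    group
  obtain ⟨τ, h3, h4⟩ := (d.fn.isReceptive d.sat d.two).exists_ext_of_le h1 (hK.trans d.nV.ge)
    fun g hg => by
      obtain ⟨y, hy, hn, e⟩ := Gt.mem_act.1 (h g hg)
      refine mem_innS.2 ⟨y, d.TS hy, hn, fun v hv => ?_⟩
      have h5 := key g (d.n₁ (hK hg)) v hv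
      rw [← e, br_io hn hv, io_inj (Gt.conj_mem_of_norm hn hv)
        (h1.mem (Gt.conj_mem_of_norm (d.n₁ (hK hg)) (h1.inv_mem hv)))] at h5
      exact h5.symm
  have h5 := h1.congr h4
  refine ⟨τ, h3, h5, fun v hv => h4 v hv ▸ h2 v hv, fun g hg => ?_⟩
  have gn := d.n₁ (sup_le d.le₁ hK hg)
  have hn : τ g ∈ 𝐍(V₁) := h5.img_eq ▸ h3.mem_normalizer_img le_sup_left hg gn
  refine ⟨d.nV.le ⟨h3.mem hg, hn⟩, eq_of_rp d.sq₁ (br_mem_top _ _) (mul_mem (mul_mem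
    (map_mono le_top hx) (br_mem_top _ _)) (inv_mem (map_mono le_top hx))) fun v hv => ?_⟩
  have h6 := h1.inv_mem hv
  rw [key g gn v hv, br_io hn hv, ← h4 _ (Gt.conj_mem_of_norm gn h6),
    h3.homOn.map_conj hg (mem_sup_left h6), h4 _ h6, perm_apply_inv_self]

theorem ser (hs : SerN F V₁) : Ser (act V₁ T) (inA V₁ (F.autGroup V₁)) := by
  obtain ⟨n, C, h0, hn, h1, h2, h3⟩ := hs
  rw [d.nV] at hn h1
  refine ⟨n, fun i => act V₁ (C i), (congrArg _ h0).trans ((Gt.act_eq_bot bot_le).2 bot_le),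
    congrArg _ hn, fun i => Gt.act_mono (h1 i), fun i => commutator_le.2 fun x hx y hy => ?_,
    fun i x hx y hy e => ?_⟩
  · obtain ⟨a, ha, an, rfl⟩ := Gt.mem_act.1 hx
    obtain ⟨b, hb, bn, rfl⟩ := Gt.mem_act.1 hy
    rw [← Gt.br_comm an bn]
    exact br_mem_act (comm_le_of_le le_rfl le_rfl (commutator_mem_commutator an bn))
      (h2 i (commutator_mem_commutator ha hb))
  obtain ⟨a, ha, an, rfl⟩ := Gt.mem_act.1 hx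
  have h4 := zpowers_le.2 (h1 i ha)
  obtain ⟨τ, h5, h6, -, h7⟩ := ext d hy h4 fun g hg => by
    refine (show zpowers a ≤ Gt.pre V₁ (y⁻¹ ⋆ act V₁ T) from zpowers_le.2
      (Gt.mem_pre.2 ⟨an, mem_conj.2 (by rwa [inv_inv])⟩)) hg |> Gt.mem_pre.1 |>.2 |> mem_conj.1
        |> fun h => by rwa [inv_inv] at h
  obtain ⟨h8, h9⟩ := h7 a (mem_sup_right (mem_zpowers a))
  rw [← h9]
  exact br_mem_act (d.n₁ h8) (h3 i (zpowers a) τ ⟨h4.trans d.nV.ge, τ, sup_comm V₁ _ ▸ h5,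
    fun _ _ => rfl, h6.img_eq⟩ a (mem_zpowers a) ha)

theorem perm [LN.{u}] (hs : SerN F V₁) {x : Hol V₁} (hx : x ∈ inA V₁ (F.autGroup V₁)) :
    ∀ D ∈ ℓ, x ⋆ D ∈ ℓ := fun D hD => by
  obtain ⟨y, hy, rfl⟩ := d.line.trans d.mem hD
  rw [← mul_conj]
  refine (LN.rg (md_inA d.sq₁ _) (syl d) (ser d hs) d.line d.mem d.LF (Gt.act_mono d.le₂)
    (Gt.act_le_norm d.n₂) fun c hc => ?_).2 _ (mul_mem hx (d.LF hy))
  obtain ⟨g, hg, hn, rfl⟩ := Gt.mem_act.1 hc.1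
  exact act_B d ▸ br_mem_act hn (cent_A d hg hc.2)

theorem fix_map [LN.{u}] (hs : SerN F V₁) (h : F.Iso V₁ V₁ σ) (hv : v ∈ fixV V₁ L) :
    σ v ∈ fixV V₁ L := by
  obtain ⟨x, hx, e⟩ := exists_rp' h
  have h1 := fixV_le _ _ hv
  rw [← io_mem_cent (h.mem h1), ← e v h1]
  exact (NormalIn.cent_norm L).conj_mem (d.line.mem_norm (perm d hs hx)) ((io_mem_cent h1).2 hv)

theorem norm_fix [LN.{u}] (hs : SerN F V₁) : T ≤ 𝐍(fixV V₁ L) :=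
  le_norm_iff.2 fun _ ha _ hx => fix_map d hs (F.iso_cj d.fn.1 (d.TS ha) (d.n₁ ha)) hx

omit d in
/-- an `F`-map fixing `U` and moving `V₁ ⊓ V₂` -/
def Mv (F : FusionSystem S) (V₁ V₂ D U : Subgroup Ω) : Prop :=
  ∃ τ : Perm Ω, F.IsMap (V₁ ⊔ U) τ ∧ (∀ u ∈ U, τ u = u) ∧
    ∀ z ∈ V₁ ⊓ V₂, z ∉ D → τ z ∈ V₁ ∧ τ z ∉ V₂

theorem rp_move (hB : B ∈ ℓ) (ne : B ≠ act V₁ V₂) {b : Hol V₁} (hb : b ∈ B) (h1 : b ≠ 1)
    {f : Ω → Ω} (h : Rp V₁ b f) (hz : z ∈ V₁ ⊓ V₂) (h2 : f z ∈ V₁) (hn : z ∉ fixV V₁ L) :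
    f z ∉ V₂ := by
  rw [← io_A d h2, ← h z hz.1]
  exact d.line.conj_not_mem d.mem hB ne hb h1 ((io_A d hz.1).2 hz.2) (mt (io_mem_cent hz.1).1 hn)

omit [Finite Ω] in
theorem ns (d' : Dat F T V₂ V₁ t q ℓ' L') (hs : SerN F U) (m : Mv F V₁ V₂ (fixV V₁ L) U)
    (m' : Mv F V₂ V₁ (fixV V₂ L') U) (h : ∃ a ∈ V₁ ⊓ 𝐂(U), a ∉ V₂) (h' : ∃ b ∈ V₂ ⊓ 𝐂(U), b ∉ V₁) :
    False := by
  obtain ⟨a, ha, a2⟩ := h
  obtain ⟨b, hb, b1⟩ := h'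
  obtain ⟨τ, t1, t2, t3⟩ := m
  obtain ⟨τ', s1, s2, s3⟩ := m'
  refine hs.ns (R := {r | ∃ a ∈ V₁ ⊓ 𝐂(U), a ∉ V₂ ∧ ∃ b ∈ V₂ ⊓ 𝐂(U), b ∉ V₁ ∧ ⁅a, b⁆ = r})
    ⟨_, a, ha, a2, b, hb, b1, rfl⟩ ?_ ?_
  · rintro ⟨a, ha, a2, b, hb, b1, e⟩
    exact (d.pure ha.1 hb.1 (e ▸ one_mem _)).elim a2 b1
  rintro _ ⟨a, ha, a2, b, hb, b1, rfl⟩
  have h1 := d.comm_mem ha.1 hb.1
  have h2 : ⁅a, b⁆ ∈ 𝐂(U) := comm_le_of_le le_rfl le_rfl (commutator_mem_commutator ha.2 hb.2)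
  have h3 : ⁅a, b⁆ ∈ S ⊓ 𝐍(U) := ⟨d.TS (d.le₁ h1.1), cent_le_norm U h2⟩
  have k : ∀ {V : Subgroup Ω} {τ : Perm Ω}, F.IsMap (V ⊔ U) τ → (∀ u ∈ U, τ u = u) → ⁅a, b⁆ ∈ V →
      F.NMap U (zpowers ⁅a, b⁆) τ ∧ τ ⁅a, b⁆ ∈ 𝐂(U) := fun t1 t2 hv =>
    ⟨⟨zpowers_le.2 h3, _, t1.mono (sup_le_sup_right (zpowers_le.2 hv) _), fun _ _ => rfl,
      img_eq_self_of_fix t2⟩,
      img_eq_self_of_fix t2 ▸ t1.mem_centralizer_img le_sup_right (mem_sup_left hv) h2⟩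
  obtain ⟨x1, x2⟩ := t3 _ h1 fun e => (d.pure ha.1 hb.1 e).elim a2 b1
  obtain ⟨y1, y2⟩ := s3 _ ⟨h1.2, h1.1⟩ fun e => (d'.pure hb.1 ha.1
    (commutatorElement_inv a b ▸ inv_mem e)).elim b1 a2
  exact ⟨h3, τ, τ', (k t1 t2 h1.1).1, (k s1 s2 h1.2).1, _, ⟨x1, (k t1 t2 h1.1).2⟩, x2, _,
    ⟨y1, (k s1 s2 h1.2).2⟩, y2, rfl⟩

theorem mv_fix (hU : U ≤ fixV V₁ L) : Mv F V₁ V₂ (fixV V₁ L) U := by
  obtain ⟨B, hB, ne⟩ := d.line.exists_ne (act V₁ V₂)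
  obtain ⟨b, hb, b1⟩ := exists_mem_ne_one (d.line.mem B hB).ne_bot
  obtain ⟨σ, h1, h2⟩ := exists_rp d.fn.1 (d.LF (d.line.le hB hb))
  have h3 := hU.trans (fixV_le _ _)
  refine ⟨σ, (sup_eq_left.2 h3).symm ▸ h1.isMap, fun u hu => ?_, fun z hz hn =>
    ⟨h1.mem hz.1, rp_move d hB ne hb b1 h2 hz (h1.mem hz.1) hn⟩⟩
  rw [← io_inj (h1.mem (h3 hu)) (h3 hu), ← h2 u (h3 hu),
    (io_mem_cent (h3 hu)).2 (hU hu) b (d.line.le hB hb), mul_inv_cancel_right]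

theorem exists_not_mem : ∃ a ∈ V₁, a ∉ V₂ := SetLike.not_le_iff_exists.1 fun e =>
  d.ne (eq_of_le_of_card_le e d.card_eq.le)

theorem dd (d' : Dat F T V₂ V₁ t q ℓ' L') (hs : ∀ U ≤ S, U ≠ ⊥ → SerN F U) :
    fixV V₁ L ⊓ fixV V₂ L' = ⊥ := by
  by_contra h
  obtain ⟨a, ha, a2⟩ := exists_not_mem d
  obtain ⟨b, hb, b1⟩ := exists_not_mem d'
  exact ns d d' (hs _ (inf_le_left.trans ((fixV_le _ _).trans d.fn.1)) h) (mv_fix d inf_le_left)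
    (mv_fix d' inf_le_right)
    ⟨a, ⟨ha, cent_anti (inf_le_left.trans (fixV_le _ _)) (d.sq₁.cent ha)⟩, a2⟩
    ⟨b, ⟨hb, cent_anti (inf_le_right.trans (fixV_le _ _)) (d.sq₂.cent hb)⟩, b1⟩

/-- `D₂ = 1` or `Z = D₁ D₂` -/
theorem dq [LN.{u}] (d' : Dat F T V₂ V₁ t q ℓ' L') (hs : ∀ U ≤ S, U ≠ ⊥ → SerN F U) :
    fixV V₂ L' = ⊥ ∨ V₁ ⊓ V₂ ≤ fixV V₂ L' ⊔ fixV V₁ L := by
  refine or_iff_not_imp_left.2 fun h z hz => ?_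
  obtain ⟨y, hy, y1⟩ := exists_mem_ne_one h
  have h1 := d'.fix_le hy
  by_cases h2 : z ∈ fixV V₁ L
  · exact mem_sup_right h2
  obtain ⟨x, hx, h3⟩ := d.line.trans_vec (sq_inV d.sq₁).cent d.mem
    ⟨io_mem h1.2, (io_A d h1.2).2 h1.1⟩ (fun e => y1 (mem_bot.1 (dd d d' hs ▸
      ⟨(io_mem_cent h1.2).1 e, hy⟩))) ⟨io_mem hz.1, (io_A d hz.1).2 hz.2⟩
        (mt (io_mem_cent hz.1).1 h2)
  have h4 : ∀ g ∈ V₂, x * br V₁ g * x⁻¹ ∈ act V₁ V₂ := fun g hg =>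
    (NormalIn.self_norm _).conj_mem hx.2 (br_mem_act (d.n₁ (d.le₂ hg)) hg)
  obtain ⟨τ, t1, t2, t3, t4⟩ := ext d (d.LF hx.1) d.le₂ fun g hg => Gt.act_mono d.le₂ (h4 g hg)
  have t5 := t1.mono le_sup_right
  have h5 : img τ V₂ ≤ V₁ ⊔ V₂ := img_le_iff.2 fun g hg => cent_A d (t4 g (mem_sup_right hg)).1
    ((t4 g (mem_sup_right hg)).2 ▸ d.mA.sq.cent (h4 g hg))
  have h6 : img τ V₂ ≤ V₂ := (d.ea_le h5 fun w hw => by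
    obtain ⟨g, hg, rfl⟩ := t5.mem_img.1 hw
    rw [← t5.homOn hg hg, d.sq₂ g hg, t5.homOn.map_one]).resolve_left fun e => by
      obtain ⟨b, hb, b1⟩ := exists_not_mem d'
      exact b1 ((t2.mem_iff b).1 (e (mem_img_of_mem τ hb)))
  have h7 := fix_map d' (hs _ d'.fn.1 (ne_bot_of_le h (fixV_le _ _)))
    (t5.iso_self (img_le_iff.1 h6)) hy
  rw [t3 y h1.2, ← io_inv hz.1, ← io_mul (inv_mem hz.1) (t2.mem h1.2),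
    io_mem_cent (mul_mem (inv_mem hz.1) (t2.mem h1.2))] at h3
  simpa using mul_mem (mem_sup_left h7) (inv_mem (mem_sup_right h3))

end Cfsg.Agent.Pu.Tb
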