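import Cfsg.Agent.Pu.R2
import Cfsg.Agent.Pu.N1
import Cfsg.Agent.Pu.S5

/-! S5175, slice TB. -/

set_option autoImplicit false

universe u

namespace Cfsg.Agent.Pu.Tb

open Subgroup Cfsg Cfsg.Fus Cfsg.FusionSystem Cfsg.Agent.H1 Cfsg.Agent.L Cfsg.Agent.FT
  Cfsg.Agent.Sg Cfsg.Agent.St Equiv SemidirectProduct
open Gt (br io br_io io_mem io_inj io_mul io_inv io_of br_mul br_conj br_mem_act br_eq_one io_comm
  io_cent mem_inV)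
open scoped Pointwise commutatorElement

theorem exists_sq_mem {G : Type*} [Group G] {T B : Subgroup G} (k : ℕ) {x : G} (hx : x ∈ T)
    (h : x ^ 2 ^ k ∈ B) (hn : x ∉ B) : ∃ f ∈ T, f ∉ B ∧ f * f ∈ B := by
  induction k generalizing x with
  | zero => exact absurd (by simpa using h) hn
  | succ k ih =>
    by_cases e : x * x ∈ B
    exacts [⟨x, hx, hn, e⟩, ih (mul_mem hx hx) (by rwa [← sq, ← pow_mul, ← pow_succ']) e]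

theorem not_two {G : Type*} [Group G] [Finite G] {V L : Subgroup G} {q : ℕ} {ℓ : Set (Subgroup G)}
    [V.Normal] (h : Line V q ℓ L) (hV : Sq V) : ¬ IsPGroup 2 L := fun e => by
  obtain ⟨D, hD⟩ := h.nonempty
  obtain ⟨E, hE, ne⟩ := h.exists_ne D
  obtain ⟨y, hy, h1, h2⟩ := exists_fix_mod' (Y := 𝐂(L)) hV.two e
    (by rw [normalizer_eq_top]; exact le_top) fun e => (h.mem D hD).not_le (e.trans (h.cent_le hD))
  have k : ∀ D ∈ ℓ, y ∈ 𝐂(D) := fun D hD =>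
    have ⟨a, ha, a1⟩ := exists_mem_ne_one (h.mem D hD).ne_bot
    h.pure D hD a ha a1 y hy (h2 a (h.le hD ha))
  exact h1 (h.cent_eq hE hD ne ▸ ⟨k E hE, k D hD⟩)

variable {Ω : Type u} [Group Ω] {S : Subgroup Ω} {F : FusionSystem S} {T V V₁ V₂ W W' : Subgroup Ω}
  {t g v : Ω} {q : ℕ} {ℓ : Set (Subgroup (Hol V₁))} {L : Subgroup (Hol V₁)}
  {ℓ' : Set (Subgroup (Hol V₂))} {L' : Subgroup (Hol V₂)}

theorem fr_of {X X' : Subgroup (Hol V)} (h : Fr (br V g) X X') (hg : g ∈ 𝐍(V)) (h1 : X ≤ inV V)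
    (h2 : W ≤ V) (e : ∀ v ∈ V, io V v ∈ X ↔ v ∈ W) (e' : ∀ v ∈ V, io V v ∈ X' ↔ v ∈ W') :
    Fr g W W' := fun w hw h3 => by
  obtain ⟨x, hx, h4⟩ := h _ ((e w (h2 hw)).2 hw) (by
    rw [io_comm hg (h2 hw)]; exact (e' _ (comm_mem_of_norm (h2 hw) hg)).2 h3)
  obtain ⟨y, hy, rfl⟩ := mem_inV.1 (h1 hx)
  have h5 := comm_mem_of_norm hy hg
  rw [io_comm hg hy, ← io_inv h5, ← io_mul (inv_mem h5) (h2 hw)] at h4
  exact ⟨y, (e y hy).1 hx, (e' _ (mul_mem (inv_mem h5) (h2 hw))).1 h4⟩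

/-- `g` fixes a second point of the line -/
def Gd (ℓ : Set (Subgroup (Hol V₁))) (V₂ : Subgroup Ω) (g : Ω) : Prop :=
  ∃ B ∈ ℓ, B ≠ act V₁ V₂ ∧ br V₁ g ∈ 𝐍(B)

variable (d : Dat F T V₁ V₂ t q ℓ L)
include d

theorem Gd.mul (h : Gd ℓ V₂ g) (hg : g ∈ T) (hv : v ∈ V₁) : Gd ℓ V₂ (v * g) := by
  rwa [Gd, br_mul (le_normalizer hv) (d.n₁ hg), (br_eq_one' d (d.le₁ hv)).2 hv, one_mul]

theorem br_norm (hg : g ∈ T) : br V₁ g ∈ 𝐍(act V₁ V₂) :=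
  Gt.act_le_norm d.n₂ (br_mem_act (d.n₁ hg) hg)

theorem br_sq (hg : g ∈ T) (h : g * g ∈ V₁) : br V₁ g * br V₁ g = 1 := by
  rw [← br_mul (d.n₁ hg) (d.n₁ hg), br_eq_one' d (mul_mem hg hg)]; exact h

variable [Finite Ω]

theorem Gd.sq (h : Gd ℓ V₂ g) (hg : g ∈ T) (h2 : g * g ∈ V₁ ⊔ V₂) : g * g ∈ V₁ := by
  obtain ⟨B, hB, ne, h1⟩ := h
  by_contra e
  exact ne (d.line.eq_of_norm d.mem hB (act_B d ▸ br_mem_act (d.n₁ (mul_mem hg hg)) h2)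
    (mt (br_eq_one' d (mul_mem hg hg)).1 e) (br_mul (d.n₁ hg) (d.n₁ hg) ▸ mul_mem h1 h1)).symm

theorem Gd.fr (h : Gd ℓ V₂ g) (hg : g ∈ T) (h1 : g ∉ V₁ ⊔ V₂) (h2 : g * g ∈ V₁) :
    Fr g V₁ (V₁ ⊓ V₂) ∧ Fr g (V₁ ⊓ V₂) (fixV V₁ L) := by
  obtain ⟨B, hB, ne, h3⟩ := h
  obtain ⟨h4, h5⟩ := d.line.fr (sq_inV d.sq₁) d.mem hB ne.symm (br_sq d hg h2) (br_norm d hg) h3
    (mt (cent_A d hg) h1)
  have e : ∀ v ∈ V₁, io V₁ v ∈ inV V₁ ⊓ 𝐂(act V₁ V₂) ↔ v ∈ V₁ ⊓ V₂ := fun v hv =>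
    ⟨fun h => ⟨hv, (io_A d hv).1 h.2⟩, fun h => ⟨io_mem hv, (io_A d hv).2 h.2⟩⟩
  exact ⟨fr_of h4 (d.n₁ hg) le_rfl le_rfl (fun v hv => iff_of_true (io_mem hv) hv) e,
    fr_of h5 (d.n₁ hg) inf_le_left inf_le_left e fun v hv =>
      ⟨fun h => (io_mem_cent hv).1 h.2, fun h => ⟨io_mem hv, (io_mem_cent hv).2 h⟩⟩⟩

theorem exists_cent (hg : g ∈ T) (h2 : g * g ∈ V₁) (h : Fr g V₁ (V₁ ⊓ V₂)) :
    ∃ a ∈ V₁ ⊓ 𝐂(zpowers g), a ∉ V₂ := by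
  by_contra! e
  have k : ∀ x ∈ V₁, ⁅x, g⁆ ∈ V₁ ⊓ V₂ := fun x hx => ⟨comm_mem_of_norm hx (d.n₁ hg), e _
    ⟨comm_mem_of_norm hx (d.n₁ hg), cent_zpowers g ▸ comm_eq_one_iff.1
      (comm_comm_invol d.sq₁ (d.n₁ hg) (d.sq₁.cent h2) hx)⟩⟩
  obtain ⟨a, ha, a2⟩ := exists_not_mem d
  obtain ⟨x, hx, h3⟩ := h a ha (k a ha)
  exact a2 ((V₂.mul_mem_cancel_left (V₂.inv_mem (k x hx).2)).1 h3.2)

theorem Gd.mv (h : Gd ℓ V₂ g) (hg : g ∈ T) (h2 : g * g = 1) (f : Fr g V₁ ⊥) :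
    Mv F V₁ V₂ (fixV V₁ L) (zpowers g) := by
  obtain ⟨B, hB, ne, h3⟩ := h
  obtain ⟨b, hb, b1⟩ := exists_mem_ne_one (inf_cent_ne_bot_of_pgroup Nat.prime_two
    (d.line.mem B hB).sq.two (R1.two_zpowers (br_sq d hg (h2 ▸ one_mem _))) (zpowers_le.2 h3)
      (d.line.mem B hB).ne_bot)
  have gz := mem_zpowers g
  have h4 : b * br V₁ g * b⁻¹ = br V₁ g := by rw [← hb.2 _ (mem_zpowers _), mul_inv_cancel_right]
  obtain ⟨τ, t1, t2, t3, t4⟩ := ext d (d.LF (d.line.le hB hb.1)) (zpowers_le.2 hg) fun y hy => by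
    have := Gt.mem_pre.1 ((show zpowers g ≤ Gt.pre V₁ (b⁻¹ ⋆ act V₁ T) from zpowers_le.2
      (Gt.mem_pre.2 ⟨d.n₁ hg, mem_conj.2 (by
        rw [inv_inv, h4]; exact br_mem_act (d.n₁ hg) hg)⟩)) hy)
    simpa using mem_conj.1 this.2
  obtain ⟨t5, t6⟩ := t4 g (mem_sup_right gz)
  have ig := inv_eq_of_mul_eq_one_right h2
  have h5 : τ g * g ∈ V₁ := (br_eq_one' d (mul_mem t5 hg)).1 (by
    rw [br_mul (d.n₁ t5) (d.n₁ hg), t6, h4, br_sq d hg (h2 ▸ one_mem _)])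
  obtain ⟨x, hx, h6⟩ := f _ h5 (by
    rw [commutatorElement_def, d.sq₁.inv h5, ig, mul_assoc (τ g), h2, mul_one, ← mul_assoc,
      ← t1.homOn (mem_sup_right gz) (mem_sup_right gz), h2, t1.homOn.map_one, one_mul, h2]
    exact one_mem _)
  have t7 := t1.mul (F.isMap_cj le_rfl (S.inv_mem (d.TS (d.le₁ hx)))) fun _ => t1.mem
  have h7 : (cj x⁻¹ * τ) g = g := by
    rw [Perm.mul_apply, cj_apply, eq_mul_inv_of_mul_eq (inv_mul_eq_one.1 (mem_bot.1 h6)).symm,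
      commutatorElement_def, ig, mul_assoc _ g g, h2]
    group
  refine ⟨_, t7, ?_, fun z hz hn => ?_⟩
  · rintro _ ⟨n, rfl⟩
    rw [t7.homOn.map_zpow (mem_sup_right gz), h7]
  have h8 := t2.mem hz.1
  rw [Perm.mul_apply, cj_apply, ← d.sq₁.cent (inv_mem hx) _ h8, mul_inv_cancel_right]
  exact ⟨h8, rp_move d hB ne hb.1 b1 t3 hz h8 hn⟩

variable [LN.{u}]

theorem exists_gd (hs : SerN F V₁) (hg : g ∈ T) : ∃ v ∈ V₂, Gd ℓ V₂ (v * g) := by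
  obtain ⟨B, hB, ne⟩ := d.line.exists_ne (act V₁ V₂)
  obtain ⟨a, ha, e⟩ := d.line.regular d.mem (perm d hs ((syl d).le (br_mem_act (d.n₁ hg) hg)) B hB)
    hB (fun e => ne (conj_eq_conj_iff.1 (e.symm.trans (conj_of_mem_norm (br_norm d hg)).symm)))
    ne.symm
  obtain ⟨v, hv, hn, rfl⟩ := Gt.mem_act.1 ha
  exact ⟨v, hv, B, hB, ne, conj_eq_self_iff.1 (by rwa [br_mul hn (d.n₁ hg), mul_conj])⟩

variable (d' : Dat F T V₂ V₁ t q ℓ' L') (hs : ∀ U ≤ S, U ≠ ⊥ → SerN F U)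
include d' hs

omit d' [LN.{u}] in
theorem ser₁ : SerN F V₁ := hs _ d.fn.1 fun e =>
  have ⟨_, ha, a2⟩ := exists_not_mem d
  a2 (mem_bot.1 (e ▸ ha) ▸ one_mem _)

theorem fr_Z (hg : g ∈ T) (h1 : g ∉ V₁ ⊔ V₂) (h2 : g * g ∈ V₁ ⊓ V₂) (h : Gd ℓ V₂ g)
    (h' : Gd ℓ' V₁ g) : Fr g (V₁ ⊓ V₂) ⊥ := by
  have sq := d.sq₁.of_le (inf_le_left (b := V₂))
  refine Fr.trans sq (le_normalizer_inf d.n₁ d.n₂ hg) (sq.cent h2) (h.fr d hg h1 h2.1).2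
    (fun w hw e => ?_) d.fix_le bot_le
  rcases dq d' d hs with h3 | h3
  · exact ⟨1, one_mem _, by simpa [h3] using hw⟩
  obtain ⟨x, hx, h4⟩ := (h'.fr d' hg (sup_comm V₁ V₂ ▸ h1) h2.2).2 w (inf_comm V₁ V₂ ▸ d.fix_le hw)
    (mem_bot.1 e ▸ one_mem _)
  have l2 := d'.fix_le.trans inf_le_right
  obtain ⟨y, hy, z, hz, rfl⟩ := (mem_sup_V d.sq₁.cent (fixV_le _ _) l2).1 (h3 hx)
  rw [comm_mul_ab'' d.sq₁.cent (d.n₁ hg) (fixV_le _ _ hy) (l2 hz), mul_inv_rev, mul_assoc,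
    mul_mem_cancel_left ((fixV V₂ L').inv_mem (comm_mem_of_norm hz (norm_fix d' (ser₁ d' hs) hg)))]
    at h4
  exact ⟨y, hy, dd d d' hs ▸ ⟨(fixV V₁ L).mul_mem ((fixV V₁ L).inv_mem
    (comm_mem_of_norm hy (norm_fix d (ser₁ d hs) hg))) hw, h4⟩⟩

theorem mv_of (hg : g ∈ T) (h1 : g ∉ V₁ ⊔ V₂) (h2 : g * g = 1) (h : Gd ℓ V₂ g) (h' : Gd ℓ' V₁ g) :
    Mv F V₁ V₂ (fixV V₁ L) (zpowers g) ∧ ∃ a ∈ V₁ ⊓ 𝐂(zpowers g), a ∉ V₂ :=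
  have f := (h.fr d hg h1 (h2 ▸ one_mem _)).1
  ⟨h.mv d hg h2 (Fr.trans d.sq₁ (d.n₁ hg) (h2 ▸ one_mem _) f
    (fr_Z d d' hs hg h1 (h2 ▸ one_mem _) h h') inf_le_left bot_le),
    exists_cent d hg (h2 ▸ one_mem _) f⟩

theorem eT : T = V₁ ⊔ V₂ := by
  refine le_antisymm (fun x hx => ?_) (sup_le d.le₁ d.le₂)
  by_contra hn
  obtain ⟨k, hk⟩ := d.two ⟨x, d.TS hx⟩
  obtain ⟨f, hf, f1, f2⟩ := exists_sq_mem k hx (by
    rw [show x ^ 2 ^ k = 1 from congrArg Subtype.val hk]; exact one_mem _) hn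
  have nB := (NormalIn.mk d.le₁ d.n₁).sup (NormalIn.mk d.le₂ d.n₂)
  have k : ∀ f ∈ T, f ∉ V₁ ⊔ V₂ → f * f ∈ V₁ ⊔ V₂ → ∀ c ∈ V₁ ⊔ V₂,
      c * f ∈ T ∧ c * f ∉ V₁ ⊔ V₂ ∧ c * f * (c * f) ∈ V₁ ⊔ V₂ := fun f hf f1 f2 c hc =>
    ⟨mul_mem (nB.le hc) hf, by rwa [mul_mem_cancel_left hc], by
      convert mul_mem (mul_mem hc (nB.conj_mem hf hc)) f2 using 1; group⟩
  obtain ⟨v, hv, g1⟩ := exists_gd d (ser₁ d hs) hf
  obtain ⟨hf, f1, f2⟩ := k f hf f1 f2 v (mem_sup_right hv)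
  obtain ⟨w, hw, g2⟩ := exists_gd d' (ser₁ d' hs) hf
  replace g1 := g1.mul d hf hw
  obtain ⟨hf, f1, f2⟩ := k _ hf f1 f2 w (mem_sup_left hw)
  generalize w * (v * f) = g at *
  have h1 : g * g ∈ V₁ ⊓ V₂ := ⟨g1.sq d hf f2, g2.sq d' hf (sup_comm V₁ V₂ ▸ f2)⟩
  obtain ⟨y, hy, h2⟩ := fr_Z d d' hs hf f1 h1 g1 g2 _ h1
    (comm_eq_one_iff.2 (mem_cent1.2 (mul_assoc g g g)))
  have h3 : y * g * (y * g) = 1 := by
    rw [← d.sq₁ _ h1.1]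
    nth_rewrite 1 [← inv_mul_eq_one.1 (mem_bot.1 h2)]
    rw [commutatorElement_def, d.sq₁.inv hy.1]; group
  obtain ⟨hf', f1, -⟩ := k _ hf f1 f2 y (mem_sup_left hy.1)
  obtain ⟨m1, m2⟩ := mv_of d d' hs hf' f1 h3 (g1.mul d hf hy.1) (g2.mul d' hf hy.2)
  obtain ⟨m3, m4⟩ := mv_of d' d hs hf' (sup_comm V₁ V₂ ▸ f1) h3 (g2.mul d' hf hy.2) (g1.mul d hf hy.1)
  exact ns d d' (hs _ (zpowers_le.2 (d.TS hf')) fun e => f1 (zpowers_eq_bot.1 e ▸ one_mem _))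
    m1 m3 m2 m4

omit d' [LN.{u}] in
theorem dd' : fixV V₁ L ⊓ t ⋆ fixV V₁ L = ⊥ := fixV_map d.sw L ▸ dd d d.swap hs

omit d' [LN.{u}] in
theorem eS (e : T = V₁ ⊔ V₂) (h : ¬ (fixV V₁ L = ⊥ ∧ q = 2)) : S = T ⊔ zpowers t := by
  have h1 : T ⊔ zpowers t ≤ S ⊓ 𝐍(T) :=
    sup_le (le_inf d.TS le_normalizer) (zpowers_le.2 ⟨d.tS, d.tT⟩)
  by_contra ne
  obtain ⟨s, hs', h2⟩ := SetLike.exists_of_lt (lt_inf_norm_of_nil (pgroup_nil Nat.prime_two d.two)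
    (lt_of_le_of_ne (h1.trans inf_le_left) (Ne.symm ne)))
  obtain ⟨E, E1, E2, E3, E4⟩ : ∃ E ≤ S ⊓ 𝐍(T), Sq E ∧ #|E| = #|V₁| ∧ ¬ E ≤ T := by
    by_contra! k
    have k' : ∀ V ≤ T, Sq V → #|V| = #|V₁| → s ⋆ V ≤ T := fun V a b c => k _
      ((conj_le_of_mem_norm hs'.2 (a.trans le_sup_left)).trans h1) (Sq.conj' b s) ((card_conj _ _).trans c)
    rcases d.mem_or hs'.1 (mem_norm_of_conj_le (by
      conv_lhs => rw [e, conj_sup]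
      exact sup_le (k' _ d.le₁ d.sq₁ rfl) (k' _ d.le₂ d.sq₂ d.card_eq))) with a | a
    · exact h2 (mem_sup_left a)
    · exact h2 ((mul_mem_cancel_right (mem_sup_right (mem_zpowers t))).1 (mem_sup_left a))
  obtain ⟨x, hx, h3⟩ := SetLike.not_le_iff_exists.1 E4
  obtain ⟨h4, h5⟩ := d.swap_of (E1 hx).1 (E1 hx).2 h3
  have h6 : x ⋆ (E ⊓ T) = E ⊓ T := conj_of_mem_norm (cent_le_norm _ (cent_anti inf_le_left (E2.cent hx)))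
  have h7 : E ⊓ T ≤ V₁ ⊓ V₂ := by
    rcases d.ea_le (inf_le_right.trans e.le) (E2.of_le inf_le_left) with a | a
    · exact le_inf a (h6 ▸ h4 ▸ conj_mono x a)
    · exact le_inf (h6 ▸ h5 ▸ conj_mono x a) a
  have h8 : E ≤ E ⊓ T ⊔ zpowers x := fun y hy => by
    by_cases a : y ∈ T
    · exact mem_sup_left ⟨hy, a⟩
    refine (mul_mem_cancel_right (mem_sup_right (mem_zpowers x))).1 (mem_sup_left ⟨mul_mem hy hx,
      d.nV.le ⟨mul_mem (E1 hy).1 (E1 hx).1, conj_eq_self_iff.1 ?_⟩⟩)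
    rw [mul_conj, h4, (d.swap_of (E1 hy).1 (E1 hy).2 a).2]
  have c1 := card_sup_V E2.cent (inf_le_left (b := T)) (zpowers_le.2 hx)
  have c2 := card_le_of_le' h8
  have c3 := card_le_of_le' h7
  have c4 := card_zpowers_le_two (E2 x hx)
  have c5 : 0 < #|E ⊓ T ⊓ zpowers x| := Nat.card_pos
  have c6 : 0 < #|(V₁ ⊓ V₂ : Subgroup Ω)| := Nat.card_pos
  have c7 := d.one_lt
  rw [E3, d.card_Z] at c2
  have c8 : q * #|(V₁ ⊓ V₂ : Subgroup Ω)| ≤ #|E ⊓ T| * 2 := by nlinarith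
  refine h ⟨?_, by nlinarith⟩
  rw [← dd' (d.chg (E1 hx).1 (E1 hx).2 h3) hs, conj_of_mem_norm (cent_le_norm _ (cent_anti
    (d.fix_le.trans ((eq_of_le_of_card_le h7 (by nlinarith)).ge.trans inf_le_left)) (E2.cent hx))),
    inf_idem]

omit d' hs [LN.{u}] [Finite Ω] in
theorem exists_t (e : T = V₁ ⊔ V₂) : ∃ v ∈ V₁, t * v * (t * v) ∈ V₁ ⊓ V₂ := by
  obtain ⟨a, ha, b, hb, h⟩ := d.mem_sup.1 (e ▸ d.tt_mem)
  have h1 : t⁻¹ * a * t ∈ V₂ := mem_conj.1 (d.sw'.ge ha)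
  have h2 : t⁻¹ * b * t ∈ V₁ := mem_conj.1 (d.sw.ge hb)
  have h3 : b * (t⁻¹ * a * t) ∈ V₁ := by
    have e1 : (t⁻¹ * a * t) * (t⁻¹ * b * t) = a * b := by
      calc _ = t⁻¹ * (a * b) * t := by group
        _ = _ := by rw [h]; group
    rw [d.sq₂.cent h1 b hb, eq_mul_inv_of_mul_eq e1,
      show a * b * (t⁻¹ * b * t)⁻¹ * b = a * (b * (t⁻¹ * b * t)⁻¹ * b⁻¹) * (b * b) by group,
      d.sq₂ b hb, mul_one]
    exact mul_mem ha (Gt.conj_mem_of_norm (d.n₁ (d.le₂ hb)) (inv_mem h2))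
  refine ⟨a, ha, ?_⟩
  rw [show t * a * (t * a) = t * t * (t⁻¹ * a * t) * a by group, ← h, mul_assoc a,
    ← d.sq₁.cent ha _ h3, mul_assoc, d.sq₁ a ha, mul_one]
  exact ⟨h3, mul_mem hb h1⟩

end Cfsg.Agent.Pu.Tb

namespace Cfsg.Agent.Pu

open Subgroup Cfsg.Agent.H1 Cfsg.Agent.FT Tb

instance instTB [LN.{u}] : TB.{u} where
  main := @fun Ω _ _ S F T V₁ V₂ t q ℓ L d hs => by
    have e := eT d d.swap hs
    by_cases h : fixV V₁ L = ⊥ ∧ q = 2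
    · obtain ⟨h, rfl⟩ := h
      have c1 := d.card_fix
      have c2 := d.card_Z
      rw [h, card_bot] at c1
      rw [c1] at c2
      refine Or.inl ⟨⟨c2, ?_⟩, ?_, ?_⟩
      · have : Nontrivial V₁ := Finite.one_lt_card_iff_nontrivial.1 (by omega)
        exact (Monoid.exponent_eq_prime_iff Nat.prime_two).2 fun g g1 =>
          orderOf_eq_prime (Subtype.ext ((sq _).trans (d.sq₁ g g.2))) g1
      · have c3 := card_sup_mul_card_inf (d.le₁.trans d.n₂)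
        rw [← e, d.card_eq, c1, c2] at c3
        obtain ⟨k, hk⟩ := card_dvd_of_le' d.TS
        have c4 : #|S| ≠ #|T| := fun c => d.t_not (eq_of_le_of_card_le d.TS c.le ▸ d.tS)
        have c5 : 0 < #|S| := Nat.card_pos
        rcases k with _ | _ | k <;> [omega; omega; nlinarith]
      · obtain ⟨g, hg, g1, ho⟩ := exists_odd_mem (not_two d.line (sq_inV d.sq₁))
        obtain ⟨α, a, rfl⟩ := d.LF hg
        exact ⟨α, a, by rwa [orderOf_injective _ SemidirectProduct.inr_injective] at ho,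
          fun e => g1 (e ▸ map_one _)⟩
    obtain ⟨v, hv, h1⟩ := exists_t d e
    have d1 := d.chg (mul_mem d.tS (d.TS (d.le₁ hv))) (mul_mem d.tT (le_normalizer (d.le₁ hv)))
      (by rw [mul_mem_cancel_right (d.le₁ hv)]; exact d.t_not)
    refine Or.inr ⟨_, d1, e, eS d1 hs e h, h1, dd' d1 hs, ?_⟩
    rcases dq d.swap d hs with h2 | h2
    · exact Or.inl ⟨h2, d.mA.two_or.resolve_left fun c => h ⟨h2, c⟩⟩
    have c1 := card_sup_V d.sq₁.cent (fixV_le _ L) (d.swap.fix_le.trans inf_le_right)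
    rw [dd d d.swap hs, card_bot, le_antisymm (sup_le (d.fix_le.trans (inf_comm _ _).le)
      d.swap.fix_le) h2, d.swap.card_fix, mul_one] at c1
    exact Or.inr (Nat.eq_of_mul_eq_mul_right Nat.card_pos c1).symm

end Cfsg.Agent.Pu
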