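import Cfsg.Agent.Pu.S1
import Cfsg.Agent.L.Constr
import Cfsg.Agent.H6.FusMC

/-! S5175: the choice of `U`, and transport of the hypotheses. -/

set_option autoImplicit false

universe u

namespace Cfsg.Agent.Pu

open Subgroup Cfsg Cfsg.Fus Cfsg.FusionSystem Cfsg.Agent.H1 Cfsg.Agent.L Cfsg.Agent.FT Equiv
open scoped Pointwise commutatorElement

variable {Ω : Type u} [Group Ω] {S : Subgroup Ω} {F N : FusionSystem S} {P Q U : Subgroup Ω}

/-- `N_F(U) ≤ N` -/
def Big (F N : FusionSystem S) (U : Subgroup Ω) : Prop := ∀ P f, F.NMap U P f → N.IsMap P f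

/-- the hypotheses -/
structure H0 (F N : FusionSystem S) : Prop where
  two : IsPGroup 2 S
  sat : F.IsSaturated 2
  core : F.core = ⊥
  min : HMin F
  satN : N.IsSaturated 2
  le : N ≤ F
  par : ∀ R ≤ S, R ≠ ⊥ → (∀ σ, F.Iso S S σ → ∀ x ∈ R, σ x ∈ R) → Big F N R

/-- the choice of `U` -/
structure Sel (F N : FusionSystem S) (U : Subgroup Ω) : Prop where
  le : U ≤ S
  ne : U ≠ ⊥
  bad : ¬ Big F N U
  max : ∀ C ≤ S, C ≠ ⊥ → #|normalizerIn S U| < #|normalizerIn S C| → Big F N C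

variable [Finite S]

theorem Big.iso (h : Big F N P) {σ : Perm Ω} (hσ : F.Iso P P σ) : N.IsMap P σ :=
  h P σ ⟨le_inf hσ.le_left le_normalizer, σ, by rw [sup_idem]; exact hσ.isMap, fun _ _ => rfl,
    hσ.img_eq⟩

theorem H0.big_top (h : H0 F N) (h1 : S ≠ ⊥) : Big F N S :=
  h.par S le_rfl h1 fun _ hσ _ hx => hσ.mem hx

theorem H0.exists_sel (h : H0 F N) (hne : N ≠ F) : ∃ U, Sel F N U := by
  haveI : Fact (Nat.Prime 2) := ⟨Nat.prime_two⟩
  have h0 : {U | U ≤ S ∧ U ≠ ⊥ ∧ ¬ Big F N U}.Nonempty := by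
    by_contra hc
    refine hne (eq_of_le_of_ge h.le (h.sat.le_of_essential h.two fun P σ _ hσ => ?_))
    by_cases hP : P = ⊥
    · refine N.isMap_of_fix hσ.le_left fun x hx => ?_
      rw [hP, mem_bot] at hx
      rw [hx, hσ.homOn.map_one]
    · exact Big.iso (by_contra fun hb => hc ⟨P, hσ.le_left, hP, hb⟩) hσ
  obtain ⟨U, ⟨a, b, c⟩, d⟩ := Set.exists_max_image _ (fun U => #|normalizerIn S U|)
    ((finite_subgroups_le S).subset fun _ h => h.1) h0
  exact ⟨U, a, b, c, fun C hC h1 h2 => by_contra fun hb => h2.not_ge (d C ⟨hC, h1, hb⟩)⟩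

theorem fin_le (h : P ≤ S) : Finite P := Finite.of_injective _ (inclusion_injective h)

omit [Finite S] in
theorem card_lt' [Finite Q] (h : P < Q) : #|P| < #|Q| :=
  lt_of_le_of_ne (card_le_of_le h.le) fun e => h.ne (eq_of_le_of_card_ge h.le e.ge)

/-- maps with a large domain lie in `N` -/
theorem Sel.isMap (s : Sel F N U) (h : H0 F N) {σ : Perm Ω} (hσ : F.IsMap P σ)
    (hc : #|normalizerIn S U| ≤ #|P|) : N.IsMap P σ := by
  haveI : Fact (Nat.Prime 2) := ⟨Nat.prime_two⟩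
  have hS : S ≠ ⊥ := fun e => s.ne (eq_bot_iff.2 (e ▸ s.le))
  refine h.sat.alperin_ind h.two (M := fun P σ => #|normalizerIn S U| ≤ #|P| → N.IsMap P σ)
    (fun R τ hR hτ hc => ?_) (fun P R σ τ h1 h2 h3 h4 hc => ?_)
    (fun P Q σ τ h1 h2 h3 h4 h5 hc => ?_) hσ hc
  · rcases eq_or_lt_of_le hτ.le_left with e | e
    · subst e; exact (h.big_top hS).iso hτ
    · have hb : R ≠ ⊥ := by
        rintro rfl
        haveI := fin_le (inf_le_left : normalizerIn S U ≤ S)
        have h9 := card_le_of_le (le_inf s.le le_normalizer : U ≤ normalizerIn S U)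
        haveI := fin_le s.le
        exact s.ne ((card_le_one_iff_eq_bot U).1 (h9.trans (hc.trans_eq card_bot)))
      haveI := fin_le (inf_le_left : normalizerIn S R ≤ S)
      exact (s.max R hτ.le_left hb (hc.trans_lt (card_lt' (lt_normalizerIn h.two e)))).iso hτ
  · haveI := fin_le h1.le
    exact ((h2 (hc.trans (card_le_of_le h3))).mono h3).congr h4
  · haveI := fin_le h2.le
    exact (h3 hc).mul (h4 (hc.trans (h1.card_le h5))) h5

theorem Sel.fn (s : Sel F N U) (h : H0 F N) : F.IsFullyNormalized U := by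
  haveI : Fact (Nat.Prime 2) := ⟨Nat.prime_two⟩
  obtain ⟨τ, hτ, hn⟩ := h.sat.exists_map_normalizer h.two s.le
  have hUN : U ≤ normalizerIn S U := le_inf s.le le_normalizer
  have hb : img τ U ≠ ⊥ := fun e => s.ne (by
    rw [← card_eq_one, ← (hτ.mono hUN).card_img, e, card_bot])
  have hN := s.isMap h hτ le_rfl
  refine ⟨s.le, fun R hR => (hn.2 R ((hτ.mono hUN).isConj.symm.trans hR)).trans ?_⟩
  by_contra hc
  refine s.bad fun P f hf => ?_
  have h1 := s.max _ hn.le hb (not_le.1 hc) _ _ (nMap_conj s.le hτ hf)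
  have h2 := ((hN.mono hf.1).comp h1 fun x hx => mem_img_of_mem _ hx).comp hN.inv fun x hx => by
    simpa using mem_img_of_mem τ (hf.mem hx)
  exact h2.congr fun x _ => by simp

theorem Sel.of_le (s : Sel F N U) (hQ : Q ≤ S) (h1 : Q ≠ ⊥) (h2 : ¬ Big F N Q)
    (h3 : normalizerIn S U ≤ normalizerIn S Q) :
    normalizerIn S Q = normalizerIn S U ∧ Sel F N Q := by
  haveI := fin_le (inf_le_left : normalizerIn S Q ≤ S)
  have e : normalizerIn S Q = normalizerIn S U :=
    (eq_of_le_of_card_ge h3 (not_lt.1 fun hc => h2 (s.max Q hQ h1 hc))).symm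
  exact ⟨e, hQ, h1, h2, fun C a b c => s.max C a b (e ▸ c)⟩

section
variable {Ω' : Type u} [Group Ω'] {S' : Subgroup Ω'} {F' N' : FusionSystem S'} {θ : Ω → Ω'}
  {θ' : Ω' → Ω}

omit [Finite S] in
theorem Big.transp (h : Big F N U) (hU : U ≤ S) (t : Transp S S' θ θ' F F')
    (n : Transp S S' θ θ' N N') : Big F' N' (img θ U) := fun P f hf => by
  have h1 := t.symm.nMap hf
  rw [t.img_img hU] at h1
  have h2 := n.map (h _ _ h1)
  rw [t.img_img' hf.isMap.le] at h2
  exact h2.congr fun x hx => by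
    simp [t.piso.right (hf.isMap.le hx), t.piso.right (hf.isMap.mem hx)]

omit [Finite S] in
theorem img_ne_bot (t : Transp S S' θ θ' F F') (hU : U ≤ S) (h : U ≠ ⊥) : img θ U ≠ ⊥ :=
  fun e => h (by rw [← t.img_img hU, e, t.symm.piso.hom.img_bot])

omit [Finite S] in
theorem Sel.transp (s : Sel F N U) (t : Transp S S' θ θ' F F') (n : Transp S S' θ θ' N N') :
    Sel F' N' (img θ U) := by
  refine ⟨t.img_le s.le, img_ne_bot t s.le s.ne, fun hb => s.bad ?_, fun C a b c => ?_⟩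
  · simpa [t.img_img s.le] using hb.transp (t.img_le s.le) t.symm n.symm
  · have := (s.max _ (t.img_le' a) (img_ne_bot t.symm a b) (by
      rwa [t.symm.card_normalizerIn a, ← t.card_normalizerIn s.le])).transp (t.img_le' a) t n
    rwa [t.img_img' a] at this

theorem HMin.transp (h : HMin F) (t : Transp S S' θ θ' F F') : HMin F' := fun U hU hn E hE => by
  haveI := t.finite
  obtain ⟨E₀, e⟩ := t.symm.piso.exists_transp (inf_le_left : normalizerIn S' U ≤ S') E
    (t.symm.img_normalizerIn hn.le)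
  haveI := fin_le (inf_le_left : normalizerIn S (img θ' U) ≤ S)
  exact e.symm.isSolvableSystem (h _ (img_ne_bot t.symm hn.le hU) (t.symm.isFullyNormalized hn) E₀
    (t.symm.isNormalizerSystem hn.le rfl hE e))

theorem H0.transp (h : H0 F N) (t : Transp S S' θ θ' F F') (n : Transp S S' θ θ' N N') :
    H0 F' N' := by
  refine ⟨t.isPGroup h.two, t.isSaturated h.sat, by rw [← t.img_core, h.core, t.piso.hom.img_bot],
    h.min.transp t, n.isSaturated h.satN,
    le_iff_isSubsystemOf.2 (t.isSubsystemOf n (le_iff_isSubsystemOf.1 h.le)), fun R a b c => ?_⟩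
  haveI := t.finite
  have := (h.par _ (t.img_le' a) (img_ne_bot t.symm a b) fun σ hσ x hx => ?_).transp
    (t.img_le' a) t n
  · rwa [t.img_img' a] at this
  · obtain ⟨y, hy, rfl⟩ := (t.symm.piso.hom.mono a).mem_img.1 hx
    have h1 := t.map hσ.isMap
    rw [t.img_eq] at h1
    obtain ⟨τ, h2, h3⟩ := h1.exists_perm
    have h4 := c τ (h2.iso_self fun z hz => h2.mem hz) y hy
    rw [h3 y (a hy)] at h4
    have := mem_img_of_mem θ' h4
    simpa [t.piso.left (hσ.mem (t.mem' (a hy)))] using this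

omit [Finite S] in
theorem Concl.of_transp (h : Concl F') (t : Transp S S' θ θ' F F') : Concl F := by
  obtain ⟨G, _, _, ι, h1, h2, h3⟩ := h
  obtain ⟨κ, k1, k2⟩ := H6.RealBy.of_transp ⟨ι, h1, h2⟩ t
  have e : S ≃* S' := (t.piso.equiv le_rfl).trans (MulEquiv.subgroupCongr t.img_eq)
  have hq : IsQuasiDihedral S' → IsQuasiDihedral S := by
    rintro ⟨n, a, b, x, y, c, d, f⟩
    refine ⟨n, a, by rw [← b, t.card_eq], e.symm x, e.symm y, by rwa [MulEquiv.orderOf_eq],
      by rwa [MulEquiv.orderOf_eq], ?_⟩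
    rw [← map_inv, ← map_mul, ← map_mul, f, map_pow]
  refine ⟨G, _, ‹_›, κ, k1, k2, ?_⟩
  rw [t.card_eq] at h3
  rcases h3 with ⟨⟨m, a, ⟨b⟩⟩, c⟩ | ⟨a, b⟩ | ⟨a, b⟩ | a | a | a
  · exact Or.inl ⟨⟨m, a, ⟨e.trans b⟩⟩, c⟩
  · exact Or.inr (Or.inl ⟨hq a, b⟩)
  · exact Or.inr (Or.inr (Or.inl ⟨hq a, b⟩))
  · exact Or.inr (Or.inr (Or.inr (Or.inl a)))
  · exact Or.inr (Or.inr (Or.inr (Or.inr (Or.inl a))))
  · exact Or.inr (Or.inr (Or.inr (Or.inr (Or.inr a))))

end

end Cfsg.Agent.Pu
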