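import Cfsg.Agent.Pu.S2
import Cfsg.Agent.L.Model
import Cfsg.Agent.L.Realize

/-! S5175: an ambient group containing `S` and a model of `N_F(U)`. -/

set_option autoImplicit false

universe u

namespace Cfsg.Agent.Pu

open Subgroup Cfsg Cfsg.Fus Cfsg.FusionSystem Cfsg.Agent.H1 Cfsg.Agent.L Cfsg.Agent.FT Equiv
open scoped Pointwise commutatorElement

theorem free_equiv {T X : Type u} [Group T] (f : T →* Perm X) (hf : ∀ t x, f t x = x → t = 1) :
    ∃ (Q : Type u) (Φ : Q × T ≃ X), ∀ q t s, f s (Φ (q, t)) = Φ (q, s * t) := by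
  let r : Setoid X := ⟨fun x y => ∃ t, f t x = y, fun x => ⟨1, by simp⟩,
    fun ⟨t, e⟩ => ⟨t⁻¹, by simp [← e]⟩, fun ⟨t, e⟩ ⟨s, e'⟩ => ⟨s * t, by simp [e, e']⟩⟩
  refine ⟨Quotient r, Equiv.ofBijective (fun p => f p.2 p.1.out) ⟨?_, fun x => ?_⟩,
    fun q t s => (DFunLike.congr_fun (map_mul f s t) q.out).symm⟩
  · rintro ⟨q, t⟩ ⟨q', t'⟩ e
    have h : f (t'⁻¹ * t) q.out = q'.out := by
      have e' : f t q.out = f t' q'.out := e
      simp [e']
    obtain rfl : q = q' := Quotient.out_equiv_out.1 ⟨_, h⟩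
    rw [inv_mul_eq_one.1 (hf _ _ h)]
  · obtain ⟨t, e⟩ := Quotient.mk_out (s := r) x
    exact ⟨(⟦x⟧, t), e⟩

/-- two free actions on a finite set are conjugate -/
theorem free_conj {T X : Type u} [Group T] [Finite X] (f g : T →* Perm X)
    (hf : ∀ t x, f t x = x → t = 1) (hg : ∀ t x, g t x = x → t = 1) [Finite T] :
    ∃ c : Perm X, ∀ t, c * f t * c⁻¹ = g t := by
  obtain ⟨Q, Φ, h⟩ := free_equiv f hf
  obtain ⟨R, Ψ, k⟩ := free_equiv g hg
  haveI : Finite Q := Finite.of_injective (fun q => Φ (q, 1)) fun a b e => by simpa using e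
  haveI : Finite R := Finite.of_injective (fun q => Ψ (q, 1)) fun a b e => by simpa using e
  have e : Nat.card Q = Nat.card R := by
    have := Nat.card_congr (Φ.trans Ψ.symm)
    rw [Nat.card_prod, Nat.card_prod] at this
    exact Nat.eq_of_mul_eq_mul_right Nat.card_pos this
  obtain ⟨ε⟩ := Finite.card_eq.1 e
  refine ⟨Φ.symm.trans ((ε.prodCongr (Equiv.refl T)).trans Ψ), fun t => ?_⟩
  rw [mul_inv_eq_iff_eq_mul]
  ext x
  obtain ⟨⟨q, s⟩, rfl⟩ := Φ.surjective x
  simp [h, k]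

variable {Ω : Type u} [Group Ω] {S : Subgroup Ω} {F N : FusionSystem S} {U : Subgroup Ω}

/-- `G` is a model of `N_F(U)` in the ambient group -/
structure Mod (F : FusionSystem S) (U G : Subgroup Ω) : Prop where
  syl : IsSylowIn 2 (normalizerIn S U) G
  map : ∀ P f, F.NMap U P f ↔ P ≤ normalizerIn S U ∧ (∀ x ∈ P, f x ∈ normalizerIn S U) ∧
    ∃ g ∈ G, ∀ x ∈ P, f x = g * x * g⁻¹
  ch : G ⊓ 𝐂(core {2} G) ≤ core {2} G
  aut : ∀ σ, F.IsMap (normalizerIn S U) σ → (∀ x ∈ normalizerIn S U, σ x ∈ normalizerIn S U) →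
    ∃ n, ∀ x ∈ normalizerIn S U, σ x = n * x * n⁻¹
  nrm : G ≤ 𝐍(U)

theorem exists_mod_amb [Finite S] {X : Type u} [Finite X] (x₀ : X) (α : S →* Perm X)
    (hα : ∀ a x, α a x = x → a = 1) {θ' : Perm X → Ω} {F' : FusionSystem α.range}
    (a : Transp S α.range (extFun α) θ' F F') (hU : U ≤ S) {E : FusionSystem (normalizerIn S U)}
    (hE : F.IsNormalizerSystem U E) {G : Type u} [Group G] [Finite G] {T : Sylow 2 G} {η : Ω → G}
    {η' : G → Ω} (hc : 𝐂(pCore 2 G) ≤ pCore 2 G)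
    (t : Transp (normalizerIn S U) T η η' E (groupFusionSystem (T : Subgroup G)))
    (β : G →* Perm X) (hβ : ∀ a x, β a x = x → a = 1) : ∃ G, Mod F' (img (extFun α) U) G := by
  haveI : Fact (Nat.Prime 2) := ⟨Nat.prime_two⟩
  have hT : normalizerIn S U ≤ S := inf_le_left
  haveI := fin_le hT
  have p := a.piso
  obtain ⟨c, k⟩ := free_conj (β.comp t.piso.hom.toHom) (α.comp (inclusion hT))
    (fun a x e => Subtype.ext (t.piso.injOn a.2 (one_mem _) ((hβ _ x e).trans
      t.piso.hom.map_one.symm))) fun a x e => inclusion_injective hT ((hα _ x e).trans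
      (map_one _).symm)
  let γ : G →* Perm X := (MulAut.conj c).toMonoidHom.comp β
  have iγ : Function.Injective γ := (MulAut.conj c).injective.comp
    ((injective_iff_map_eq_one _).2 fun a e => hβ a x₀ (by rw [e]; rfl))
  have k' : ∀ x ∈ normalizerIn S U, γ (η x) = extFun α x := fun x hx => by
    rw [extFun_of_mem α (hT hx)]; exact k ⟨x, hx⟩
  have e0 := a.img_normalizerIn hU
  have e1 : normalizerIn α.range (img (extFun α) U) = (T : Subgroup G).map γ := by
    rw [← e0]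
    ext y
    rw [p.mem_img hT, mem_map]
    exact ⟨fun ⟨x, hx, e⟩ => ⟨η x, t.mem hx, (k' x hx).trans e⟩, fun ⟨x, hx, e⟩ =>
      ⟨η' x, t.mem' hx, by rw [← k' _ (t.mem' hx), t.piso.right hx, e]⟩⟩
  refine ⟨γ.range, ?_, fun P f => ⟨fun hf => ?_, ?_⟩, ?_, fun σ h1 h3 => ?_, ?_⟩
  · rw [e1, MonoidHom.range_eq_map]; exact (isSylowIn_top T).map γ
  · have h1 := a.symm.nMap hf
    rw [a.img_img hU] at h1
    obtain ⟨-, -, g, hg⟩ := isMap_group.1 (t.map ((isNormalizerSystem_iff.1 hE _ _).2 h1))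
    refine ⟨hf.1, fun x hx => hf.mem hx, γ g, ⟨g, rfl⟩, fun x hx => ?_⟩
    have hx' := mem_img_of_mem θ' hx
    have := congrArg γ (hg _ (mem_img_of_mem η hx'))
    simp only [Function.comp, t.piso.left (h1.1 hx'), p.right (hf.1 hx).1, map_mul, map_inv,
      k' _ (h1.1 hx')] at this
    have h4 := h1.mem hx'
    simp only [Function.comp, p.right (hf.1 hx).1] at h4
    rwa [k' _ h4, p.right (hf.mem hx).1] at this
  · rintro ⟨h1, h3, _, ⟨g, rfl⟩, hg⟩
    have hP : P.comap γ ≤ T := fun x hx => by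
      have := h1 hx; rw [e1] at this
      obtain ⟨y, hy, e⟩ := this
      rwa [← iγ e]
    have hm : ∀ x ∈ P.comap γ, g * x * g⁻¹ ∈ T := fun x hx => by
      have := h3 _ hx; rw [e1, hg _ hx] at this
      obtain ⟨y, hy, e⟩ := this
      rw [← map_inv, ← map_mul, ← map_mul, iγ.eq_iff] at e
      rwa [← e]
    have h4 := a.nMap ((isNormalizerSystem_iff.1 hE _ _).1 (t.map' (isMap_group_cj hP hm)))
    have kk : ∀ x ∈ (T : Subgroup G), extFun α (η' x) = γ x := fun x hx => by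
      rw [← k' _ (t.mem' hx), t.piso.right hx]
    have e2 : img (extFun α) (img η' (P.comap γ)) = P := by
      ext y
      rw [p.mem_img ((t.img_le' hP).trans hT)]
      refine ⟨?_, fun hy => ?_⟩
      · rintro ⟨x, hx, rfl⟩
        obtain ⟨z, hz, rfl⟩ := (t.piso.symm.mem_img hP).1 hx
        rwa [kk z (hP hz)]
      · have := h1 hy; rw [e1] at this
        obtain ⟨z, hz, rfl⟩ := this
        exact ⟨η' z, mem_img_of_mem _ hy, kk z hz⟩
    rw [e2] at h4
    refine nMap_congr h4 fun x hx => ?_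
    have := h1 hx; rw [e1] at this
    obtain ⟨z, hz, rfl⟩ := this
    have e3 : θ' (γ z) = η' z := by rw [← kk z hz, p.left (hT (t.mem' hz))]
    simp only [Function.comp, e3, t.piso.right hz, cj_apply]
    rw [kk _ (hm z hx), hg _ hx, map_mul, map_mul, map_inv]
  · rw [MonoidHom.range_eq_map, ← map_core_inj _ _ iγ, core_top_eq_pCore Nat.prime_two]
    rintro _ ⟨⟨x, -, rfl⟩, hx⟩
    exact mem_map_of_mem _ (hc fun y hy => iγ (by
      simpa using hx _ (mem_map_of_mem γ hy)))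
  · have fr : ∀ x ∈ α.range, ∀ y, x y = y → x = 1 := by
      rintro _ ⟨x, rfl⟩ y e; rw [hα x y e, map_one]
    obtain ⟨n, hn⟩ := free_conj (normalizerIn α.range (img (extFun α) U)).subtype h1.homOn.toHom
      (fun x y e => Subtype.ext (fr _ x.2.1 y e)) fun x y e => Subtype.ext
        ((h1.apply_eq_one x.2).1 (fr _ (h3 _ x.2).1 y e))
    exact ⟨n, fun x hx => (hn ⟨x, hx⟩).symm⟩
  · have hUN : U ≤ normalizerIn S U := le_inf hU le_normalizer
    haveI := normal_of_isNormal_group (isSylowIn_top T) hc (t.isNormal (hE.isNormal hU))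
    have e2 : img (extFun α) U = (img η U).map γ := by
      ext y
      rw [p.mem_img hU, mem_map]
      refine ⟨fun ⟨x, hx, e⟩ => ⟨η x, mem_img_of_mem _ hx, (k' x (hUN hx)).trans e⟩, ?_⟩
      rintro ⟨_, hy, rfl⟩
      obtain ⟨x, hx, rfl⟩ := (t.piso.mem_img hUN).1 hy
      exact ⟨x, hx, (k' x (hUN hx)).symm⟩
    rw [e2, MonoidHom.range_eq_map]
    exact (map_mono (normalizer_eq_top (img η U)).ge).trans (le_normalizer_map γ)

/-- all normaliser systems have models in the ambient group -/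
def AllMod (F : FusionSystem S) : Prop :=
  ∀ R, R ≠ ⊥ → F.IsFullyNormalized R → ∃ G, Mod F R G

theorem exists_amb [Finite S] (h : H0 F N) :
    ∃ (Ω' : Type u) (_ : Group Ω') (_ : Finite Ω') (S' : Subgroup Ω') (F' N' : FusionSystem S')
      (θ : Ω → Ω') (θ' : Ω' → Ω), Transp S S' θ θ' F F' ∧ Transp S S' θ θ' N N' ∧ AllMod F' := by
  classical
  haveI : Fact (Nat.Prime 2) := ⟨Nat.prime_two⟩
  let I := {R : Subgroup Ω // R ≠ ⊥ ∧ F.IsFullyNormalized R}
  haveI : Finite I := ((finite_subgroups_le S).subset fun R (h : _ ∧ _) => h.2.1).to_subtype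
  have key : ∀ R : I, ∃ (E : FusionSystem (normalizerIn S R.1)) (G : Type u) (_ : Group G)
      (_ : Finite G) (T : Sylow 2 G) (η : Ω → G) (η' : G → Ω), F.IsNormalizerSystem R.1 E ∧
      𝐂(pCore 2 G) ≤ pCore 2 G ∧
      Transp (normalizerIn S R.1) T η η' E (groupFusionSystem (T : Subgroup G)) := by
    rintro ⟨U, a, b⟩
    have hT : normalizerIn S U ≤ S := inf_le_left
    haveI := fin_le hT
    obtain ⟨E, hE⟩ := exists_nsys F b.1
    have hs := hE.isSaturated h.sat h.two b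
    have h2 := h.two.to_le hT
    obtain ⟨G, _, _, T, η, η', hc, t, -⟩ := exists_model_transp h2
      (((hs.isSolvableSystem_iff h2).1 (h.min U a b E hE)).isConstrained hs h2)
    exact ⟨E, G, _, ‹_›, T, η, η', hE, hc, t⟩
  choose E G _ _ T η η' hE hc t using key
  let μ := MulAction.toPermHom (S × ∀ R, G R) (S × ∀ R, G R)
  have hμ : ∀ a x, μ a x = x → a = 1 := fun a x e => by simpa [μ] using e
  let α : S →* Perm (S × ∀ R, G R) := μ.comp (MonoidHom.inl _ _)
  have hα : ∀ a x, α a x = x → a = 1 := fun a x e => congrArg Prod.fst (hμ _ x e)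
  have iα : Function.Injective α := (injective_iff_map_eq_one _).2 fun a e =>
    hα a 1 (by rw [e]; rfl)
  obtain ⟨θ', p⟩ := exists_pIso_of_injective α iα
  obtain ⟨F', a⟩ := p.exists_transp le_rfl F p.img_self
  obtain ⟨N', b⟩ := p.exists_transp le_rfl N p.img_self
  refine ⟨_, _, inferInstance, _, F', N', _, θ', a, b, fun R c d => ?_⟩
  let R₀ : I := ⟨img θ' R, img_ne_bot a.symm d.1 c, a.symm.isFullyNormalized d⟩
  rw [← a.img_img' d.1]
  exact exists_mod_amb 1 α hα a R₀.2.2.1 (hE R₀) (hc R₀) (t R₀)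
    (μ.comp ((MonoidHom.inr _ _).comp (MonoidHom.mulSingle G R₀))) fun a x e => by
      simpa using congrFun (congrArg Prod.snd (hμ _ x e)) R₀

/-- slice CO, with a model of `N_F(T)` -/
class CM : Prop where
  main : ∀ {Ω : Type u} [Group Ω] [Finite Ω] {S : Subgroup Ω} {F : FusionSystem S}
    {T V₁ V₂ G : Subgroup Ω} {t : Ω} {q : ℕ} {ℓ : Set (Subgroup (Hol V₁))} {L : Subgroup (Hol V₁)},
    Dat2 F T V₁ V₂ t q ℓ L → 4 ≤ q → Mod F T G →
    ∃ (K : Type) (_ : Field K) (_ : Fintype K) (_ : CharP K 2) (c : Crd F T V₁ V₂ K),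
      Fintype.card K = q ∧ Dat2 F T V₁ V₂ c.t q ℓ L ∧ (c.L3 ∨ c.S4)

end Cfsg.Agent.Pu
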