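import Cfsg.Agent.Pu.S3

/-! S5175: from the ambient group to the configuration `Dat`. -/

set_option autoImplicit false

universe u

namespace Cfsg.Agent.Pu

open Subgroup Cfsg Cfsg.Fus Cfsg.FusionSystem Cfsg.Agent.H1 Cfsg.Agent.L Cfsg.Agent.FT Equiv
  Cfsg.Agent.St
open scoped Pointwise commutatorElement

variable {Ω : Type u} [Group Ω] {S : Subgroup Ω} {F N : FusionSystem S} {U G X C P : Subgroup Ω}
  {g : Ω}

/-- the elements of the ambient group inducing `F`-automorphisms of `X` -/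
def autg (F : FusionSystem S) (X : Subgroup Ω) (hX : X ≤ S) : Subgroup Ω where
  carrier := {g | F.Iso X X (cj g)}
  one_mem' := by simpa using F.iso_one hX
  mul_mem' a b := by simpa using Iso.trans b a
  inv_mem' a := by simpa using Iso.symm a

theorem autg_le (hX : X ≤ S) : autg F X hX ≤ 𝐍(X) := fun _ h => img_cj_eq_iff.1 (Iso.img_eq h)

theorem le_autg (hX : X ≤ S) : S ⊓ 𝐍(X) ≤ autg F X hX := fun _ h => F.iso_cj hX h.1 h.2

theorem nMap_cj (h : F.IsMap (X ⊔ C) (cj g)) (h1 : X ≤ 𝐍(C)) (h2 : g ∈ 𝐍(C)) :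
    F.NMap C X (cj g) :=
  ⟨le_inf (le_sup_left.trans h.le) h1, _, h, fun _ _ => rfl, img_cj_eq_iff.2 h2⟩

theorem MaxEA.conj {T A : Subgroup Ω} (h : MaxEA T A) (hg : g ∈ 𝐍(T)) : MaxEA T (g ⋆ A) := by
  have := (maxEA_map (conj_inj g)).2 h
  rwa [← conj_eq_map, ← conj_eq_map, conj_of_mem_norm hg] at this

theorem Mod.nMap (m : Mod F U G) (hX : X ≤ normalizerIn S U) (hg : g ∈ G)
    (h : g ⋆ X ≤ normalizerIn S U) : F.NMap U X (cj g) :=
  (m.map _ _).2 ⟨hX, fun _ hx => h (conj_mem_conj g hx), g, hg, fun _ _ => rfl⟩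

theorem Mod.isMap (m : Mod F U G) (hX : X ≤ normalizerIn S U) {n : Ω}
    (hn : n ∈ autg F (normalizerIn S U) inf_le_left) (hg : g ∈ n ⋆ G)
    (h : g ⋆ X ≤ normalizerIn S U) : F.IsMap X (cj g) := by
  have h1 : n⁻¹ ∈ 𝐍(normalizerIn S U) := autg_le _ (inv_mem hn)
  have h2 : (n⁻¹ * g * n) ⋆ n⁻¹ ⋆ X ≤ normalizerIn S U := by
    rw [mul_conj, conj_inv_conj, mul_conj]; exact conj_le_of_mem_norm h1 h
  have := (((Iso.isMap (inv_mem hn)).mono hX).comp
    (m.nMap (conj_le_of_mem_norm h1 hX) (mem_conj.1 hg) h2).isMap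
      fun x hx => conj_mem_conj _ hx).comp (Iso.isMap hn)
      fun x hx => h2 (conj_mem_conj _ (conj_mem_conj _ hx))
  exact this.congr fun x _ => by simp [mul_assoc]

variable [Finite Ω]

theorem Mod.oT (m : Mod F U G) : core {2} G ≤ normalizerIn S U := sylow_core_le Nat.prime_two m.syl

theorem Mod.isMap_sup (m : Mod F U G) (hX : X ≤ normalizerIn S U) (hg : g ∈ G)
    (h : g ⋆ X ≤ normalizerIn S U) : F.IsMap (X ⊔ core {2} G) (cj g) :=
  (m.nMap (sup_le hX m.oT) hg (by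
    rw [conj_sup, (core_normal _ _).conj_eq hg]; exact sup_le h m.oT)).isMap

theorem Mod.ne (m : Mod F U G) (s : Sel F N U) : core {2} G ≠ ⊥ := fun e => by
  have := m.ch
  rw [e, coe_bot, centralizer_eq_top_iff_subset.2 (by simp), inf_top_eq] at this
  exact s.ne (eq_bot_iff.2 ((le_inf s.le le_normalizer).trans (m.syl.le.trans this)))

theorem Mod.centric (m : Mod F U G) (h : H0 F N) (s : Sel F N U) : F.IsCentric (core {2} G) := by
  haveI : Fact (Nat.Prime 2) := ⟨Nat.prime_two⟩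
  have hn := m.syl.le.trans (core_normal {2} G).norm
  obtain ⟨e, s'⟩ := s.of_le (m.oT.trans inf_le_left) (m.ne s) (fun hb => s.bad fun P f hf => by
    obtain ⟨a, b, g, hg, c⟩ := (m.map _ _).1 hf
    exact (hb _ _ (nMap_cj (m.isMap_sup a hg fun x hx => by
      obtain ⟨y, hy, rfl⟩ := mem_conj'.1 hx
      exact c y hy ▸ b y hy) (a.trans hn) ((core_normal _ _).norm hg))).congr c)
    (le_inf inf_le_left hn)
  exact ((s'.fn h).isFullyCentralized h.sat h.two).isCentric h.sat h.two fun x hx =>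
    m.ch ⟨m.syl.le (e ▸ ⟨hx.1, centralizer_le_normalizer _ hx.2⟩), hx.2⟩

theorem Mod.exists_mpi (m : Mod F U G) (h : H0 F N) (s : Sel F N U) :
    ∃ P M, P ≤ G ∧ MPi P (normalizerIn S U) M ∧
      ∀ C ≤ normalizerIn S U, P ≤ 𝐍(C) → ¬ Big F N C := by
  haveI : Fact (Nat.Prime 2) := ⟨Nat.prime_two⟩
  have hO := m.oT.trans inf_le_left
  have hn := (core_normal {2} G).norm
  have h1 : ¬ G ≤ autg N _ hO := fun hle => s.bad fun P f hf => by
    obtain ⟨a, b, g, hg, c⟩ := (m.map _ _).1 hf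
    exact (((m.centric h s).isMap_of_restrict h.sat h.satN h.two (le_iff_isSubsystemOf.1 h.le)
      le_sup_right (m.isMap_sup a hg fun x hx => by
        obtain ⟨y, hy, rfl⟩ := mem_conj'.1 hx
        exact c y hy ▸ b y hy) (Iso.isMap (hle hg))).mono le_sup_left).congr c
  obtain ⟨P, a, ⟨b, c⟩, d⟩ := exists_minimal_le (S := G)
    (𝒜 := fun K => normalizerIn S U ≤ K ∧ ¬ K ≤ autg N _ hO) le_rfl ⟨m.syl.le, h1⟩
  refine ⟨P, P ⊓ autg N _ hO, a, ⟨m.syl.of_le b a, le_inf b ((le_inf inf_le_left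
    (m.syl.le.trans hn)).trans (le_autg hO)), inf_lt_left.2 c, fun K k1 k2 =>
    le_inf k2.le (by_contra fun k3 => d K k2 ⟨k1, k3⟩)⟩, fun C hC hP hb => c fun g hg => ?_⟩
  have := m.isMap_sup hC (a hg) (by rwa [conj_of_mem_norm (hP hg)])
  rw [sup_comm] at this
  exact (hb _ _ (nMap_cj this ((m.oT.trans b).trans hP) (hP hg))).iso_of_img
    (img_cj_eq_iff.2 (hn (a hg)))

theorem Mod.amb (m : Mod F U G) (h : H0 F N) (s : Sel F N U) {M : Subgroup Ω} (hP : P ≤ G)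
    (p : MPi P (normalizerIn S U) M) (k : ∀ C ≤ normalizerIn S U, P ≤ 𝐍(C) → ¬ Big F N C) :
    Amb P (normalizerIn S U) M (autg F (normalizerIn S U) inf_le_left) := by
  haveI : Fact (Nat.Prime 2) := ⟨Nat.prime_two⟩
  have hO := core_le_core_of_le (m.oT.trans p.syl.le) hP
  refine ⟨p, (inf_le_inf hP (centralizer_le hO)).trans (m.ch.trans hO), autg_le _,
    fun C a _ c d => by_contra fun e => k C a c ?_, ?_⟩
  · rcases eq_or_lt_of_le (inf_le_left : normalizerIn S U ≤ S) with t | t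
    · refine h.par C (a.trans inf_le_left) e fun σ hσ x hx => ?_
      have h1 := hσ.isMap.mono (inf_le_left : normalizerIn S U ≤ S)
      have h2 : ∀ x ∈ normalizerIn S U, σ x ∈ normalizerIn S U := fun x hx => t.ge (h1.mem hx)
      obtain ⟨n, hn⟩ := m.aut σ h1 h2
      rw [hn x (a hx)]
      exact (mem_normalizer_iff.1 (d ((h1.iso_self h2).congr fun y hy => (hn y hy).symm)) x).1 hx
    · exact s.max C (a.trans inf_le_left) e ((card_lt' (lt_normalizerIn h.two t)).trans_le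
        (card_le_of_le (le_inf inf_le_left ((le_autg _).trans d))))
  · obtain ⟨n, C, a, b, c, d, e⟩ := serN h.sat h.two h.min s.le s.ne
    exact ⟨n, C, a, b, c, d, fun i x hx g hg t => e i _ _ (m.nMap (zpowers_le.2 (c i hx)) (hP hg)
      (by rw [conj_zpowers]; exact zpowers_le.2 t)) x (mem_zpowers x) hx⟩

theorem Mod.nsp (m : Mod F U G) (h : H0 F N) (hP : P ≤ G) {n : Ω}
    (hn : n ∈ autg F (normalizerIn S U) inf_le_left) : NSP (normalizerIn S U) P (n ⋆ P) := by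
  intro C hC h1 R a b c
  have key : ∀ r ∈ normalizerIn S U ⊓ 𝐂(C), ∀ k ∈ autg F (normalizerIn S U) inf_le_left,
      ∀ x ∈ k ⋆ G ⊓ 𝐂(C), x * r * x⁻¹ ∈ normalizerIn S U → F.NMap C (zpowers r) (cj x) :=
    fun r hr k hk x hx t => nMap_cj (m.isMap (sup_le (zpowers_le.2 hr.1) hC) hk hx.1 (by
      rw [conj_sup, conj_zpowers, conj_of_mem_norm (centralizer_le_normalizer _ hx.2)]
      exact sup_le (zpowers_le.2 t) hC)) (zpowers_le.2 (centralizer_le_normalizer _ hr.2))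
      (centralizer_le_normalizer _ hx.2)
  refine (serN h.sat h.two h.min (hC.trans inf_le_left) h1).ns a b fun r hr => ?_
  obtain ⟨d, x, hx, y, hy, e1, e2, e3⟩ := c r hr
  exact ⟨⟨d.1.1, centralizer_le_normalizer _ d.2⟩, cj x, cj y,
    key r d 1 (one_mem _) x ⟨by simpa using hP hx.1, hx.2⟩ e1,
    key r d n hn y ⟨conj_mono n hP hy.1, hy.2⟩ e2, e3⟩

theorem Mod.dat [GT.{u}] (m : Mod F U G) (h : H0 F N) (s : Sel F N U) :
    ∃ T V₁ V₂ t q ℓ L, Dat F T V₁ V₂ t q ℓ L := by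
  haveI : Fact (Nat.Prime 2) := ⟨Nat.prime_two⟩
  obtain ⟨P, M, hP, p, k⟩ := m.exists_mpi h s
  have hT : normalizerIn S U ≤ S := inf_le_left
  obtain ⟨n, hn, q, ℓ, L, ts⟩ := GT.main (m.amb h s hP p k)
    ((le_inf hT le_normalizer).trans (le_autg _)) fun n hn => m.nsp h hP hn
  have hQ : core {2} P ≤ normalizerIn S U := sylow_core_le Nat.prime_two p.syl
  have hN := (core_normal {2} P).norm
  obtain ⟨e, s'⟩ := s.of_le (hQ.trans hT) (fun e => m.ne s (eq_bot_iff.2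
    (e ▸ core_le_core_of_le (m.oT.trans p.syl.le) hP))) (k _ hQ hN) (le_inf hT (p.syl.le.trans hN))
  have sw : ∀ x ∈ 𝐍(normalizerIn S U), x ⋆ core {2} P = core {2} P ∨
      x ⋆ core {2} P = n ⋆ core {2} P := fun x hx =>
    (ts.ea _).1 (MaxEA.conj ((ts.ea _).2 (Or.inl rfl)) hx)
  have lt : normalizerIn S U < S := lt_of_le_of_ne hT fun t => by
    have nn : n * n ∈ 𝐍(core {2} P) := by
      rcases (ts.ea _).1 (MaxEA.conj ((ts.ea _).2 (Or.inr rfl)) (autg_le _ hn)) with a | a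
      · rwa [← mul_conj, conj_eq_self_iff] at a
      · exact absurd (conj_eq_conj_iff.1 a) ts.ne
    obtain ⟨a, b, ⟨c, rfl⟩, hb⟩ := Nat.exists_eq_two_pow_mul_odd (orderOf_pos n).ne'
    have h1 : F.Iso S S (cj (n ^ (2 * c + 1))) := by
      have : F.Iso _ _ _ := pow_mem hn (2 * c + 1)
      rwa [t] at this
    obtain ⟨χ, c1, c2⟩ := (h.sat.isFullyAutomized_top h.two).exists_conj_elt h1 (k := a) (by
      rw [← map_pow, ← pow_mul, mul_comm, ← hb, pow_orderOf_eq_one, map_one]; exact one_mem _)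
    obtain ⟨x, hx, c3⟩ := mem_innS_self.1 ((conj_mem_innS_self_iff c1.mem_autStab).1 c2)
    have h2 : n ^ (2 * c + 1) ∈ 𝐍(core {2} P) := mem_norm_of_conj_le fun y hy => by
      obtain ⟨z, hz, rfl⟩ := mem_conj'.1 hy
      rw [← cj_apply, c3 z (hT (hQ hz))]
      exact (mem_normalizer_iff.1 (hN (p.syl.le (t.ge hx))) z).1 hz
    rw [pow_succ, pow_mul, sq] at h2
    exact ts.ne (conj_of_mem_norm ((mul_mem_cancel_left (pow_mem nn c)).1 h2))
  obtain ⟨t, ⟨t1, t2⟩, t3⟩ := SetLike.exists_of_lt (lt_normalizerIn h.two lt)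
  refine ⟨_, _, _, t, q, ℓ, L, h.sat, h.two, t1, t2, (sw t t2).resolve_left fun a =>
    t3 (e ▸ ⟨t1, conj_eq_self_iff.1 a⟩), ts.ne.symm, e, s'.fn h, fun x hx =>
    ts.cen ⟨e ▸ ⟨hx.1, centralizer_le_normalizer _ hx.2⟩, hx.2⟩, ts.ea, ts.line, ts.mem,
    ts.LP.trans (map_mono ?_), ts.cA⟩
  rintro _ ⟨x, hx, rfl⟩
  exact mem_autGroup_of_rep (m.nMap hQ (hP hx) ((conj_of_mem_norm x.2).trans_le hQ)).isMap fun y => rfl

theorem H0.dat [GT.{u}] {Ω : Type u} [Group Ω] {S : Subgroup Ω} [Finite S] {F N : FusionSystem S}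
    (h : H0 F N) (hne : N ≠ F) :
    ∃ (Ω' : Type u) (_ : Group Ω') (_ : Finite Ω') (S' : Subgroup Ω') (F' N' : FusionSystem S')
      (θ : Ω → Ω') (θ' : Ω' → Ω), Transp S S' θ θ' F F' ∧ H0 F' N' ∧ AllMod F' ∧
      ∃ T V₁ V₂ t q ℓ L, Dat F' T V₁ V₂ t q ℓ L := by
  obtain ⟨U, s⟩ := h.exists_sel hne
  obtain ⟨Ω', _, _, S', F', N', θ, θ', a, b, m⟩ := exists_amb h
  obtain ⟨G, k⟩ := m _ (s.transp a b).ne ((s.transp a b).fn (h.transp a b))
  exact ⟨Ω', _, ‹_›, S', F', N', θ, θ', a, h.transp a b, m, k.dat (h.transp a b) (s.transp a b)⟩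

end Cfsg.Agent.Pu
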