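import Cfsg.Agent.Pu.I

/-! Slice PU of S5175: the amalgam argument. -/

set_option autoImplicit false

universe u

namespace Cfsg.Agent.Pu

open Subgroup Cfsg Cfsg.Agent.H1 Cfsg.Agent.L Cfsg.Agent.FT Cfsg.Agent.Sg Cfsg.Agent.St
open scoped Pointwise commutatorElement

variable {G : Type*} [Group G] {X S Q V N X' S' Q' V' : Subgroup G} {q : ℕ}

theorem conj_oz' (g : G) (S : Subgroup G) : g ⋆ oz S = oz (g ⋆ S) := map_oz S (conj_inj g)

theorem comm_sup_right_le' {A B C L : Subgroup G} (h1 : ⁅A, B⁆ ≤ L) (h2 : ⁅A, C⁆ ≤ L)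
    (hB : B ≤ 𝐍(L)) (hC : C ≤ 𝐍(L)) : ⁅A, B ⊔ C⁆ ≤ L := by
  rw [commutator_comm] at h1 h2 ⊢
  exact comm_sup_left_le h1 h2 hB hC

theorem norm_iSup_conj {A : Subgroup G} {R : Set G} (V : Subgroup G)
    (h : ∀ a ∈ A, ∀ g ∈ R, a * g ∈ R) : A ≤ 𝐍((⨆ g ∈ R, g ⋆ V : Subgroup G)) :=
  le_norm_of_conj fun a ha => conj_le_iff.2 (iSup₂_le fun g hg => conj_le_iff.1 (by
    rw [← mul_conj]; exact le_iSup₂_of_le (f := fun g (_ : g ∈ R) => g ⋆ V) _ (h a ha g hg) le_rfl))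

namespace PH

theorem conj (h : PH X S Q V q) (g : G) : PH (g ⋆ X) (g ⋆ S) (g ⋆ Q) (g ⋆ V) q where
  QS := conj_mono g h.QS
  SX := conj_mono g h.SX
  nQ := conj_norm g Q ▸ conj_mono g h.nQ
  VQ := conj_mono g h.VQ
  nV := conj_norm g V ▸ conj_mono g h.nV
  sq a ha := by
    obtain ⟨b, hb, rfl⟩ := mem_conj'.1 ha
    rw [conj_mul, h.sq b hb]; group
  cQ := conj_cent g V ▸ conj_mono g h.cQ
  two := pgroup_conj h.two g
  zV := conj_oz' g S ▸ conj_mono g h.zV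
  one_lt := h.one_lt
  iQ := by rw [card_conj, card_conj, h.iQ]
  iV := by rw [← conj_oz', card_conj, card_conj, h.iV]
  m1 a ha hq := by
    obtain ⟨b, hb, rfl⟩ := mem_conj'.1 ha
    rw [← conj_oz', ← conj_cent1, ← conj_inf]
    exact conj_mono g (h.m1 b hb fun e => hq (conj_mem_conj g e))
  m2 a ha hq v hv hc := by
    obtain ⟨b, hb, rfl⟩ := mem_conj'.1 ha
    obtain ⟨w, hw, rfl⟩ := mem_conj'.1 hv
    rw [← conj_oz']
    refine conj_mem_conj g (h.m2 b hb (fun e => hq (conj_mem_conj g e)) w hw ?_)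
    rw [← conj_cent, ← conjugate_commutatorElement] at hc
    exact conj_mem_conj_iff.1 hc
  quad := by rw [← conj_oz', ← conj_comm]; exact conj_mono g h.quad
  opp := by
    obtain ⟨x, hx, h1, h2⟩ := h.opp
    have e : ∀ y : G, (g * y * g⁻¹) ⋆ g ⋆ S = g ⋆ y ⋆ S := fun y => by
      rw [mul_conj, mul_conj, inv_conj_conj]
    refine ⟨_, conj_mem_conj g hx, by rw [e, ← conj_sup, h1], fun a ha hq => ?_⟩
    obtain ⟨b, hb, rfl⟩ := mem_conj'.1 ha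
    rw [conj_mul, e, e, ← conj_sup, h2 b hb fun e => hq (conj_mem_conj g e)]

theorem VS (h : PH X S Q V q) : V ≤ S := h.VQ.trans h.QS

theorem QX (h : PH X S Q V q) : Q ≤ X := h.QS.trans h.SX

theorem quad' (h : PH X S Q V q) : ⁅V, S⁆ ≤ V := h.quad.trans h.zV

theorem cquad (h : PH X S Q V q) : ⁅V, S⁆ ≤ 𝐂(S) := h.quad.trans (oz_le_cent S)

variable [Finite G]

theorem not_le (h : PH X S Q V q) : ¬ V ≤ oz S := fun e => by
  have h1 := card_le_of_le' e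
  have h2 : 0 < #|oz S| := Nat.card_pos
  rw [h.iV] at h1
  nlinarith [h.one_lt]

theorem le_Q (h : PH X S Q V q) {A : Subgroup G} (hA : A ≤ S) (hc : A ≤ 𝐂(V)) : A ≤ Q :=
  fun a ha => by
    by_contra e
    exact h.not_le ((le_inf le_rfl (le_cent1_iff.2 (hc ha))).trans (h.m1 a (hA ha) e))

theorem loc (h : PH X S Q V q) (h' : PH X' S' Q' V' q) (a1 : V ≤ S') (a2 : V' ≤ S)
    (hn : ¬ V ≤ Q') : ¬ V' ≤ Q ∧ S = V' ⊔ Q ∧ ⁅V, S⁆ = ⁅V, V'⁆ := by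
  obtain ⟨a, ha, hq⟩ := SetLike.not_le_iff_exists.1 hn
  have h1 : V' ⊓ Q ≤ oz S' :=
    (inf_le_inf_left _ (h.cQ.trans (cent_le_cent1 ha))).trans (h'.m1 a (a1 ha) hq)
  have h2 : S = V' ⊔ Q := by
    refine (eq_of_le_of_card_le (sup_le a2 h.QS) ?_).symm
    have h3 := card_sup_mul_card_inf (a2.trans (h.SX.trans h.nQ))
    have h4 := card_le_of_le' h1
    have h5 : 0 < #|oz S'| := Nat.card_pos
    rw [h'.iV] at h3
    rw [h.iQ]
    exact Nat.le_of_mul_le_mul_right (by nlinarith) h5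
  refine ⟨fun e => h'.not_le ((le_inf le_rfl e).trans h1), h2,
    le_antisymm ?_ (commutator_mono le_rfl a2)⟩
  have h3 : S ≤ 𝐍(⁅V, V'⁆) :=
    le_norm_of_le_cent (le_cent_symm ((commutator_mono le_rfl a2).trans h.cquad))
  rw [h2]
  exact comm_sup_right_le' le_rfl ((comm_eq_bot_iff'.2 h.cQ).le.trans bot_le) (a2.trans h3)
    (h.QS.trans h3)

end PH

/-- a critical pair -/
structure Cr (S Q V S' Q' V' : Subgroup G) : Prop where
  n : ¬ V ≤ Q'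
  n' : ¬ V' ≤ Q
  e : S = V' ⊔ Q
  e' : S' = V ⊔ Q'
  r : ⁅V, S⁆ = ⁅V', S'⁆

theorem PH.cr [Finite G] (h : PH X S Q V q) (h' : PH X' S' Q' V' q) (a1 : V ≤ S') (a2 : V' ≤ S)
    (hn : ¬ V ≤ Q') : Cr S Q V S' Q' V' :=
  have ⟨h1, h2, h3⟩ := h.loc h' a1 a2 hn
  have ⟨_, h4, h5⟩ := h'.loc h a2 a1 h1
  ⟨hn, h1, h2, h4, by rw [h3, h5, commutator_comm]⟩

variable (X S N) in
/-- an edge of the coset graph -/
def Ed (a b : G) (E : Subgroup G) : Prop :=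
  ∃ s, ∃ x ∈ X, ∃ n ∈ N, ∃ y ∈ X, a = s * x ∧ b = s * n * y ∧ E = s ⋆ S

variable (X S N) in
/-- walks in the coset graph -/
def Wk : ℕ → G → G → Prop
  | 0, a, b => a = b
  | k + 1, a, b => ∃ c E, Ed X S N a c E ∧ Wk k c b

variable {a b c : G} {E E' : Subgroup G} {k : ℕ}

namespace Ed

theorem symm (hN : N ≤ 𝐍(S)) (h : Ed X S N a b E) : Ed X S N b a E := by
  obtain ⟨s, x, hx, n, hn, y, hy, rfl, rfl, rfl⟩ := h
  exact ⟨s * n, y, hy, n⁻¹, N.inv_mem hn, x, hx, rfl, by group,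
    by rw [mul_conj, conj_of_mem_norm (hN hn)]⟩

theorem smul (h : Ed X S N a b E) (g : G) : Ed X S N (g * a) (g * b) (g ⋆ E) := by
  obtain ⟨s, x, hx, n, hn, y, hy, rfl, rfl, rfl⟩ := h
  exact ⟨g * s, x, hx, n, hn, y, hy, by group, by group, (mul_conj _ _ _).symm⟩

theorem fix (h : Ed X S N a b E) {g : G} (hg : g ∈ b ⋆ X) : Ed X S N (g * a) b (g ⋆ E) := by
  obtain ⟨s, x, hx, n, hn, y, hy, e1, e2, e3⟩ := h.smul g
  refine ⟨s, x, hx, n, hn, _, X.mul_mem hy (X.inv_mem (mem_conj.1 hg)), e1, ?_, e3⟩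
  rw [← mul_assoc, ← e2]; group

theorem loop (a : G) : Ed X S N a a (a ⋆ S) :=
  ⟨a, 1, X.one_mem, 1, N.one_mem, 1, X.one_mem, by simp, by simp, rfl⟩

theorem ph (hp : PH X S Q V q) (h : Ed X S N a b E) : PH (a ⋆ X) E (a ⋆ Q) (a ⋆ V) q := by
  obtain ⟨s, x, hx, n, hn, y, hy, rfl, rfl, rfl⟩ := h
  rw [mul_conj, mul_conj, mul_conj, conj_of_mem hx, conj_of_mem_norm (hp.nQ hx),
    conj_of_mem_norm (hp.nV hx)]
  exact hp.conj s

theorem move (h : Ed X S N a b E) (h' : Ed X S N a c E') :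
    ∃ g ∈ a ⋆ X, g ⋆ E = E' ∧ ∃ E'', Ed X S N (g * b) c E'' := by
  obtain ⟨s, x, hx, n, hn, y, hy, rfl, rfl, rfl⟩ := h
  obtain ⟨s', x', hx', n', hn', y', hy', e, rfl, rfl⟩ := h'
  obtain rfl : s' = s * x * x'⁻¹ := by rw [e]; group
  refine ⟨s * x * x'⁻¹ * s⁻¹, mem_conj.2 ?_, by rw [← mul_conj]; congr 2; group, _,
    s * x * x'⁻¹ * n, y, hy, _, N.mul_mem (N.inv_mem hn) hn', y', hy', by group, by group, rfl⟩
  convert X.mul_mem (X.inv_mem hx') hx using 1; group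

theorem ext [Finite G] (hp : PH X S Q V q) (hN : N ≤ 𝐍(S))
    (nc : ∀ U ≤ S, X ≤ 𝐍(U) → N ≤ 𝐍(U) → U = ⊥) (h : Ed X S N a b E) {K Z : Subgroup G}
    (h1 : ⁅K, Z⁆ ≤ a ⋆ V) (h2 : E ≤ Z ⊔ a ⋆ Q) :
    ∃ c E', Ed X S N c a E' ∧ E' ⊔ E = a ⋆ X ∧ ¬ c ⋆ V ≤ K := by
  obtain ⟨s, x, hx, n, hn, y, hy, rfl, rfl, rfl⟩ := h
  obtain ⟨t, ht, h3, -⟩ := hp.opp
  have e : ∀ {U : Subgroup G}, X ≤ 𝐍(U) → (s * x) ⋆ U = (s * t) ⋆ U := fun hU => by
    rw [mul_conj, mul_conj, conj_of_mem_norm (hU hx), conj_of_mem_norm (hU ht)]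
  have h4 : (s * t) ⋆ S ⊔ s ⋆ S = (s * x) ⋆ X := by
    rw [mul_conj, mul_conj, conj_of_mem hx, ← conj_sup, sup_comm, h3]
  by_contra! hc
  set W : Subgroup G := ⨆ g ∈ (N : Set G), g ⋆ V
  have hV : V ≤ W := le_iSup₂_of_le (f := fun g (_ : g ∈ (N : Set G)) => g ⋆ V) 1 N.one_mem (by simp)
  have hK : (s * t) ⋆ W ≤ K := conj_le_iff.2 (iSup₂_le fun g hg => conj_le_iff.1 (by
    rw [← mul_conj]
    exact hc _ _ (symm hN ⟨s * t, _, X.mul_mem (X.inv_mem ht) hx, g, hg, 1, X.one_mem, by group,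
      by group, rfl⟩) h4))
  have hS : S ≤ 𝐍(W) := iSup_norm fun g => iSup_norm fun hg => by
    rw [← conj_norm, ← conj_of_mem_norm (hN hg)]
    exact conj_mono g (hp.SX.trans hp.nV)
  have hZ : Z ≤ (s * t) ⋆ 𝐍(W) := by
    rw [conj_norm]
    exact comm_le_left_iff.1 ((commutator_mono hK le_rfl).trans (h1.trans
      ((e hp.nV).le.trans (conj_mono _ hV))))
  refine hp.not_le (hV.trans ((nc W (iSup₂_le fun g hg => conj_le_of_mem_norm (hN hg) hp.VS) ?_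
    (norm_iSup_conj V fun a ha g hg => N.mul_mem ha hg)).le.trans bot_le))
  rw [← conj_le_conj_iff (g := s * t), ← e le_normalizer, ← h4]
  exact sup_le (conj_mono _ hS) (h2.trans (sup_le hZ ((e hp.nQ).le.trans
    (conj_mono _ (hp.QS.trans hS)))))

end Ed

namespace Wk

theorem snoc (h : Wk X S N k a b) (h' : Ed X S N b c E) : Wk X S N (k + 1) a c := by
  induction k generalizing a with
  | zero => exact ⟨c, E, (show a = b from h) ▸ h', rfl⟩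
  | succ k ih =>
    obtain ⟨d, F, h1, h2⟩ := h
    exact ⟨d, F, h1, ih h2⟩

theorem symm (hN : N ≤ 𝐍(S)) (h : Wk X S N k a b) : Wk X S N k b a := by
  induction k generalizing a with
  | zero => exact Eq.symm h
  | succ k ih =>
    obtain ⟨d, F, h1, h2⟩ := h
    exact (ih h2).snoc (h1.symm hN)

theorem smul (h : Wk X S N k a b) (g : G) : Wk X S N k (g * a) (g * b) := by
  induction k generalizing a with
  | zero => exact congrArg _ h
  | succ k ih =>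
    obtain ⟨d, F, h1, h2⟩ := h
    exact ⟨_, _, h1.smul g, ih h2⟩

theorem path (h : Wk X S N k a b) : ∃ (α : ℕ → G) (E : ℕ → Subgroup G),
    (∀ i, Ed X S N (α i) (α (i + 1)) (E i)) ∧ α 0 = a ∧ α k = b := by
  induction k generalizing a with
  | zero => exact ⟨fun _ => a, fun _ => a ⋆ S, fun _ => Ed.loop a, rfl, h⟩
  | succ k ih =>
    obtain ⟨d, F, h1, h2⟩ := h
    obtain ⟨α, E, h3, rfl, rfl⟩ := ih h2
    exact ⟨fun i => i.casesOn a α, fun i => i.casesOn F E, fun i => i.casesOn h1 h3, rfl, rfl⟩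

theorem of_path {α : ℕ → G} {E : ℕ → Subgroup G} (h : ∀ i, Ed X S N (α i) (α (i + 1)) (E i))
    (k : ℕ) {i j : ℕ} (e : j = i + k) : Wk X S N k (α i) (α j) := by
  subst e
  induction k with
  | zero => rfl
  | succ k ih => exact ih.snoc (h _)

theorem exists_crit [Finite G] (hp : PH X S Q V q)
    (nc : ∀ U ≤ S, X ≤ 𝐍(U) → N ≤ 𝐍(U) → U = ⊥) :
    ∃ k a b, Wk X S N k a b ∧ ¬ a ⋆ V ≤ b ⋆ Q := by
  by_contra! h
  refine hp.not_le (le_trans ?_ ((nc (⨆ g ∈ {g | ∃ k, Wk X S N k g 1}, g ⋆ V)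
    (iSup₂_le fun g ⟨k, hk⟩ => (h k g 1 hk).trans (by simpa using hp.QS))
    (norm_iSup_conj V fun x hx g ⟨k, hk⟩ => ⟨_, (hk.smul x).snoc
      ⟨1, x, hx, 1, N.one_mem, 1, X.one_mem, by simp, by simp, rfl⟩⟩)
    (norm_iSup_conj V fun n hn g ⟨k, hk⟩ => ⟨_, (hk.smul n).snoc
      ⟨n, 1, X.one_mem, n⁻¹, N.inv_mem hn, 1, X.one_mem, rfl, by simp, rfl⟩⟩)).le.trans bot_le))
  exact le_iSup₂_of_le (f := fun g (_ : g ∈ {g | ∃ k, Wk X S N k g 1}) => g ⋆ V) 1 ⟨0, rfl⟩ (by simp)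

end Wk

end Cfsg.Agent.Pu
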