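import Cfsg.Agent.Pu.U1

/-! Slice PU of S5175: critical walks of length at least two do not exist. -/

set_option autoImplicit false

universe u

namespace Cfsg.Agent.Pu

open Subgroup Cfsg Cfsg.Agent.H1 Cfsg.Agent.L Cfsg.Agent.FT Cfsg.Agent.Sg Cfsg.Agent.St
open scoped Pointwise commutatorElement

variable {G : Type*} [Group G] [Finite G] {X S Q V N : Subgroup G} {q k : ℕ}

/-- the critical distance is at least `k + 2` -/
structure Cd (X S Q V N : Subgroup G) (q k : ℕ) : Prop where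
  ph : PH X S Q V q
  nS : N ≤ 𝐍(S)
  min : ∀ j < k + 2, ∀ a b, Wk X S N j a b → a ⋆ V ≤ b ⋆ Q

/-- a path with critical windows and opposite edges -/
structure Ch (X S Q V N : Subgroup G) (k L : ℕ) (α : ℕ → G) (E : ℕ → Subgroup G) : Prop where
  ed : ∀ i, Ed X S N (α i) (α (i + 1)) (E i)
  cr : ∀ i ≤ L, ∀ j, j = i + k + 1 → ¬ α i ⋆ V ≤ α (j + 1) ⋆ Q
  opp : ∀ i < L, E i ⊔ E (i + 1) = α (i + 1) ⋆ X

namespace Cd

variable (h : Cd X S Q V N q k) {a a' b b' : G} {F F' : Subgroup G} {α : ℕ → G}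
  {E : ℕ → Subgroup G} {L : ℕ}
include h

omit [Finite G] in
theorem adj (e : Ed X S N a b F) : a ⋆ V ≤ b ⋆ Q := h.min 1 (by omega) a b ⟨b, F, e, rfl⟩

omit [Finite G] in
theorem ph' (e : Ed X S N a b F) : PH (b ⋆ X) F (b ⋆ Q) (b ⋆ V) q := (e.symm h.nS).ph h.ph

theorem cr (e : Ed X S N a a' F) (e' : Ed X S N b b' F') (w : Wk X S N (k + 1) b a')
    (w' : Wk X S N (k + 1) a b') (hn : ¬ a ⋆ V ≤ b ⋆ Q) :
    Cr F (a ⋆ Q) (a ⋆ V) F' (b ⋆ Q) (b ⋆ V) :=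
  (e.ph h.ph).cr (e'.ph h.ph) ((h.min _ (by omega) _ _ w').trans (h.ph' e').QS)
    ((h.min _ (by omega) _ _ w).trans (h.ph' e).QS) hn

theorem win (c : Ch X S Q V N k L α E) (i : ℕ) {j : ℕ} (hi : i ≤ L) (e : j = i + k + 1) :
    Cr (E i) (α i ⋆ Q) (α i ⋆ V) (E j) (α (j + 1) ⋆ Q) (α (j + 1) ⋆ V) :=
  h.cr (c.ed i) ((c.ed j).symm h.nS) ((Wk.of_path c.ed _ (by omega)).symm h.nS)
    (Wk.of_path c.ed _ (by omega)) (c.cr i hi j e)

theorem exists_ch (nc : ∀ U ≤ S, X ≤ 𝐍(U) → N ≤ 𝐍(U) → U = ⊥) (w : Wk X S N (k + 2) a b)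
    (hn : ¬ a ⋆ V ≤ b ⋆ Q) (L : ℕ) : ∃ α E, Ch X S Q V N k L α E := by
  induction L with
  | zero =>
    obtain ⟨α, E, h1, rfl, rfl⟩ := w.path
    refine ⟨α, E, h1, fun i hi j e => ?_, fun i hi => by omega⟩
    obtain rfl : i = 0 := by omega
    obtain rfl : j = k + 1 := by omega
    exact hn
  | succ L ih =>
    obtain ⟨α, E, c⟩ := ih
    have w := h.win c 0 (j := k + 1) (by omega) (by omega)
    obtain ⟨d, F, h1, h2, h3⟩ := (c.ed 0).ext h.ph h.nS nc (K := α (k + 1) ⋆ Q)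
      ((commutator_mono ((c.ed (k + 1)).ph h.ph).QS le_rfl).trans (by
        rw [commutator_comm, ← w.r]; exact ((c.ed 0).ph h.ph).quad')) w.e.le
    refine ⟨fun i => i.casesOn d α, fun i => i.casesOn F E, fun i => i.casesOn h1 c.ed,
      fun i hi j e => ?_, fun i hi => ?_⟩
    · rcases i with _ | i
      · obtain rfl : j = k + 1 := by omega
        exact h3
      · obtain rfl : j = i + k + 1 + 1 := by omega
        exact c.cr i (by omega) _ rfl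
    · rcases i with _ | i
      exacts [h2, c.opp i (by omega)]

variable (c : Ch X S Q V N k (k + 3) α E)
include c

theorem c1 (i : ℕ) (hi : i < k + 3) : ⁅α i ⋆ V, E i⁆ ≤ 𝐂(α (i + 1) ⋆ X) := by
  have p := ((c.ed i).ph h.ph).cquad
  rw [← c.opp i hi, cent_sup, (h.win c (i + 1) (j := i + k + 2) hi (by omega)).e, cent_sup]
  refine le_inf p (le_inf ?_ (p.trans (cent_anti (h.ph' (c.ed i)).QS)))
  rw [(h.win c i hi.le rfl).r]
  exact (h.ph' (c.ed _)).quad'.trans ((h.adj (c.ed _)).trans (h.ph' (c.ed _)).cQ)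

theorem c1' {g : G} (hg : g ∈ α (k + 3) ⋆ X) :
    ⁅g ⋆ α (k + 2) ⋆ V, g ⋆ E (k + 2)⁆ = ⁅α (k + 2) ⋆ V, E (k + 2)⁆ := by
  rw [← conj_comm]
  exact conj_of_mem_norm (cent_le_norm _ (le_cent_symm (h.c1 c _ (by omega)) hg))

theorem c2 : ¬ ⁅α (k + 2) ⋆ V, α (k + 3) ⋆ X⁆ ≤ α (k + 3) ⋆ V := fun e => by
  obtain ⟨g, hg, -, F, h1⟩ := ((c.ed (k + 2)).symm h.nS).move (c.ed (k + 3))
  refine c.cr (k + 2) (by omega) _ rfl fun v hv => ?_
  rw [show v = ⁅v, g⁆ * (g * v * g⁻¹) by group]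
  refine mul_mem (h.min (k + 1) (by omega) _ _ (Wk.of_path c.ed _ (by omega))
    (e (commutator_mem_commutator hv hg))) (h.min (k + 1) (by omega) _ _
      ⟨_, _, h1, Wk.of_path c.ed _ (by omega)⟩ ?_)
  rw [mul_conj]
  exact conj_mem_conj g hv

theorem c3 {g : G} (hg : g ∈ α (k + 3) ⋆ X)
    (ho : E (k + 2) ⊔ g ⋆ E (k + 2) = α (k + 3) ⋆ X) : ¬ g⁻¹ ⋆ α (k + 2) ⋆ V ≤ α 2 ⋆ Q := fun e => by
  have p := h.ph' (c.ed (k + 2))
  have p0 := ((c.ed (k + 2)).ph h.ph).quad.trans p.zV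
  have w := h.win c 1 (j := k + 2) (by omega) (by omega)
  have hg' := inv_mem hg
  refine h.c2 c ?_
  rw [← ho]
  refine comm_sup_right_le' p0 ?_ (p.SX.trans p.nV) ((conj_le_of_mem hg p.SX).trans p.nV)
  rw [← conj_le_conj_iff (g := g⁻¹), conj_comm, inv_conj_conj, conj_of_mem_norm (p.nV hg'), w.e']
  refine comm_sup_right_le' ?_ ?_ ((le_sup_left.trans w.e'.ge).trans (p.SX.trans p.nV))
    (p.QX.trans p.nV)
  · refine (commutator_mono (e.trans (h.ph' (c.ed 1)).QS) le_rfl).trans ?_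
    rw [commutator_comm, w.r]
    exact p.quad'
  · rw [← conj_of_mem_norm (p.nQ hg')]
    exact (commutator_mono le_rfl (conj_mono _ p.QS)).trans ((h.c1' c hg').le.trans p0)

theorem big (hk : 0 < k) : False := by
  obtain ⟨g, hg, h1, -⟩ := ((c.ed (k + 2)).symm h.nS).move (c.ed (k + 3))
  have h2 := h.c3 c hg (h1 ▸ c.opp _ (by omega))
  have e := (c.ed (k + 2)).fix (inv_mem hg)
  rw [← mul_conj] at h2
  have h3 := (h.cr e (c.ed 2) (Wk.of_path c.ed _ (by omega))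
    ⟨_, _, e, (Wk.of_path c.ed _ (by omega)).symm h.nS⟩ h2).r
  rw [mul_conj, h.c1' c (inv_mem hg)] at h3
  have p := (c.ed (k + 2)).ph h.ph
  have h4 : ⁅α (k + 2) ⋆ V, E (k + 2)⁆ ≤ 𝐂(α (k + 2) ⋆ X) := by
    rw [← c.opp (k + 1) (by omega), cent_sup, (h.win c 0 (j := k + 1) (by omega) (by omega)).e',
      cent_sup]
    refine le_inf (le_inf ?_ (p.cquad.trans (cent_anti p.QS))) p.cquad
    rw [h3]
    exact ((c.ed 2).ph h.ph).quad'.trans ((h.min 2 (by omega) _ _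
      ((Wk.of_path c.ed 2 rfl).symm h.nS)).trans ((c.ed 0).ph h.ph).cQ)
  have w := h.win c (k + 2) (by omega) rfl
  obtain ⟨a, ha, hq⟩ := SetLike.not_le_iff_exists.1 w.n'
  have ha' := (le_sup_left.trans w.e.ge) ha
  exact p.not_le fun v hv => p.m2 a ha' hq v hv (h4 (commutator_mem_commutator hv ha'))

end Cd

theorem Cd.two (h : Cd X S Q V N q 0) {α : ℕ → G} {E : ℕ → Subgroup G}
    (c : Ch X S Q V N 0 3 α E) : False := by
  have p := h.ph' (c.ed 2)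
  have w := h.win c 1 (j := 2) (by omega) rfl
  obtain ⟨t, ht, -, h1⟩ := p.opp
  obtain ⟨x, hx, hq⟩ := SetLike.not_le_iff_exists.1 w.n
  have h2 : α 1 ⋆ V ≤ E 2 := le_sup_left.trans w.e'.ge
  have e := (c.ed 2).fix ht
  have p' := e.ph h.ph
  have key : ∀ x ∈ α 1 ⋆ V, ∀ y ∈ (t * α 2) ⋆ V, x * y * x⁻¹ ∈ (t * α 2) ⋆ Q := fun x hx y hy => by
    have hy' := h.adj e hy
    have hx' := p.SX (h2 hx)
    have h3 : ⁅x, y⁆ ∈ t ⋆ E 2 := (h.ph' e).QS
      (mul_mem ((NormalIn.mk p.QX p.nQ).conj_mem hx' hy') (inv_mem hy'))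
    by_cases h4 : ⁅x, y⁆ ∈ (t * α 2) ⋆ Q
    · simpa [commutatorElement_def] using mul_mem h4 (p'.VQ hy)
    refine h.adj (e.symm h.nS) ((NormalIn.mk (p.VS.trans p.SX) p.nV).conj_mem hx'
      ((h.ph' e).zV (p'.m2 _ h3 h4 y hy ?_)))
    have h5 : ⁅y, ⁅x, y⁆⁆ ∈ 𝐂(α 3 ⋆ X) := h.c1 c 2 (by omega) (by
      rw [← h.c1' c ht, ← mul_conj]; exact commutator_mem_commutator hy h3)
    have p2 := (c.ed 2).ph h.ph
    have h6 : ⁅y, ⁅x, y⁆⁆ ∈ 𝐂(α 2 ⋆ X) := h.c1 c 1 (by omega) (by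
      have : ⁅y, ⁅x, y⁆⁆ = ⁅y * x * y⁻¹, x⁆ := by
        simp only [commutatorElement_def, mul_inv_rev, ((c.ed 1).ph h.ph).sq.inv hx,
          p'.sq.inv hy, mul_assoc]
        rw [← mul_assoc y y, p'.sq y hy, one_mul]
      rw [this, commutator_comm]
      exact commutator_mem_commutator ((h.ph' (c.ed 1)).QS ((NormalIn.mk p2.QX p2.nQ).conj_mem
        (p2.SX (p.QS hy')) (h.adj (c.ed 1) hx))) hx)
    rw [mul_conj, ← conj_cent, mem_conj, mul_assoc, ← h5 t ht, inv_mul_cancel_left]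
    exact h6
  have hx' := p.SX (h2 hx)
  have hg : t⁻¹ * x * t ∈ α 3 ⋆ X := mul_mem (mul_mem (inv_mem ht) hx') ht
  refine h.c3 c hg ?_ (((c.ed 2).ph h.ph).le_Q ((conj_le_of_mem_norm (p.nQ (inv_mem hg))
    (h.adj (c.ed 2))).trans p.QS) ?_)
  · rw [← conj_eq_conj_iff (g := t), conj_sup, ← mul_conj, conj_of_mem ht, ← h1 x (h2 hx) hq]
    congr 2; group
  · rw [← conj_le_conj_iff (g := t), conj_cent, ← mul_conj, ← mul_conj t,
      show t * (t⁻¹ * x * t)⁻¹ = x⁻¹ * t by group, mul_conj, ← mul_conj t]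
    intro z hz
    obtain ⟨y, hy, rfl⟩ := mem_conj'.1 hz
    exact p'.cQ (key _ (inv_mem hx) y hy)

instance instPU : PU.{u} where
  main := @fun G _ _ X S Q V N q hp hN nc => by
    by_contra! hc
    classical
    have ex := Wk.exists_crit hp nc
    obtain ⟨a, b, w, hn⟩ := Nat.find_spec ex
    have hm : ∀ j < Nat.find ex, ∀ a b, Wk X S N j a b → a ⋆ V ≤ b ⋆ Q := fun j hj a b w => by
      by_contra e
      exact Nat.find_min ex hj ⟨a, b, w, e⟩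
    generalize Nat.find ex = m at w hm
    rcases m with _ | _ | k
    · exact hn ((show a = b from w) ▸ conj_mono _ hp.VQ)
    · obtain ⟨_, _, ⟨s, x, hx, n, hn', y, hy, rfl, rfl, rfl⟩, rfl⟩ := w
      refine hn ?_
      rw [mul_conj, mul_conj, mul_conj, conj_of_mem_norm (hp.nV hx), conj_of_mem_norm (hp.nQ hy)]
      exact conj_mono s (le_conj_iff.2 (hc _ (N.inv_mem hn')))
    have h : Cd X S Q V N q k := ⟨hp, hN, hm⟩
    obtain ⟨α, E, c⟩ := h.exists_ch nc w hn (k + 3)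
    rcases k with _ | k
    exacts [h.two c, h.big c k.succ_pos]

end Cfsg.Agent.Pu
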