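import Cfsg.Agent.Pu.E3

/-! S5175, slice UQ: comparison of two systems over the same group. -/

set_option autoImplicit false
set_option linter.unusedSectionVars false

universe u

namespace Cfsg.Agent.Pu

open Subgroup Cfsg.Fus Cfsg.Agent.FT Cfsg.Agent.Sg Equiv SemidirectProduct
open Cfsg.FusionSystem hiding inv_mem
open scoped commutatorElement Pointwise

variable {Ω : Type u} [Group Ω] [Finite Ω] {S T V₁ V₂ R : Subgroup Ω} {F F' : FusionSystem S} {t : Ω}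
  {q : ℕ} {ℓ : Set (Subgroup (Hol V₁))} {L : Subgroup (Hol V₁)}

theorem Bs.card_norm (h : Bs S T V₁ V₂) (ht : t ∈ S) (ht' : t ∉ T) (hR : R ≤ S) (h2 : Sq R)
    (hc : #|V₁| ≤ #|R|) : #|normalizerIn S R| ≤ #|T| := by
  have hn : normalizerIn S R ≠ S := fun e => by
    have n : ∀ g ∈ S, ∀ x ∈ R, g * x * g⁻¹ ∈ R := fun g hg x hx =>
      Fus.conj_mem_of_mem_normalizer (e.ge hg).2 hx
    have k : ∀ x ∈ R, x ∈ T → x ∈ V₁ ⊓ V₂ := fun x hx x1 =>
      h.inv_fix x1 (h2 x hx) ht ht' (sq_cm h2 hx (n t ht x hx))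
    refine h.ne.1 fun v hv => ?_
    by_cases e : R ≤ T
    · exact ((eq_of_le_of_card_ge (fun x hx => (k x hx (e hx)).1) hc).ge.trans (fun x hx => k x hx (e hx)) hv).2
    obtain ⟨s, s1, s2⟩ := SetLike.not_le_iff_exists.1 e
    have := (mem_inf.1 (k _ (mul_mem (n v (h.TS (h.l1 hv)) s s1) (inv_mem s1))
      (cm_symm (h.cST (hR s1) (h.l1 hv))))).2
    rwa [show v * s * v⁻¹ * s⁻¹ = v * (s * v⁻¹ * s⁻¹) by group,
      V₂.mul_mem_cancel_right ((h.sw s (hR s1) s2).1 _ (inv_mem hv))] at this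
  have h1 := H1.card_mul_relIndex_of_le (normalizerIn_le S R)
  have h3 := H1.card_mul_relIndex_of_le h.TS
  have h4 := Nat.le_of_dvd two_pos (relIndex_dvd_two_iff.2 ⟨t, ht, fun b hb =>
    (em (b ∈ T)).symm.imp_left fun e => h.idx b hb t ht e ht'⟩)
  have h5 : (normalizerIn S R).relIndex S ≠ 1 := fun e =>
    hn (le_antisymm (normalizerIn_le S R) (relIndex_eq_one.1 e))
  have h6 : 0 < #|S| := Nat.card_pos
  have h7 : (normalizerIn S R).relIndex S ≠ 0 := fun e => by simp [← h1, e] at h6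
  have h8 : 2 ≤ (normalizerIn S R).relIndex S := by omega
  nlinarith

theorem Dat2.act_le (d : Dat2 F T V₁ V₂ t q ℓ L) (F' : FusionSystem S) :
    act V₁ V₂ ≤ inA V₁ (F'.autGroup V₁) := by
  rw [← d.act_T, ← d.nV, act_norm]
  exact map_mono (F'.autInducedBy_le_autGroup d.fn.le)

theorem Dat2.aut_le [LN.{u}] (d : Dat2 F T V₁ V₂ t q ℓ L) (d' : Dat2 F' T V₁ V₂ t q ℓ L)
    (hT : ∀ σ, F.Iso T T σ → F'.IsMap T σ) : ∀ σ, F.Iso V₁ V₁ σ → F'.Iso V₁ V₁ σ := by
  refine (autGroup_le_iff d.fn.le d.fn.le).1 fun α hα => ?_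
  obtain ⟨g, g1, g2⟩ := d.line.trans (d.perm (inr_mem_inA.2 hα) d.mem) d.mem
  obtain ⟨β, b1, rfl⟩ := d.LF g1
  have b2 := inr_mem_inA.1 (d'.LF g1)
  have k := (mem_autGroup_iff d.fn.le).1 (mul_mem b1 hα)
  rw [← mul_conj, ← map_mul, ← d.act_T] at g2
  obtain ⟨τ, t1, t2⟩ := d.toDat.ext k fun g hg => by
    have n := d.toDat.n₁ hg
    obtain ⟨k, k1, k2, k3⟩ := mem_act.1 (g2.le (conj_mem_conj _ (mem_act.2 ⟨g, n, hg, rfl⟩)))
    rw [← map_mul, ← map_inv, ← map_mul] at k3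
    refine ⟨k, k2, fun v hv => ?_⟩
    have := congrArg (fun γ : MulAut V₁ => (γ ((β * α) ⟨v, hv⟩) : Ω)) (inr_injective k3)
    rw [extAut_of_mem _ hv, extAut_of_mem _ (Fus.conj_mem_of_mem_normalizer n hv)]
    generalize β * α = γ at this
    simp only [MulAut.mul_apply, MulAut.inv_apply_self] at this
    exact this.symm
  have := mem_autGroup_of_rep (α := β * α) ((hT τ t1).mono d.toDat.le₁) fun x => by
    rw [t2 x x.2, extAut_coe]
  exact (mul_mem_cancel_left b2).1 this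

instance instUQ [LN.{u}] : UQ.{u} where
  trans := fun {Ω _ _ S F F' T V₁ V₂ t q ℓ L w} d hF h1 h2 ⟨z, hz, hw⟩ => by
    obtain ⟨α, a1, a2⟩ := h1.exists_aut
    have a3 := inr_mem_inA.2 (mem_autGroup_of_rep h2.isMap a2)
    refine { d with sat := hF, fn := ⟨d.fn.le, fun R hR => ?_⟩, LF := ?_ }
    · obtain ⟨σ, hσ⟩ := hR.exists_iso
      rw [show normalizerIn S V₁ = T from d.nV]
      refine d.bs.card_norm d.tS d.toDat.t_not hσ.le_right (fun x hx => ?_) hσ.card_eq.le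
      obtain ⟨y, hy, rfl⟩ := hσ.exists_eq hx
      rw [← hσ.homOn.map_mul hy hy, d.toDat.sq₁ y hy, hσ.homOn.map_one]
    · rw [← d.line.gen _ d.mem _ (d.perm (inr_mem_inA.2 a1) d.mem) fun e => hw ?_]
      · refine sup_le (d.act_le F') fun x hx => ?_
        obtain ⟨y, hy, rfl⟩ := mem_conj'.1 hx
        exact mul_mem (mul_mem a3 (d.act_le F' hy)) (inv_mem a3)
      · have := conj_mem_conj (inr α) ((d.toDat.inl_cent (v := ⟨z, hz.1⟩)).2 hz.2)
        rw [conj_cent, ← e, inr_conj_inl, d.toDat.inl_cent, a2] at this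
        exact this
  le := fun {Ω _ _ S F F' T V₁ V₂ t q ℓ L} d d' hT hS hE => by
    haveI : Fact (Nat.Prime 2) := ⟨Nat.prime_two⟩
    refine d.sat.le_of_essential d.two fun P σ hP hσ => ?_
    rcases hP with rfl | hP
    · exact hS σ hσ
    rcases hE P hP with rfl | rfl | rfl | e
    exacts [(d.aut_le d' hT σ hσ).isMap, (d.swap.aut_le d'.swap hT σ hσ).isMap, hT σ hσ, e σ hσ]

end Cfsg.Agent.Pu
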