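import Cfsg.Agent.Pu.K0
import Cfsg.Agent.H4.Sp4U
import Cfsg.Agent.H4.Sp4S
import Cfsg.Agent.L.Model

/-! Slices `G4`, `G5`: a group with matching coordinates realizes the system. -/

set_option autoImplicit false
set_option linter.unusedSectionVars false

universe u

namespace Cfsg.Agent.Pu

open Subgroup Cfsg Cfsg.Fus Cfsg.FusionSystem Cfsg.Agent.L Cfsg.Agent.H1 Cfsg.Agent.FT Equiv
open Cfsg.Agent.H6 (RealBy)
open Cfsg.Agent.H4.Sp (U4)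
open scoped commutatorElement Pointwise

section U
variable {K : Type} [Field K]

def uY (a : K) : U4 K := ⟨a, 0, 0, 0⟩
def uU (a : K) : U4 K := ⟨0, a, 0, 0⟩
def uX (a : K) : U4 K := ⟨0, 0, a, 0⟩
def uW (a : K) : U4 K := ⟨0, 0, 0, a⟩

theorem u4_dec [CharP K 2] (x : U4 K) : x = uU x.u * uY x.t * uX x.v * uW x.w := by
  ext <;> simp [uY, uU, uX, uW, CharTwo.two_eq_zero]

theorem u4_ind [Fintype K] [CharP K 2] (h4 : 4 ≤ Fintype.card K) {P : U4 K → Prop}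
    (hY : ∀ a, P (uY a)) (hU : ∀ a, P (uU a)) (hm : ∀ a b, P a → P b → P (a * b)) (x : U4 K) :
    P x := by
  classical
  have h2 : (2 : K) = 0 := CharP.cast_eq_zero K 2
  have c : ∀ y u, P (uY y * uU u * uY y * uU u) := fun y u =>
    hm _ _ (hm _ _ (hm _ _ (hY y) (hU u)) (hY y)) (hU u)
  obtain ⟨y, hy⟩ : ∃ y : K, y ∉ ({0, 1} : Finset K) := by
    by_contra! H
    have := Finset.card_le_card (fun y _ => H y : Finset.univ ⊆ ({0, 1} : Finset K))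
    have := Finset.card_le_two (a := (0 : K)) (b := 1)
    rw [Finset.card_univ] at *
    omega
  simp only [Finset.mem_insert, Finset.mem_singleton, not_or] at hy
  have y1 : 1 + y ≠ 0 := fun e => hy.2 (by linear_combination e - h2)
  have hW : ∀ z, P (uW z) := fun z => by
    have := hm _ _ (c 1 (z / (1 + y))) (c y (z / (1 + y) / y))
    convert this using 1
    have := hy.1
    ext <;> simp [uY, uU, uW] <;> field_simp <;> grind
  have hX : ∀ z, P (uX z) := fun z => by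
    have := hm _ _ (c 1 z) (hW z)
    convert this using 1
    ext <;> simp [uY, uU, uW, uX] <;> grind
  rw [u4_dec x]
  exact hm _ _ (hm _ _ (hm _ _ (hU _) (hY _)) (hX _)) (hW _)

end U

theorem exists_hom_of_graph {A B : Type*} [Group A] [Group B] (R : Subgroup (A × B)) {S : Subgroup A}
    (h1 : ∀ s, s ∈ S ↔ ∃ g, (s, g) ∈ R) (h2 : ∀ g, ((1 : A), g) ∈ R → g = 1)
    (h3 : ∀ s, (s, (1 : B)) ∈ R → s = 1) :
    ∃ ι : S →* B, Function.Injective ι ∧ (∀ s g, (s, g) ∈ R → extFun ι s = g) := by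
  have u : ∀ s g g', (s, g) ∈ R → (s, g') ∈ R → g = g' := fun s g g' a b =>
    inv_mul_eq_one.1 (h2 _ (by simpa using R.mul_mem (R.inv_mem a) b))
  choose f hf using fun s : S => (h1 s).1 s.2
  refine ⟨MonoidHom.mk' f fun a b => u _ _ _ (hf (a * b)) (R.mul_mem (hf a) (hf b)),
    (injective_iff_map_eq_one _).2 fun s hs => Subtype.ext (h3 _ ?_), fun s g h => ?_⟩
  · have : f s = 1 := hs
    exact this ▸ hf s
  · rw [extFun_of_mem _ ((h1 s).2 ⟨g, h⟩)]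
    exact u _ _ _ (hf _) h

variable {Ω : Type u} [Group Ω] {S : Subgroup Ω} {F : FusionSystem S} {T V₁ V₂ : Subgroup Ω}
  {K : Type} [Field K] [CharP K 2]

namespace Crd
variable (c : Crd F T V₁ V₂ K)

theorem Y0 : c.Y 0 = 1 := by simpa using c.Y_add 0 0
theorem U0 : c.U 0 = 1 := by simpa using c.U_add 0 0
theorem X0 : c.X 0 = 1 := by simpa using c.X_add 0 0
theorem W0 : c.W 0 = 1 := by simpa using c.W_add 0 0
theorem YT (a : K) : c.Y a ∈ T := (c.mem_T _).2 ⟨a, 0, 0, 0, by simp [U0, X0, W0]⟩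
theorem UT (a : K) : c.U a ∈ T := (c.mem_T _).2 ⟨0, a, 0, 0, by simp [Y0, X0, W0]⟩
theorem XT (a : K) : c.X a ∈ T := (c.mem_T _).2 ⟨0, 0, a, 0, by simp [Y0, U0, W0]⟩
theorem WT (a : K) : c.W a ∈ T := (c.mem_T _).2 ⟨0, 0, 0, a, by simp [Y0, U0, X0]⟩
theorem Xc (a : K) {g : Ω} (hg : g ∈ T) (h : Ω) : c.X a * (g * h) = g * (c.X a * h) := by
  rw [← mul_assoc, ← c.X_cent a g hg, mul_assoc]
theorem Wc (a : K) {g : Ω} (hg : g ∈ T) (h : Ω) : c.W a * (g * h) = g * (c.W a * h) := by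
  rw [← mul_assoc, ← c.W_cent a g hg, mul_assoc]
theorem YU (y u : K) (h : Ω) :
    c.Y y * (c.U u * h) = c.U u * (c.Y y * (c.X (y * u) * (c.W (y ^ 2 * u) * h))) := by
  rw [← c.Xc (y * u) (c.YT y), ← c.Wc (y ^ 2 * u) (c.YT y), ← c.Xc (y * u) (c.UT u),
    ← c.Wc (y ^ 2 * u) (c.UT u), ← mul_assoc (c.X _), ← c.comm, commutatorElement_def]
  group

/-- the coordinates as a homomorphism -/
def π : U4 K →* Ω := MonoidHom.mk' (fun x => c.U x.u * c.Y x.t * c.X x.v * c.W x.w) fun x y => by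
  have h2 : (2 : K) = 0 := CharP.cast_eq_zero K 2
  simp only [U4.mul_t, U4.mul_u, U4.mul_v, U4.mul_w, h2, zero_mul, add_zero, c.U_add, c.Y_add,
    c.X_add, c.W_add, mul_assoc]
  rw [c.Wc _ (c.UT _), c.Xc _ (c.UT _), c.YU, c.Wc x.w (c.YT _), c.Xc x.v (c.YT _),
    c.Wc _ (c.YT _), c.Xc _ (c.YT _), c.Wc x.w (c.XT _), c.Wc (x.t ^ 2 * y.u) (c.XT _),
    c.Wc (x.t ^ 2 * y.u) (c.XT _), c.Xc (x.t * y.u) (c.XT _), c.Xc (x.t * y.u) (c.XT _),
    c.Wc (x.t ^ 2 * y.u) (c.WT _), c.W_cent (x.t ^ 2 * y.u) _ (c.WT _)]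

theorem π_def (x : U4 K) : c.π x = c.U x.u * c.Y x.t * c.X x.v * c.W x.w := rfl
@[simp] theorem πY (a : K) : c.π (uY a) = c.Y a := by simp [π_def, uY, U0, X0, W0]
@[simp] theorem πU (a : K) : c.π (uU a) = c.U a := by simp [π_def, uU, Y0, X0, W0]
@[simp] theorem πX (a : K) : c.π (uX a) = c.X a := by simp [π_def, uX, Y0, U0, W0]
@[simp] theorem πW (a : K) : c.π (uW a) = c.W a := by simp [π_def, uW, Y0, U0, X0]

theorem mem_T' (g : Ω) : g ∈ T ↔ ∃ x, c.π x = g :=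
  ⟨fun h => by
    obtain ⟨y, u, x, z, rfl⟩ := (c.mem_T g).1 h
    exact ⟨uY y * uU u * uX x * uW z, by simp⟩,
  fun ⟨x, e⟩ => e ▸ mul_mem (mul_mem (mul_mem (c.UT _) (c.YT _)) (c.XT _)) (c.WT _)⟩

theorem πT (x : U4 K) : c.π x ∈ T := (c.mem_T' _).2 ⟨x, rfl⟩

theorem π_eq_one {x : U4 K} : c.π x = 1 ↔ x.t = 0 ∧ x.u = 0 ∧ x.v = 0 ∧ c.W x.w = 1 := by
  refine ⟨fun h => ?_, fun ⟨a, b, d, e⟩ => by simp [π_def, a, b, d, e, U0, Y0, X0]⟩
  have e : x = uY x.t * uU x.u * uX (x.v - x.t * x.u) * uW (x.w - x.t ^ 2 * x.u - 2 * x.t * (x.v - x.t * x.u)) := by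
    ext <;> simp [uY, uU, uX, uW]
  have h' := h
  rw [e] at h'
  simp only [map_mul, πY, πU, πX, πW] at h'
  obtain ⟨a, b, d⟩ := c.inj _ _ _ _ h'
  rw [a, zero_mul, sub_zero] at d
  exact ⟨a, b, d, by simpa [π_def, a, b, d, U0, Y0, X0] using h⟩

theorem tinv : c.t⁻¹ = c.t := inv_eq_of_mul_eq_one_right c.tt

theorem tU (a : K) : c.t * c.U a * c.t = c.Y (c.φ.symm a) := by
  rw [← c.φ.apply_symm_apply a, ← c.tY, c.φ.symm_apply_apply]
  simp only [← mul_assoc, c.tt, one_mul]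
  rw [mul_assoc, c.tt, mul_one]

end Crd

/-- a group with coordinates matching `c` -/
structure GMod (c : Crd F T V₁ V₂ K) (G : Type*) [Group G] where
  π : U4 K →* G
  t : G
  M : Subgroup G
  ker : ∀ x, π x = 1 ↔ c.π x = 1
  tt : t * t = 1
  tY : ∀ a, t * π (uY a) * t = π (uU (c.φ a))
  nM : M.Normal
  πM : ∀ x, π x ∈ M
  tM : t ∉ M
  syl : IsSylowIn 2 (π.range ⊔ zpowers t) ⊤
  nrm : ∀ g ∈ 𝐍(π.range), ∃ s ∈ π.range ⊔ zpowers t, ∃ l ∈ c.Λ, ∀ a,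
    g * π (uY a) * g⁻¹ = s * π (uY (l.1 * l.2.2 a)) * s⁻¹ ∧
      g * π (uU a) * g⁻¹ = s * π (uU (l.2.1 * l.2.2 a)) * s⁻¹
  lam : ∀ l ∈ c.Λ, ∃ g, (∀ a, g * π (uY a) * g⁻¹ = π (uY (l.1 * l.2.2 a)) ∧
    g * π (uU a) * g⁻¹ = π (uU (l.2.1 * l.2.2 a))) ∧ ((l.2.1 : K) = c.φ l.1 → g * t * g⁻¹ = t)
  w : ∃ g, ∀ a, g * π (uY a) * g⁻¹ = π (uX a) ∧ g * π (uX a) * g⁻¹ = π (uY a) ∧
    g * π (uW a) * g⁻¹ = π (uW a)

variable [Fintype K] {c : Crd F T V₁ V₂ K} {G : Type*} [Group G]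

theorem GMod.tw (m : GMod c G) (h4 : 4 ≤ Fintype.card K) (x : U4 K) :
    ∃ y, c.t * c.π x * c.t = c.π y ∧ m.t * m.π x * m.t = m.π y := by
  induction x using u4_ind h4 with
  | hY a => exact ⟨uU (c.φ a), by simp [c.tY], m.tY a⟩
  | hU a =>
    refine ⟨uY (c.φ.symm a), by simp [c.tU], ?_⟩
    rw [← c.φ.apply_symm_apply a, ← m.tY, c.φ.symm_apply_apply]
    simp only [← mul_assoc, m.tt, one_mul]
    rw [mul_assoc, m.tt, mul_one]
  | hm a b ha hb =>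
    obtain ⟨a', a1, a2⟩ := ha
    obtain ⟨b', b1, b2⟩ := hb
    refine ⟨a' * b', ?_, ?_⟩
    · rw [map_mul, map_mul, ← a1, ← b1]
      simp only [mul_assoc]
      rw [← mul_assoc c.t c.t, c.tt, one_mul]
    · rw [map_mul, map_mul, ← a2, ← b2]
      simp only [mul_assoc]
      rw [← mul_assoc m.t m.t, m.tt, one_mul]

theorem GMod.exists_hom (m : GMod c G) (h4 : 4 ≤ Fintype.card K) (eS : S = T ⊔ zpowers c.t) :
    ∃ ι : S →* G, Function.Injective ι ∧ (∀ x, extFun ι (c.π x) = m.π x) ∧ extFun ι c.t = m.t ∧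
      ι.range = m.π.range ⊔ zpowers m.t ∧ (∀ s ∈ S, extFun ι s ∈ m.M → s ∈ T) ∧
      ∀ s ∈ S, ∃ x, s = c.π x ∨ s = c.π x * c.t := by
  have sw : ∀ x, ∃ y, c.t * c.π x = c.π y * c.t ∧ m.t * m.π x = m.π y * m.t := fun x => by
    obtain ⟨y, a, b⟩ := m.tw h4 x
    exact ⟨y, by rw [← a, mul_assoc, c.tt, mul_one], by rw [← b, mul_assoc, m.tt, mul_one]⟩
  have mt : m.t⁻¹ = m.t := inv_eq_of_mul_eq_one_right m.tt
  let R : Subgroup (Ω × G) :=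
    { carrier := {p | ∃ x, p = (c.π x, m.π x) ∨ p = (c.π x * c.t, m.π x * m.t)}
      one_mem' := ⟨1, Or.inl (by simp; rfl)⟩
      mul_mem' := by
        rintro _ _ ⟨x, rfl | rfl⟩ ⟨y, rfl | rfl⟩
        · exact ⟨x * y, Or.inl (by simp)⟩
        · exact ⟨x * y, Or.inr (by simp [mul_assoc])⟩
        · obtain ⟨z, a, b⟩ := sw y
          exact ⟨x * z, Or.inr (by simp [mul_assoc, a, b])⟩
        · obtain ⟨z, a, b⟩ := m.tw h4 y
          exact ⟨x * z, Or.inl (by simp [mul_assoc, ← a, ← b])⟩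
      inv_mem' := by
        rintro _ ⟨x, rfl | rfl⟩
        · exact ⟨x⁻¹, Or.inl (by simp)⟩
        · obtain ⟨z, a, b⟩ := sw x⁻¹
          exact ⟨z, Or.inr (by simp [← a, ← b, c.tinv, mt])⟩ }
  have r1 : ∀ x, (c.π x, m.π x) ∈ R := fun x => ⟨x, Or.inl rfl⟩
  have r2 : (c.t, m.t) ∈ R := ⟨1, Or.inr (by simp)⟩
  have hS : ∀ s, s ∈ S ↔ ∃ g, (s, g) ∈ R := fun s => by
    refine ⟨fun h => ?_, ?_⟩
    · have : S ≤ R.map (MonoidHom.fst Ω G) := by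
        rw [eS]
        refine sup_le (fun x hx => ?_) (zpowers_le.2 ⟨_, r2, rfl⟩)
        obtain ⟨y, rfl⟩ := (c.mem_T' x).1 hx
        exact ⟨_, r1 y, rfl⟩
      obtain ⟨p, h1, rfl⟩ := this h
      exact ⟨p.2, h1⟩
    · have hT : ∀ x, c.π x ∈ S := fun x => eS.ge (mem_sup_left (c.πT x))
      rintro ⟨g, x, e | e⟩ <;> rw [show s = _ from (Prod.ext_iff.1 e).1]
      · exact hT x
      · exact mul_mem (hT x) c.tS
  obtain ⟨ι, h1, h2⟩ := exists_hom_of_graph R hS (by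
      rintro g ⟨x, e | e⟩ <;> obtain ⟨a, b⟩ := Prod.ext_iff.1 e
      · exact b.trans ((m.ker x).2 a.symm)
      · exact absurd (by simpa [eq_inv_of_mul_eq_one_right a.symm] using c.πT x) c.tT) (by
      rintro g ⟨x, e | e⟩ <;> obtain ⟨a, b⟩ := Prod.ext_iff.1 e
      · exact a.trans ((m.ker x).1 b.symm)
      · exact absurd (by simpa [eq_inv_of_mul_eq_one_right b.symm] using m.πM x) m.tM)
  refine ⟨ι, h1, fun x => h2 _ _ (r1 x), h2 _ _ r2, le_antisymm ?_ (sup_le ?_ (zpowers_le.2 ?_)),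
    fun s hs h => ?_, fun s hs => ?_⟩
  · rintro _ ⟨s, rfl⟩
    obtain ⟨g, hg⟩ := (hS s).1 s.2
    rw [← extFun_coe ι s, h2 _ _ hg]
    obtain ⟨x, e | e⟩ := hg <;> rw [show g = _ from (Prod.ext_iff.1 e).2]
    · exact mem_sup_left ⟨x, rfl⟩
    · exact mul_mem (mem_sup_left ⟨x, rfl⟩) (mem_sup_right (mem_zpowers _))
  · rintro _ ⟨x, rfl⟩
    exact h2 _ _ (r1 x) ▸ extFun_mem_range ι ((hS _).2 ⟨_, r1 x⟩)
  · exact h2 _ _ r2 ▸ extFun_mem_range ι c.tS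
  · obtain ⟨g, hg⟩ := (hS s).1 hs
    rw [h2 _ _ hg] at h
    obtain ⟨x, e | e⟩ := hg <;> obtain ⟨rfl, rfl⟩ := Prod.mk.inj e
    · exact c.πT x
    · exact absurd ((m.M.mul_mem_cancel_left (m.πM x)).1 h) m.tM
  · obtain ⟨g, x, e⟩ := (hS s).1 hs
    exact ⟨x, e.imp (fun e => (Prod.mk.inj e).1) fun e => (Prod.mk.inj e).1⟩

namespace Crd

theorem XX (a : K) : c.X a * c.X a = 1 := by rw [← c.X_add, CharTwo.add_self_eq_zero, c.X0]

theorem memZ {g : Ω} : g ∈ V₁ ⊓ V₂ ↔ ∃ x z, g = c.X x * c.W z := by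
  refine ⟨fun ⟨h1, h2⟩ => ?_, ?_⟩
  · obtain ⟨y, x, z, rfl⟩ := (c.mem_V₁ g).1 h1
    obtain ⟨u, x', z', e⟩ := (c.mem_V₂ _).1 h2
    have : c.π ((uU u * uX x' * uW z')⁻¹ * (uY y * uX x * uW z)) = 1 := by
      simp only [map_mul, map_inv, πY, πU, πX, πW, e, inv_mul_cancel]
    have h : y = 0 := by simpa [uY, uU, uX, uW] using (c.π_eq_one.1 this).1
    exact ⟨x, z, by rw [h, c.Y0, one_mul]⟩
  · rintro ⟨x, z, rfl⟩
    exact ⟨(c.mem_V₁ _).2 ⟨0, x, z, by simp [Y0]⟩, (c.mem_V₂ _).2 ⟨0, x, z, by simp [U0]⟩⟩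

theorem Y_notMem : c.Y 1 ∉ V₂ := fun h => by
  obtain ⟨x, z, e⟩ := c.memZ.1 ⟨(c.mem_V₁ _).2 ⟨1, 0, 0, by simp [X0, W0]⟩, h⟩
  have : c.π ((uX x * uW z)⁻¹ * uY 1) = 1 := by simp [e]
  simpa [uY, uX, uW] using (c.π_eq_one.1 this).1

theorem free (h : c.L3 ∨ c.S4) : c.t ∈ 𝐂((V₁ ⊓ V₂ : Subgroup Ω)) ∨
    ∀ z ∈ V₁ ⊓ V₂, c.t * z = z * c.t → ∃ y ∈ V₁ ⊓ V₂, z = ⁅y, c.t⁆ := by
  have cm : ∀ a, ⁅c.X a, c.t⁆ = c.X a * (c.t * c.X a * c.t) := fun a => by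
    rw [commutatorElement_def, c.tinv, inv_eq_of_mul_eq_one_right (c.XX a)]; group
  have XZ : ∀ a, c.X a ∈ V₁ ⊓ V₂ := fun a => c.memZ.2 ⟨a, 0, by simp [W0]⟩
  have fx : ∀ z, c.t * z = z * c.t → c.t * z * c.t = z := fun z e => by
    rw [e, mul_assoc, c.tt, mul_one]
  rcases h with h | h
  · by_cases hφ : ∀ a, c.φ a = a
    · refine Or.inl (mem_centralizer_iff.2 fun g hg => ?_)
      obtain ⟨x, z, rfl⟩ := c.memZ.1 hg
      have := h.tX x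
      rw [hφ] at this
      rw [h.W, mul_one]
      conv_lhs => rw [← this, mul_assoc, c.tt, mul_one]
    · push Not at hφ
      obtain ⟨a, ha⟩ := hφ
      have a0 : a + c.φ a ≠ 0 := fun e => ha (CharTwo.add_eq_zero.1 e).symm
      refine Or.inr fun g hg e => ?_
      obtain ⟨x, z, rfl⟩ := c.memZ.1 hg
      rw [h.W, mul_one] at e ⊢
      have e1 := fx _ e
      rw [h.tX] at e1
      have : c.π (uX (c.φ x + x)) = 1 := by rw [πX, c.X_add, e1, c.XX]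
      have e2 : c.φ x = x := CharTwo.add_eq_zero.1 (c.π_eq_one.1 this).2.2.1
      refine ⟨_, XZ (x * a / (a + c.φ a)), ?_⟩
      rw [cm, h.tX, ← c.X_add, map_div₀, map_mul, map_add, h.φφ, e2, add_comm (c.φ a)]
      congr 1
      field_simp
  · refine Or.inr fun g hg e => ?_
    obtain ⟨x, z, rfl⟩ := c.memZ.1 hg
    have e1 : c.t * c.W z * c.t = c.X (c.φ.symm z) := by
      rw [← c.φ.apply_symm_apply z, ← h.tX, c.φ.symm_apply_apply]
      simp only [← mul_assoc, c.tt, one_mul]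
      rw [mul_assoc, c.tt, mul_one]
    have e2 : c.W (c.φ x) * c.X (c.φ.symm z) = c.X x * c.W z := by
      rw [← fx _ e, ← h.tX, ← e1]
      simp only [mul_assoc]
      rw [← mul_assoc c.t c.t, c.tt, one_mul]
    have : c.π ((uX x * uW z)⁻¹ * (uW (c.φ x) * uX (c.φ.symm z))) = 1 := by simp [e2]
    have e3 : -x + c.φ.symm z = 0 := by simpa [uX, uW] using (c.π_eq_one.1 this).2.2.1
    refine ⟨_, XZ x, ?_⟩
    rw [cm, h.tX, neg_add_eq_zero.1 e3, c.φ.apply_symm_apply]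

end Crd

theorem GMod.realBy [UQ.{u}] [ES.{u}] [Finite Ω] [Finite G] (m : GMod c G) {q : ℕ}
    {ℓ : Set (Subgroup (Hol V₁))} {L : Subgroup (Hol V₁)} (h4 : 4 ≤ Fintype.card K)
    (d : Dat2 F T V₁ V₂ c.t q ℓ L) (ty : c.L3 ∨ c.S4) (ne : NE F T V₁ V₂) : RealBy F G := by
  obtain ⟨ι, h1, hπ, ht, hr, hM, hS⟩ := m.exists_hom h4 d.eS
  obtain ⟨θ', k⟩ := exists_pIso_of_injective ι h1
  obtain ⟨F', t'⟩ := k.symm.exists_transp le_rfl (groupFusionSystem ι.range) k.symm.img_self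
  have hG := (realized_of_transp t'.symm (ι := ι) fun x => (extFun_coe ι x).symm).1
  have hP : ∃ P : Sylow 2 G, (P : Subgroup G) = ι.range := isSylowIn_top_iff.1 (hr ▸ m.syl)
  have sat := isSaturated_of_realized hG hP
  have TS : T ≤ S := d.eS.ge.trans' le_sup_left
  have nT : S ≤ 𝐍(T) := d.eS.le.trans (sup_le le_normalizer (zpowers_le.2 d.tT))
  have πS : ∀ x, c.π x ∈ S := fun x => TS (c.πT x)
  have cjT : ∀ s ∈ S, ∀ x ∈ S, extFun ι (s * x * s⁻¹) = extFun ι s * extFun ι x * (extFun ι s)⁻¹ := fun s hs x hx => by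
    rw [k.hom (mul_mem hs hx) (inv_mem hs), k.hom hs hx, k.hom.map_inv hs]
  have onT : ∀ σ : Ω → Ω, HomOn σ T → (∀ x ∈ T, σ x ∈ S) → ∀ g : G,
      (∀ a, extFun ι (σ (c.Y a)) = g * m.π (uY a) * g⁻¹ ∧ extFun ι (σ (c.U a)) = g * m.π (uU a) * g⁻¹) →
      ∀ x, extFun ι (σ (c.π x)) = g * m.π x * g⁻¹ := fun σ a1 a2 g a3 x => by
    induction x using u4_ind h4 with
    | hY a => simpa using (a3 a).1
    | hU a => simpa using (a3 a).2
    | hm a b ha hb =>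
      rw [map_mul, a1 (c.πT a) (c.πT b), k.hom (a2 _ (c.πT a)) (a2 _ (c.πT b)), ha, hb, map_mul]
      group
  have lam : ∀ (σ : Ω → Ω) (s : Ω) (l : Kˣ × Kˣ × (K ≃+* K)) (g : G), s ∈ S →
      (∀ a, σ (c.Y a) = s * c.Y (l.1 * l.2.2 a) * s⁻¹ ∧ σ (c.U a) = s * c.U (l.2.1 * l.2.2 a) * s⁻¹) →
      (∀ a, g * m.π (uY a) * g⁻¹ = m.π (uY (l.1 * l.2.2 a)) ∧
        g * m.π (uU a) * g⁻¹ = m.π (uU (l.2.1 * l.2.2 a))) →
      ∀ a, extFun ι (σ (c.Y a)) = extFun ι s * g * m.π (uY a) * (extFun ι s * g)⁻¹ ∧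
        extFun ι (σ (c.U a)) = extFun ι s * g * m.π (uU a) * (extFun ι s * g)⁻¹ := fun σ s l g hs a1 a2 a => by
    rw [(a1 a).1, (a1 a).2, cjT s hs _ (TS (c.YT _)), cjT s hs _ (TS (c.UT _)), ← c.πY, ← c.πU, hπ, hπ,
      ← (a2 a).1, ← (a2 a).2]
    constructor <;> group
  obtain ⟨w, hw⟩ := m.w
  have V₁T : V₁ ≤ T := d.eT.ge.trans' le_sup_left
  have d' : Dat2 F' T V₁ V₂ c.t q ℓ L := by
    refine UQ.trans d sat c.wF (IsMap.iso_self (realized_isMap hG (V₁T.trans TS)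
      (fun x hx => TS (V₁T (c.wF.mem hx))) (g := w) fun x hx => ?_) fun x hx => c.wF.mem hx)
      ⟨c.X 1, c.memZ.2 ⟨1, 0, by simp [c.W0]⟩, by rw [(c.wY 1).2.1]; exact c.Y_notMem⟩
    obtain ⟨y, x, z, rfl⟩ := (c.mem_V₁ x).1 hx
    have y1 : c.Y y ∈ V₁ := (c.mem_V₁ _).2 ⟨y, 0, 0, by simp [c.X0, c.W0]⟩
    have x1 : c.X x ∈ V₁ := (c.mem_V₁ _).2 ⟨0, x, 0, by simp [c.Y0, c.W0]⟩
    have z1 : c.W z ∈ V₁ := (c.mem_V₁ _).2 ⟨0, 0, z, by simp [c.X0, c.Y0]⟩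
    rw [c.wF.homOn (mul_mem y1 x1) z1, c.wF.homOn y1 x1, (c.wY y).1, (c.wY x).2.1, (c.wY z).2.2,
      ← c.πY, ← c.πY, ← c.πX, ← c.πX, ← c.πW, ← map_mul, ← map_mul, ← map_mul, ← map_mul]
    change extFun ι _ = w * extFun ι _ * w⁻¹
    rw [hπ, hπ, map_mul, map_mul, map_mul, map_mul, ← (hw y).1, ← (hw x).2.1]
    conv_lhs => rw [← (hw z).2.2]
    group
  have le1 : F ≤ F' := by
    refine UQ.le d d' (fun σ hσ => ?_) (fun σ hσ => ?_) fun E hE => (ne E hE).imp_right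
      (Or.imp_right (Or.imp_right False.elim ∘ Or.inl))
    · obtain ⟨s, hs, l, hl, e⟩ := c.autT σ hσ
      obtain ⟨g, hg, -⟩ := m.lam l hl
      refine realized_isMap hG TS (fun x hx => TS (hσ.mem hx)) (g := extFun ι s * g) fun x hx => ?_
      obtain ⟨y, rfl⟩ := (c.mem_T' x).1 hx
      exact (onT σ hσ.homOn (fun x hx => TS (hσ.mem hx)) _ (lam σ s l g hs e hg) y).trans
        (by rw [← hπ])
    · obtain ⟨s, hs, l, hl, e0, e1, e⟩ := c.autS σ hσ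
      obtain ⟨g, hg, g2⟩ := m.lam l hl
      have a := onT σ (hσ.homOn.mono TS) (fun x hx => hσ.mem (TS hx)) _ (lam σ s l g hs e hg)
      refine realized_isMap hG le_rfl (fun x hx => hσ.mem hx) (g := extFun ι s * g) fun x hx => ?_
      obtain ⟨y, rfl | rfl⟩ := hS x hx
      · rw [a, hπ]
      · rw [hσ.homOn (πS y) c.tS, k.hom (hσ.mem (πS y)) (hσ.mem c.tS), a, e1, cjT s hs _ c.tS,
          k.hom (πS y) c.tS, hπ, ht]
        conv_lhs => rw [← g2 e0]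
        group
  have sc : ∀ P f, F'.IsMap P f → ∀ x ∈ P, x ∈ T → f x ∈ T := fun P f hf x hx hT => by
    obtain ⟨g, hg⟩ := realized_exists_conj hG hf
    obtain ⟨y, rfl⟩ := (c.mem_T' x).1 hT
    exact hM _ (hf.mem hx) (by rw [hg _ hx, hπ]; exact m.nM.conj_mem _ (m.πM y) g)
  have aT : ∀ σ, F'.Iso T T σ → F.IsMap T σ := fun σ hσ => by
    obtain ⟨g, hg⟩ := realized_exists_conj hG hσ.isMap
    obtain ⟨s, hs, l, hl, e⟩ := m.nrm g (mem_normalizer_of_finite (by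
      rintro _ ⟨x, rfl⟩
      obtain ⟨y, hy⟩ := (c.mem_T' _).1 (hσ.mem (c.πT x))
      exact ⟨y, by rw [← hπ, hy, hg _ (c.πT x), hπ]⟩))
    obtain ⟨⟨s, hs'⟩, rfl⟩ := hr.ge hs
    rw [← extFun_of_mem ι hs'] at e
    obtain ⟨ρ, r1, r2⟩ := c.lamT l hl
    have r3 := r1.isMap.comp (F.isMap_cj TS hs') fun x hx => r1.mem hx
    refine r3.congr fun x hx => k.injOn (TS (hσ.mem hx)) (r3.mem hx) ?_
    obtain ⟨y, rfl⟩ := (c.mem_T' x).1 hx
    rw [hg _ hx, hπ]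
    refine (onT _ r3.homOn (fun x hx => r3.mem hx) g (fun a => ?_) y).symm
    simp only [Function.comp_apply, cj_apply]
    rw [(r2 a).1, (r2 a).2, cjT s hs' _ (TS (c.YT _)), cjT s hs' _ (TS (c.UT _)), ← c.πY, ← c.πU, hπ,
      hπ, (e a).1, (e a).2]
    exact ⟨rfl, rfl⟩
  have le2 : F' ≤ F := by
    refine UQ.le d' d aT (fun σ hσ => ?_) fun E hE => (ES.main d' (Crd.free ty) E hE).imp_right
      (Or.imp_right (Or.imp_right ?_))
    · have a1 : ∀ x ∈ T, σ x ∈ T := fun x hx => sc _ _ hσ.isMap x (TS hx) hx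
      have a2 := (aT σ ((hσ.isMap.mono TS).iso_self a1)).iso_self a1
      obtain ⟨α, b1, b2⟩ := H4.Sp.exists_ext_top
        ((F.isFullyNormalized_of_le_normalizer TS nT).isReceptive d.sat d.two) nT a2 fun g hg =>
          mem_innS.2 ⟨σ g, hσ.mem hg, nT (hσ.mem hg), fun y hy =>
            hσ.homOn.conj_cj hg (TS (a2.inv_mem hy))⟩
      have b3 : F'.Iso S S α := ⟨le_iff_isMap.1 le1 _ _ b1.isMap, b1.mem_iff⟩
      obtain ⟨z, z1, -, z2⟩ := exists_conj_of_fix_centric sat d.two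
        ((weaklyClosed_iff.2 ⟨TS, fun f hf => hf.img_eq_self fun x hx => sc _ _ hf x hx hx⟩).isCentric
          ((inf_le_inf_left _ (centralizer_le V₁T)).trans (d.cen.trans V₁T))) TS nT
        (hσ.trans b3.symm).isMap fun x hx => by simp [← b2 x hx]
      refine ((F.isMap_cj le_rfl (TS z1)).comp b1.isMap fun x hx =>
        (F.isMap_cj le_rfl (TS z1)).mem hx).congr fun x hx => ?_
      simp [cj_apply, ← z2 x hx]
    · rintro ⟨-, -, -, σ, hσ, x, hx, hx'⟩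
      exact absurd (sc _ _ hσ.isMap x hx.1 hx.2) hx'
  obtain rfl : F = F' := ext_hom fun P => (le1 P).antisymm (le2 P)
  exact ⟨ι, hG, hP⟩

end Cfsg.Agent.Pu
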