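import Cfsg.Agent.Pu.W1
import Cfsg.Agent.H6.FStar

/-! Slices `G4`, `G5`: from a simple group `L` with automorphisms to the conclusion. -/

set_option autoImplicit false
set_option linter.unusedSectionVars false

universe u

namespace Cfsg.Agent.Pu

open Subgroup Cfsg Cfsg.Fus Cfsg.FusionSystem Cfsg.Agent.L Cfsg.Agent.H1 Cfsg.Agent.FT Equiv
open Cfsg.Agent.H6 (RealBy)
open Cfsg.Agent.H4.Sp (U4)
open scoped commutatorElement Pointwise

/-- `L` is `L₃(q)` or `Sp₄(2 ^ e)` with `e` odd -/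
def LType (L : Type*) [Group L] : Prop := ∃ (K : Type) (_ : Field K) (_ : Fintype K),
  Nonempty (L ≃* Matrix.ProjectiveSpecialLinearGroup (Fin 3) K) ∨
    (Nonempty (L ≃* Cfsg.PSp 2 K) ∧ ∃ e : ℕ, Odd e ∧ Fintype.card K = 2 ^ e)

theorem LType.congr {L L' : Type*} [Group L] [Group L'] (h : LType L) (e : L' ≃* L) : LType L' := by
  obtain ⟨K, _, _, h⟩ := h
  exact ⟨K, _, _, h.imp (fun ⟨f⟩ => ⟨e.trans f⟩) fun ⟨⟨f⟩, h⟩ => ⟨⟨e.trans f⟩, h⟩⟩

theorem fstar_eq {G : Type*} [Group G] [Finite G] {L : Subgroup G} [L.Normal] (hq : IsQuasisimple L)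
    (hc : 𝐂(L) = ⊥) : generalizedFittingSubgroup G = L := by
  refine le_antisymm (H6.fstar_le_iff.2 ⟨H6.layer_le_iff.2 fun K hK => ?_, fun r hr => ?_⟩)
    (le_sup_of_le_left (H6.comp_le_layer ⟨Normal.isSubnormal ‹_›, hq⟩))
  · refine (H6.comp_le_or hK (by rw [normalizer_eq_top]; exact le_top)).resolve_right fun h => ?_
    exact H6.qs_not_le_centralizer hK.2 ((le_centralizer_iff.1 h).trans (hc.le.trans bot_le))
  · have := Fact.mk hr
    rcases H6.qs_normal (N := pCore r G) hq (by rw [normalizer_eq_top]; exact le_top) with h | h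
    · exact absurd ((pCore_isPGroup r G).to_le h) (H6.qs_not_isPGroup hq)
    · rw [hc] at h
      exact (commutator_eq_bot_iff_le_centralizer.1 (le_bot_iff.1
        ((commutator_le_inf _ _).trans h))).trans (hc.le.trans bot_le)

variable {Ω : Type u} [Group Ω] {S : Subgroup Ω} {F : FusionSystem S} {T V₁ V₂ : Subgroup Ω}

theorem concl_of' {G : Type u} [Group G] [Finite G] (h : RealBy F G) {L M : Subgroup G} [L.Normal]
    (hq : IsQuasisimple L) (hc : 𝐂(L) = ⊥) (hM : M.index = 2)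
    (ho : ∀ x ∈ M, ∃ n, Odd n ∧ x ^ n ∈ L) (ty : LType L) : Concl F := by
  obtain ⟨ι, h1, h2⟩ := h
  obtain ⟨K, _, _, ty⟩ := ty
  have nM := normal_of_index_eq_two hM
  have e1 : L ≤ pResidual 2 G := by
    refine (H6.qs_normal hq (by rw [normalizer_eq_top]; exact le_top)).resolve_right fun h => ?_
    exact H6.qs_not_isPGroup hq (H6.isPGroup_of_forall_coprime (p := 2) fun x hx ho =>
      mem_bot.1 (hc.le (h ⟨mem_pResidual_of_coprime ho, hx⟩)))
  have e2 : pResidual 2 G = M := by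
    refine le_antisymm (pResidual_le_of_isPGroup_quotient (IsPGroup.of_card (n := 1) hM))
      fun x hx => ?_
    obtain ⟨n, hn, e⟩ := ho x hx
    have hk := pow_pow_mem_pResidual (p := 2) x
    generalize (orderOf x).factorization 2 = k at hk
    rw [← QuotientGroup.eq_one_iff, ← orderOf_eq_one_iff]
    refine Nat.eq_one_of_dvd_coprimes ((Nat.coprime_two_right.2 hn).pow_right k)
      (orderOf_dvd_of_pow_eq_one ?_) (orderOf_dvd_of_pow_eq_one ?_) <;>
      rw [← QuotientGroup.mk_pow, QuotientGroup.eq_one_iff]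
    exacts [e1 e, hk]
  refine ⟨G, _, ‹_›, ι, h1, h2, Or.inr (Or.inr (Or.inr (Or.inr (Or.inr ⟨K, ‹_›, ‹_›, ?_⟩))))⟩
  rw [fstar_eq hq hc]
  refine ⟨ty, e1, Nat.not_even_iff_odd.1 fun he => ?_, e2 ▸ hM⟩
  obtain ⟨y, hy⟩ := exists_prime_orderOf_dvd_card' (G := _ ⧸ L.subgroupOf (pResidual 2 G)) 2
    he.two_dvd
  obtain ⟨x, rfl⟩ := QuotientGroup.mk_surjective y
  obtain ⟨n, hn, e⟩ := ho x (e2.le x.2)
  exact hn.not_two_dvd_nat (hy ▸ orderOf_dvd_of_pow_eq_one (by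
    rw [← QuotientGroup.mk_pow, QuotientGroup.eq_one_iff]; exact e))

theorem concl_of {G : Type} [Group G] [Finite G] (h : RealBy F G) {L M : Subgroup G} [L.Normal]
    (hq : IsQuasisimple L) (hc : 𝐂(L) = ⊥) (hM : M.index = 2)
    (ho : ∀ x ∈ M, ∃ n, Odd n ∧ x ^ n ∈ L) (ty : LType L) : Concl F := by
  let e : ULift.{u} G ≃* G := MulEquiv.ulift
  let f : L.comap e.toMonoidHom ≃* L :=
    ⟨⟨fun x => ⟨e x, x.2⟩, fun x => ⟨e.symm x, x.2⟩, fun _ => rfl, fun _ => rfl⟩, fun _ _ => rfl⟩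
  refine concl_of' (realBy_congr h e.symm) (L := L.comap e.toMonoidHom) (M := M.comap e.toMonoidHom)
    (H6.isQuasisimple_congr f.symm hq) (eq_bot_iff.2 fun x hx => ?_)
    ((index_comap_of_surjective _ e.surjective).trans hM) (fun x hx => ho _ hx) (ty.congr f)
  exact e.injective (mem_bot.1 (hc.le (show e x ∈ 𝐂(L) from
    fun y hy => congrArg e (hx (e.symm y) hy))))

variable {K : Type} [Field K] [CharP K 2]

/-- a simple group with coordinates matching `c`, and automorphisms -/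
structure Mod0 (c : Crd F T V₁ V₂ K) (L : Type) [Group L] where
  π : U4 K →* L
  τ : MulAut L
  δ : Kˣ × Kˣ × (K ≃+* K) → MulAut L
  ker : ∀ x, π x = 1 ↔ c.π x = 1
  syl : IsSylowIn 2 π.range ⊤
  ττ : τ * τ = 1
  τY : ∀ a, τ (π (uY a)) = π (uU (c.φ a))
  δ1 : δ (1, 1, 1) = 1
  δmul : ∀ l m, δ l * δ m = δ (l.1 * Units.map (l.2.2 : K →* K) m.1,
    l.2.1 * Units.map (l.2.2 : K →* K) m.2.1, l.2.2 * m.2.2)
  δτ : ∀ l, τ * δ l * τ =
    δ (Units.map (c.φ.symm : K →* K) l.2.1, Units.map (c.φ : K →* K) l.1, l.2.2)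
  δY : ∀ l a, δ l (π (uY a)) = π (uY (l.1 * l.2.2 a)) ∧ δ l (π (uU a)) = π (uU (l.2.1 * l.2.2 a))
  nrm : ∀ g ∈ 𝐍(π.range), ∃ s ∈ π.range, ∃ l ∈ c.Λ, ∀ a,
    g * π (uY a) * g⁻¹ = s * π (uY (l.1 * l.2.2 a)) * s⁻¹ ∧
      g * π (uU a) * g⁻¹ = s * π (uU (l.2.1 * l.2.2 a)) * s⁻¹
  w : ∃ g, ∀ a, g * π (uY a) * g⁻¹ = π (uX a) ∧ g * π (uX a) * g⁻¹ = π (uY a) ∧
    g * π (uW a) * g⁻¹ = π (uW a)

namespace Mod0

variable [Fintype K] {c : Crd F T V₁ V₂ K} {L : Type} [Group L] [Finite L] (m : Mod0 c L)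

theorem conj_aut (α : MulAut L) (g : L) : α * MulAut.conj g = MulAut.conj (α g) * α := by
  ext; simp

theorem odd {l : Kˣ × Kˣ × (K ≃+* K)} (hl : l ∈ c.Λ) : ∃ n, Odd n ∧ m.δ l ^ n = 1 := by
  classical
  have h1 : ∀ k : ℕ, ∃ a b, m.δ l ^ k = m.δ (a, b, l.2.2 ^ k) := fun k => by
    induction k with
    | zero => exact ⟨1, 1, by rw [pow_zero, pow_zero, m.δ1]⟩
    | succ k ih =>
      obtain ⟨a, b, e⟩ := ih
      exact ⟨_, _, by rw [pow_succ, e, m.δmul, pow_succ]⟩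
  have h2 : ∀ (a b : Kˣ) (k : ℕ), m.δ (a, b, 1) ^ k = m.δ (a ^ k, b ^ k, 1) := fun a b k => by
    induction k with
    | zero => simp [m.δ1]
    | succ k ih => rw [pow_succ, ih, m.δmul, pow_succ, pow_succ]; rfl
  obtain ⟨a, b, e⟩ := h1 (orderOf l.2.2)
  refine ⟨orderOf l.2.2 * Fintype.card Kˣ, (c.odd l hl).mul ?_, ?_⟩
  · obtain ⟨n, -, hn⟩ := FiniteField.card K 2
    rw [Fintype.card_units, hn]
    exact Nat.Even.sub_odd Nat.one_le_two_pow ((Nat.even_pow' n.ne_zero).2 even_two) odd_one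
  · rw [pow_mul, e, pow_orderOf_eq_one, h2, pow_card_eq_one, pow_card_eq_one, m.δ1]

/-- the automorphisms `δ l` -/
def D : Subgroup (MulAut L) where
  carrier := m.δ '' c.Λ
  one_mem' := ⟨_, c.one, m.δ1⟩
  mul_mem' := by
    rintro _ _ ⟨l, hl, rfl⟩ ⟨k, hk, rfl⟩
    exact ⟨_, c.mul l hl k hk, (m.δmul l k).symm⟩
  inv_mem' := by
    rintro _ ⟨l, hl, rfl⟩
    obtain ⟨_, ⟨n, rfl⟩, e⟩ := m.odd hl
    rw [inv_eq_of_mul_eq_one_left (pow_succ (m.δ l) _ ▸ e)]
    generalize 2 * n = k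
    induction k with
    | zero => exact ⟨_, c.one, m.δ1⟩
    | succ k ih =>
      obtain ⟨j, hj, e⟩ := ih
      exact ⟨_, c.mul j hj l hl, by rw [pow_succ, ← e, m.δmul]⟩

/-- inner, diagonal and field automorphisms -/
def M : Subgroup (MulAut L) where
  carrier := {α | ∃ g, ∃ d ∈ m.D, α = MulAut.conj g * d}
  one_mem' := ⟨1, 1, one_mem _, by simp⟩
  mul_mem' := by
    rintro _ _ ⟨g, d, hd, rfl⟩ ⟨h, e, he, rfl⟩
    exact ⟨g * d h, d * e, mul_mem hd he, by
      rw [mul_assoc, ← mul_assoc d, conj_aut, map_mul]; group⟩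
  inv_mem' := by
    rintro _ ⟨g, d, hd, rfl⟩
    exact ⟨d⁻¹ g⁻¹, d⁻¹, inv_mem hd, by rw [← conj_aut, mul_inv_rev, map_inv]⟩

theorem conj_mem (g : L) : MulAut.conj g ∈ m.M := ⟨g, 1, one_mem _, (mul_one _).symm⟩

theorem tw_mem {α : MulAut L} (h : α ∈ m.M) : m.τ * α * m.τ ∈ m.M := by
  obtain ⟨g, _, ⟨l, hl, rfl⟩, rfl⟩ := h
  exact ⟨m.τ g, _, ⟨_, c.tw l hl, rfl⟩, by rw [← m.δτ, ← mul_assoc, conj_aut]; group⟩

theorem τmul (α : MulAut L) : m.τ * (m.τ * α) = α := by rw [← mul_assoc, m.ττ, one_mul]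

/-- the realizing group -/
def G : Subgroup (MulAut L) where
  carrier := {α | α ∈ m.M ∨ α * m.τ ∈ m.M}
  one_mem' := Or.inl (one_mem _)
  mul_mem' := by
    rintro a b (ha | ha) (hb | hb)
    · exact Or.inl (mul_mem ha hb)
    · exact Or.inr (by simpa [mul_assoc] using mul_mem ha hb)
    · exact Or.inr (by simpa [mul_assoc, m.τmul] using mul_mem ha (m.tw_mem hb))
    · exact Or.inl (by simpa [mul_assoc, m.τmul, m.ττ] using mul_mem ha (m.tw_mem hb))
  inv_mem' := by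
    rintro a (ha | ha)
    · exact Or.inl (inv_mem ha)
    · exact Or.inr (by simpa [mul_assoc, m.τmul, inv_eq_of_mul_eq_one_right m.ττ] using
        (m.tw_mem (inv_mem ha)))

theorem nrmM (h4 : 4 ≤ Fintype.card K) {α : MulAut L} (h : α ∈ m.M)
    (hn : ∀ x, α (m.π x) ∈ m.π.range) : ∃ s ∈ m.π.range, ∃ l ∈ c.Λ, ∀ a,
      α (m.π (uY a)) = s * m.π (uY (l.1 * l.2.2 a)) * s⁻¹ ∧
        α (m.π (uU a)) = s * m.π (uU (l.2.1 * l.2.2 a)) * s⁻¹ := by
  have hD : ∀ d ∈ m.D, ∀ x, d (m.π x) ∈ m.π.range := by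
    rintro _ ⟨l, -, rfl⟩ x
    induction x using u4_ind h4 with
    | hY a => exact ⟨_, (m.δY l a).1.symm⟩
    | hU a => exact ⟨_, (m.δY l a).2.symm⟩
    | hm a b ha hb => rw [map_mul, map_mul]; exact mul_mem ha hb
  obtain ⟨g, d, hd, rfl⟩ := h
  obtain ⟨s, hs, k, hk, e⟩ := m.nrm g (mem_normalizer_of_finite (by
    rintro _ ⟨x, rfl⟩
    obtain ⟨y, hy⟩ := hD _ (inv_mem hd) x
    simpa [hy] using hn y))
  obtain ⟨l, hl, rfl⟩ := hd
  refine ⟨s, hs, _, c.mul k hk l hl, fun a => ?_⟩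
  simp [(m.δY l a).1, (m.δY l a).2, (e _).1, (e _).2, mul_assoc (k.1 : K), mul_assoc (k.2.1 : K)]

theorem τ_notMem (h4 : 4 ≤ Fintype.card K) : m.τ ∉ m.M := fun h => by
  obtain ⟨_, ⟨s, rfl⟩, l, -, e⟩ := m.nrmM h4 h fun x => by
    induction x using u4_ind h4 with
    | hY a => exact ⟨_, (m.τY a).symm⟩
    | hU a => exact ⟨uY (c.φ.symm a), by
        rw [← c.φ.apply_symm_apply a, ← m.τY, ← MulAut.mul_apply, m.ττ, c.φ.symm_apply_apply]; rfl⟩
    | hm a b ha hb => rw [map_mul, map_mul]; exact mul_mem ha hb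
  have := (m.ker ((s * uY (l.1 * l.2.2 1) * s⁻¹)⁻¹ * uU (c.φ 1))).1 (by
    rw [map_mul, map_inv, ← m.τY, (e 1).1, map_mul, map_mul, map_inv, inv_mul_cancel])
  simpa [uY, uU] using (c.π_eq_one.1 this).2.1

theorem pow_mem {α : MulAut L} (h : α ∈ m.M) : ∃ n, Odd n ∧ α ^ n ∈ (MulAut.conj : L →* _).range := by
  obtain ⟨g, _, ⟨l, hl, rfl⟩, rfl⟩ := h
  obtain ⟨n, hn, e⟩ := m.odd hl
  suffices ∀ k : ℕ, ∃ h, (MulAut.conj g * m.δ l) ^ k = MulAut.conj h * m.δ l ^ k by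
    obtain ⟨h, e'⟩ := this n
    exact ⟨n, hn, h, by rw [e', e, mul_one]⟩
  intro k
  induction k with
  | zero => exact ⟨1, by simp⟩
  | succ k ih =>
    obtain ⟨h, e⟩ := ih
    exact ⟨g * m.δ l h, by rw [pow_succ', e, mul_assoc, ← mul_assoc (m.δ l), conj_aut, map_mul, pow_succ']; group⟩

theorem concl [IsSimpleGroup L] [UQ.{u}] [ES.{u}] [Finite Ω] (m : Mod0 c L) {q : ℕ}
    {ℓ : Set (Subgroup (Hol V₁))} {L' : Subgroup (Hol V₁)} (h4 : 4 ≤ Fintype.card K)
    (d : Dat2 F T V₁ V₂ c.t q ℓ L') (ty : c.L3 ∨ c.S4) (ne : NE F T V₁ V₂) (hL : LType L) :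
    Concl F := by
  have nc : ¬ Commute (m.π (uY 1)) (m.π (uU 1)) := fun h => by
    have := (m.ker ((uU 1 * uY 1)⁻¹ * (uY 1 * uU 1))).1 (by
      rw [map_mul, map_inv, map_mul, map_mul, h.eq, inv_mul_cancel])
    simpa [uY, uU] using (c.π_eq_one.1 this).2.2.1
  have hZ : center L = ⊥ := (Normal.eq_bot_or_eq_top inferInstance).resolve_right fun h =>
    nc (mem_center_iff.1 (h.ge (mem_top _)) _)
  let j : L →* m.G := MulAut.conj.codRestrict m.G fun g => Or.inl (m.conj_mem g)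
  have hj : Function.Injective j := (injective_iff_map_eq_one _).2 fun g hg => hZ.le
    (mem_center_iff.2 fun x => by
      have := DFunLike.congr_fun (congrArg Subtype.val hg) x
      exact (mul_inv_eq_iff_eq_mul.1 this).symm)
  have cj : ∀ (α : m.G) (g : L), α * j g * α⁻¹ = j (α.1 g) := fun α g =>
    Subtype.ext (mul_inv_eq_iff_eq_mul.2 (conj_aut α.1 g))
  let t : m.G := ⟨m.τ, Or.inr (m.ττ ▸ one_mem _)⟩
  have tt : t * t = 1 := Subtype.ext m.ττ
  have ti : t⁻¹ = t := inv_eq_of_mul_eq_one_right tt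
  have i2 : (m.M.subgroupOf m.G).index = 2 := index_eq_two_iff.2 ⟨t, fun b => b.2.elim
    (fun h => Or.inr ⟨h, fun h' => m.τ_notMem h4 ((m.M.mul_mem_cancel_left h).1 h')⟩)
    fun h => Or.inl ⟨h, fun h' => m.τ_notMem h4 ((m.M.mul_mem_cancel_left h').1 h)⟩⟩
  have od : ∀ x ∈ m.M.subgroupOf m.G, ∃ n, Odd n ∧ x ^ n ∈ j.range := fun x hx => by
    obtain ⟨n, hn, g, e⟩ := m.pow_mem hx
    exact ⟨n, hn, g, Subtype.ext e⟩
  have nj : j.range.Normal := ⟨by rintro _ ⟨g, rfl⟩ α; exact ⟨_, (cj α g).symm⟩⟩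
  have tπ : ∀ x, ∃ y, m.τ (m.π x) = m.π y := fun x => by
    induction x using u4_ind h4 with
    | hY a => exact ⟨_, m.τY a⟩
    | hU a => exact ⟨uY (c.φ.symm a), by
        rw [← c.φ.apply_symm_apply a, ← m.τY, ← MulAut.mul_apply, m.ττ, c.φ.symm_apply_apply]; rfl⟩
    | hm a b ha hb =>
      obtain ⟨a', ha⟩ := ha
      obtain ⟨b', hb⟩ := hb
      exact ⟨a' * b', by rw [map_mul, map_mul, ha, hb, map_mul]⟩
  have tn : t ∈ 𝐍((j.comp m.π).range) := mem_normalizer_of_finite (by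
    rintro _ ⟨x, rfl⟩
    obtain ⟨y, hy⟩ := tπ x
    exact ⟨y, by rw [MonoidHom.comp_apply, MonoidHom.comp_apply, cj, ← hy]⟩)
  have nM : ∀ g ∈ 𝐍((j.comp m.π).range), g.1 ∈ m.M → ∃ s ∈ (j.comp m.π).range, ∃ l ∈ c.Λ, ∀ a,
      g * j (m.π (uY a)) * g⁻¹ = s * j (m.π (uY (l.1 * l.2.2 a))) * s⁻¹ ∧
        g * j (m.π (uU a)) * g⁻¹ = s * j (m.π (uU (l.2.1 * l.2.2 a))) * s⁻¹ := fun g hg h => by
    obtain ⟨_, ⟨s, rfl⟩, l, hl, e⟩ := m.nrmM h4 h fun x => by
      obtain ⟨y, hy⟩ := (mem_normalizer_iff.1 hg _).1 ⟨x, rfl⟩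
      exact ⟨y, hj (hy.trans (cj _ _))⟩
    exact ⟨_, ⟨s, rfl⟩, l, hl, fun a => by simp [cj, (e a).1, (e a).2]⟩
  let mo : GMod c m.G :=
    { π := j.comp m.π
      t := t
      M := m.M.subgroupOf m.G
      ker := fun x => by rw [← m.ker, MonoidHom.comp_apply, map_eq_one_iff j hj]
      tt := tt
      tY := fun a => by
        rw [MonoidHom.comp_apply, MonoidHom.comp_apply, ← m.τY, ← cj t, ti]
      nM := normal_of_index_eq_two i2
      πM := fun x => m.conj_mem _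
      tM := m.τ_notMem h4
      syl := by
        have p1 : IsPGroup 2 (j.comp m.π).range := by
          rw [MonoidHom.range_comp]; exact m.syl.isPGroup.map j
        refine ⟨le_top, p1.to_sup_of_normal_left' (IsPGroup.of_card_dvd_pow (n := 1) (by
          rw [Nat.card_zpowers]; exact orderOf_dvd_of_pow_eq_one (by rw [pow_one, sq, tt])))
          (zpowers_le.2 tn), fun Q hQ hl _ => le_antisymm (fun x hx => ?_) hl⟩
        have e := m.syl.maximal _ (hQ.comap_of_injective j hj)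
          (by rintro _ ⟨y, rfl⟩; exact hl (mem_sup_left ⟨y, rfl⟩)) le_top
        have key : ∀ x ∈ Q, x.1 ∈ m.M → x ∈ (j.comp m.π).range := fun x hx h => by
          obtain ⟨n, hn, h1⟩ := od x h
          obtain ⟨k, hk⟩ := hQ ⟨x, hx⟩
          have : x ∈ j.range := by
            rw [← QuotientGroup.eq_one_iff, ← orderOf_eq_one_iff]
            refine Nat.eq_one_of_dvd_coprimes ((Nat.coprime_two_right.2 hn).pow_right k)
              (orderOf_dvd_of_pow_eq_one ?_) (orderOf_dvd_of_pow_eq_one ?_) <;>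
              rw [← QuotientGroup.mk_pow, QuotientGroup.eq_one_iff]
            exacts [h1, (show x ^ 2 ^ k = 1 from congrArg Subtype.val hk) ▸ one_mem _]
          obtain ⟨g, rfl⟩ := this
          obtain ⟨y, rfl⟩ := e.le hx
          exact ⟨y, rfl⟩
        rcases x.2 with h | h
        · exact mem_sup_left (key x hx h)
        · have := mul_mem (mem_sup_left (key (x * t) (mul_mem hx
            (hl (mem_sup_right (mem_zpowers t)))) h)) (mem_sup_right (mem_zpowers t))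
          rwa [mul_assoc, tt, mul_one] at this
      nrm := fun g hg => by
        rcases g.2 with h | h
        · obtain ⟨s, hs, e⟩ := nM g hg h
          exact ⟨s, mem_sup_left hs, e⟩
        · obtain ⟨s, hs, l, hl, e⟩ := nM (t * g) (mul_mem tn hg)
            (by simpa [mul_assoc, m.ττ] using m.tw_mem h)
          refine ⟨t * s, mul_mem (mem_sup_right (mem_zpowers t)) (mem_sup_left hs), l, hl,
            fun a => ?_⟩
          have k : ∀ x y : m.G, t * g * x * (t * g)⁻¹ = s * y * s⁻¹ →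
              g * x * g⁻¹ = t * s * y * (t * s)⁻¹ := fun x y e => by
            rw [show t * s * y * (t * s)⁻¹ = t * (s * y * s⁻¹) * t⁻¹ by group, ← e,
              show t * (t * g * x * (t * g)⁻¹) * t⁻¹ = t * t * (g * x * g⁻¹) * (t * t)⁻¹ by group, tt]
            group
          exact ⟨k _ _ (e a).1, k _ _ (e a).2⟩
      lam := fun l hl => by
        refine ⟨⟨m.δ l, Or.inl ⟨1, _, ⟨l, hl, rfl⟩, by simp⟩⟩, fun a => ?_, fun e => Subtype.ext ?_⟩
        · simp [cj, (m.δY l a).1, (m.δY l a).2]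
        · have : m.τ * m.δ l * m.τ = m.δ l := by
            rw [m.δτ]
            congr 1
            exact Prod.ext (Units.ext (by simp [e])) (Prod.ext (Units.ext (by simp [e])) rfl)
          change m.δ l * m.τ * (m.δ l)⁻¹ = m.τ
          conv_lhs => rw [← m.τmul (m.δ l * m.τ), ← mul_assoc m.τ (m.δ l), this]
          group
      w := by
        obtain ⟨g, hg⟩ := m.w
        exact ⟨j g, fun a => by
          simp only [MonoidHom.comp_apply, ← map_inv, ← map_mul, (hg a).1, (hg a).2.1, (hg a).2.2,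
            and_self]⟩ }
  let f := (MonoidHom.ofInjective hj).symm
  refine concl_of (mo.realBy h4 d ty ne) (L := j.range) (H6.isQuasisimple_congr f.symm ⟨⟨?_⟩, ?_⟩)
    (eq_bot_iff.2 fun α hα => Subtype.ext (MulEquiv.ext fun g => hj ?_)) i2 od (hL.congr f)
  · refine (Normal.eq_bot_or_eq_top inferInstance).resolve_left fun h => nc ?_
    exact commutatorElement_eq_one_iff_commute.1
      (h.le (commutator_mem_commutator (mem_top _) (mem_top _)))
  · exact (QuotientGroup.quotientMulEquivOfEq hZ).trans QuotientGroup.quotientBot |>.isSimpleGroup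
  · rw [← cj, ← hα _ ⟨g, rfl⟩, mul_inv_cancel_right]; rfl

end Mod0

end Cfsg.Agent.Pu
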