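import Cfsg.Agent.Pu.W2
import Cfsg.Agent.Lt.CCl2
import Cfsg.Agent.L.MinSimple
import Cfsg.Agent.H6.Transfer

/-! Slices `G4`, `G5`: simplicity of a group from the simplicity of its fusion system. -/

set_option autoImplicit false
set_option linter.unusedSectionVars false

namespace Cfsg.Agent.Pu

open Subgroup Cfsg Cfsg.Fus Cfsg.FusionSystem Cfsg.Agent.L Cfsg.Agent.H1 Cfsg.Agent.FT Equiv
open scoped commutatorElement Pointwise

theorem simple_of_fus {G : Type*} [Group G] [Finite G] {S : Subgroup G} (hS : IsSylowIn 2 S ⊤)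
    (hs : (groupFusionSystem S).IsSimple 2) (cp : Lt.CP1 2 G) (hZ : center G = ⊥) {a b : G}
    (ha : orderOf a = 2) (hb : orderOf b = 2) (hab : orderOf (a * b) = 2) : IsSimpleGroup G := by
  have a1 : a ≠ 1 := fun e => by simp [e] at ha
  have two : ∀ x : G, (∃ k, x ^ 2 ^ k = 1) → IsPGroup 2 (zpowers x) := fun x ⟨k, hk⟩ =>
    IsPGroup.of_card_dvd_pow (n := k) (by rw [Nat.card_zpowers]; exact orderOf_dvd_of_pow_eq_one hk)
  have : Nontrivial G := ⟨a, 1, a1⟩
  have ln : ∀ Q : Subgroup G, IsPGroup 2 Q → S ≤ 𝐍(Q) → Q ≤ S := fun Q hQ hn => le_sup_right.trans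
    (hS.maximal _ (hS.isPGroup.to_sup_of_normal_right' hQ hn) le_sup_left le_top).le
  refine ⟨fun N hN => (normal_dichotomy_of_simple hS hs N).imp (fun h => ?_) fun ⟨h, e⟩ => ?_⟩
  · have od : ∀ x ∈ N, (∃ k, x ^ 2 ^ k = 1) → x = 1 := fun x hx hk => by
      obtain ⟨g, -, hg⟩ := hS.exists_conj_mem (two x hk) le_top
      simpa using mem_bot.1 (h.le ⟨hg x (mem_zpowers x), hN.conj_mem x hx g⟩)
    have fp : ∀ z, orderOf z = 2 → ∀ x ∈ N, z * x * z⁻¹ = x → x = 1 := fun z hz x hx e => by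
      obtain ⟨Q, q1, q2, q3⟩ := cp z hz
      have xn : x ∈ 𝐍(Q) := q2 (mem_centralizer_singleton_iff.2 (mul_inv_eq_iff_eq_mul.1 e).symm)
      refine mem_bot.1 (hZ.le (q3 x (fun y hy => ?_) fun h2 => ?_))
      · have m : x * y * x⁻¹ * y⁻¹ ∈ Q := mul_mem ((mem_normalizer_iff.1 xn y).1 hy) (inv_mem hy)
        obtain ⟨k, hk⟩ := q1 ⟨_, m⟩
        exact (commutatorElement_eq_one_iff_mul_comm.1 (od _ (by
          simpa [mul_assoc, commutatorElement_def] using mul_mem hx (hN.conj_mem _ (inv_mem hx) y))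
          ⟨k, congrArg Subtype.val hk⟩)).symm
      · have := orderOf_pow_orderOf_div (orderOf_pos x).ne' h2
        rw [od _ (pow_mem hx _) ⟨1, by rw [pow_one]; exact orderOf_dvd_iff_pow_eq_one.1 this.dvd⟩, orderOf_one] at this
        omega
    have iv : ∀ z, orderOf z = 2 → ∀ x ∈ N, z * x * z⁻¹ = x⁻¹ := fun z hz x hx => by
      have z2 : z * z = 1 := by rw [← sq, ← hz, pow_orderOf_eq_one]
      exact congrArg Subtype.val (congrFun (MonoidHom.FixedPointFree.coe_eq_inv_of_involutive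
        (φ := MulAut.conjNormal (H := N) z) (fun y hy => Subtype.ext
          (fp z hz y y.2 (congrArg Subtype.val hy))) fun y => by
            rw [← MulAut.mul_apply, ← map_mul, z2, map_one]; rfl) ⟨x, hx⟩)
    refine eq_bot_iff.2 fun x hx => fp _ hab x hx ?_
    rw [show a * b * x * (a * b)⁻¹ = a * (b * x * b⁻¹) * a⁻¹ by group, iv b hb x hx,
      iv a ha _ (inv_mem hx), inv_inv]
  · have S1 : S ≠ ⊥ := fun h => by
      obtain ⟨g, -, hg⟩ := hS.exists_conj_mem (two a ⟨1, by rw [pow_one, ← ha, pow_orderOf_eq_one]⟩)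
        le_top
      exact a1 (by simpa [h] using hg a (mem_zpowers a))
    have : Nontrivial S := (nontrivial_iff_ne_bot S).2 S1
    have := hS.isPGroup.center_nontrivial
    obtain ⟨z, hz⟩ := exists_prime_orderOf_dvd_card' (G := center S) 2
      (((hS.isPGroup.to_subgroup _).nontrivial_iff_card.1 this).elim fun n hn =>
        hn.2 ▸ dvd_pow_self 2 hn.1.ne')
    obtain ⟨Q, q1, q2, q3⟩ := cp z.1.1 (by rw [Subgroup.orderOf_coe, Subgroup.orderOf_coe, hz])
    have QS := ln _ q1 (le_trans (fun s hs => mem_centralizer_singleton_iff.2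
      (congrArg Subtype.val (mem_center_iff.1 z.2 ⟨s, hs⟩))) q2)
    have hC : 𝐂(S) ≤ S := fun y hy => by
      obtain ⟨u, hu, v, hv, rfl, u2, v2⟩ := H6.exists_p_part Nat.prime_two y
      rw [mem_bot.1 (hZ.le (q3 v (centralizer_le QS (zpowers_le.2 hy hv))
        (Nat.prime_two.coprime_iff_not_dvd.1 v2.symm))), mul_one]
      exact ln _ (two u u2) (le_trans (le_centralizer_iff.1
        (zpowers_le.2 (zpowers_le.2 hy hu))) (centralizer_le_normalizer _)) (mem_zpowers u)
    obtain ⟨P, rfl⟩ := isSylowIn_top_iff.1 hS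
    refine eq_top_iff.2 ((P.normalizer_sup_eq_top' h).ge.trans (sup_le (fun g hg => ?_) le_rfl))
    have h1 := isMap_group_cj (le_refl (P : Subgroup G)) fun x hx => (mem_normalizer_iff.1 hg x).1 hx
    rw [← e] at h1
    obtain ⟨-, -, n, hn, h2⟩ := isMap_ofSubgroup.1 h1
    have : n⁻¹ * g ∈ N := h (hC fun x hx => by
      have := h2 x hx
      rw [cj_apply] at this
      calc x * (n⁻¹ * g) = n⁻¹ * (n * x * n⁻¹) * g := by group
        _ = _ := by rw [← this]; group)
    simpa using mul_mem hn this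

theorem aut_comm {K : Type} [Field K] [Finite K] [CharP K 2] (σ φ : K ≃+* K) (x : K) :
    σ (φ x) = φ (σ x) := by
  let := ZMod.algebra K 2
  obtain ⟨i, hi⟩ := FiniteField.exists_forall_apply_eq_pow (ZMod 2) 2 K
    (AlgEquiv.ofRingEquiv (f := φ) fun x => RingHom.congr_fun
      (Subsingleton.elim ((φ : K →+* K).comp (algebraMap (ZMod 2) K)) _) x)
  exact (congrArg σ (hi x)).trans ((map_pow σ _ _).trans (hi _).symm)

end Cfsg.Agent.Pu
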