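import Cfsg.Agent.Pu.W3
import Cfsg.Agent.H5.FusCl
import Cfsg.Agent.H3.SimpleCrit

/-! Slice `G5`: the group `Sp₄(K)` in characteristic `2` and its automorphisms. -/

set_option autoImplicit false
set_option linter.unusedSectionVars false

universe u

namespace Cfsg.Agent.Pu.Sp

open Subgroup Cfsg Cfsg.Fus Cfsg.FusionSystem Cfsg.Agent.L Cfsg.Agent.H1 Cfsg.Agent.FT Matrix Sum
open Cfsg.Agent.H4.Sp (U4)

variable {K : Type} [Field K] [CharP K 2]

abbrev I4 := Fin 2 ⊕ Fin 2
abbrev S4 (K : Type) [Field K] := symplecticGroup (Fin 2) K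

theorem J_eq (i j : I4) : J (Fin 2) K i j = if j = i.swap then 1 else 0 := by
  rcases i with i | i <;> rcases j with j | j <;> fin_cases i <;> fin_cases j <;>
    simp [J, CharTwo.neg_eq]

theorem mem_col {g : Matrix I4 I4 K} : g ∈ S4 K ↔ ∀ i j, g (inl 0) i * g (inr 0) j +
    g (inl 1) i * g (inr 1) j + g (inr 0) i * g (inl 0) j + g (inr 1) i * g (inl 1) j =
      if j = i.swap then 1 else 0 := by
  rw [SymplecticGroup.mem_iff', ← Matrix.ext_iff]
  refine forall₂_congr fun i j => ?_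
  rw [J_eq i j]
  simp only [Matrix.mul_apply, Fintype.sum_sum_type, Fin.sum_univ_two, J_eq, transpose_apply]
  simp
  constructor <;> intro h <;> rw [← h] <;> ring

theorem mem_row {g : Matrix I4 I4 K} : g ∈ S4 K ↔ ∀ i j, g i (inl 0) * g j (inr 0) +
    g i (inl 1) * g j (inr 1) + g i (inr 0) * g j (inl 0) + g i (inr 1) * g j (inl 1) =
      if j = i.swap then 1 else 0 :=
  SymplecticGroup.transpose_mem_iff.symm.trans mem_col

def p1 : I4 → I4 := Sum.elim ![inl 1, inl 1] ![inl 0, inr 0]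
def p2 : I4 → I4 := Sum.elim ![inr 0, inl 0] ![inr 1, inr 1]

/-- the matrix of `2 × 2` minors -/
def st (g : Matrix I4 I4 K) : Matrix I4 I4 K :=
  of fun a b => g (p1 a) (p1 b) * g (p2 a) (p2 b) + g (p2 a) (p1 b) * g (p1 a) (p2 b)

theorem p_ne : ∀ a, ¬ p2 a = (p1 a).swap := by decide

theorem st_mul {g h : Matrix I4 I4 K} (hg : g ∈ S4 K) (hh : h ∈ S4 K) : st (g * h) = st g * st h := by
  ext a b
  have hR := mem_row.1 hg (p1 a) (p2 a)
  have hB := mem_col.1 hh (p1 b) (p2 b)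
  rw [if_neg (p_ne _)] at hR hB
  simp only [st, of_apply, Matrix.mul_apply, Fintype.sum_sum_type, Fin.sum_univ_two]
  generalize p1 a = k, p2 a = l, p1 b = i, p2 b = j at *
  simp only [p1, p2, Sum.elim_inl, Sum.elim_inr, cons_val_zero, cons_val_one]
  grind

theorem st_mem {g : Matrix I4 I4 K} (hg : g ∈ S4 K) : st g ∈ S4 K := by
  have h := mem_col.1 hg
  have h1 := h (inl 0) (inl 1)
  have h2 := h (inl 0) (inr 0)
  have h3 := h (inl 0) (inr 1)
  have h4 := h (inl 1) (inr 0)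
  have h5 := h (inl 1) (inr 1)
  have h6 := h (inr 0) (inr 1)
  simp at h1 h2 h3 h4 h5 h6
  refine mem_col.2 fun i j => ?_
  rcases i with i | i <;> rcases j with j | j <;> fin_cases i <;> fin_cases j <;>
    simp [st, p1, p2] <;> grind

theorem st_st {g : Matrix I4 I4 K} (hg : g ∈ S4 K) (i j : I4) : st (st g) i j = g i j ^ 2 := by
  have h := mem_col.1 hg
  have h1 := h (inl 0) (inl 1)
  have h2 := h (inl 0) (inr 0)
  have h3 := h (inl 0) (inr 1)
  have h4 := h (inl 1) (inr 0)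
  have h5 := h (inl 1) (inr 1)
  have h6 := h (inr 0) (inr 1)
  simp at h1 h2 h3 h4 h5 h6
  rcases i with i | i <;> rcases j with j | j <;> fin_cases i <;> fin_cases j <;>
    simp [st, p1, p2] <;> grind

end Cfsg.Agent.Pu.Sp
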