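import Cfsg.Agent.Pu.W4

/-! Slice `G5`. -/

set_option autoImplicit false
set_option linter.unusedSectionVars false

universe u

namespace Cfsg.Agent.Pu.Sp

open Subgroup Cfsg Cfsg.Fus Cfsg.FusionSystem Cfsg.Agent.L Cfsg.Agent.H1 Cfsg.Agent.FT Matrix Sum
open Cfsg.Agent.H4.Sp (U4)
open Cfsg.Agent.H4.Sp.U4 (emb mat)

variable {K : Type} [Field K] [CharP K 2]

/-- diagonal similitudes -/
def dg (b a : Kˣ) : I4 → K := Sum.elim ![b * a, b ^ 2 * a] ![b, 1]

theorem dg_ne (b a : Kˣ) (i : I4) : dg b a i ≠ 0 := by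
  rcases i with i | i <;> fin_cases i <;> simp [dg]

/-- diagonal and field automorphisms -/
def δ0 (l : Kˣ × Kˣ × (K ≃+* K)) : S4 K →* S4 K := MonoidHom.mk' (fun g =>
  ⟨of fun i j => dg l.1 l.2.1 i * l.2.2 (g.1 i j) / dg l.1 l.2.1 j, mem_col.2 fun i j => by
    have h := congrArg l.2.2 (mem_col.1 g.2 i j)
    have k : ∀ i, dg l.1 l.2.1 i * dg l.1 l.2.1 i.swap = l.1 ^ 2 * l.2.1 := fun i => by
      rcases i with i | i <;> fin_cases i <;> simp [dg] <;> ring
    have := dg_ne l.1 l.2.1 i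
    have := dg_ne l.1 l.2.1 j
    simp only [map_add, map_mul, apply_ite l.2.2, map_one, map_zero] at h
    simp only [of_apply]
    rw [show (if j = i.swap then (1 : K) else 0) = l.1 ^ 2 * l.2.1 / (dg l.1 l.2.1 i * dg l.1 l.2.1 j) *
      if j = i.swap then 1 else 0 by
        split_ifs with e
        · rw [e, k]; simp
        · simp, ← h]
    field_simp
    simp [dg]
    ring⟩) fun g h => Subtype.ext (Matrix.ext fun i j => by
    have := dg_ne l.1 l.2.1
    simp only [Submonoid.coe_mul, of_apply, Matrix.mul_apply, map_sum, map_mul, Finset.mul_sum,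
      Finset.sum_div]
    exact Finset.sum_congr rfl fun k _ => by field_simp [this k])

theorem δ0_apply (l : Kˣ × Kˣ × (K ≃+* K)) (g : S4 K) (i j : I4) :
    (δ0 l g).1 i j = dg l.1 l.2.1 i * l.2.2 (g.1 i j) / dg l.1 l.2.1 j := rfl

variable [Fintype K]

noncomputable def δ (l : Kˣ × Kˣ × (K ≃+* K)) : MulAut (S4 K) :=
  MulEquiv.ofBijective (δ0 l) (Finite.injective_iff_bijective.1 fun g h e => Subtype.ext
    (Matrix.ext fun i j => by
      simpa [δ0_apply, dg_ne] using congrFun₂ (congrArg Subtype.val e) i j))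

theorem δ_apply (l : Kˣ × Kˣ × (K ≃+* K)) (g : S4 K) (i j : I4) :
    (δ l g).1 i j = dg l.1 l.2.1 i * l.2.2 (g.1 i j) / dg l.1 l.2.1 j := rfl

theorem aut_ext {α β : MulAut (S4 K)} (h : ∀ g i j, (α g).1 i j = (β g).1 i j) : α = β :=
  MulEquiv.ext fun g => Subtype.ext (Matrix.ext (h g))

/-- the graph automorphism -/
def τ (φ : K ≃+* K) (h : ∀ a, φ (φ a) = a ^ 2) : MulAut (S4 K) :=
  let f : S4 K →* S4 K := (δ0 (1, 1, φ.symm)).comp
    (MonoidHom.mk' (fun g => ⟨st g.1, st_mem g.2⟩) fun a b => Subtype.ext (st_mul a.2 b.2))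
  have e : ∀ g, (f g).1 = (st g.1).map φ.symm := fun g => Matrix.ext fun i j => by
    rcases i with i | i <;> rcases j with j | j <;> fin_cases i <;> fin_cases j <;>
      simp [f, δ0_apply, dg]
  have k : ∀ g, f (f g) = g := fun g => Subtype.ext (Matrix.ext fun i j => by
    rw [e, e, map_apply, φ.symm_apply_eq]
    refine φ.injective ?_
    rw [h, ← st_st g.2]
    generalize st g.1 = X
    simp [st])
  { f with invFun := f, left_inv := k, right_inv := k }

theorem τ_apply (φ : K ≃+* K) (h : ∀ a, φ (φ a) = a ^ 2) (g : S4 K) (i j : I4) :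
    (τ φ h g).1 i j = φ.symm (st g.1 i j) := by
  change dg 1 1 i * φ.symm (st g.1 i j) / dg 1 1 j = _
  rcases i with i | i <;> rcases j with j | j <;> fin_cases i <;> fin_cases j <;> simp [dg]

/-- the diagonal elements -/
def hd (a b : Kˣ) : S4 K := ⟨diagonal (Sum.elim ![b, a] ![(b : K)⁻¹, (a : K)⁻¹]), mem_col.2 fun i j => by
  rcases i with i | i <;> rcases j with j | j <;> fin_cases i <;> fin_cases j <;> simp [diagonal]⟩

theorem hd_conj (a b : Kˣ) (x : K) : hd a b * emb (uY x) * (hd a b)⁻¹ = emb (uY ((a / b : Kˣ) * x)) ∧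
    hd a b * emb (uU x) * (hd a b)⁻¹ = emb (uU ((b ^ 2 : Kˣ) * x)) := by
  constructor <;> refine mul_inv_eq_iff_eq_mul.2 (Subtype.ext (Matrix.ext fun i j => ?_)) <;>
    rcases i with i | i <;> rcases j with j | j <;> fin_cases i <;> fin_cases j <;>
    simp [hd, emb, mat, uY, uU] <;> field_simp

theorem borel {g : S4 K} (hg : g ∈ 𝐍((emb : U4 K →* _).range)) : ∃ s a b, g = emb s * hd a b := by
  have k : ∀ x : U4 K, ∃ y : U4 K, ∀ i j, (x.mat * g.1) i j = (g.1 * y.mat) i j := fun x => by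
    obtain ⟨y, hy⟩ := (mem_normalizer_iff''.1 hg _).1 ⟨x, rfl⟩
    exact ⟨y, congrFun₂ (congrArg Subtype.val (show emb x * g = g * emb y by rw [hy]; group))⟩
  obtain ⟨y1, k1⟩ := k (uY 1)
  obtain ⟨y2, k2⟩ := k (uU 1)
  obtain ⟨y3, k3⟩ := k (uW 1)
  have a1 : g.1 (inl 0) (inl 1) = 0 := by
    simpa [mat, uY, Matrix.mul_apply, Fintype.sum_sum_type] using k1 (inl 1) (inl 1)
  have a2 : g.1 (inr 0) (inl 1) = 0 := by
    simpa [mat, uU, Matrix.mul_apply, Fintype.sum_sum_type] using k2 (inl 0) (inl 1)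
  have a3 : g.1 (inr 1) (inl 1) = 0 := by
    simpa [mat, uW, Matrix.mul_apply, Fintype.sum_sum_type] using k3 (inl 1) (inl 1)
  have a4 : g.1 (inr 0) (inl 0) = 0 := by
    simpa [mat, uU, Matrix.mul_apply, Fintype.sum_sum_type, a1] using k2 (inl 0) (inl 0)
  have h := mem_col.1 g.2
  have h5 := h (inl 1) (inr 1)
  simp [a1, a2, a3] at h5
  have n0 := left_ne_zero_of_mul_eq_one h5
  have a5 : g.1 (inr 1) (inl 0) = 0 := by simpa [a1, a2, a3, n0] using h (inl 1) (inl 0)
  have a6 : g.1 (inr 1) (inr 0) = 0 := by simpa [a1, a2, a3, n0] using h (inl 1) (inr 0)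
  have h2 := h (inl 0) (inr 0)
  have h3 := h (inl 0) (inr 1)
  have h6 := h (inr 0) (inr 1)
  simp [a4, a5, a6] at h2 h3 h6
  have n1 := left_ne_zero_of_mul_eq_one h2
  refine ⟨⟨g.1 (inl 1) (inl 0) / g.1 (inl 0) (inl 0), g.1 (inl 0) (inr 0) * g.1 (inl 0) (inl 0),
    g.1 (inl 1) (inr 0) * g.1 (inl 0) (inl 0), g.1 (inl 1) (inr 1) * g.1 (inl 1) (inl 1) +
      g.1 (inl 1) (inr 0) * g.1 (inl 1) (inl 0)⟩, Units.mk0 _ n0, Units.mk0 _ n1,
    Subtype.ext (Matrix.ext fun i j => ?_)⟩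
  rcases i with i | i <;> rcases j with j | j <;> fin_cases i <;> fin_cases j <;>
    simp [hd, emb, mat, a1, a2, a3, a4, a5, a6] <;> field_simp <;> grind

theorem cp1 : Lt.CP1 2 (S4 K) ∧ ∀ z ∈ center (S4 K), orderOf z ≠ 2 := by
  have hB : ∀ u v, toLinearMap₂' K (J (Fin 2) K) u v = -toLinearMap₂' K (J (Fin 2) K) v u :=
    fun u v => by
      rw [toLinearMap₂'_apply', toLinearMap₂'_apply', dotProduct_mulVec, ← mulVec_transpose,
        J_transpose, neg_mulVec, neg_dotProduct, dotProduct_comm]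
  have fm : Lt.CCl.Fm (RingHom.id K) (-1) (toLinearMap₂' K (J (Fin 2) K)) :=
    { symm := fun u v => by rw [hB]; simp
      eps := by simp
      seps := rfl
      nd := fun w hw => by
        have h1 : J (Fin 2) K *ᵥ w = 0 := funext fun i => by
          simpa [toLinearMap₂'_apply'] using hw (Pi.single i 1)
        have h2 := congrArg (J (Fin 2) K *ᵥ ·) h1
        simpa [J_squared, neg_mulVec] using h2
      tr := fun u => ⟨0, by
        simp [toLinearMap₂'_apply', J, fromBlocks_mulVec, dotProduct, neg_mulVec, mul_comm]⟩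
      tr0 := ⟨1, one_ne_zero, by simp⟩ }
  have key : ∀ A : Matrix I4 I4 K, A ∈ S4 K ↔ ∀ u v, toLinearMap₂' K (J (Fin 2) K) (A *ᵥ u) (A *ᵥ v) =
      toLinearMap₂' K (J (Fin 2) K) u v := fun A => by
    have k : ∀ u v, toLinearMap₂' K (J (Fin 2) K) (A *ᵥ u) (A *ᵥ v) =
        u ⬝ᵥ (Aᵀ * J (Fin 2) K * A) *ᵥ v := fun u v => by
      rw [toLinearMap₂'_apply', ← mulVec_mulVec, ← mulVec_mulVec, dotProduct_mulVec u,
        vecMul_transpose]
    simp only [k, SymplecticGroup.mem_iff', toLinearMap₂'_apply']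
    refine ⟨fun h u v => by rw [h], fun h => Matrix.ext fun i j => ?_⟩
    simpa only [mulVec_single_one, single_dotProduct, one_mul, col_apply]
      using h (Pi.single i 1) (Pi.single j 1)
  have hρ := Lt.CCl.rep_inj (f := (S4 K).subtype) Subtype.val_injective
  have iso := fun g : S4 K => (key g).1 g.2
  have full : ∀ f : Module.End K (I4 → K), (∀ u v, toLinearMap₂' K (J (Fin 2) K)
      (f u) (f v) = toLinearMap₂' K (J (Fin 2) K) u v) → (f - 1) ^ 3 = 0 →
      ∃ g, Lt.CCl.rep (S4 K).subtype g = f := fun f h1 _ =>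
    ⟨⟨_, (key _).2 fun u v => by
      have := h1 u v
      rwa [← LinearMap.toMatrix'_mulVec f u, ← LinearMap.toMatrix'_mulVec f v] at this⟩,
      Lt.CCl.rep_eq rfl⟩
  exact ⟨fm.cp1 hρ iso full, fm.center hρ iso full⟩

theorem syl : IsSylowIn 2 (emb : U4 K →* _).range ⊤ :=
  ⟨le_top, (U4.isPGroup 2).of_equiv (MonoidHom.ofInjective U4.emb_injective),
    fun _ hQ hl _ => U4.range_max hQ hl⟩

theorem center_eq : center (S4 K) = ⊥ := eq_bot_iff.2 fun z hz => by
  have c := mem_center_iff.1 hz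
  obtain ⟨s, a, b, rfl⟩ := borel (center_le_normalizer _ hz)
  have k : ∀ x y, hd a b * emb x * (hd a b)⁻¹ = emb y → x = s * y * s⁻¹ := fun x y e =>
    U4.emb_injective (by
      rw [map_mul, map_mul, map_inv, ← e, ← mul_assoc, ← mul_assoc, ← c]; group)
  have h1 : (b : K) = 1 := by
    have := congrArg U4.u (k _ _ (hd_conj a b 1).2)
    simp [uU] at this
    grind
  have h2 : (a : K) = 1 := by simpa [uY, h1, eq_comm] using congrArg U4.t (k _ _ (hd_conj a b 1).1)
  have h3 : hd a b = 1 := Subtype.ext (Matrix.ext fun i j => by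
    rcases i with i | i <;> rcases j with j | j <;> fin_cases i <;> fin_cases j <;> simp [hd, h1, h2])
  rw [h3, mul_one] at hz ⊢
  by_contra h
  obtain ⟨n, hn⟩ := (IsPGroup.iff_orderOf.1 (U4.isPGroup (K := K) 2)) s
  rw [← orderOf_injective _ U4.emb_injective] at hn
  refine cp1.2 _ (pow_mem hz _) (orderOf_pow_orderOf_div (orderOf_pos _).ne' (hn ▸ dvd_pow_self 2 ?_))
  rintro rfl
  exact h (orderOf_eq_one_iff.1 hn)

/-- `Sp₄ = PSp₄` -/
noncomputable def eqv : PSp 2 K ≃* S4 K :=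
  (QuotientGroup.quotientMulEquivOfEq center_eq).trans QuotientGroup.quotientBot

theorem simple (h4 : 4 ≤ Fintype.card K) : IsSimpleGroup (S4 K) := by
  have o : ∀ x : U4 K, x.t = 0 → x.u = 0 → x ≠ 1 → orderOf (emb x) = 2 := fun x a b h => by
    rw [orderOf_injective _ U4.emb_injective]
    exact orderOf_eq_prime (by ext <;> simp [sq, a, b, CharTwo.add_self_eq_zero]) h
  refine simple_of_fus syl (H3.isSimple_of_mulEquiv eqv
    (H5.Cl.psp_simple le_rfl fun _ => by omega) syl.toSylowTop) cp1.1 center_eq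
    (o (uX 1) rfl rfl fun e => one_ne_zero (congrArg U4.v e))
    (o (uW 1) rfl rfl fun e => one_ne_zero (congrArg U4.w e)) ?_
  rw [← map_mul]
  exact o _ (by simp [uX, uW]) (by simp [uX, uW]) fun e => by simpa [uX, uW] using congrArg U4.v e

theorem odd_exp {φ : K ≃+* K} (h : ∀ a, φ (φ a) = a ^ 2) : ∃ e, Odd e ∧ Fintype.card K = 2 ^ e := by
  classical
  obtain ⟨n, -, hn⟩ := FiniteField.card K 2
  refine ⟨n, Nat.not_even_iff_odd.1 fun ⟨k, hk⟩ => ?_, hn⟩
  obtain ⟨x, hx⟩ := exists_prime_orderOf_dvd_card (G := Kˣ) 3 (by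
    rw [Fintype.card_units, hn, hk, ← two_mul, pow_mul]
    simpa using Nat.sub_dvd_pow_sub_pow 4 1 k)
  have h3 : (x : K) ^ 3 = 1 := by rw [← Units.val_pow_eq_pow_val, ← hx, pow_orderOf_eq_one]; rfl
  have h1 : (x : K) ≠ 1 := fun e => by simp [Units.val_eq_one.1 e] at hx
  have h4 : (x : K) ^ 2 + x + 1 = 0 := by grind
  have h5 := congrArg φ h4
  have h6 := h x
  simp only [map_add, map_pow, map_one, map_zero] at h5
  have h7 : φ x = x ∨ φ x = x ^ 2 := by grind
  rcases h7 with e | e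
  · rw [e, e] at h6; grind
  · rw [e, map_pow, e] at h6; grind

variable {Ω : Type u} [Group Ω] {S : Subgroup Ω} {F : FusionSystem S} {T V₁ V₂ : Subgroup Ω}
  {c : Crd F T V₁ V₂ K}

theorem tor (h : c.S4) (b a : Kˣ) : (b, a, 1) ∈ c.Λ := by
  convert c.mul _ (c.tor (a * b)) _ (c.tw _ (c.tor (Units.map (c.φ.symm : K →* K) (a * b ^ 2)))) using 2
  · refine Units.ext ?_
    simp [← h.φφ]
    rw [h.φφ]
    field_simp
  · refine Prod.ext (Units.ext ?_) rfl
    simp
    field_simp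

/-- the model -/
noncomputable def mod (h : c.S4) : Mod0 c (S4 K) where
  π := emb
  τ := τ c.φ h.φφ
  δ := δ
  ker x := by
    rw [map_eq_one_iff _ U4.emb_injective, c.π_eq_one]
    refine ⟨fun e => by simp [e, c.W0], fun ⟨a, b, d, e⟩ => U4.ext a b d (h.W 0 _ ?_)⟩
    rw [c.X0, e, mul_one]
  syl := syl
  ττ := MulEquiv.ext (τ c.φ h.φφ).left_inv
  τY a := Subtype.ext (Matrix.ext fun i j => by
    rw [τ_apply, c.φ.symm_apply_eq]
    rcases i with i | i <;> rcases j with j | j <;> fin_cases i <;> fin_cases j <;>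
      simp [st, p1, p2, emb, mat, uY, uU, h.φφ] <;> grind)
  δ1 := aut_ext fun g i j => by
    rcases i with i | i <;> rcases j with j | j <;> fin_cases i <;> fin_cases j <;> simp [δ_apply, dg]
  δmul l m := aut_ext fun g i j => by
    have k : ∀ i, dg (l.1 * Units.map (l.2.2 : K →* K) m.1) (l.2.1 * Units.map (l.2.2 : K →* K) m.2.1) i
        = dg l.1 l.2.1 i * l.2.2 (dg m.1 m.2.1 i) := fun i => by
      rcases i with i | i <;> fin_cases i <;> simp [dg] <;> ring
    simp only [MulAut.mul_apply, δ_apply, k, map_div₀, map_mul, RingAut.mul_apply]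
    rw [div_mul_eq_div_div_swap, mul_div_assoc]
    ring
  δτ l := by
    refine (mul_inv_eq_iff_eq_mul (b := τ c.φ h.φφ)).2 (aut_ext fun g i j => ?_)
    have k : ∀ i, dg (Units.map (c.φ.symm : K →* K) l.2.1) (Units.map (c.φ : K →* K) l.1) i =
        c.φ.symm (dg l.1 l.2.1 (p1 i) * dg l.1 l.2.1 (p2 i) / l.1) := fun i => by
      rw [c.φ.eq_symm_apply]
      rcases i with i | i <;> fin_cases i <;> simp [dg, p1, p2, h.φφ] <;> field_simp
    have := dg_ne l.1 l.2.1
    simp only [MulAut.mul_apply, δ_apply, τ_apply, k, aut_comm l.2.2, ← map_mul, ← map_div₀]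
    congr 1
    simp only [st, of_apply, δ_apply, map_add, map_mul]
    field_simp [this]
  δY l a := by
    constructor <;> refine Subtype.ext (Matrix.ext fun i j => ?_) <;> rw [δ_apply] <;>
      rcases i with i | i <;> rcases j with j | j <;> fin_cases i <;> fin_cases j <;>
      simp [dg, emb, mat, uY, uU] <;> field_simp
  nrm g hg := by
    obtain ⟨s, a, b, rfl⟩ := borel hg
    refine ⟨_, ⟨s, rfl⟩, _, tor h (a / b) (b ^ 2), fun x => ?_⟩
    rw [RingAut.one_apply, ← (hd_conj a b x).1, ← (hd_conj a b x).2]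
    constructor <;> group
  w := ⟨⟨fromBlocks !![0, 0; 0, 1] !![1, 0; 0, 0] !![1, 0; 0, 0] !![0, 0; 0, 1], mem_col.2 fun i j => by
      rcases i with i | i <;> rcases j with j | j <;> fin_cases i <;> fin_cases j <;> simp⟩, fun a => by
    refine ⟨?_, ?_, ?_⟩ <;> refine mul_inv_eq_iff_eq_mul.2 (Subtype.ext (Matrix.ext fun i j => ?_)) <;>
      rcases i with i | i <;> rcases j with j | j <;> fin_cases i <;> fin_cases j <;>
      simp [emb, mat, uY, uX, uW, Matrix.mul_apply, Fintype.sum_sum_type, CharTwo.neg_eq]⟩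

instance instG5 [UQ.{u}] [ES.{u}] : G5.{u} where
  main c h4 hq d h ne := by
    subst hq
    have := simple h4
    exact (mod h).concl h4 d (Or.inr h) ne ⟨_, _, _, Or.inr ⟨⟨eqv.symm⟩, odd_exp h.φφ⟩⟩

end Cfsg.Agent.Pu.Sp
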