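import Cfsg.Agent.Pu.W3
import Cfsg.Agent.H5.FusSL

/-! Slice `G4`. -/

set_option autoImplicit false
set_option linter.unusedSectionVars false

universe u

namespace Cfsg.Agent.Pu.L3

open Subgroup Cfsg Cfsg.Fus Cfsg.FusionSystem Cfsg.Agent.L Cfsg.Agent.H1 Cfsg.Agent.FT Matrix
open Cfsg.Agent.H4.Sp (U4)
open scoped MatrixGroups

/-- the automorphism induced on the central quotient -/
def qa {G : Type*} [Group G] (α : MulAut G) : MulAut (G ⧸ center G) :=
  QuotientGroup.congr _ _ α (characteristic_iff_map_eq.1 inferInstance α)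

theorem qa_mk {G : Type*} [Group G] (α : MulAut G) (g : G) :
    qa α (QuotientGroup.mk' _ g) = QuotientGroup.mk' _ (α g) := rfl

theorem qa_mul {G : Type*} [Group G] (α β : MulAut G) : qa α * qa β = qa (α * β) :=
  MulEquiv.ext fun x => QuotientGroup.induction_on x fun _ => rfl

theorem qa_one {G : Type*} [Group G] : qa (1 : MulAut G) = 1 :=
  MulEquiv.ext fun x => QuotientGroup.induction_on x fun _ => rfl

variable {K : Type} [Field K] [CharP K 2]

/-- the underlying matrix -/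
def vl (g : SL(3, K)) : Matrix (Fin 3) (Fin 3) K := g.1

/-- an element of `SL₃` -/
def mk (A : Matrix (Fin 3) (Fin 3) K) (h : A.det = 1) : SL(3, K) := ⟨A, h⟩

@[simp] theorem vl_mk (A : Matrix (Fin 3) (Fin 3) K) (h : A.det = 1) : vl (mk A h) = A := rfl
@[simp] theorem vl_mul (a b : SL(3, K)) : vl (a * b) = vl a * vl b := rfl
@[simp] theorem vl_one : vl (1 : SL(3, K)) = 1 := rfl
theorem vl_det (g : SL(3, K)) : (vl g).det = 1 := g.2

theorem sl_ext {a b : SL(3, K)} (h : ∀ i j, vl a i j = vl b i j) : a = b :=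
  Subtype.ext (Matrix.ext h)

/-- unitriangular matrices -/
def emb : U4 K →* SL(3, K) := MonoidHom.mk' (fun x => mk !![1, x.t, x.v; 0, 1, x.u; 0, 0, 1] (by
  simp [det_fin_three])) fun x y => sl_ext fun i j => by
    fin_cases i <;> fin_cases j <;> simp [Matrix.mul_apply, Fin.sum_univ_three] <;> ring

theorem emb_val (x : U4 K) : vl (emb x) = !![1, x.t, x.v; 0, 1, x.u; 0, 0, 1] := rfl

def dg (b a : Kˣ) : Fin 3 → K := ![b * a, a, 1]

theorem dg_ne (b a : Kˣ) (i : Fin 3) : dg b a i ≠ 0 := by fin_cases i <;> simp [dg]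

/-- diagonal and field automorphisms -/
def δ0 (l : Kˣ × Kˣ × (K ≃+* K)) : SL(3, K) →* SL(3, K) := MonoidHom.mk' (fun g =>
  mk (of fun i j => dg l.1 l.2.1 i * l.2.2 (vl g i j) / dg l.1 l.2.1 j) (by
    have h := congrArg l.2.2 (vl_det g)
    simp only [det_fin_three, map_add, map_sub, map_mul, map_one] at h
    simp only [det_fin_three, of_apply, ← h]
    field_simp [dg_ne])) fun g h => sl_ext fun i j => by
    have := dg_ne l.1 l.2.1
    simp only [vl_mul, vl_mk, of_apply, Matrix.mul_apply, map_sum, map_mul,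
      Finset.mul_sum, Finset.sum_div]
    exact Finset.sum_congr rfl fun k _ => by field_simp [this k]

theorem δ0_apply (l : Kˣ × Kˣ × (K ≃+* K)) (g : SL(3, K)) (i j : Fin 3) :
    vl (δ0 l g) i j = dg l.1 l.2.1 i * l.2.2 (vl g i j) / dg l.1 l.2.1 j := rfl

variable [Fintype K]

noncomputable def δ (l : Kˣ × Kˣ × (K ≃+* K)) : MulAut SL(3, K) :=
  MulEquiv.ofBijective (δ0 l) (Finite.injective_iff_bijective.1 fun g h e => sl_ext
    fun i j => by simpa [δ0_apply, dg_ne] using congrFun₂ (congrArg vl e) i j)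

theorem δ_apply (l : Kˣ × Kˣ × (K ≃+* K)) (g : SL(3, K)) (i j : Fin 3) :
    vl (δ l g) i j = dg l.1 l.2.1 i * l.2.2 (vl g i j) / dg l.1 l.2.1 j := rfl

theorem aut_ext {α β : MulAut SL(3, K)} (h : ∀ g i j, vl (α g) i j = vl (β g) i j) : α = β :=
  MulEquiv.ext fun g => sl_ext (h g)

/-- the graph(-field) automorphism -/
def τ (φ : K ≃+* K) (h : ∀ a, φ (φ a) = a) : MulAut SL(3, K) :=
  let f : SL(3, K) →* SL(3, K) := MonoidHom.mk' (fun g =>
    mk (((vl g⁻¹)ᵀ.submatrix Fin.revPerm Fin.revPerm).map φ) (by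
      rw [← RingEquiv.mapMatrix_apply, ← RingEquiv.map_det, det_submatrix_equiv_self, det_transpose,
        vl_det, map_one])) fun a b => sl_ext (congrFun₂ (by
      simp only [_root_.mul_inv_rev, vl_mul, vl_mk, transpose_mul]
      rw [← submatrix_mul_equiv _ _ _ Fin.revPerm, Matrix.map_mul]))
  have k : ∀ g, f (f g) = g := fun g => sl_ext fun i j => by
    change φ (vl (f g)⁻¹ _ _) = _
    rw [← map_inv]
    change φ (φ (vl g⁻¹⁻¹ _ _)) = _
    simp [h]
  { f with invFun := f, left_inv := k, right_inv := k }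

theorem τ_apply (φ : K ≃+* K) (h : ∀ a, φ (φ a) = a) (g : SL(3, K)) (i j : Fin 3) :
    vl (τ φ h g) i j = φ (vl g⁻¹ j.rev i.rev) := rfl

/-- the diagonal elements -/
def hd (a b : Kˣ) : SL(3, K) :=
  mk (diagonal ![(a : K), b / a, (b : K)⁻¹]) (by simp [Fin.prod_univ_three]; field_simp)

theorem hd_conj (a b : Kˣ) (x : K) :
    hd a b * emb (uY x) * (hd a b)⁻¹ = emb (uY ((b⁻¹ * a ^ 2 : Kˣ) * x)) ∧
      hd a b * emb (uU x) * (hd a b)⁻¹ = emb (uU ((b ^ 2 * a⁻¹ : Kˣ) * x)) := by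
  constructor <;> refine mul_inv_eq_iff_eq_mul.2 (sl_ext (fun i j => ?_)) <;>
    fin_cases i <;> fin_cases j <;> simp [hd, emb_val, uY, uU] <;> field_simp

theorem borel {g : SL(3, K)} (hg : g ∈ 𝐍((emb : U4 K →* _).range)) : ∃ s a b, g = emb s * hd a b := by
  have k : ∀ x : U4 K, ∃ y : U4 K, ∀ i j, (vl (emb x) * vl g) i j = (vl g * vl (emb y)) i j := fun x => by
    obtain ⟨y, hy⟩ := (mem_normalizer_iff''.1 hg _).1 ⟨x, rfl⟩
    exact ⟨y, congrFun₂ (congrArg vl (show emb x * g = g * emb y by rw [hy]; group))⟩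
  obtain ⟨y1, k1⟩ := k (uY 1)
  obtain ⟨y2, k2⟩ := k (uU 1)
  have a1 : vl g 1 0 = 0 := by simpa [emb_val, uY, Matrix.mul_apply, Fin.sum_univ_three] using k1 0 0
  have a2 : vl g 2 0 = 0 := by simpa [emb_val, uU, Matrix.mul_apply, Fin.sum_univ_three] using k2 1 0
  have a3 : vl g 2 1 = 0 := by
    simpa [emb_val, uU, Matrix.mul_apply, Fin.sum_univ_three, a1] using k2 1 1
  have h := vl_det g
  simp only [det_fin_three, a1, a2, a3, mul_zero, zero_mul, sub_zero, add_zero] at h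
  have n2 := right_ne_zero_of_mul_eq_one h
  have n0 := left_ne_zero_of_mul (left_ne_zero_of_mul_eq_one h)
  have n1 := right_ne_zero_of_mul (left_ne_zero_of_mul_eq_one h)
  refine ⟨⟨vl g 0 1 / vl g 1 1, vl g 1 2 / vl g 2 2, vl g 0 2 / vl g 2 2, 0⟩, Units.mk0 _ n0,
    (Units.mk0 _ n2)⁻¹, sl_ext (fun i j => ?_)⟩
  fin_cases i <;> fin_cases j <;> simp [hd, emb_val, a1, a2, a3] <;> field_simp <;> grind

theorem two : IsPGroup 2 (emb : U4 K →* _).range := by
  rw [MonoidHom.range_eq_map]; exact ((U4.isPGroup 2).to_subgroup ⊤).map _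

theorem syl0 : IsSylowIn 2 (emb : U4 K →* _).range ⊤ := by
  refine ⟨le_top, two, fun Q hQ hl _ => ?_⟩
  by_contra hne
  refine (H8.lt_inf_normalizer_of_isPGroup hQ (lt_of_le_of_ne hl (Ne.symm hne))).not_ge
    fun g hg => ?_
  obtain ⟨s, a, b, rfl⟩ := borel hg.2
  obtain ⟨k, hk⟩ := hQ ⟨_, (Q.mul_mem_cancel_left (hl ⟨s, rfl⟩)).1 hg.1⟩
  have h : diagonal ![(a : K), b / a, (b : K)⁻¹] ^ 2 ^ k = 1 := congrArg (·.1.1) hk
  rw [diagonal_pow] at h
  have h1 : (a : K) = 1 := H5.Cl.eq_one_of_pow (p := 2) (k := k) (by simpa using congrFun₂ h 0 0)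
  have h2 : (b : K) = 1 := H5.Cl.eq_one_of_pow (p := 2) (k := k) (by simpa using congrFun₂ h 2 2)
  exact ⟨s, by
    rw [show hd a b = 1 from sl_ext (fun i j => by
      fin_cases i <;> fin_cases j <;> simp [hd, h1, h2]), mul_one]⟩

theorem cen_two {z : SL(3, K)} (hz : z ∈ center SL(3, K)) {k : ℕ} (h : z ^ 2 ^ k = 1) : z = 1 := by
  obtain ⟨r, -, hr⟩ := Matrix.SpecialLinearGroup.mem_center_iff.1 hz
  have h1 := congrArg Subtype.val h
  rw [Matrix.SpecialLinearGroup.coe_pow, ← hr, ← map_pow, Matrix.SpecialLinearGroup.coe_one,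
    ← map_one (scalar (Fin 3)), scalar_inj] at h1
  exact Subtype.ext (by rw [← hr, H5.Cl.eq_one_of_pow h1, map_one]; rfl)

/-- the coordinates in `PSL₃` -/
def pi : U4 K →* PSL(3, K) := (QuotientGroup.mk' _).comp emb

theorem pi_eq_one {x : U4 K} : pi x = 1 ↔ x.t = 0 ∧ x.u = 0 ∧ x.v = 0 := by
  refine (QuotientGroup.eq_one_iff _).trans ⟨fun h => ?_, fun ⟨a, b, c⟩ => ?_⟩
  · obtain ⟨k, hk⟩ := U4.isPGroup 2 x
    have := congrArg vl (cen_two h (k := k) (by rw [← map_pow, hk, map_one]))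
    exact ⟨by simpa [emb_val] using congrFun₂ this 0 1, by simpa [emb_val] using congrFun₂ this 1 2,
      by simpa [emb_val] using congrFun₂ this 0 2⟩
  · rw [show emb x = 1 from sl_ext (fun i j => by
      fin_cases i <;> fin_cases j <;> simp [emb_val, a, b, c])]
    exact one_mem _

theorem syl : IsSylowIn 2 (pi : U4 K →* _).range ⊤ := by
  have := (syl0 (K := K)).map (QuotientGroup.mk' (Subgroup.center _))
  rwa [map_top_of_surjective _ (QuotientGroup.mk'_surjective _), ← MonoidHom.range_comp] at this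

theorem borel' {g : PSL(3, K)} (hg : g ∈ 𝐍((pi : U4 K →* _).range)) : ∃ s, ∃ a b : Kˣ,
    g = pi s * QuotientGroup.mk' _ (hd a b) := by
  obtain ⟨g, rfl⟩ := QuotientGroup.mk'_surjective _ g
  obtain ⟨s, a, b, rfl⟩ := borel (g := g) (mem_normalizer_of_finite (by
    rintro _ ⟨x, rfl⟩
    obtain ⟨y, hy⟩ := (mem_normalizer_iff.1 hg _).1 ⟨x, rfl⟩
    obtain ⟨z, hz, e⟩ := (QuotientGroup.mk'_eq_mk' _).1 (show QuotientGroup.mk' _ (emb y) =
      QuotientGroup.mk' _ (g * emb x * g⁻¹) from hy)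
    have h4 : ∀ x : U4 K, emb x ^ 2 ^ 2 = 1 := fun x => by
      rw [← map_pow, show x ^ 2 ^ 2 = 1 by
        ext <;> simp [pow_succ] <;> grind, map_one]
    have := congrArg (· ^ 2 ^ 2) e
    simp only [conj_pow, h4, Commute.mul_pow (mem_center_iff.1 hz (emb y)), mul_one, one_mul,
      mul_inv_cancel] at this
    exact ⟨y, by rw [← e, cen_two hz this, mul_one]⟩))
  exact ⟨s, a, b, rfl⟩

theorem hd_conj' (a b : Kˣ) (x : K) : QuotientGroup.mk' _ (hd a b) * pi (uY x) *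
      (QuotientGroup.mk' _ (hd a b))⁻¹ = pi (uY ((b⁻¹ * a ^ 2 : Kˣ) * x)) ∧
    QuotientGroup.mk' _ (hd a b) * pi (uU x) * (QuotientGroup.mk' _ (hd a b))⁻¹ =
      pi (uU ((b ^ 2 * a⁻¹ : Kˣ) * x)) :=
  ⟨congrArg (QuotientGroup.mk' _) (hd_conj a b x).1, congrArg (QuotientGroup.mk' _) (hd_conj a b x).2⟩

theorem exists_w : ∃ g : PSL(3, K), ∀ a, g * pi (uY a) * g⁻¹ = pi (uX a) ∧
    g * pi (uX a) * g⁻¹ = pi (uY a) ∧ g * pi (uW a) * g⁻¹ = pi (uW a) := by
  let w : SL(3, K) := mk !![1, 0, 0; 0, 0, 1; 0, 1, 0] (by simp [det_fin_three, CharTwo.neg_eq])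
  have k : ∀ x y, w * emb x = emb y * w → QuotientGroup.mk' _ w * pi x * (QuotientGroup.mk' _ w)⁻¹ =
    pi y := fun x y e => congrArg (QuotientGroup.mk' _) (mul_inv_eq_iff_eq_mul.2 e)
  refine ⟨QuotientGroup.mk' _ w, fun a => ⟨k _ _ ?_, k _ _ ?_, k _ _ ?_⟩⟩ <;>
    refine sl_ext (fun i j => ?_) <;> fin_cases i <;> fin_cases j <;>
    simp [w, emb_val, uY, uX, uW]

theorem center_eq : center PSL(3, K) = ⊥ := eq_bot_iff.2 fun z hz => by
  have c := mem_center_iff.1 hz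
  obtain ⟨s, a, b, rfl⟩ := borel' (center_le_normalizer _ hz)
  have k : ∀ x y, QuotientGroup.mk' _ (hd a b) * pi x * (QuotientGroup.mk' _ (hd a b))⁻¹ = pi y →
      pi (x⁻¹ * (s * y * s⁻¹)) = 1 := fun x y e => by
    rw [map_mul, map_mul, map_mul, map_inv, map_inv, ← e, ← mul_assoc (pi s), ← mul_assoc (pi s), ← c]
    group
  obtain ⟨h1, -, h2⟩ := pi_eq_one.1 (k _ _ (hd_conj' a b 1).1)
  obtain ⟨-, h3, h4⟩ := pi_eq_one.1 (k _ _ (hd_conj' a b 1).2)
  simp [uY, uU] at h1 h2 h3 h4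
  have a0 := a.ne_zero
  have b0 := b.ne_zero
  field_simp at h1 h3
  have h5 : QuotientGroup.mk' (Subgroup.center _) (hd a b) = 1 := (QuotientGroup.eq_one_iff _).2
    (Matrix.SpecialLinearGroup.mem_center_iff.2 ⟨(a : K), by simp; grind, Matrix.ext fun i j => by
      change _ = vl (hd a b) i j
      fin_cases i <;> fin_cases j <;> simp [hd] <;> field_simp <;> grind⟩)
  rw [h5, mul_one] at c ⊢
  have h6 : s.t = 0 := by grind
  have h7 : s.u = 0 := by grind
  obtain ⟨w, hw⟩ := exists_w (K := K)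
  have h8 : pi s = pi (uX s.v) := by
    rw [← inv_mul_eq_one, ← map_inv, ← map_mul, pi_eq_one]; simp [uX, h6, h7]
  have h9 := (hw s.v).2.1
  rw [← h8, c, mul_inv_cancel_right, h8, ← inv_mul_eq_one, ← map_inv, ← map_mul, pi_eq_one] at h9
  exact pi_eq_one.2 ⟨h6, h7, by simpa [uX, uY] using h9.1⟩

theorem simple : IsSimpleGroup PSL(3, K) := by
  have o : ∀ x : U4 K, x.u = 0 → pi x ≠ 1 → orderOf (pi x) = 2 := fun x a h =>
    orderOf_eq_prime (by rw [← map_pow, pi_eq_one]; simp [sq, a, CharTwo.add_self_eq_zero]) h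
  refine simple_of_fus syl (H5.Cl.psl_simple le_rfl syl.toSylowTop)
    ((Lt.CCl.cp1_sl (ρ := Lt.CCl.rep (slToMat 3 K)) (Lt.CCl.rep_inj fun a b h => Subtype.ext h)
      fun f hf => ⟨⟨_, Lt.CCl.det_of_cube (p := 2) hf⟩, Lt.CCl.rep_eq rfl⟩).quot fun z hz ho => ?_)
    center_eq (o (uX 1) rfl (by simp [pi_eq_one, uX])) (o (uY 1) rfl (by simp [pi_eq_one, uY])) ?_
  · rw [cen_two hz (k := 1) (by rw [pow_one, ← ho, pow_orderOf_eq_one]), orderOf_one] at ho
    omega
  · rw [← map_mul]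
    exact o _ (by simp [uX, uY]) (by rw [Ne, pi_eq_one]; simp [uX, uY])

variable {Ω : Type u} [Group Ω] {S : Subgroup Ω} {F : FusionSystem S} {T V₁ V₂ : Subgroup Ω}
  {c : Crd F T V₁ V₂ K}

theorem symm_eq (h : c.L3) (a : K) : c.φ.symm a = c.φ a := by rw [c.φ.symm_apply_eq, h.φφ]

theorem tor (h : c.L3) (a b : Kˣ) : (b⁻¹ * a ^ 2, b ^ 2 * a⁻¹, 1) ∈ c.Λ := by
  convert c.mul _ (c.tor b) _ (c.tw _ (c.tor (Units.map (c.φ : K →* K) a))) using 2
  · exact Units.ext (by simp)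
  · exact Prod.ext (Units.ext (by simp [h.φφ])) rfl

/-- the model -/
noncomputable def mod (h : c.L3) : Mod0 c PSL(3, K) where
  π := pi
  τ := qa (τ c.φ h.φφ)
  δ l := qa (δ l)
  ker x := by simp [pi_eq_one, c.π_eq_one, h.W]
  syl := syl
  ττ := by rw [qa_mul, show τ c.φ h.φφ * τ c.φ h.φφ = 1 from MulEquiv.ext (τ c.φ h.φφ).left_inv, qa_one]
  τY a := congrArg (QuotientGroup.mk' _) (sl_ext (fun i j => by
    refine (τ_apply ..).trans ?_
    rw [← map_inv, emb_val, emb_val]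
    fin_cases i <;> fin_cases j <;> simp [uY, uU, Fin.rev, CharTwo.neg_eq]))
  δ1 := by
    rw [← qa_one]
    exact congrArg qa (aut_ext fun g i j => by fin_cases i <;> fin_cases j <;> simp [δ_apply, dg])
  δmul l m := (qa_mul _ _).trans (congrArg qa (aut_ext fun g i j => by
    have k : ∀ i, dg (l.1 * Units.map (l.2.2 : K →* K) m.1) (l.2.1 * Units.map (l.2.2 : K →* K) m.2.1) i
        = dg l.1 l.2.1 i * l.2.2 (dg m.1 m.2.1 i) := fun i => by
      fin_cases i <;> simp [dg]; ring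
    simp only [MulAut.mul_apply, δ_apply, k, map_div₀, map_mul, RingAut.mul_apply]
    rw [div_mul_eq_div_div_swap, mul_div_assoc]
    ring))
  δτ l := by
    rw [qa_mul, qa_mul]
    refine congrArg qa ((mul_inv_eq_iff_eq_mul (b := τ c.φ h.φφ)).2 (aut_ext fun g i j => ?_))
    have k : ∀ i, dg (Units.map (c.φ.symm : K →* K) l.2.1) (Units.map (c.φ : K →* K) l.1) i =
        c.φ (l.1 * l.2.1 / dg l.1 l.2.1 i.rev) := fun i => by
      fin_cases i <;> simp [dg, symm_eq h, Fin.rev, mul_comm]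
    have := dg_ne l.1 l.2.1
    simp only [MulAut.mul_apply, δ_apply, τ_apply, k, aut_comm l.2.2, ← map_inv, ← map_mul, ← map_div₀]
    congr 1
    field_simp [this]
  δY l a := by
    constructor <;> refine congrArg (QuotientGroup.mk' _) (sl_ext (fun i j => ?_)) <;>
      refine (δ_apply ..).trans ?_ <;> fin_cases i <;> fin_cases j <;> simp [dg, emb_val, uY, uU] <;> field_simp
  nrm g hg := by
    obtain ⟨s, a, b, rfl⟩ := borel' hg
    refine ⟨_, ⟨s, rfl⟩, _, tor h a b, fun x => ?_⟩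
    rw [RingAut.one_apply, ← (hd_conj' a b x).1, ← (hd_conj' a b x).2]
    constructor <;> group
  w := exists_w

instance instG4 [UQ.{u}] [ES.{u}] : G4.{u} where
  main {_ _ _ _ _ _ _ _ _ _ _ K} _ _ _ c h4 hq d h ne := by
    subst hq
    have := simple (K := K)
    exact (mod h).concl h4 d (Or.inl h) ne ⟨K, inferInstance, inferInstance, Or.inl ⟨.refl _⟩⟩

end Cfsg.Agent.Pu.L3
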